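import Mathlib

/-!
# Internal direct sums of translates: dimension criteria and lifting along a submodule

Helper lemmas for the freeness of modules over a Frobenius complement (S4396).
-/

set_option autoImplicit false

namespace Cfsg.Agent.Lib.Helper82.FF

open Module

section Internal

variable {k : Type*} [Field k] {V : Type*} [AddCommGroup V] [Module k V] [FiniteDimensional k V]
variable {ι : Type*} [Fintype ι] [DecidableEq ι]

/-- A spanning family of subspaces whose dimensions add up to at most the dimension of the
ambient space is an internal direct sum decomposition. -/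
theorem isInternal_of_iSup_of_finrank_le (A : ι → Submodule k V) (h1 : iSup A = ⊤)
    (h2 : ∑ i, finrank k (A i) ≤ finrank k V) : DirectSum.IsInternal A := by
  have hsurj : Function.Surjective (DirectSum.coeLinearMap A) := by
    rw [← LinearMap.range_eq_top, DirectSum.range_coeLinearMap, h1]
  have hfin : finrank k (DirectSum ι fun i => A i) = ∑ i, finrank k (A i) :=
    Module.finrank_directSum k _
  have hle : finrank k V ≤ finrank k (DirectSum ι fun i => A i) := by
    have := LinearMap.finrank_range_le (DirectSum.coeLinearMap A)
    rw [LinearMap.range_eq_top.2 hsurj, finrank_top] at this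
    exact this
  have heq : finrank k (DirectSum ι fun i => A i) = finrank k V := by omega
  have hinj : Function.Injective (DirectSum.coeLinearMap A) :=
    (LinearMap.injective_iff_surjective_of_finrank_eq_finrank heq).2 hsurj
  exact ⟨hinj, hsurj⟩

/-- For an internal direct sum decomposition the dimensions add up. -/
theorem sum_finrank_of_isInternal (A : ι → Submodule k V) (h : DirectSum.IsInternal A) :
    ∑ i, finrank k (A i) = finrank k V := by
  have hfin : finrank k (DirectSum ι fun i => A i) = ∑ i, finrank k (A i) :=
    Module.finrank_directSum k _
  rw [← hfin]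
  exact (LinearEquiv.ofBijective (DirectSum.coeLinearMap A) h).finrank_eq

omit [FiniteDimensional k V] [Fintype ι] [DecidableEq ι] in
/-- The image of a subspace under an injective linear map has the same dimension. -/
theorem finrank_map_of_injective {V' : Type*} [AddCommGroup V'] [Module k V']
    (f : V →ₗ[k] V') (hf : Function.Injective f) (W : Submodule k V) :
    finrank k (W.map f) = finrank k W :=
  (Submodule.equivMapOfInjective f hf W).finrank_eq.symm

end Internal

section Lift

variable {k : Type*} [Field k] {V : Type*} [AddCommGroup V] [Module k V] [FiniteDimensional k V]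
variable {H : Type*} [Group H] [Fintype H] [DecidableEq H]

omit [FiniteDimensional k V] [Fintype H] [DecidableEq H] in
theorem rep_inv_apply (σ : Representation k H V) (h : H) (v : V) : σ h⁻¹ (σ h v) = v := by
  rw [← Module.End.mul_apply, ← map_mul, inv_mul_cancel, map_one, Module.End.one_apply]

omit [FiniteDimensional k V] [Fintype H] [DecidableEq H] in
theorem rep_apply_inv (σ : Representation k H V) (h : H) (v : V) : σ h (σ h⁻¹ v) = v := by
  rw [← Module.End.mul_apply, ← map_mul, mul_inv_cancel, map_one, Module.End.one_apply]

omit [FiniteDimensional k V] [Fintype H] [DecidableEq H] in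
theorem rep_injective (σ : Representation k H V) (h : H) : Function.Injective (σ h) :=
  Function.LeftInverse.injective (rep_inv_apply σ h)

omit [FiniteDimensional k V] [DecidableEq H] in
/-- The translates of a subspace all have the same dimension, so the sum of their dimensions is
`|H|` times the dimension. -/
theorem sum_finrank_map (σ : Representation k H V) (W : Submodule k V) :
    ∑ h : H, finrank k (W.map (σ h)) = Fintype.card H * finrank k W := by
  rw [Finset.sum_congr rfl (fun h _ => finrank_map_of_injective (σ h) (rep_injective σ h) W)]
  simp

/-- If an invariant subspace and the quotient by it are both free (direct sums of translates of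
a subspace), then so is the whole space. -/
theorem exists_of_sub_quot (σ : Representation k H V) (U : Submodule k V)
    (hU : ∀ h, U ≤ U.comap (σ h))
    (W₁ : Submodule k U)
    (h₁ : DirectSum.IsInternal (fun h : H => W₁.map (σ.subrepresentation U hU h)))
    (W₂ : Submodule k (V ⧸ U))
    (h₂ : DirectSum.IsInternal (fun h : H => W₂.map (σ.quotient U hU h))) :
    ∃ W : Submodule k V, DirectSum.IsInternal (fun h : H => W.map (σ h)) := by
  obtain ⟨s, hs⟩ := U.mkQ.exists_rightInverse_of_surjective (Submodule.range_mkQ U)
  have hs' : ∀ x, U.mkQ (s x) = x := fun x => by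
    have := congrArg (fun f => f x) hs
    simpa using this
  have hsinj : Function.Injective s := Function.LeftInverse.injective hs'
  refine ⟨W₁.map U.subtype ⊔ W₂.map s, ?_⟩
  set W := W₁.map U.subtype ⊔ W₂.map s with hW
  apply isInternal_of_iSup_of_finrank_le
  · -- spanning
    set T := ⨆ h : H, W.map (σ h) with hT
    have hUT : U ≤ T := by
      intro u hu
      have h1 : (⟨u, hu⟩ : U) ∈ (⊤ : Submodule k U) := Submodule.mem_top
      rw [← h₁.submodule_iSup_eq_top] at h1
      refine Submodule.iSup_induction (p := fun h : H => W₁.map (σ.subrepresentation U hU h))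
        (motive := fun x : U => (x : V) ∈ T) h1 ?_ ?_ ?_
      · intro h x hx
        obtain ⟨w, hw, rfl⟩ := hx
        have h2 : ((σ.subrepresentation U hU h) w : V) = σ h (w : V) := rfl
        rw [h2]
        refine Submodule.mem_iSup_of_mem h ?_
        refine Submodule.mem_map_of_mem ?_
        exact Submodule.mem_sup_left (Submodule.mem_map_of_mem hw)
      · simp
      · intro x y hx hy
        simpa using T.add_mem hx hy
    have hTq : T.map U.mkQ = ⊤ := by
      rw [eq_top_iff, ← h₂.submodule_iSup_eq_top]
      refine iSup_le (fun h => ?_)
      rintro _ ⟨w, hw, rfl⟩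
      refine ⟨σ h (s w), ?_, ?_⟩
      · refine Submodule.mem_iSup_of_mem h ?_
        refine Submodule.mem_map_of_mem ?_
        exact Submodule.mem_sup_right (Submodule.mem_map_of_mem hw)
      · have h3 : (σ.quotient U hU h) (U.mkQ (s w)) = U.mkQ (σ h (s w)) := rfl
        rw [← h3, hs']
    have h4 := (Submodule.map_mkQ_eq_top U T).1 hTq
    rw [sup_eq_right.2 hUT] at h4
    exact h4
  · -- dimensions
    rw [sum_finrank_map]
    have e1 := sum_finrank_of_isInternal _ h₁
    have e2 := sum_finrank_of_isInternal _ h₂
    rw [sum_finrank_map] at e1 e2
    have e3 := Submodule.finrank_quotient_add_finrank U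
    have e4 : finrank k W ≤ finrank k W₁ + finrank k W₂ := by
      have h5 := Submodule.finrank_add_le_finrank_add_finrank (W₁.map U.subtype) (W₂.map s)
      rw [finrank_map_of_injective U.subtype U.injective_subtype W₁,
        finrank_map_of_injective s hsinj W₂] at h5
      exact h5
    calc Fintype.card H * finrank k W
        ≤ Fintype.card H * (finrank k W₁ + finrank k W₂) := Nat.mul_le_mul_left _ e4
      _ = finrank k V := by rw [mul_add, e1, e2]; omega

end Lift

end Cfsg.Agent.Lib.Helper82.FF
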