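import Mathlib
import Cfsg.Agent.Lib.Helper82.FFInternal

/-!
# Algebraic helper lemmas for the freeness theorem (S4396)
-/

set_option autoImplicit false

namespace Cfsg.Agent.Lib.Helper82.FF

open Module

section Adjoin

variable {k : Type*} [CommSemiring k] {A : Type*} [Semiring A] [Algebra k A]

/-- The subalgebra generated by a commuting set is commutative. -/
theorem adjoin_comm (s : Set A) (hs : ∀ a ∈ s, ∀ b ∈ s, a * b = b * a) :
    ∀ a ∈ Algebra.adjoin k s, ∀ b ∈ Algebra.adjoin k s, a * b = b * a := by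
  intro a ha b hb
  have h1 : Algebra.adjoin k s ≤ Subalgebra.centralizer k s := by
    apply Algebra.adjoin_le
    intro x hx
    rw [SetLike.mem_coe, Subalgebra.mem_centralizer_iff]
    intro g hg
    exact hs g hg x hx
  have h2 : Algebra.adjoin k s ≤ Subalgebra.centralizer k (Algebra.adjoin k s : Set A) := by
    apply Algebra.adjoin_le
    intro x hx
    rw [SetLike.mem_coe, Subalgebra.mem_centralizer_iff]
    intro g hg
    have h3 := h1 hg
    rw [Subalgebra.mem_centralizer_iff] at h3
    exact (h3 x hx).symm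
  have h4 := h2 hb
  rw [Subalgebra.mem_centralizer_iff] at h4
  exact h4 a ha

/-- Conjugation by an invertible element preserving a set preserves the generated subalgebra. -/
theorem adjoin_conj_mem (s : Set A) (u v : A) (huv : u * v = 1) (hvu : v * u = 1)
    (hs : ∀ a ∈ s, u * a * v ∈ s) :
    ∀ r ∈ Algebra.adjoin k s, u * r * v ∈ Algebra.adjoin k s := by
  intro r hr
  induction hr using Algebra.adjoin_induction with
  | mem x hx => exact Algebra.subset_adjoin (hs x hx)
  | algebraMap c =>
    have h1 : u * algebraMap k A c * v = algebraMap k A c := by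
      rw [← Algebra.commutes, mul_assoc, huv, mul_one]
    rw [h1]
    exact Subalgebra.algebraMap_mem _ c
  | add x y _ _ hx hy =>
    have h1 : u * (x + y) * v = u * x * v + u * y * v := by
      rw [mul_add, add_mul]
    rw [h1]
    exact Subalgebra.add_mem _ hx hy
  | mul x y _ _ hx hy =>
    have h1 : u * (x * y) * v = (u * x * v) * (u * y * v) := by
      calc u * (x * y) * v = u * x * (1 * (y * v)) := by rw [one_mul]; simp only [mul_assoc]
        _ = u * x * (v * u * (y * v)) := by rw [hvu]
        _ = (u * x * v) * (u * y * v) := by simp only [mul_assoc]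
    rw [h1]
    exact Subalgebra.mul_mem _ hx hy

end Adjoin

section FieldOfInj

variable {k : Type*} [Field k] {V : Type*} [AddCommGroup V] [Module k V] [FiniteDimensional k V]

/-- A commutative subalgebra of `End V` all of whose nonzero elements are injective is a
field. -/
theorem isField_of_injective [Nontrivial V] (R : Subalgebra k (Module.End k V))
    (hcomm : ∀ a ∈ R, ∀ b ∈ R, a * b = b * a)
    (hinj : ∀ r ∈ R, r ≠ 0 → LinearMap.ker r = ⊥) : IsField R := by
  refine ⟨⟨0, 1, ?_⟩, ?_, ?_⟩
  · intro h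
    have h1 : (0 : Module.End k V) = 1 := congrArg Subtype.val h
    exact zero_ne_one h1
  · intro a b
    exact Subtype.ext (hcomm a a.2 b b.2)
  · intro a ha
    have ha' : (a : Module.End k V) ≠ 0 := fun h => ha (Subtype.ext h)
    have hker := hinj a a.2 ha'
    have hL : Function.Injective (LinearMap.mulLeft k a) := by
      rw [injective_iff_map_eq_zero]
      intro b hb
      have h1 : (a : Module.End k V) * (b : Module.End k V) = 0 := congrArg Subtype.val hb
      apply Subtype.ext
      apply LinearMap.ext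
      intro v
      have h2 : (a : Module.End k V) ((b : Module.End k V) v) = 0 := by
        rw [← Module.End.mul_apply, h1]
        rfl
      have h3 : (b : Module.End k V) v ∈ LinearMap.ker (a : Module.End k V) := h2
      rw [hker] at h3
      simpa using h3
    have hsurj := LinearMap.surjective_of_injective hL
    obtain ⟨b, hb⟩ := hsurj 1
    exact ⟨b, hb⟩

end FieldOfInj

section Count

/-- Orbit-stabilizer counting in the form needed here. -/
theorem card_eq_card_image_mul {H X : Type*} [Group H] [Fintype H] [DecidableEq X] (f : H → X)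
    (H₁ : Subgroup H) (hf : ∀ a b : H, f a = f b ↔ a⁻¹ * b ∈ H₁) :
    Fintype.card H = (Finset.univ.image f).card * Nat.card H₁ := by
  classical
  have h1 := Finset.card_eq_sum_card_fiberwise (f := f) (s := (Finset.univ : Finset H))
    (t := Finset.univ.image f) (fun h _ => Finset.mem_image_of_mem f (Finset.mem_univ h))
  rw [Finset.card_univ] at h1
  rw [h1]
  rw [Finset.sum_const_nat (m := Nat.card H₁)]
  intro x hx
  obtain ⟨h₀, -, rfl⟩ := Finset.mem_image.1 hx
  rw [Nat.card_eq_fintype_card, ← Finset.card_univ]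
  have hinj : Function.Injective (fun h₁ : H₁ => h₀ * (h₁ : H)) := by
    intro a b hab
    exact Subtype.ext (mul_left_cancel hab)
  have h2 : (Finset.univ.filter (fun h => f h = f h₀))
      = (Finset.univ : Finset H₁).map ⟨fun h₁ : H₁ => h₀ * (h₁ : H), hinj⟩ := by
    ext h
    simp only [Finset.mem_filter, Finset.mem_univ, true_and, Finset.mem_map,
      Function.Embedding.coeFn_mk]
    constructor
    · intro hh
      have h3 : h₀⁻¹ * h ∈ H₁ := (hf h₀ h).1 hh.symm
      exact ⟨⟨h₀⁻¹ * h, h3⟩, by simp⟩
    · rintro ⟨h₁, rfl⟩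
      refine ((hf h₀ (h₀ * h₁)).2 ?_).symm
      simp
  rw [h2, Finset.card_map]

end Count

section CommonFixed

variable {k : Type*} [Field k] {V : Type*} [AddCommGroup V] [Module k V]

/-- Finitely many commuting unipotent operators on a nonzero space have a common nonzero
fixed vector. -/
theorem exists_common_fixed [Nontrivial V] (S : Finset (Module.End k V))
    (hcomm : ∀ a ∈ S, ∀ b ∈ S, Commute a b)
    (hnil : ∀ a ∈ S, IsNilpotent (a - 1)) : ∃ v : V, v ≠ 0 ∧ ∀ a ∈ S, a v = v := by
  classical
  induction S using Finset.induction_on with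
  | empty =>
    obtain ⟨v, hv⟩ := exists_ne (0 : V)
    exact ⟨v, hv, by simp⟩
  | insert g S hg IH =>
    obtain ⟨v, hv0, hv⟩ := IH (fun a ha b hb => hcomm a (Finset.mem_insert_of_mem ha) b
      (Finset.mem_insert_of_mem hb)) (fun a ha => hnil a (Finset.mem_insert_of_mem ha))
    obtain ⟨m, hm⟩ := hnil g (Finset.mem_insert_self g S)
    have hex : ∃ j : ℕ, ((g - 1) ^ j : Module.End k V) v = 0 := ⟨m, by rw [hm]; rfl⟩
    have hj0 : Nat.find hex ≠ 0 := by
      intro h0
      have h1 := Nat.find_spec hex
      rw [h0, pow_zero] at h1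
      exact hv0 h1
    obtain ⟨j, hj⟩ := Nat.exists_eq_succ_of_ne_zero hj0
    have hw0 : ((g - 1) ^ j) v ≠ 0 := by
      intro h0
      have h1 := Nat.find_min' hex h0
      omega
    refine ⟨((g - 1) ^ j) v, hw0, ?_⟩
    intro a ha
    rcases Finset.mem_insert.1 ha with rfl | haS
    · have h1 : ((a - 1) ^ (j + 1)) v = 0 := by
        have := Nat.find_spec hex
        rwa [hj] at this
      rw [pow_succ', Module.End.mul_apply] at h1
      have h2 : (a - 1) (((a - 1) ^ j) v) = a (((a - 1) ^ j) v) - ((a - 1) ^ j) v := by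
        simp
      rw [h2] at h1
      exact sub_eq_zero.1 h1
    · have hc : Commute a ((g - 1) ^ j) :=
        ((hcomm a ha g (Finset.mem_insert_self g S)).sub_right (Commute.one_right a)).pow_right j
      have h1 : a (((g - 1) ^ j) v) = ((g - 1) ^ j) (a v) := by
        rw [← Module.End.mul_apply, hc.eq, Module.End.mul_apply]
      rw [h1, hv a haS]

end CommonFixed

section MinAnn

variable {k : Type*} [Field k] {V : Type*} [AddCommGroup V] [Module k V]

/-- The common kernel of a set of operators. -/
def annSub (T : Set (Module.End k V)) : Submodule k V := ⨅ t ∈ T, LinearMap.ker t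

theorem mem_annSub {T : Set (Module.End k V)} {v : V} : v ∈ annSub T ↔ ∀ t ∈ T, t v = 0 := by
  simp [annSub, Submodule.mem_iInf]

/-- A nonzero common kernel of a subset of `R`, of dimension `d`. -/
def MinAnn (R : Subalgebra k (Module.End k V)) (d : ℕ) (K : Submodule k V) : Prop :=
  K ≠ ⊥ ∧ finrank k K = d ∧ ∃ T : Set (Module.End k V), T ⊆ (R : Set (Module.End k V)) ∧
    K = annSub T

theorem MinAnn.invariant {R : Subalgebra k (Module.End k V)} {d : ℕ} {K : Submodule k V}
    (hcomm : ∀ a ∈ R, ∀ b ∈ R, a * b = b * a) (hK : MinAnn R d K) :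
    ∀ r ∈ R, ∀ v ∈ K, r v ∈ K := by
  obtain ⟨-, -, T, hT, rfl⟩ := hK
  intro r hr v hv
  rw [mem_annSub] at hv ⊢
  intro t ht
  rw [← Module.End.mul_apply, hcomm t (hT ht) r hr, Module.End.mul_apply, hv t ht, map_zero]

theorem MinAnn.eq_or_disjoint [FiniteDimensional k V] {R : Subalgebra k (Module.End k V)} {d : ℕ}
    (hmin : ∀ K : Submodule k V, K ≠ ⊥ →
      (∃ T : Set (Module.End k V), T ⊆ (R : Set (Module.End k V)) ∧ K = annSub T) →
      d ≤ finrank k K)
    {K₁ K₂ : Submodule k V} (h₁ : MinAnn R d K₁) (h₂ : MinAnn R d K₂) :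
    K₁ = K₂ ∨ K₁ ⊓ K₂ = ⊥ := by
  by_cases hbot : K₁ ⊓ K₂ = ⊥
  · exact Or.inr hbot
  left
  obtain ⟨-, hd₁, T₁, hT₁, hK₁⟩ := h₁
  obtain ⟨-, hd₂, T₂, hT₂, hK₂⟩ := h₂
  have h3 : K₁ ⊓ K₂ = annSub (T₁ ∪ T₂) := by
    ext v
    rw [Submodule.mem_inf, hK₁, hK₂, mem_annSub, mem_annSub, mem_annSub]
    constructor
    · rintro ⟨ha, hb⟩ t (ht | ht)
      · exact ha t ht
      · exact hb t ht
    · intro h
      exact ⟨fun t ht => h t (Or.inl ht), fun t ht => h t (Or.inr ht)⟩
  have h4 : d ≤ finrank k (K₁ ⊓ K₂ : Submodule k V) :=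
    hmin _ hbot ⟨T₁ ∪ T₂, Set.union_subset hT₁ hT₂, h3⟩
  have e1 : K₁ ⊓ K₂ = K₁ :=
    Submodule.eq_of_le_of_finrank_le inf_le_left (by rw [hd₁]; exact h4)
  have e2 : K₁ ⊓ K₂ = K₂ :=
    Submodule.eq_of_le_of_finrank_le inf_le_right (by rw [hd₂]; exact h4)
  rw [← e1, e2]

theorem MinAnn.sum_zero [FiniteDimensional k V] {R : Subalgebra k (Module.End k V)} {d : ℕ}
    (hcomm : ∀ a ∈ R, ∀ b ∈ R, a * b = b * a)
    (hmin : ∀ K : Submodule k V, K ≠ ⊥ →
      (∃ T : Set (Module.End k V), T ⊆ (R : Set (Module.End k V)) ∧ K = annSub T) →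
      d ≤ finrank k K)
    (S : Finset (Submodule k V)) (hS : ∀ K ∈ S, MinAnn R d K) :
    ∀ v : Submodule k V → V, (∀ K ∈ S, v K ∈ K) → ∑ K ∈ S, v K = 0 → ∀ K ∈ S, v K = 0 := by
  classical
  induction S using Finset.induction_on with
  | empty => intro v _ _ K hK; simp at hK
  | insert K₁ S hK₁ IH =>
    intro v hv hsum
    have hS' : ∀ K ∈ S, MinAnn R d K := fun K hK => hS K (Finset.mem_insert_of_mem hK)
    have hM₁ := hS K₁ (Finset.mem_insert_self K₁ S)
    obtain ⟨-, -, T₁, hT₁, hK₁eq⟩ := hM₁
    rw [Finset.sum_insert hK₁] at hsum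
    have hrest : ∀ K ∈ S, v K = 0 := by
      intro K hK
      have h1 : v K ∈ K₁ := by
        refine hK₁eq.ge ?_
        rw [mem_annSub]
        intro t ht
        have h2 : t (v K₁) = 0 := by
          have := hK₁eq.le (hv K₁ (Finset.mem_insert_self K₁ S))
          rw [mem_annSub] at this
          exact this t ht
        have h3 : ∑ K' ∈ S, t (v K') = 0 := by
          have := congrArg t hsum
          rw [map_add, h2, zero_add, map_sum, map_zero] at this
          exact this
        exact IH hS' (fun K' => t (v K'))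
          (fun K' hK' => (hS' K' hK').invariant hcomm t (hT₁ ht) _
            (hv K' (Finset.mem_insert_of_mem hK'))) h3 K hK
      have h4 : K₁ ⊓ K = ⊥ := by
        rcases MinAnn.eq_or_disjoint hmin (hS K₁ (Finset.mem_insert_self K₁ S)) (hS' K hK)
          with h | h
        · exact absurd (h ▸ hK) hK₁
        · exact h
      have h5 : v K ∈ K₁ ⊓ K := ⟨h1, hv K (Finset.mem_insert_of_mem hK)⟩
      rw [h4] at h5
      simpa using h5
    intro K hK
    rcases Finset.mem_insert.1 hK with rfl | hKS
    · rw [Finset.sum_eq_zero hrest, add_zero] at hsum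
      exact hsum
    · exact hrest K hKS

theorem MinAnn.finrank_iSup [FiniteDimensional k V] {R : Subalgebra k (Module.End k V)} {d : ℕ}
    (hcomm : ∀ a ∈ R, ∀ b ∈ R, a * b = b * a)
    (hmin : ∀ K : Submodule k V, K ≠ ⊥ →
      (∃ T : Set (Module.End k V), T ⊆ (R : Set (Module.End k V)) ∧ K = annSub T) →
      d ≤ finrank k K)
    (S : Finset (Submodule k V)) (hS : ∀ K ∈ S, MinAnn R d K) :
    finrank k (⨆ K ∈ S, K : Submodule k V) = S.card * d := by
  classical
  induction S using Finset.induction_on with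
  | empty => simp
  | insert K₁ S hK₁ IH =>
    have hS' : ∀ K ∈ S, MinAnn R d K := fun K hK => hS K (Finset.mem_insert_of_mem hK)
    rw [Finset.iSup_insert, Finset.card_insert_of_notMem hK₁]
    have hdisj : K₁ ⊓ (⨆ K ∈ S, K) = ⊥ := by
      rw [eq_bot_iff]
      rintro x ⟨hx₁, hx₂⟩
      obtain ⟨μ, hμ⟩ := (Submodule.mem_iSup_finset_iff_exists_sum (s := S)
        (p := fun K : Submodule k V => K) x).1 hx₂
      let v : Submodule k V → V := fun K => if K = K₁ then -x else (μ K : V)
      have hv : ∀ K ∈ insert K₁ S, v K ∈ K := by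
        intro K hK
        by_cases hKK : K = K₁
        · simp only [v, hKK, if_pos]
          exact K₁.neg_mem hx₁
        · simp only [v, hKK, if_neg, not_false_eq_true]
          exact (μ K).2
      have hsum : ∑ K ∈ insert K₁ S, v K = 0 := by
        rw [Finset.sum_insert hK₁]
        have h1 : v K₁ = -x := by simp [v]
        have h2 : ∑ K ∈ S, v K = x := by
          rw [← hμ]
          refine Finset.sum_congr rfl (fun K hK => ?_)
          have hne : K ≠ K₁ := fun h => hK₁ (h ▸ hK)
          simp [v, hne]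
        rw [h1, h2, neg_add_cancel]
      have h3 := MinAnn.sum_zero hcomm hmin (insert K₁ S) hS v hv hsum K₁
        (Finset.mem_insert_self K₁ S)
      have h4 : v K₁ = -x := by simp [v]
      rw [h4, neg_eq_zero] at h3
      simpa using h3
    have h5 := Submodule.finrank_sup_add_finrank_inf_eq K₁ (⨆ K ∈ S, K)
    rw [hdisj, finrank_bot, add_zero, IH hS', (hS K₁ (Finset.mem_insert_self K₁ S)).2.1] at h5
    rw [h5]
    ring

/-- Images of minimal common kernels under conjugating operators are again minimal common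
kernels. -/
theorem MinAnn.map {R : Subalgebra k (Module.End k V)} {d : ℕ} {K : Submodule k V}
    (u w : Module.End k V) (huw : u * w = 1) (hwu : w * u = 1)
    (hR : ∀ r ∈ R, u * r * w ∈ R) (hK : MinAnn R d K) : MinAnn R d (K.map u) := by
  obtain ⟨hne, hd, T, hT, rfl⟩ := hK
  have hinj : Function.Injective u := by
    apply Function.LeftInverse.injective (g := w)
    intro x
    rw [← Module.End.mul_apply, hwu, Module.End.one_apply]
  refine ⟨?_, ?_, (fun t => u * t * w) '' T, ?_, ?_⟩
  · obtain ⟨y, hy, hy0⟩ := (Submodule.ne_bot_iff _).1 hne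
    refine (Submodule.ne_bot_iff _).2 ⟨u y, Submodule.mem_map_of_mem hy, ?_⟩
    intro h0
    exact hy0 (hinj (by rw [h0, map_zero]))
  · rw [finrank_map_of_injective u hinj, hd]
  · rintro _ ⟨t, ht, rfl⟩
    exact hR t (hT ht)
  · ext x
    rw [mem_annSub]
    constructor
    · rintro ⟨y, hy, rfl⟩ _ ⟨t, ht, rfl⟩
      rw [SetLike.mem_coe, mem_annSub] at hy
      have h1 : (u * t * w) (u y) = u (t ((w * u) y)) := by
        simp [Module.End.mul_apply]
      rw [h1, hwu, Module.End.one_apply, hy t ht, map_zero]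
    · intro hx
      refine ⟨w x, ?_, ?_⟩
      · rw [SetLike.mem_coe, mem_annSub]
        intro t ht
        have h2 := hx _ ⟨t, ht, rfl⟩
        have h3 : (u * t * w) x = u (t (w x)) := by simp [Module.End.mul_apply]
        rw [h3] at h2
        exact hinj (by rw [h2, map_zero])
      · rw [← Module.End.mul_apply, huw, Module.End.one_apply]

end MinAnn

end Cfsg.Agent.Lib.Helper82.FF
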