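import Mathlib
import Cfsg.Agent.Lib.Helper82.FFInternal

/-!
# The field case: Galois descent and the normal basis theorem

If a field `E` acts on `V`, and the finite group `H` acts faithfully on `E` by automorphisms and
semilinearly on `V`, then `V` is the direct sum of the `H`-translates of a subspace.
-/

set_option autoImplicit false

namespace Cfsg.Agent.Lib.Helper82.FF

open Module

section FieldCase

variable {k : Type*} [Field k] {V : Type*} [AddCommGroup V] [Module k V] [FiniteDimensional k V]
variable {H : Type*} [Group H] [Fintype H] [DecidableEq H]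
variable {E : Type*} [Field E]

theorem exists_of_field (σ : Representation k H V)
    (φ : E →+* Module.End k V) (α : H →* (E ≃+* E))
    (hsemi : ∀ (h : H) (e : E), σ h * φ e = φ (α h e) * σ h)
    (hα : Function.Injective α)
    (hscal : ∀ c : k, ∃ e : E, (∀ h, α h e = e) ∧ φ e = c • (1 : Module.End k V)) :
    ∃ W : Submodule k V, DirectSum.IsInternal (fun h : H => W.map (σ h)) := by
  classical
  letI act : MulSemiringAction H E := MulSemiringAction.compHom E α
  have hsmul : ∀ (h : H) (e : E), h • e = α h e := fun h e => rfl
  haveI : FaithfulSMul H E := ⟨fun {h₁ h₂} hh => hα (RingEquiv.ext hh)⟩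
  letI modE : Module E V := Module.compHom V φ
  have hEsmul : ∀ (e : E) (v : V), e • v = φ e v := fun e v => rfl
  have hsemi' : ∀ (h : H) (e : E) (v : V), σ h (e • v) = (h • e) • σ h v := by
    intro h e v
    have := congrArg (fun f : Module.End k V => f v) (hsemi h e)
    simpa [hEsmul, hsmul] using this
  -- the fixed field and a normal basis element
  obtain ⟨θ, hθ⟩ := exists_linearIndependent_algEquiv_apply (FixedPoints.subfield H E) E
  have hθ' : LinearIndependent (FixedPoints.subfield H E) (fun h : H => h • θ) :=
    hθ.comp (FixedPoints.toAlgAutMulEquiv H E) (MulEquiv.injective _)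
  have hcard : Fintype.card H = finrank (FixedPoints.subfield H E) E :=
    (FixedPoints.finrank_eq_card H E).symm
  have hspanθ : Submodule.span (FixedPoints.subfield H E) (Set.range fun h : H => h • θ) = ⊤ :=
    hθ'.span_eq_top_of_card_eq_finrank' hcard
  -- Dedekind independence of the automorphisms, and a dual system
  have hded : LinearIndependent E (fun h : H => (fun x : E => h • x)) := by
    have h1 := linearIndependent_monoidHom E E
    have hinj : Function.Injective (fun h : H => ((α h : E ≃+* E) : E →* E)) := by
      intro h₁ h₂ hh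
      apply hα
      ext x
      exact congrArg (fun f : E →* E => f x) hh
    have h2 : LinearIndependent E ((fun f : E →* E => (f : E → E)) ∘
        (fun h : H => ((α h : E ≃+* E) : E →* E))) := h1.comp _ hinj
    have h3 : ((fun f : E →* E => (f : E → E)) ∘
        (fun h : H => ((α h : E ≃+* E) : E →* E))) = (fun h : H => (fun x : E => h • x)) := by
      funext h x
      rfl
    rw [h3] at h2
    exact h2
  have hspan : Submodule.span E (Set.range (flip (fun h : H => fun x : E => h • x))) = ⊤ :=
    span_flip_eq_top_iff_linearIndependent.2 hded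
  have hmem : (Pi.single 1 1 : H → E) ∈
      Submodule.span E (Set.range (flip (fun h : H => fun x : E => h • x))) := by
    rw [hspan]; trivial
  obtain ⟨c, hc⟩ := Finsupp.mem_span_range_iff_exists_finsupp.1 hmem
  have hc' : ∀ h : H, (∑ x ∈ c.support, c x * (h • x)) = if h = 1 then 1 else 0 := by
    intro h
    have h1 := congrFun hc h
    rw [Finsupp.sum, Finset.sum_apply] at h1
    rw [Pi.single_apply] at h1
    rw [← h1]
    rfl
  -- Speiser: the fixed vectors span `V` over `E`
  let Sfix : Set V := {u | ∀ h, σ h u = u}
  have hSpeiser : Submodule.span E Sfix = ⊤ := by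
    rw [eq_top_iff]
    intro v _
    have hT : ∀ x : E, (∑ h : H, σ h (x • v)) ∈ Sfix := by
      intro x g
      rw [map_sum]
      rw [← Equiv.sum_comp (Equiv.mulLeft g) (fun h => σ h (x • v))]
      refine Finset.sum_congr rfl (fun h _ => ?_)
      rw [Equiv.coe_mulLeft, map_mul, Module.End.mul_apply]
    have hv : v = ∑ x ∈ c.support, c x • ∑ h : H, σ h (x • v) := by
      have h1 : ∀ x ∈ c.support, c x • ∑ h : H, σ h (x • v)
          = ∑ h : H, (c x * (h • x)) • σ h v := by
        intro x _
        rw [Finset.smul_sum]
        refine Finset.sum_congr rfl (fun h _ => ?_)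
        rw [hsemi', smul_smul]
      rw [Finset.sum_congr rfl h1, Finset.sum_comm]
      have h2 : ∀ h : H, ∑ x ∈ c.support, (c x * (h • x)) • σ h v
          = (if h = 1 then (1 : E) else 0) • σ h v := by
        intro h
        rw [← Finset.sum_smul, hc']
      rw [Finset.sum_congr rfl (fun h _ => h2 h)]
      simp
    rw [hv]
    exact Submodule.sum_mem _ (fun x _ => Submodule.smul_mem _ _ (Submodule.subset_span (hT x)))
  -- an `E`-basis of fixed vectors
  obtain ⟨b, hbS, hbspan, hbli⟩ := exists_linearIndependent E Sfix
  rw [hSpeiser] at hbspan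
  have hbfix : ∀ u ∈ b, ∀ h : H, σ h u = u := fun u hu h => hbS hu h
  -- the subspace
  let gen : Set V := {v | ∃ a : E, (∀ h : H, h • a = a) ∧ ∃ u ∈ b, v = (a * θ) • u}
  let W : Submodule k V := Submodule.span k gen
  have hWrep : ∀ w ∈ W, ∃ l : b →₀ E, (∀ (u : b) (h : H), h • l u = l u) ∧
      w = ∑ u ∈ l.support, (l u * θ) • (u : V) := by
    intro w hw
    induction hw using Submodule.span_induction with
    | mem v hv =>
      obtain ⟨a, ha, u, hu, rfl⟩ := hv
      refine ⟨Finsupp.single ⟨u, hu⟩ a, ?_, ?_⟩
      · intro u' h
        by_cases huu : (⟨u, hu⟩ : b) = u'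
        · subst huu
          simpa using ha h
        · simp [Finsupp.single_apply, huu]
      · by_cases ha0 : a = 0
        · subst ha0
          simp
        · rw [Finsupp.support_single_ne_zero _ ha0]
          simp
    | zero => exact ⟨0, by simp, by simp⟩
    | add x y _ _ hx hy =>
      obtain ⟨l₁, h₁, rfl⟩ := hx
      obtain ⟨l₂, h₂, rfl⟩ := hy
      refine ⟨l₁ + l₂, ?_, ?_⟩
      · intro u h
        rw [Finsupp.add_apply, smul_add, h₁, h₂]
      · have e1 := Finsupp.sum_add_index' (f := l₁) (g := l₂)
          (h := fun (u : b) (a : E) => (a * θ) • (u : V)) (by simp)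
          (by intro u a₁ a₂; rw [add_mul, add_smul])
        simp only [Finsupp.sum] at e1
        exact e1.symm
    | smul cc x _ hx =>
      obtain ⟨l, hl, rfl⟩ := hx
      obtain ⟨e, he, hφ⟩ := hscal cc
      refine ⟨l.mapRange (fun a => e * a) (by simp), ?_, ?_⟩
      · intro u h
        rw [Finsupp.mapRange_apply, smul_mul', hl, hsmul, he]
      · have e2 := Finsupp.sum_mapRange_index (g := l) (f := fun a : E => e * a) (hf := by simp)
          (h := fun (u : b) (a : E) => (a * θ) • (u : V)) (by simp)
        simp only [Finsupp.sum] at e2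
        rw [e2, Finset.smul_sum]
        refine Finset.sum_congr rfl (fun u _ => ?_)
        have e3 : ∀ x : V, cc • x = e • x := by
          intro x
          rw [hEsmul, hφ]
          simp
        rw [e3, smul_smul, mul_assoc]
  -- the translates of `W` span
  have hspanW : (⨆ h : H, W.map (σ h)) = ⊤ := by
    rw [eq_top_iff]
    intro v _
    have key : ∀ (e : E) (u : V), u ∈ b → e • u ∈ (⨆ h : H, W.map (σ h)) := by
      intro e u hu
      have he : e ∈ Submodule.span (FixedPoints.subfield H E) (Set.range fun h : H => h • θ) := by
        rw [hspanθ]; trivial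
      obtain ⟨d, hd⟩ := (Submodule.mem_span_range_iff_exists_fun (FixedPoints.subfield H E)).1 he
      rw [← hd, Finset.sum_smul]
      refine Submodule.sum_mem _ (fun h _ => ?_)
      refine Submodule.mem_iSup_of_mem h ?_
      refine ⟨((d h : E) * θ) • u,
        Submodule.subset_span ⟨(d h : E), fun g => (d h).2 g, u, hu, rfl⟩, ?_⟩
      rw [hsemi', hbfix u hu h, smul_mul', (d h).2 h]
      rfl
    have hvb : v ∈ Submodule.span E (b : Set V) := by rw [hbspan]; trivial
    obtain ⟨l, rfl⟩ := (Finsupp.mem_span_iff_linearCombination E (b : Set V) v).1 hvb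
    rw [Finsupp.linearCombination_apply, Finsupp.sum]
    exact Submodule.sum_mem _ (fun u _ => key _ _ u.2)
  -- the sum of the translates is direct
  let J : (H → W) →ₗ[k] V := ∑ h : H, (σ h ∘ₗ W.subtype) ∘ₗ LinearMap.proj h
  have hJ : ∀ w : H → W, J w = ∑ h, σ h (w h : V) := by
    intro w
    simp [J]
  have hJinj : Function.Injective J := by
    rw [injective_iff_map_eq_zero]
    intro w hw
    rw [hJ] at hw
    choose l hlfix hl using fun h => hWrep (w h : V) (w h).2
    have h1 : ∀ h, σ h (w h : V) = ∑ u ∈ (l h).support, (l h u * (h • θ)) • (u : V) := by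
      intro h
      conv_lhs => rw [hl h]
      rw [map_sum]
      refine Finset.sum_congr rfl (fun u _ => ?_)
      rw [hsemi', hbfix u u.2 h, smul_mul', hlfix h u h]
    let L : b →₀ E := ∑ h : H, (l h).mapRange (fun a => a * (h • θ)) (by simp)
    have hL : Finsupp.linearCombination E (Subtype.val : b → V) L = 0 := by
      rw [map_sum, ← hw]
      refine Finset.sum_congr rfl (fun h _ => ?_)
      rw [h1 h, Finsupp.linearCombination_apply]
      have e2 := Finsupp.sum_mapRange_index (g := l h) (f := fun a : E => a * (h • θ))
        (hf := by simp) (h := fun (u : b) (a : E) => a • (u : V)) (by simp)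
      simp only [Finsupp.sum] at e2
      rw [Finsupp.sum, e2]
    have hL0 : L = 0 := (linearIndependent_iff.1 hbli) L hL
    have h2 : ∀ u : b, ∑ h : H, l h u * (h • θ) = 0 := by
      intro u
      have := congrArg (fun f : b →₀ E => f u) hL0
      simpa [L, Finsupp.finset_sum_apply] using this
    have h3 : ∀ (u : b) (h : H), l h u = 0 := by
      intro u
      have h4 := Fintype.linearIndependent_iff.1 hθ'
        (fun h => (⟨l h u, fun g => hlfix h u g⟩ : FixedPoints.subfield H E)) (h2 u)
      intro h
      exact congrArg Subtype.val (h4 h)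
    funext h
    apply Subtype.ext
    rw [hl h]
    simp [h3]
  refine ⟨W, isInternal_of_iSup_of_finrank_le _ hspanW ?_⟩
  rw [sum_finrank_map]
  have h5 := LinearMap.finrank_le_finrank_of_injective hJinj
  rw [Module.finrank_pi_fintype] at h5
  simpa using h5

/-- Version of `exists_of_field` for a ring that is a field. -/
theorem exists_of_isField {E' : Type*} [Ring E'] (hE : IsField E') (σ : Representation k H V)
    (φ : E' →+* Module.End k V) (α : H →* (E' ≃+* E'))
    (hsemi : ∀ (h : H) (e : E'), σ h * φ e = φ (α h e) * σ h)
    (hα : Function.Injective α)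
    (hscal : ∀ c : k, ∃ e : E', (∀ h, α h e = e) ∧ φ e = c • (1 : Module.End k V)) :
    ∃ W : Submodule k V, DirectSum.IsInternal (fun h : H => W.map (σ h)) := by
  letI := hE.toField
  exact exists_of_field σ φ α hsemi hα hscal

end FieldCase

end Cfsg.Agent.Lib.Helper82.FF
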