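import Mathlib
import Cfsg.Agent.Lib.Helper82.FFInternal

/-!
# The fixed-point-free situation and its passage to invariant subspaces and quotients
-/

set_option autoImplicit false

namespace Cfsg.Agent.Lib.Helper82.FF

open Module

/-- The situation: `Γ` and `H` act linearly on `V`, the image of `Γ` is normalized by `H`,
non-identity elements of `H` commute with no non-identity element of the image of `Γ`, and
`Γ` has no nonzero fixed vector. -/
structure Sit {k : Type*} [Field k] {V : Type*} [AddCommGroup V] [Module k V]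
    {Γ : Type*} [Group Γ] {H : Type*} [Group H]
    (τ : Representation k Γ V) (σ : Representation k H V) : Prop where
  norm : ∀ (h : H) (γ : Γ), ∃ γ' : Γ, σ h * τ γ = τ γ' * σ h
  fpf : ∀ h : H, h ≠ 1 → ∀ γ : Γ, σ h * τ γ = τ γ * σ h → τ γ = 1
  fix : ∀ v : V, (∀ γ : Γ, τ γ v = v) → v = 0

section GroupLemma

/-- Group-theoretic core: a fixed-point-free element acts fixed-point-freely on quotients. -/
theorem mem_of_comm_mem {𝔾 : Type*} [Group 𝔾] (F K : Subgroup 𝔾) [Finite F] (hKF : K ≤ F) (s : 𝔾)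
    (hsK : ∀ f ∈ K, s * f * s⁻¹ ∈ K)
    (hfpf : ∀ f ∈ F, s * f = f * s → f = 1)
    (f : 𝔾) (hf : f ∈ F) (hc : f⁻¹ * (s * f * s⁻¹) ∈ K) : f ∈ K := by
  have hinj : ∀ x ∈ F, ∀ y ∈ F, x⁻¹ * (s * x * s⁻¹) = y⁻¹ * (s * y * s⁻¹) → x = y := by
    intro x hx y hy hxy
    have h1 : s * (x * y⁻¹) = (x * y⁻¹) * s := by
      have h2 : x⁻¹ * (s * x) = y⁻¹ * (s * y) := by
        have := congrArg (fun z => z * s) hxy
        simpa [mul_assoc] using this
      have h3 : s * x = x * (y⁻¹ * (s * y)) := by
        rw [← h2, mul_inv_cancel_left]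
      calc s * (x * y⁻¹) = (s * x) * y⁻¹ := by rw [mul_assoc]
        _ = x * (y⁻¹ * (s * y)) * y⁻¹ := by rw [h3]
        _ = (x * y⁻¹) * s := by group
    have h4 := hfpf (x * y⁻¹) (F.mul_mem hx (F.inv_mem hy)) h1
    exact mul_inv_eq_one.1 h4
  have : Finite K := Finite.of_injective (Subgroup.inclusion hKF) (Subgroup.inclusion_injective hKF)
  let c : K → K := fun x => ⟨(x : 𝔾)⁻¹ * (s * x * s⁻¹), K.mul_mem (K.inv_mem x.2) (hsK x x.2)⟩
  have hcinj : Function.Injective c := by
    intro x y hxy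
    have := congrArg Subtype.val hxy
    exact Subtype.ext (hinj x (hKF x.2) y (hKF y.2) this)
  have hcsurj : Function.Surjective c := Finite.injective_iff_surjective.1 hcinj
  obtain ⟨x, hx⟩ := hcsurj ⟨_, hc⟩
  have h5 : (x : 𝔾)⁻¹ * (s * x * s⁻¹) = f⁻¹ * (s * f * s⁻¹) := congrArg Subtype.val hx
  have h6 := hinj x (hKF x.2) f hf h5
  rw [← h6]
  exact x.2

end GroupLemma

section Transfer

variable {k : Type*} [Field k] {V : Type*} [AddCommGroup V] [Module k V]
variable {Γ : Type*} [Group Γ] {H : Type*} [Group H]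

theorem rep_mul_inv (σ : Representation k H V) (h : H) : σ h * σ h⁻¹ = 1 := by
  rw [← map_mul, mul_inv_cancel, map_one]

theorem rep_inv_mul (σ : Representation k H V) (h : H) : σ h⁻¹ * σ h = 1 := by
  rw [← map_mul, inv_mul_cancel, map_one]

/-- Transfer of the situation to another module on which the same groups act compatibly. -/
theorem Sit.transfer [Finite Γ] {τ : Representation k Γ V} {σ : Representation k H V}
    (hS : Sit τ σ) {V' : Type*} [AddCommGroup V'] [Module k V']
    (τ' : Representation k Γ V') (σ' : Representation k H V')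
    (ha : ∀ γ, τ γ = 1 → τ' γ = 1)
    (hb : ∀ h γ γ', σ h * τ γ = τ γ' * σ h → σ' h * τ' γ = τ' γ' * σ' h)
    (hfix : ∀ v' : V', (∀ γ, τ' γ v' = v') → v' = 0) : Sit τ' σ' := by
  refine ⟨?_, ?_, hfix⟩
  · intro h γ
    obtain ⟨γ', hγ'⟩ := hS.norm h γ
    exact ⟨γ', hb h γ γ' hγ'⟩
  · intro h hh γ hcomm
    obtain ⟨γ', hγ'⟩ := hS.norm h γ
    have h1 := hb h γ γ' hγ'
    -- τ' γ' = τ' γ
    have h2 : τ' γ' = τ' γ := by
      have h3 : τ' γ' * σ' h = τ' γ * σ' h := by rw [← h1, hcomm]
      have h4 := congrArg (fun z => z * σ' h⁻¹) h3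
      simpa [mul_assoc, rep_mul_inv] using h4
    -- units
    let τu : Γ →* (Module.End k V)ˣ := τ.toHomUnits
    let s : (Module.End k V)ˣ := σ.toHomUnits h
    have hτu : ∀ γ, ((τu γ : (Module.End k V)ˣ) : Module.End k V) = τ γ := fun γ => rfl
    have hs : ((s : (Module.End k V)ˣ) : Module.End k V) = σ h := rfl
    let K : Subgroup Γ := MonoidHom.ker (τ' : Γ →* Module.End k V')
    have : Finite τu.range := Finite.of_surjective τu.rangeRestrict τu.rangeRestrict_surjective
    have hconj : ∀ γ₁ γ₂, σ h * τ γ₁ = τ γ₂ * σ h → s * τu γ₁ * s⁻¹ = τu γ₂ := by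
      intro γ₁ γ₂ h12
      rw [mul_inv_eq_iff_eq_mul]
      apply Units.ext
      rw [Units.val_mul, Units.val_mul, hτu, hτu, hs]
      exact h12
    have hmem := mem_of_comm_mem τu.range (K.map τu) (Subgroup.map_le_range τu K) s ?_ ?_
      (τu γ) ⟨γ, rfl⟩ ?_
    · obtain ⟨γ₀, hγ₀K, hγ₀⟩ := hmem
      have h5a : τ γ₀ = τ γ := by
        have := congrArg (fun u : (Module.End k V)ˣ => (u : Module.End k V)) hγ₀
        simpa [hτu] using this
      have h5 : τ (γ₀⁻¹ * γ) = 1 := by
        rw [map_mul, ← h5a, ← map_mul, inv_mul_cancel, map_one]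
      have h7 : τ' (γ₀⁻¹ * γ) = 1 := ha _ h5
      have h8 : τ' γ₀ = 1 := hγ₀K
      have h9 : τ' γ = τ' γ₀ * τ' (γ₀⁻¹ * γ) := by
        rw [← map_mul, mul_inv_cancel_left]
      rw [h9, h7, h8, mul_one]
    · -- K is normalized
      rintro _ ⟨γ₁, hγ₁K, rfl⟩
      obtain ⟨γ₂, hγ₂⟩ := hS.norm h γ₁
      rw [hconj γ₁ γ₂ hγ₂]
      refine ⟨γ₂, ?_, rfl⟩
      have h10 := hb h γ₁ γ₂ hγ₂
      have h11 : τ' γ₁ = 1 := hγ₁K
      rw [h11, mul_one] at h10
      show τ' γ₂ = 1
      have h12 := congrArg (fun z => z * σ' h⁻¹) h10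
      simp only [mul_assoc, rep_mul_inv, mul_one] at h12
      exact h12.symm
    · -- fixed point freeness
      rintro _ ⟨γ₁, rfl⟩ hc
      have h13 : σ h * τ γ₁ = τ γ₁ * σ h := by
        have := congrArg (fun u : (Module.End k V)ˣ => (u : Module.End k V)) hc
        simpa [hτu, hs] using this
      have h14 := hS.fpf h hh γ₁ h13
      apply Units.ext
      rw [hτu, h14]
      rfl
    · rw [hconj γ γ' hγ', ← map_inv, ← map_mul]
      refine ⟨γ⁻¹ * γ', ?_, rfl⟩
      show τ' (γ⁻¹ * γ') = 1
      rw [map_mul, h2, ← map_mul, inv_mul_cancel, map_one]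

/-- Restriction of the acting group `H` to a subgroup. -/
theorem Sit.restrict {τ : Representation k Γ V} {σ : Representation k H V}
    (hS : Sit τ σ) (H₁ : Subgroup H) : Sit τ (σ.comp H₁.subtype) := by
  refine ⟨fun h γ => hS.norm h γ, fun h hh γ hc => hS.fpf h ?_ γ hc, hS.fix⟩
  intro h1
  exact hh (Subtype.ext h1)

end Transfer

section SubQuot

variable {k : Type*} [Field k] {V : Type*} [AddCommGroup V] [Module k V]
variable {Γ : Type*} [Group Γ] [Finite Γ] {H : Type*} [Group H]

/-- The situation passes to invariant subspaces. -/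
theorem Sit.sub {τ : Representation k Γ V} {σ : Representation k H V} (hS : Sit τ σ)
    (U : Submodule k V) (hUτ : ∀ γ, U ≤ U.comap (τ γ)) (hUσ : ∀ h, U ≤ U.comap (σ h)) :
    Sit (τ.subrepresentation U hUτ) (σ.subrepresentation U hUσ) := by
  refine hS.transfer _ _ ?_ ?_ ?_
  · intro γ hγ
    ext u
    simp [hγ]
  · intro h γ γ' hc
    ext u
    have := congrArg (fun f : Module.End k V => f (u : V)) hc
    simpa using this
  · intro u hu
    apply Subtype.ext
    apply hS.fix
    intro γ
    have := congrArg Subtype.val (hu γ)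
    simpa using this

/-- The situation passes to quotients by invariant subspaces, provided fixed vectors of the
quotient lift to the subspace. -/
theorem Sit.quot {τ : Representation k Γ V} {σ : Representation k H V} (hS : Sit τ σ)
    (U : Submodule k V) (hUτ : ∀ γ, U ≤ U.comap (τ γ)) (hUσ : ∀ h, U ≤ U.comap (σ h))
    (hfixQ : ∀ v : V, (∀ γ, τ γ v - v ∈ U) → v ∈ U) :
    Sit (τ.quotient U hUτ) (σ.quotient U hUσ) := by
  refine hS.transfer _ _ ?_ ?_ ?_
  · intro γ hγ
    apply LinearMap.ext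
    intro x
    induction x using Submodule.Quotient.induction_on with
    | H v => simp [hγ]
  · intro h γ γ' hc
    apply LinearMap.ext
    intro x
    induction x using Submodule.Quotient.induction_on with
    | H v =>
      have h1 := congrArg (fun f : Module.End k V => f v) hc
      simp only [Module.End.mul_apply] at h1
      simp only [Module.End.mul_apply, Representation.quotient_apply, Submodule.mapQ_apply]
      rw [h1]
  · intro x hx
    induction x using Submodule.Quotient.induction_on with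
    | H v =>
      rw [Submodule.Quotient.mk_eq_zero]
      apply hfixQ
      intro γ
      have h1 := hx γ
      simp only [Representation.quotient_apply, Submodule.mapQ_apply] at h1
      exact (Submodule.Quotient.eq U).1 h1

/-- Reduction step: if an invariant subspace and its quotient are free, so is the space. -/
theorem reduce [FiniteDimensional k V] [Fintype H] [DecidableEq H]
    {τ : Representation k Γ V} {σ : Representation k H V} (hS : Sit τ σ)
    (U : Submodule k V) (hUτ : ∀ γ, U ≤ U.comap (τ γ)) (hUσ : ∀ h, U ≤ U.comap (σ h))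
    (hfixQ : ∀ v : V, (∀ γ, τ γ v - v ∈ U) → v ∈ U)
    (IH₁ : ∀ (τ' : Representation k Γ U) (σ' : Representation k H U), Sit τ' σ' →
      ∃ W : Submodule k U, DirectSum.IsInternal (fun h : H => W.map (σ' h)))
    (IH₂ : ∀ (τ' : Representation k Γ (V ⧸ U)) (σ' : Representation k H (V ⧸ U)), Sit τ' σ' →
      ∃ W : Submodule k (V ⧸ U), DirectSum.IsInternal (fun h : H => W.map (σ' h))) :
    ∃ W : Submodule k V, DirectSum.IsInternal (fun h : H => W.map (σ h)) := by
  obtain ⟨W₁, h₁⟩ := IH₁ _ _ (hS.sub U hUτ hUσ)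
  obtain ⟨W₂, h₂⟩ := IH₂ _ _ (hS.quot U hUτ hUσ hfixQ)
  exact exists_of_sub_quot σ U hUσ W₁ h₁ W₂ h₂

omit [Finite Γ] in
/-- Central trick: if `U` is the common fixed space of a set of operators commuting with the
action of `Γ`, then fixed vectors of `V ⧸ U` come from `U`. -/
theorem fixQ_of_central {τ : Representation k Γ V} (hfix : ∀ v, (∀ γ, τ γ v = v) → v = 0)
    (Z : Set (Module.End k V)) (hZ : ∀ z ∈ Z, ∀ γ, z * τ γ = τ γ * z)
    (U : Submodule k V) (hU : ∀ v, v ∈ U ↔ ∀ z ∈ Z, z v = v) :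
    ∀ v : V, (∀ γ, τ γ v - v ∈ U) → v ∈ U := by
  intro v hv
  rw [hU]
  intro z hz
  have h1 : z v - v = 0 := by
    apply hfix
    intro γ
    have hu := hv γ
    have hzu : z (τ γ v - v) = τ γ v - v := (hU _).1 hu z hz
    have hcomm : τ γ (z v) = z (τ γ v) := by
      have := congrArg (fun f : Module.End k V => f v) (hZ z hz γ)
      simpa using this.symm
    rw [map_sub, hcomm]
    rw [map_sub] at hzu
    rw [sub_eq_sub_iff_add_eq_add] at hzu ⊢
    rw [hzu, add_comm]
  exact sub_eq_zero.1 h1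

end SubQuot

end Cfsg.Agent.Lib.Helper82.FF
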