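import Mathlib
import Cfsg.Agent.Lib.Helper82.FFInternal
import Cfsg.Agent.Lib.Helper82.FFSit
import Cfsg.Agent.Lib.Helper82.FFField
import Cfsg.Agent.Lib.Helper82.FFAlg

/-!
# Freeness over the complement: the case of a commutative kernel
-/

set_option autoImplicit false

namespace Cfsg.Agent.Lib.Helper82.FF

open Module

universe u v w

/-- Statement of the freeness theorem for commutative `Γ` in dimension `n`. -/
def AbStmt (k : Type u) [Field k] (n : ℕ) : Prop :=
  ∀ (V : Type v) [AddCommGroup V] [Module k V] [FiniteDimensional k V], finrank k V = n →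
  ∀ (Γ : Type v) [CommGroup Γ] [Finite Γ] (H : Type w) [Group H] [Finite H] [DecidableEq H]
    (τ : Representation k Γ V) (σ : Representation k H V), Sit τ σ →
    ∃ W : Submodule k V, DirectSum.IsInternal (fun h : H => W.map (σ h))

section Irreducible

variable {k : Type u} [Field k]

theorem irreducible_case (n : ℕ) (IH : ∀ m < n, AbStmt.{u, v, w} k m)
    (V : Type v) [AddCommGroup V] [Module k V] [FiniteDimensional k V] (hn : finrank k V = n)
    [Nontrivial V]
    (Γ : Type v) [CommGroup Γ] [Finite Γ] (H : Type w) [Group H] [Fintype H] [DecidableEq H]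
    (τ : Representation k Γ V) (σ : Representation k H V) (hS : Sit τ σ)
    (hirr : ∀ U : Submodule k V, (∀ γ, U ≤ U.comap (τ γ)) → (∀ h, U ≤ U.comap (σ h)) →
      U = ⊥ ∨ U = ⊤) :
    ∃ W : Submodule k V, DirectSum.IsInternal (fun h : H => W.map (σ h)) := by
  classical
  set R : Subalgebra k (Module.End k V) := Algebra.adjoin k (Set.range τ) with hR
  have hτR : ∀ γ, τ γ ∈ R := fun γ => Algebra.subset_adjoin ⟨γ, rfl⟩
  have hRcomm : ∀ a ∈ R, ∀ b ∈ R, a * b = b * a := by
    apply adjoin_comm
    rintro _ ⟨γ₁, rfl⟩ _ ⟨γ₂, rfl⟩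
    rw [← map_mul, ← map_mul, mul_comm]
  have hRconj : ∀ (h : H), ∀ r ∈ R, σ h * r * σ h⁻¹ ∈ R := by
    intro h
    apply adjoin_conj_mem _ _ _ (rep_mul_inv σ h) (rep_inv_mul σ h)
    rintro _ ⟨γ, rfl⟩
    obtain ⟨γ', hγ'⟩ := hS.norm h γ
    refine ⟨γ', ?_⟩
    rw [hγ', mul_assoc, rep_mul_inv, mul_one]
  -- minimal dimension of a nonzero common kernel
  have hex : ∃ d : ℕ, ∃ K : Submodule k V, K ≠ ⊥ ∧
      (∃ T : Set (Module.End k V), T ⊆ (R : Set (Module.End k V)) ∧ K = annSub T) ∧
      finrank k K = d :=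
    ⟨_, ⊤, top_ne_bot, ⟨∅, Set.empty_subset _, by simp [annSub]⟩, rfl⟩
  obtain ⟨U', hU'ne, hU'T, hU'd⟩ := Nat.find_spec hex
  set d := Nat.find hex with hd
  have hmin : ∀ K : Submodule k V, K ≠ ⊥ →
      (∃ T : Set (Module.End k V), T ⊆ (R : Set (Module.End k V)) ∧ K = annSub T) →
      d ≤ finrank k K :=
    fun K hK hT => Nat.find_min' hex ⟨K, hK, hT, rfl⟩
  have hU'M : MinAnn R d U' := ⟨hU'ne, hU'd, hU'T⟩
  have hconjM : ∀ h : H, MinAnn R d (U'.map (σ h)) := fun h =>
    hU'M.map (σ h) (σ h⁻¹) (rep_mul_inv σ h) (rep_inv_mul σ h) (hRconj h)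
  have hmap1 : U'.map (σ 1) = U' := by
    rw [map_one]
    exact Submodule.map_id U'
  have hmapmul : ∀ a b : H, U'.map (σ (a * b)) = (U'.map (σ b)).map (σ a) := by
    intro a b
    rw [map_mul, Module.End.mul_eq_comp, Submodule.map_comp]
  -- the orbit
  let f : H → Submodule k V := fun h => U'.map (σ h)
  let 𝒪 : Finset (Submodule k V) := Finset.univ.image f
  have h𝒪M : ∀ K ∈ 𝒪, MinAnn R d K := by
    intro K hK
    obtain ⟨h, -, rfl⟩ := Finset.mem_image.1 hK
    exact hconjM h
  have hdim𝒪 : 𝒪.card * d ≤ finrank k V := by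
    rw [← MinAnn.finrank_iSup hRcomm hmin 𝒪 h𝒪M]
    exact Submodule.finrank_le _
  -- spanning
  have hspan : (⨆ h : H, U'.map (σ h)) = ⊤ := by
    have h0 := hirr (⨆ h : H, U'.map (σ h)) ?_ ?_
    · rcases h0 with h0 | h1
      · exfalso
        have h2 : U' ≤ ⨆ h : H, U'.map (σ h) := by
          calc U' = U'.map (σ 1) := hmap1.symm
            _ ≤ _ := le_iSup (fun h => U'.map (σ h)) 1
        rw [h0] at h2
        exact hU'ne (le_bot_iff.1 h2)
      · exact h1
    · intro γ x hx
      rw [Submodule.mem_comap]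
      refine Submodule.iSup_induction (p := fun h : H => U'.map (σ h))
        (motive := fun x => τ γ x ∈ ⨆ h : H, U'.map (σ h)) hx ?_ ?_ ?_
      · intro h y hy
        exact Submodule.mem_iSup_of_mem h ((hconjM h).invariant hRcomm (τ γ) (hτR γ) y hy)
      · simp
      · intro y z hy hz
        rw [map_add]
        exact Submodule.add_mem _ hy hz
    · intro g x hx
      rw [Submodule.mem_comap]
      refine Submodule.iSup_induction (p := fun h : H => U'.map (σ h))
        (motive := fun x => σ g x ∈ ⨆ h : H, U'.map (σ h)) hx ?_ ?_ ?_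
      · rintro h _ ⟨y, hy, rfl⟩
        refine Submodule.mem_iSup_of_mem (g * h) ⟨y, hy, ?_⟩
        rw [map_mul, Module.End.mul_apply]
      · simp
      · intro y z hy hz
        rw [map_add]
        exact Submodule.add_mem _ hy hz
  -- the stabilizer
  let H₁ : Subgroup H :=
    { carrier := {h | U'.map (σ h) = U'}
      mul_mem' := by
        intro a b ha hb
        show U'.map (σ (a * b)) = U'
        rw [hmapmul, hb, ha]
      one_mem' := hmap1
      inv_mem' := by
        intro a ha
        show U'.map (σ a⁻¹) = U'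
        have h1 : U'.map (σ (a⁻¹ * a)) = (U'.map (σ a)).map (σ a⁻¹) := hmapmul a⁻¹ a
        rw [ha, inv_mul_cancel, hmap1] at h1
        exact h1.symm }
  have hH₁mem : ∀ h : H, h ∈ H₁ ↔ U'.map (σ h) = U' := fun h => Iff.rfl
  have hf : ∀ a b : H, f a = f b ↔ a⁻¹ * b ∈ H₁ := by
    intro a b
    rw [hH₁mem]
    show U'.map (σ a) = U'.map (σ b) ↔ _
    constructor
    · intro hab
      rw [hmapmul, ← hab, ← hmapmul, inv_mul_cancel, hmap1]
    · intro hab
      have h1 : U'.map (σ b) = (U'.map (σ (a⁻¹ * b))).map (σ a) := by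
        rw [← hmapmul, mul_inv_cancel_left]
      rw [h1, hab]
  have hcount : Fintype.card H = 𝒪.card * Nat.card H₁ := card_eq_card_image_mul f H₁ hf
  by_cases hH₁ : H₁ = ⊤
  · -- field case
    have hU'σ : ∀ h : H, U'.map (σ h) = U' := fun h => by
      have h1 : h ∈ H₁ := by rw [hH₁]; trivial
      exact h1
    have hinvτ : ∀ γ, U' ≤ U'.comap (τ γ) := fun γ x hx =>
      hU'M.invariant hRcomm (τ γ) (hτR γ) x hx
    have hinvσ : ∀ h, U' ≤ U'.comap (σ h) := by
      intro h x hx
      rw [Submodule.mem_comap]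
      have h2 := Submodule.mem_map_of_mem (f := σ h) hx
      rwa [hU'σ h] at h2
    have hU'top : U' = ⊤ := by
      rcases hirr U' hinvτ hinvσ with h0 | h1
      · exact absurd h0 hU'ne
      · exact h1
    have hdV : d = finrank k V := by
      rw [← hU'd, hU'top, finrank_top]
    have hinj : ∀ r ∈ R, r ≠ 0 → LinearMap.ker r = ⊥ := by
      intro r hr hr0
      by_contra hker
      have h1 : LinearMap.ker r = annSub {r} := by
        ext v
        simp [mem_annSub]
      have h2 := hmin (LinearMap.ker r) hker ⟨{r}, by simpa using hr, h1⟩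
      rw [hdV] at h2
      have h3 : LinearMap.ker r = ⊤ :=
        Submodule.eq_top_of_finrank_eq (le_antisymm (Submodule.finrank_le _) h2)
      exact hr0 (LinearMap.ker_eq_top.1 h3)
    have hfield : IsField R := isField_of_injective R hRcomm hinj
    -- the conjugation action
    let ce : H → (R ≃+* R) := fun h =>
      { toFun := fun r => ⟨σ h * r * σ h⁻¹, hRconj h r r.2⟩
        invFun := fun r => ⟨σ h⁻¹ * r * σ h, by
          have h1 := hRconj h⁻¹ r r.2
          rwa [inv_inv] at h1⟩
        left_inv := fun r => Subtype.ext (by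
          show σ h⁻¹ * (σ h * r * σ h⁻¹) * σ h = r
          rw [← mul_assoc, ← mul_assoc, rep_inv_mul, one_mul, mul_assoc, rep_inv_mul, mul_one])
        right_inv := fun r => Subtype.ext (by
          show σ h * (σ h⁻¹ * r * σ h) * σ h⁻¹ = r
          rw [← mul_assoc, ← mul_assoc, rep_mul_inv, one_mul, mul_assoc, rep_mul_inv, mul_one])
        map_mul' := fun a b => Subtype.ext (by
          show σ h * ((a : Module.End k V) * b) * σ h⁻¹ = (σ h * a * σ h⁻¹) * (σ h * b * σ h⁻¹)
          calc σ h * ((a : Module.End k V) * b) * σ h⁻¹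
              = σ h * a * (1 * (b * σ h⁻¹)) := by rw [one_mul]; simp only [mul_assoc]
            _ = σ h * a * (σ h⁻¹ * σ h * (b * σ h⁻¹)) := by rw [rep_inv_mul]
            _ = (σ h * a * σ h⁻¹) * (σ h * b * σ h⁻¹) := by simp only [mul_assoc])
        map_add' := fun a b => Subtype.ext (by
          show σ h * ((a : Module.End k V) + b) * σ h⁻¹ = (σ h * a * σ h⁻¹) + (σ h * b * σ h⁻¹)
          rw [mul_add, add_mul]) }
    have hce : ∀ (h : H) (r : R), ((ce h r : R) : Module.End k V) = σ h * r * σ h⁻¹ :=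
      fun h r => rfl
    let α : H →* (R ≃+* R) :=
      { toFun := ce
        map_one' := by
          apply RingEquiv.ext
          intro r
          apply Subtype.ext
          show ((ce 1 r : R) : Module.End k V) = r
          rw [hce]
          simp
        map_mul' := by
          intro a b
          apply RingEquiv.ext
          intro r
          apply Subtype.ext
          show ((ce (a * b) r : R) : Module.End k V) = ((ce a (ce b r) : R) : Module.End k V)
          rw [hce, hce, hce, map_mul, mul_inv_rev, map_mul]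
          simp only [mul_assoc] }
    have hα : ∀ (h : H) (r : R), ((α h r : R) : Module.End k V) = σ h * r * σ h⁻¹ :=
      fun h r => rfl
    refine exists_of_isField hfield σ R.val.toRingHom α ?_ ?_ ?_
    · intro h e
      show σ h * (e : Module.End k V) = ((α h e : R) : Module.End k V) * σ h
      rw [hα, mul_assoc, rep_inv_mul, mul_one]
    · intro h₁ h₂ h12
      by_contra hne
      have hne' : h₂⁻¹ * h₁ ≠ 1 := by
        intro h
        apply hne
        exact (inv_mul_eq_one.1 h).symm
      have hcomm : ∀ γ, σ (h₂⁻¹ * h₁) * τ γ = τ γ * σ (h₂⁻¹ * h₁) := by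
        intro γ
        have h1 : σ h₁ * τ γ * σ h₁⁻¹ = σ h₂ * τ γ * σ h₂⁻¹ := by
          have h2 := congrArg (fun e : R ≃+* R => ((e ⟨τ γ, hτR γ⟩ : R) : Module.End k V)) h12
          exact h2
        calc σ (h₂⁻¹ * h₁) * τ γ = σ h₂⁻¹ * (σ h₁ * τ γ * σ h₁⁻¹) * σ h₁ := by
              rw [map_mul]
              simp only [mul_assoc]
              rw [rep_inv_mul, mul_one]
          _ = σ h₂⁻¹ * (σ h₂ * τ γ * σ h₂⁻¹) * σ h₁ := by rw [h1]
          _ = τ γ * σ (h₂⁻¹ * h₁) := by
              rw [map_mul]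
              simp only [← mul_assoc]
              rw [rep_inv_mul, one_mul]
      have hall : ∀ γ, τ γ = 1 := fun γ => hS.fpf _ hne' γ (hcomm γ)
      obtain ⟨v, hv⟩ := exists_ne (0 : V)
      exact hv (hS.fix v (fun γ => by rw [hall γ]; rfl))
    · intro c
      refine ⟨algebraMap k R c, ?_, ?_⟩
      · intro h
        apply Subtype.ext
        show σ h * (algebraMap k (Module.End k V) c) * σ h⁻¹ = algebraMap k (Module.End k V) c
        rw [← Algebra.commutes c (σ h), mul_assoc, rep_mul_inv, mul_one]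
      · show (algebraMap k (Module.End k V) c) = c • 1
        rw [Algebra.algebraMap_eq_smul_one]
  · -- induction on the stabilizer
    have hH₁lt : Nat.card H₁ < Fintype.card H := by
      rw [← Nat.card_eq_fintype_card]
      by_contra hge
      have h1 := Subgroup.card_le_card_group H₁
      exact hH₁ (Subgroup.eq_top_of_card_eq H₁ (by omega))
    have hH₁pos : 0 < Nat.card H₁ := Nat.card_pos
    have h𝒪2 : 2 ≤ 𝒪.card := by
      by_contra hlt
      have h1 : 𝒪.card ≤ 1 := by omega
      have h2 : 𝒪.card * Nat.card H₁ ≤ 1 * Nat.card H₁ := Nat.mul_le_mul_right _ h1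
      omega
    have hdpos : 0 < d := by
      rw [← hU'd]
      rcases Nat.eq_zero_or_pos (finrank k U') with h0 | hpos
      · exact absurd (Submodule.finrank_eq_zero.1 h0) hU'ne
      · exact hpos
    have hU'lt : finrank k U' < n := by
      rw [hU'd, ← hn]
      have h1 : 2 * d ≤ 𝒪.card * d := Nat.mul_le_mul_right _ h𝒪2
      omega
    have hU'τ : ∀ γ, U' ≤ U'.comap (τ γ) := fun γ x hx =>
      hU'M.invariant hRcomm (τ γ) (hτR γ) x hx
    let σ₁ : Representation k H₁ V := σ.comp H₁.subtype
    have hS₁ : Sit τ σ₁ := hS.restrict H₁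
    have hU'σ₁ : ∀ h : H₁, U' ≤ U'.comap (σ₁ h) := by
      intro h x hx
      rw [Submodule.mem_comap]
      have h2 := Submodule.mem_map_of_mem (f := σ (h : H)) hx
      rwa [(hH₁mem h).1 h.2] at h2
    have hS' := hS₁.sub U' hU'τ hU'σ₁
    obtain ⟨W', hW'⟩ := IH (finrank k U') hU'lt U' rfl Γ H₁ (τ.subrepresentation U' hU'τ)
      (σ₁.subrepresentation U' hU'σ₁) hS'
    haveI : Fintype H₁ := Fintype.ofFinite H₁
    have e1 := sum_finrank_of_isInternal _ hW'
    rw [sum_finrank_map (σ₁.subrepresentation U' hU'σ₁) W'] at e1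
    refine ⟨W'.map U'.subtype, isInternal_of_iSup_of_finrank_le _ ?_ ?_⟩
    · have hU'T' : U' ≤ ⨆ h : H, (W'.map U'.subtype).map (σ h) := by
        intro x hx
        have h1 : (⟨x, hx⟩ : U') ∈ (⊤ : Submodule k U') := Submodule.mem_top
        rw [← hW'.submodule_iSup_eq_top] at h1
        refine Submodule.iSup_induction
          (p := fun h : H₁ => W'.map (σ₁.subrepresentation U' hU'σ₁ h))
          (motive := fun y : U' => (y : V) ∈ ⨆ h : H, (W'.map U'.subtype).map (σ h)) h1 ?_ ?_ ?_
        · rintro h _ ⟨y, hy, rfl⟩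
          have h2 : (((σ₁.subrepresentation U' hU'σ₁ h) y : U') : V)
              = σ (h : H) (y : V) := rfl
          rw [h2]
          exact Submodule.mem_iSup_of_mem (h : H)
            (Submodule.mem_map_of_mem (Submodule.mem_map_of_mem hy))
        · simp
        · intro y z hy hz
          simpa using Submodule.add_mem _ hy hz
      have hT'inv : ∀ (g : H) (x : V), x ∈ (⨆ h : H, (W'.map U'.subtype).map (σ h)) →
          σ g x ∈ ⨆ h : H, (W'.map U'.subtype).map (σ h) := by
        intro g x hx
        refine Submodule.iSup_induction (p := fun h : H => (W'.map U'.subtype).map (σ h))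
          (motive := fun x => σ g x ∈ ⨆ h : H, (W'.map U'.subtype).map (σ h)) hx ?_ ?_ ?_
        · rintro h _ ⟨y, hy, rfl⟩
          refine Submodule.mem_iSup_of_mem (g * h) ⟨y, hy, ?_⟩
          rw [map_mul, Module.End.mul_apply]
        · simp
        · intro y z hy hz
          rw [map_add]
          exact Submodule.add_mem _ hy hz
      rw [eq_top_iff, ← hspan]
      refine iSup_le (fun h => ?_)
      rintro _ ⟨x, hx, rfl⟩
      exact hT'inv h x (hU'T' hx)
    · rw [sum_finrank_map, finrank_map_of_injective U'.subtype U'.injective_subtype W', hcount,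
        Nat.card_eq_fintype_card]
      calc 𝒪.card * Fintype.card H₁ * finrank k W'
          = 𝒪.card * (Fintype.card H₁ * finrank k W') := by ring
        _ = 𝒪.card * d := by rw [e1, hU'd]
        _ ≤ finrank k V := hdim𝒪

end Irreducible

section Main

variable {k : Type u} [Field k]

/-- The freeness theorem for a commutative kernel, by induction on the dimension. -/
theorem abelian : ∀ n : ℕ, AbStmt.{u, v, w} k n := by
  intro n
  induction n using Nat.strong_induction_on with
  | _ n IH =>
  intro V _ _ _ hn Γ _ _ H _ _ _ τ σ hS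
  classical
  haveI : Fintype H := Fintype.ofFinite H
  rcases Nat.eq_zero_or_pos n with h0 | hpos
  · refine ⟨⊥, isInternal_of_iSup_of_finrank_le _ ?_ ?_⟩
    · haveI : Subsingleton V := by
        rw [← Module.finrank_zero_iff (R := k)]
        omega
      exact Subsingleton.elim _ _
    · refine le_trans (le_of_eq ?_) (Nat.zero_le _)
      refine Finset.sum_eq_zero (fun h _ => ?_)
      rw [Submodule.map_bot]
      exact finrank_bot k V
  haveI : Nontrivial V := Module.nontrivial_of_finrank_pos (R := k) (by omega)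
  have hred : ∀ (U : Submodule k V), (∀ γ, U ≤ U.comap (τ γ)) → (∀ h, U ≤ U.comap (σ h)) →
      U ≠ ⊥ → U ≠ ⊤ → (∀ v : V, (∀ γ, τ γ v - v ∈ U) → v ∈ U) →
      ∃ W : Submodule k V, DirectSum.IsInternal (fun h : H => W.map (σ h)) := by
    intro U hUτ hUσ hU0 hU1 hfixQ
    have hlt1 : finrank k U < n := by
      rw [← hn]
      exact Submodule.finrank_lt hU1
    have hlt2 : finrank k (V ⧸ U) < n := by
      have h1 := Submodule.finrank_quotient_add_finrank U
      have h2 : 0 < finrank k U := by
        rcases Nat.eq_zero_or_pos (finrank k U) with h0 | hp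
        · exact absurd (Submodule.finrank_eq_zero.1 h0) hU0
        · exact hp
      omega
    exact reduce hS U hUτ hUσ hfixQ
      (fun τ' σ' hS' => IH _ hlt1 U rfl Γ H τ' σ' hS')
      (fun τ' σ' hS' => IH _ hlt2 (V ⧸ U) rfl Γ H τ' σ' hS')
  have hτcomm : ∀ γ₁ γ₂ : Γ, τ γ₁ * τ γ₂ = τ γ₂ * τ γ₁ := fun γ₁ γ₂ => by
    rw [← map_mul, ← map_mul, mul_comm]
  let τu : Γ →* (Module.End k V)ˣ := τ.toHomUnits
  have hτu : ∀ γ, ((τu γ : (Module.End k V)ˣ) : Module.End k V) = τ γ := fun γ => rfl
  haveI : Finite τu.range := Finite.of_surjective τu.rangeRestrict τu.rangeRestrict_surjective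
  by_cases hcard : (Nat.card τu.range : k) = 0
  · -- the characteristic divides the order of the image
    let p := ringChar k
    haveI hcp : CharP k p := ringChar.charP k
    have hpdvd : p ∣ Nat.card τu.range := (CharP.cast_eq_zero_iff k p _).1 hcard
    have hp0 : p ≠ 0 := by
      intro h0
      rw [h0, zero_dvd_iff] at hpdvd
      exact Nat.card_pos.ne' hpdvd
    have hpp : p.Prime := (CharP.char_is_prime_or_zero k p).resolve_right hp0
    haveI : Fact p.Prime := ⟨hpp⟩
    obtain ⟨x, hx⟩ := exists_prime_orderOf_dvd_card' p hpdvd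
    obtain ⟨γ₀, hγ₀⟩ := x.2
    have hγ₀p : τ γ₀ ^ p = 1 := by
      have h1 : x ^ p = 1 := by
        rw [← hx]
        exact pow_orderOf_eq_one x
      have h2 : (τu γ₀) ^ p = 1 := by
        rw [hγ₀]
        exact_mod_cast congrArg Subtype.val h1
      have h3 := congrArg (fun u : (Module.End k V)ˣ => (u : Module.End k V)) h2
      simpa [hτu] using h3
    have hγ₀1 : τ γ₀ ≠ 1 := by
      intro h1
      have h2 : x = 1 := by
        apply Subtype.ext
        rw [← hγ₀]
        apply Units.ext
        rw [hτu, h1]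
        rfl
      rw [h2, orderOf_one] at hx
      exact hpp.one_lt.ne' hx.symm
    let Z : Set (Module.End k V) := {z | ∃ γ, z = τ γ ∧ z ^ p = 1}
    let U : Submodule k V :=
      { carrier := {v | ∀ z ∈ Z, z v = v}
        add_mem' := by
          intro a b ha hb z hz
          rw [map_add, ha z hz, hb z hz]
        zero_mem' := by
          intro z hz
          exact map_zero z
        smul_mem' := by
          intro c a ha z hz
          rw [map_smul, ha z hz] }
    have hUmem : ∀ v, v ∈ U ↔ ∀ z ∈ Z, z v = v := fun v => Iff.rfl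
    have hUτ : ∀ γ, U ≤ U.comap (τ γ) := by
      intro γ v hv
      rw [Submodule.mem_comap, hUmem]
      rintro z ⟨γ', rfl, hz⟩
      rw [← Module.End.mul_apply, hτcomm, Module.End.mul_apply,
        (hUmem v).1 hv _ ⟨γ', rfl, hz⟩]
    have hUσ : ∀ h, U ≤ U.comap (σ h) := by
      intro h v hv
      rw [Submodule.mem_comap, hUmem]
      rintro z ⟨γ, rfl, hz⟩
      obtain ⟨γ', hγ'⟩ := hS.norm h⁻¹ γ
      have hsc : SemiconjBy (σ h⁻¹) (τ γ) (τ γ') := hγ'
      have hpow : σ h⁻¹ * τ γ ^ p = τ γ' ^ p * σ h⁻¹ := hsc.pow_right p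
      have hγ'p : τ γ' ^ p = 1 := by
        rw [hz, mul_one] at hpow
        have h2 := congrArg (fun z => z * σ h) hpow
        simp only [mul_assoc, rep_inv_mul, mul_one] at h2
        exact h2.symm
      have h3 : τ γ' v = v := (hUmem v).1 hv _ ⟨γ', rfl, hγ'p⟩
      have h4 : τ γ * σ h = σ h * τ γ' := by
        have h5 : σ h * (σ h⁻¹ * τ γ) * σ h = σ h * (τ γ' * σ h⁻¹) * σ h := by rw [hγ']
        rw [← mul_assoc, rep_mul_inv, one_mul] at h5
        rw [h5]
        simp only [mul_assoc]
        rw [rep_inv_mul, mul_one]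
      rw [← Module.End.mul_apply, h4, Module.End.mul_apply, h3]
    have hU1 : U ≠ ⊤ := by
      intro htop
      apply hγ₀1
      apply LinearMap.ext
      intro v
      have hvU : v ∈ U := by rw [htop]; trivial
      exact (hUmem v).1 hvU _ ⟨γ₀, rfl, hγ₀p⟩
    have hU0 : U ≠ ⊥ := by
      haveI : Fintype Γ := Fintype.ofFinite Γ
      let S : Finset (Module.End k V) :=
        (Finset.univ.image (fun γ : Γ => τ γ)).filter (fun z => z ^ p = 1)
      have hSmem : ∀ z, z ∈ S ↔ z ∈ Z := by
        intro z
        simp only [S, Finset.mem_filter, Finset.mem_image, Finset.mem_univ, true_and, Z,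
          Set.mem_setOf_eq]
        constructor
        · rintro ⟨⟨γ, rfl⟩, hz⟩
          exact ⟨γ, rfl, hz⟩
        · rintro ⟨γ, rfl, hz⟩
          exact ⟨⟨γ, rfl⟩, hz⟩
      haveI : CharP (Module.End k V) p :=
        charP_of_injective_algebraMap (algebraMap k (Module.End k V)).injective p
      obtain ⟨v, hv0, hv⟩ := exists_common_fixed S (by
        intro a ha b hb
        obtain ⟨γ₁, rfl, -⟩ := (hSmem a).1 ha
        obtain ⟨γ₂, rfl, -⟩ := (hSmem b).1 hb
        exact hτcomm γ₁ γ₂) (by
        intro a ha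
        obtain ⟨γ₁, rfl, hz⟩ := (hSmem a).1 ha
        refine ⟨p, ?_⟩
        rw [sub_pow_char_of_commute p (Commute.one_right _), hz, one_pow, sub_self])
      intro hbot
      have hvU : v ∈ U := (hUmem v).2 (fun z hz => hv z ((hSmem z).2 hz))
      rw [hbot] at hvU
      exact hv0 (by simpa using hvU)
    apply hred U hUτ hUσ hU0 hU1
    exact fixQ_of_central hS.fix Z (by
      rintro z ⟨γ, rfl, -⟩ γ'
      exact hτcomm γ γ') U hUmem
  · by_cases hirr : ∃ U : Submodule k V, (∀ γ, U ≤ U.comap (τ γ)) ∧ (∀ h, U ≤ U.comap (σ h)) ∧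
        U ≠ ⊥ ∧ U ≠ ⊤
    · obtain ⟨U, hUτ, hUσ, hU0, hU1⟩ := hirr
      apply hred U hUτ hUσ hU0 hU1
      intro v hv
      haveI : Fintype τu.range := Fintype.ofFinite _
      have he_fix : ∀ γ, τ γ (∑ f : τu.range, ((f : (Module.End k V)ˣ) : Module.End k V) v)
          = ∑ f : τu.range, ((f : (Module.End k V)ˣ) : Module.End k V) v := by
        intro γ
        rw [map_sum]
        let g : τu.range := ⟨τu γ, γ, rfl⟩
        rw [← Equiv.sum_comp (Equiv.mulLeft g)
          (fun f : τu.range => ((f : (Module.End k V)ˣ) : Module.End k V) v)]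
        refine Finset.sum_congr rfl (fun f _ => ?_)
        simp [g, hτu]
      have he0 := hS.fix _ he_fix
      have hsum : ∑ f : τu.range, (((f : (Module.End k V)ˣ) : Module.End k V) v - v) ∈ U := by
        refine Submodule.sum_mem _ (fun f _ => ?_)
        obtain ⟨γ, hγ⟩ := f.2
        have h1 := hv γ
        rw [← hτu γ, hγ] at h1
        exact h1
      rw [Finset.sum_sub_distrib, he0, zero_sub, Finset.sum_const, Finset.card_univ,
        ← Nat.card_eq_fintype_card, ← Nat.cast_smul_eq_nsmul k] at hsum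
      have h2 : (Nat.card τu.range : k) • v ∈ U := by simpa using U.neg_mem hsum
      have h3 := U.smul_mem (Nat.card τu.range : k)⁻¹ h2
      rwa [smul_smul, inv_mul_cancel₀ hcard, one_smul] at h3
    · push Not at hirr
      exact irreducible_case n IH V hn Γ H τ σ hS (fun U h1 h2 => by
        by_cases hb : U = ⊥
        · exact Or.inl hb
        · exact Or.inr (hirr U h1 h2 hb))

end Main

end Cfsg.Agent.Lib.Helper82.FF
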