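import Mathlib
import Cfsg.Agent.Lib.Helper82.FFInternal
import Cfsg.Agent.Lib.Helper82.FFSit
import Cfsg.Agent.Lib.Helper82.FFAbelian

/-!
# Freeness over the complement: nilpotent kernel, and the Frobenius group form
-/

set_option autoImplicit false

namespace Cfsg.Agent.Lib.Helper82.FF

open Module
open scoped Pointwise

universe u v w

/-- The center of a group, as a commutative group. -/
@[reducible] def centerCommGroup (G : Type*) [Group G] : CommGroup (Subgroup.center G) :=
  { (inferInstance : Group (Subgroup.center G)) with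
    mul_comm := fun a b => Subtype.ext (Subgroup.mem_center_iff.1 b.2 a) }

/-- Statement of the freeness theorem for nilpotent `Γ` in dimension `n`. -/
def NilStmt (k : Type u) [Field k] (n : ℕ) : Prop :=
  ∀ (V : Type v) [AddCommGroup V] [Module k V] [FiniteDimensional k V], finrank k V = n →
  ∀ (Γ : Type v) [Group Γ] [Finite Γ], Group.IsNilpotent Γ →
  ∀ (H : Type w) [Group H] [Finite H] [DecidableEq H]
    (τ : Representation k Γ V) (σ : Representation k H V), Sit τ σ →
    ∃ W : Submodule k V, DirectSum.IsInternal (fun h : H => W.map (σ h))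

variable {k : Type u} [Field k]

/-- The freeness theorem for a nilpotent kernel, by induction on the dimension. -/
theorem nilpotent : ∀ n : ℕ, NilStmt.{u, v, w} k n := by
  intro n
  induction n using Nat.strong_induction_on with
  | _ n IH =>
  intro V _ _ _ hn Γ _ _ hnil H _ _ _ τ σ hS
  classical
  haveI : Fintype H := Fintype.ofFinite H
  rcases Nat.eq_zero_or_pos n with h0 | hpos
  · refine ⟨⊥, isInternal_of_iSup_of_finrank_le _ ?_ ?_⟩
    · haveI : Subsingleton V := by
        rw [← Module.finrank_zero_iff (R := k)]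
        omega
      exact Subsingleton.elim _ _
    · refine le_trans (le_of_eq ?_) (Nat.zero_le _)
      refine Finset.sum_eq_zero (fun h _ => ?_)
      rw [Submodule.map_bot]
      exact finrank_bot k V
  haveI : Nontrivial V := Module.nontrivial_of_finrank_pos (R := k) (by omega)
  let τu : Γ →* (Module.End k V)ˣ := τ.toHomUnits
  have hτu : ∀ γ, ((τu γ : (Module.End k V)ˣ) : Module.End k V) = τ γ := fun γ => rfl
  let F : Subgroup (Module.End k V)ˣ := τu.range
  haveI : Finite F := Finite.of_surjective τu.rangeRestrict τu.rangeRestrict_surjective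
  haveI hFnil : Group.IsNilpotent F :=
    @Group.nilpotent_of_surjective Γ _ F _ hnil τu.rangeRestrict τu.rangeRestrict_surjective
  haveI : Nontrivial F := by
    by_contra hnt
    rw [not_nontrivial_iff_subsingleton] at hnt
    obtain ⟨v, hv⟩ := exists_ne (0 : V)
    apply hv
    apply hS.fix
    intro γ
    have h1 : (⟨τu γ, γ, rfl⟩ : F) = 1 := Subsingleton.elim _ _
    have h2 : τu γ = 1 := congrArg Subtype.val h1
    have h3 : τ γ = 1 := by
      rw [← hτu, h2]
      rfl
    rw [h3]
    rfl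
  have hZne : Subgroup.center F ≠ ⊥ := Group.IsNilpotent.center_ne_bot F
  -- the central elements of the image, as endomorphisms
  let Z : Set (Module.End k V) := {z | (∃ γ, z = τ γ) ∧ ∀ γ', z * τ γ' = τ γ' * z}
  let U : Submodule k V :=
    { carrier := {v | ∀ z ∈ Z, z v = v}
      add_mem' := by
        intro a b ha hb z hz
        rw [map_add, ha z hz, hb z hz]
      zero_mem' := by
        intro z hz
        exact map_zero z
      smul_mem' := by
        intro c a ha z hz
        rw [map_smul, ha z hz] }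
  have hUmem : ∀ v, v ∈ U ↔ ∀ z ∈ Z, z v = v := fun v => Iff.rfl
  have hUτ : ∀ γ, U ≤ U.comap (τ γ) := by
    intro γ v hv
    rw [Submodule.mem_comap, hUmem]
    intro z hz
    rw [← Module.End.mul_apply, hz.2 γ, Module.End.mul_apply, (hUmem v).1 hv z hz]
  have hZconj : ∀ (h : H) (γ γ' : Γ), σ h * τ γ = τ γ' * σ h → τ γ ∈ Z → τ γ' ∈ Z := by
    intro h γ γ' hc hz
    refine ⟨⟨γ', rfl⟩, fun γ'' => ?_⟩
    obtain ⟨γ₃, hγ₃⟩ := hS.norm h⁻¹ γ''
    have h1 : τ γ' = σ h * τ γ * σ h⁻¹ := by
      rw [hc, mul_assoc, rep_mul_inv, mul_one]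
    have h2 : τ γ'' = σ h * τ γ₃ * σ h⁻¹ := by
      rw [mul_assoc, ← hγ₃, ← mul_assoc, rep_mul_inv, one_mul]
    rw [h1, h2]
    calc σ h * τ γ * σ h⁻¹ * (σ h * τ γ₃ * σ h⁻¹)
        = σ h * (τ γ * (σ h⁻¹ * σ h) * τ γ₃) * σ h⁻¹ := by simp only [mul_assoc]
      _ = σ h * (τ γ₃ * (σ h⁻¹ * σ h) * τ γ) * σ h⁻¹ := by
          rw [rep_inv_mul, mul_one, mul_one, hz.2 γ₃]
      _ = σ h * τ γ₃ * σ h⁻¹ * (σ h * τ γ * σ h⁻¹) := by simp only [mul_assoc]
  have hUσ : ∀ h, U ≤ U.comap (σ h) := by
    intro h v hv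
    rw [Submodule.mem_comap, hUmem]
    rintro z ⟨⟨γ, rfl⟩, hz⟩
    obtain ⟨γ', hγ'⟩ := hS.norm h⁻¹ γ
    have hγ'Z : τ γ' ∈ Z := hZconj h⁻¹ γ γ' hγ' ⟨⟨γ, rfl⟩, hz⟩
    have h3 : τ γ' v = v := (hUmem v).1 hv _ hγ'Z
    have h4 : τ γ * σ h = σ h * τ γ' := by
      have h5 : σ h * (σ h⁻¹ * τ γ) * σ h = σ h * (τ γ' * σ h⁻¹) * σ h := by rw [hγ']
      rw [← mul_assoc, rep_mul_inv, one_mul] at h5
      rw [h5]
      simp only [mul_assoc]
      rw [rep_inv_mul, mul_one]
    rw [← Module.End.mul_apply, h4, Module.End.mul_apply, h3]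
  have hZF : ∀ γ, (⟨τu γ, γ, rfl⟩ : F) ∈ Subgroup.center F → τ γ ∈ Z := by
    intro γ hf
    refine ⟨⟨γ, rfl⟩, fun γ' => ?_⟩
    have h1 := Subgroup.mem_center_iff.1 hf ⟨τu γ', γ', rfl⟩
    have h2 : τu γ' * τu γ = τu γ * τu γ' := congrArg Subtype.val h1
    have h3 := congrArg (fun u : (Module.End k V)ˣ => (u : Module.End k V)) h2
    simpa [hτu] using h3.symm
  have hFZ : ∀ γ, τ γ ∈ Z → (⟨τu γ, γ, rfl⟩ : F) ∈ Subgroup.center F := by
    intro γ hz
    rw [Subgroup.mem_center_iff]
    rintro ⟨_, γ', rfl⟩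
    apply Subtype.ext
    apply Units.ext
    show τ γ' * τ γ = τ γ * τ γ'
    exact (hz.2 γ').symm
  have hU1 : U ≠ ⊤ := by
    intro htop
    apply hZne
    rw [eq_bot_iff]
    rintro ⟨_, γ, rfl⟩ hf
    rw [Subgroup.mem_bot]
    have hz : τ γ ∈ Z := hZF γ hf
    apply Subtype.ext
    apply Units.ext
    show τ γ = 1
    apply LinearMap.ext
    intro v
    have hvU : v ∈ U := by rw [htop]; trivial
    exact (hUmem v).1 hvU _ hz
  by_cases hU0 : U = ⊥
  · -- the central elements have no common fixed vector: commutative case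
    letI : CommGroup (Subgroup.center F) := centerCommGroup F
    let τ' : Representation k (Subgroup.center F) V :=
      (Units.coeHom (Module.End k V)).comp (F.subtype.comp (Subgroup.center F).subtype)
    have hZmem : ∀ z : Subgroup.center F, ∃ γ, τ' z = τ γ ∧ τ γ ∈ Z := by
      rintro ⟨⟨_, γ, rfl⟩, hf⟩
      exact ⟨γ, rfl, hZF γ hf⟩
    have hZmem' : ∀ γ, τ γ ∈ Z → ∃ z : Subgroup.center F, τ' z = τ γ := by
      intro γ hz
      exact ⟨⟨⟨τu γ, γ, rfl⟩, hFZ γ hz⟩, rfl⟩
    have hS' : Sit τ' σ := by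
      refine ⟨?_, ?_, ?_⟩
      · intro h z
        obtain ⟨γ, hγ, hγZ⟩ := hZmem z
        obtain ⟨γ', hγ'⟩ := hS.norm h γ
        obtain ⟨z', hz'⟩ := hZmem' γ' (hZconj h γ γ' hγ' hγZ)
        exact ⟨z', by rw [hγ, hz', hγ']⟩
      · intro h hh z hc
        obtain ⟨γ, hγ, hγZ⟩ := hZmem z
        rw [hγ] at hc ⊢
        exact hS.fpf h hh γ hc
      · intro v hv
        have hvU : v ∈ U := by
          rw [hUmem]
          rintro z ⟨⟨γ, rfl⟩, hz⟩
          obtain ⟨z', hz'⟩ := hZmem' γ ⟨⟨γ, rfl⟩, hz⟩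
          rw [← hz']
          exact hv z'
        rw [hU0] at hvU
        simpa using hvU
    exact abelian n V hn (Subgroup.center F) H τ' σ hS'
  · have hlt1 : finrank k U < n := by
      rw [← hn]
      exact Submodule.finrank_lt hU1
    have hlt2 : finrank k (V ⧸ U) < n := by
      have h1 := Submodule.finrank_quotient_add_finrank U
      have h2 : 0 < finrank k U := by
        rcases Nat.eq_zero_or_pos (finrank k U) with h0 | hp
        · exact absurd (Submodule.finrank_eq_zero.1 h0) hU0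
        · exact hp
      omega
    exact reduce hS U hUτ hUσ (fixQ_of_central hS.fix Z (fun z hz γ => hz.2 γ) U hUmem)
      (fun τ' σ' hS' => IH _ hlt1 U rfl Γ hnil H τ' σ' hS')
      (fun τ' σ' hS' => IH _ hlt2 (V ⧸ U) rfl Γ hnil H τ' σ' hS')

/-- Frobenius group form: a faithful module for a Frobenius group with nilpotent kernel on which
the kernel has no nonzero fixed vector is free over the complement. -/
theorem frobenius_free {V : Type v} {A : Type w} [AddCommGroup V] [Module k V]
    [FiniteDimensional k V] [Group A] [Finite A] [DecidableEq A]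
    (ρ : Representation k A V) (hρ : Function.Injective ρ)
    (Fk Hc : Subgroup A) [Fk.Normal]
    (hHc : ∀ g ∉ Hc, Hc ⊓ (MulAut.conj g • Hc) = ⊥)
    (hker : ∀ f ∈ Fk, f = 1 ∨ ∀ g : A, f ∉ MulAut.conj g • Hc)
    (hnil : Group.IsNilpotent ↥Fk)
    (hCF : ∀ v : V, (∀ f ∈ Fk, ρ f v = v) → v = 0) :
    ∃ W : Submodule k V, DirectSum.IsInternal (fun h : ↥Hc => W.map (ρ (h : A))) := by
  let τu : ↥Fk →* (Module.End k V)ˣ := (ρ.comp Fk.subtype).toHomUnits
  have hτu : ∀ f : ↥Fk, ((τu f : (Module.End k V)ˣ) : Module.End k V) = ρ (f : A) := fun f => rfl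
  haveI : Finite τu.range := Finite.of_surjective τu.rangeRestrict τu.rangeRestrict_surjective
  have hΓnil : Group.IsNilpotent τu.range :=
    @Group.nilpotent_of_surjective ↥Fk _ τu.range _ hnil τu.rangeRestrict
      τu.rangeRestrict_surjective
  let τ : Representation k τu.range V :=
    (Units.coeHom (Module.End k V)).comp τu.range.subtype
  let σ : Representation k ↥Hc V := ρ.comp Hc.subtype
  have hS : Sit τ σ := by
    refine ⟨?_, ?_, ?_⟩
    · rintro h ⟨_, f, rfl⟩
      refine ⟨⟨τu ⟨(h : A) * f * (h : A)⁻¹, ‹Fk.Normal›.conj_mem _ f.2 _⟩, _, rfl⟩, ?_⟩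
      show ρ (h : A) * ρ (f : A) = ρ ((h : A) * f * (h : A)⁻¹) * ρ (h : A)
      rw [← map_mul, ← map_mul, inv_mul_cancel_right]
    · rintro h hh ⟨_, f, rfl⟩ hc
      have hc' : ρ (h : A) * ρ (f : A) = ρ (f : A) * ρ (h : A) := hc
      rw [← map_mul, ← map_mul] at hc'
      have hcomm : (h : A) * f = f * h := hρ hc'
      have hf1 : (f : A) = 1 := by
        rcases hker f f.2 with h1 | h2
        · exact h1
        · exfalso
          have hfH : (f : A) ∉ Hc := by
            have := h2 1
            rwa [map_one, one_smul] at this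
          have hbot := hHc f hfH
          have hmem : (h : A) ∈ Hc ⊓ (MulAut.conj (f : A) • Hc) := by
            refine Subgroup.mem_inf.2 ⟨h.2, ?_⟩
            rw [Subgroup.mem_pointwise_smul_iff_inv_smul_mem]
            have h3 : (MulAut.conj (f : A))⁻¹ • (h : A) = (h : A) := by
              rw [← map_inv, MulAut.smul_def, MulAut.conj_apply, inv_inv, mul_assoc, hcomm,
                inv_mul_cancel_left]
            rw [h3]
            exact h.2
          rw [hbot, Subgroup.mem_bot] at hmem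
          exact hh (Subtype.ext hmem)
      show ρ (f : A) = 1
      rw [hf1, map_one]
    · intro v hv
      apply hCF
      intro f hf
      exact hv ⟨τu ⟨f, hf⟩, _, rfl⟩
  exact nilpotent (finrank k V) V rfl τu.range hΓnil ↥Hc τ σ hS

end Cfsg.Agent.Lib.Helper82.FF
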