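import Mathlib
import Cfsg.Agent.Lib.Helper78.BLGroup

/-!
Lattice estimates for integral combinations of linear characters of a finite abelian group:
isotypic projections with respect to a subgroup, a Plancherel formula, and the step lemma
used for the abelian stabilizer criterion of the `k(GV)` problem.
-/

set_option autoImplicit false

namespace Cfsg.Agent.Lib.Helper82.KA

open Cfsg.Agent.Lib.Helper78
open scoped ComplexConjugate
open Classical

noncomputable section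

variable {C : Type*} [Group C]

/-- a linear character as a complex valued function -/
def lin (φ : C →* ℂˣ) : C → ℂ := fun c => ((φ c : ℂˣ) : ℂ)

theorem lin_apply (φ : C →* ℂˣ) (c : C) : lin φ c = ((φ c : ℂˣ) : ℂ) := rfl

/-- integral combinations of linear characters -/
def IntFn (C : Type*) [Group C] : AddSubgroup (C → ℂ) :=
  AddSubgroup.closure (Set.range (lin (C := C)))

theorem lin_mem (φ : C →* ℂˣ) : lin φ ∈ IntFn C := AddSubgroup.subset_closure ⟨φ, rfl⟩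

theorem lin_mul (φ ψ : C →* ℂˣ) : lin φ * lin ψ = lin (φ * ψ) := by
  funext c
  simp [lin]

theorem lin_ne_zero (φ : C →* ℂˣ) (c : C) : lin φ c ≠ 0 := Units.ne_zero _

theorem lin_mul_mem (ε : C →* ℂˣ) {θ : C → ℂ} (hθ : θ ∈ IntFn C) : lin ε * θ ∈ IntFn C := by
  unfold IntFn at hθ ⊢
  induction hθ using AddSubgroup.closure_induction with
  | mem x hx =>
    obtain ⟨φ, rfl⟩ := hx
    rw [lin_mul]
    exact AddSubgroup.subset_closure ⟨_, rfl⟩
  | zero => rw [mul_zero]; exact zero_mem _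
  | add x y _ _ hx hy => rw [mul_add]; exact add_mem hx hy
  | neg x _ hx => rw [mul_neg]; exact neg_mem hx

/-- the dual subgroup (annihilator) of a subgroup -/
def perp (H : Subgroup C) : Subgroup (C →* ℂˣ) := (MonoidHom.domRestrictHom H ℂˣ).ker

theorem mem_perp (H : Subgroup C) (φ : C →* ℂˣ) : φ ∈ perp H ↔ ∀ h ∈ H, φ h = 1 := by
  unfold perp
  rw [MonoidHom.mem_ker, MonoidHom.domRestrictHom_apply, MonoidHom.domRestrict_eq_one_iff]

section fin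

variable [Fintype C]

theorem norm_lin (φ : C →* ℂˣ) (c : C) : ‖lin φ c‖ = 1 := by
  have h : (lin φ c) ^ (orderOf c) = 1 := by
    rw [lin_apply, ← Units.val_pow_eq_pow_val, ← map_pow, pow_orderOf_eq_one, map_one,
      Units.val_one]
  exact Complex.norm_eq_one_of_pow_eq_one h (orderOf_pos c).ne'

theorem conj_lin (φ : C →* ℂˣ) (c : C) : conj (lin φ c) = lin φ c⁻¹ := by
  rw [lin_apply, lin_apply, map_inv, Units.val_inv_eq_inv_val]
  exact (Complex.inv_eq_conj (norm_lin φ c)).symm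

/-- isotypic projection with respect to a subgroup -/
def proj (L : Subgroup C) (φ : C →* ℂˣ) (θ : C → ℂ) : C → ℂ :=
  fun c => (Nat.card L : ℂ)⁻¹ * ∑ l : L, lin φ (l : C)⁻¹ * θ (c * l)

theorem proj_zero (L : Subgroup C) (φ : C →* ℂˣ) : proj L φ 0 = 0 := by
  funext c
  simp [proj]

theorem proj_add (L : Subgroup C) (φ : C →* ℂˣ) (θ θ' : C → ℂ) :
    proj L φ (θ + θ') = proj L φ θ + proj L φ θ' := by
  funext c
  simp only [proj, Pi.add_apply, mul_add, Finset.sum_add_distrib]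

theorem proj_neg (L : Subgroup C) (φ : C →* ℂˣ) (θ : C → ℂ) :
    proj L φ (-θ) = - proj L φ θ := by
  funext c
  simp only [proj, Pi.neg_apply, mul_neg, Finset.sum_neg_distrib]

theorem proj_sub (L : Subgroup C) (φ : C →* ℂˣ) (θ θ' : C → ℂ) :
    proj L φ (θ - θ') = proj L φ θ - proj L φ θ' := by
  rw [sub_eq_add_neg, proj_add, proj_neg, ← sub_eq_add_neg]

theorem proj_lin (L : Subgroup C) (φ φ' : C →* ℂˣ) :
    proj L φ (lin φ') = if ∀ l ∈ L, φ' l = φ l then lin φ' else 0 := by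
  have hL : (Nat.card L : ℂ) ≠ 0 := by exact_mod_cast Nat.card_pos.ne'
  let ξ : L →* ℂˣ := (φ' * φ⁻¹).comp L.subtype
  have hterm : ∀ c : C, ∀ l : L,
      lin φ (l : C)⁻¹ * lin φ' (c * l) = lin φ' c * ((ξ l : ℂˣ) : ℂ) := by
    intro c l
    simp only [lin_apply, ξ, MonoidHom.comp_apply, Subgroup.coe_subtype, MonoidHom.mul_apply,
      MonoidHom.inv_apply, map_mul, map_inv, Units.val_mul]
    ring
  split_ifs with h
  · funext c
    have hξ : ∀ l : L, ((ξ l : ℂˣ) : ℂ) = 1 := by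
      intro l
      simp only [ξ, MonoidHom.comp_apply, Subgroup.coe_subtype, MonoidHom.mul_apply,
        MonoidHom.inv_apply]
      rw [h l l.2, mul_inv_cancel, Units.val_one]
    simp only [proj, hterm, hξ, mul_one, Finset.sum_const, Finset.card_univ, nsmul_eq_mul]
    rw [← Nat.card_eq_fintype_card]
    field_simp
  · funext c
    have hξ : ξ ≠ 1 := by
      intro h1
      apply h
      intro l hl
      have := congrArg (fun f : L →* ℂˣ => f ⟨l, hl⟩) h1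
      simp only [ξ, MonoidHom.comp_apply, Subgroup.coe_subtype, MonoidHom.mul_apply,
        MonoidHom.inv_apply, MonoidHom.one_apply] at this
      exact mul_inv_eq_one.1 this
    simp only [proj, hterm, ← Finset.mul_sum, bl_sum_hom ξ hξ, mul_zero, Pi.zero_apply]

theorem proj_mem (L : Subgroup C) (φ : C →* ℂˣ) {θ : C → ℂ} (hθ : θ ∈ IntFn C) :
    proj L φ θ ∈ IntFn C := by
  unfold IntFn at hθ ⊢
  induction hθ using AddSubgroup.closure_induction with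
  | mem x hx =>
    obtain ⟨φ', rfl⟩ := hx
    rw [proj_lin]
    split_ifs
    · exact AddSubgroup.subset_closure ⟨φ', rfl⟩
    · exact zero_mem _
  | zero => rw [proj_zero]; exact zero_mem _
  | add x y _ _ hx hy => rw [proj_add]; exact add_mem hx hy
  | neg x _ hx => rw [proj_neg]; exact neg_mem hx

theorem proj_lin_mul (L : Subgroup C) (φ ε : C →* ℂˣ) (θ : C → ℂ) :
    proj L φ (lin ε * θ) = lin ε * proj L (ε⁻¹ * φ) θ := by
  funext c
  simp only [proj, Pi.mul_apply]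
  rw [mul_left_comm (lin ε c)]
  refine congrArg (fun z : ℂ => (Nat.card L : ℂ)⁻¹ * z) ?_
  rw [Finset.mul_sum]
  refine Finset.sum_congr rfl fun l _ => ?_
  simp only [lin_apply, MonoidHom.mul_apply, MonoidHom.inv_apply, map_mul, map_inv, Units.val_mul,
    Units.val_inv_eq_inv_val]
  rw [mul_inv, inv_inv]
  ring

theorem proj_mul_of_trivial (L : Subgroup C) (φ lam : C →* ℂˣ) (h : ∀ l ∈ L, lam l = 1)
    (θ : C → ℂ) : proj L (lam * φ) θ = proj L φ θ := by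
  funext c
  simp only [proj]
  congr 1
  refine Finset.sum_congr rfl fun l _ => ?_
  simp only [lin_apply, MonoidHom.mul_apply, h _ (inv_mem l.2), one_mul]

theorem plancherel (hC : ∀ a b : C, a * b = b * a) [Fintype (C →* ℂˣ)] (L : Subgroup C)
    (θ : C → ℂ) (c : C) :
    ∑ φ : C →* ℂˣ, ‖proj L φ θ c‖ ^ 2 =
      (Nat.card C : ℝ) / (Nat.card L : ℝ) ^ 2 * ∑ l : L, ‖θ (c * l)‖ ^ 2 := by
  apply Complex.ofReal_injective
  push_cast
  simp only [← Complex.mul_conj']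
  have key : ∀ φ : C →* ℂˣ, proj L φ θ c * conj (proj L φ θ c) =
      ((Nat.card L : ℂ)⁻¹) ^ 2 * ∑ l : L, ∑ l' : L,
        (θ (c * l) * conj (θ (c * l'))) * lin φ ((l : C)⁻¹ * (l' : C)) := by
    intro φ
    simp only [proj]
    rw [map_mul, map_inv₀, Complex.conj_natCast, map_sum, mul_mul_mul_comm, ← sq,
      Finset.sum_mul_sum]
    congr 1
    refine Finset.sum_congr rfl fun l _ => Finset.sum_congr rfl fun l' _ => ?_
    rw [map_mul, conj_lin, inv_inv]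
    simp only [lin_apply, map_mul, Units.val_mul]
    ring
  simp only [key]
  rw [← Finset.mul_sum, Finset.sum_comm]
  have h2 : ∀ l : L, ∑ φ : C →* ℂˣ, ∑ l' : L,
      (θ (c * l) * conj (θ (c * l'))) * lin φ ((l : C)⁻¹ * (l' : C)) =
        (Nat.card C : ℂ) * (θ (c * l) * conj (θ (c * l))) := by
    intro l
    rw [Finset.sum_comm]
    have h3 : ∀ l' : L, ∑ φ : C →* ℂˣ,
        (θ (c * l) * conj (θ (c * l'))) * lin φ ((l : C)⁻¹ * (l' : C)) =
          (θ (c * l) * conj (θ (c * l'))) *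
            (if (l : C)⁻¹ * (l' : C) = 1 then (Nat.card C : ℂ) else 0) := by
      intro l'
      rw [← Finset.mul_sum]
      congr 1
      exact bl_sum_dual_ite hC _
    simp only [h3]
    rw [Finset.sum_eq_single l]
    · rw [if_pos (inv_mul_cancel _)]
      ring
    · intro l' _ hne
      rw [if_neg, mul_zero]
      intro h
      apply hne
      rw [inv_mul_eq_one] at h
      exact (Subtype.ext h).symm
    · intro h
      exact absurd (Finset.mem_univ _) h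
  simp only [h2]
  rw [← Finset.mul_sum]
  ring

theorem parseval (hC : ∀ a b : C, a * b = b * a) [Fintype (C →* ℂˣ)] (L : Subgroup C)
    (M : C → ℝ) (hM : ∀ c : C, ∀ l ∈ L, M (c * l) = M c) (θ : C → ℂ) :
    ∑ φ : C →* ℂˣ, ∑ c, M c * ‖proj L φ θ c‖ ^ 2 = (L.index : ℝ) * ∑ c, M c * ‖θ c‖ ^ 2 := by
  rw [Finset.sum_comm]
  simp only [← Finset.mul_sum, plancherel hC]
  have h1 : ∀ l : L, ∑ c, M c * ‖θ (c * l)‖ ^ 2 = ∑ c, M c * ‖θ c‖ ^ 2 := by
    intro l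
    refine Fintype.sum_equiv (Equiv.mulRight (l : C)) _ _ fun c => ?_
    simp only [Equiv.coe_mulRight]
    rw [hM c l l.2]
  have h2 : ∑ c, M c * ((Nat.card C : ℝ) / (Nat.card L : ℝ) ^ 2 * ∑ l : L, ‖θ (c * l)‖ ^ 2) =
      (Nat.card C : ℝ) / (Nat.card L : ℝ) ^ 2 * ∑ l : L, ∑ c, M c * ‖θ (c * l)‖ ^ 2 := by
    simp only [Finset.mul_sum]
    rw [Finset.sum_comm]
    refine Finset.sum_congr rfl fun l _ => Finset.sum_congr rfl fun c _ => ?_
    ring
  rw [h2]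
  simp only [h1, Finset.sum_const, Finset.card_univ, nsmul_eq_mul]
  have hL : (Nat.card L : ℝ) ≠ 0 := by exact_mod_cast Nat.card_pos.ne'
  have hidx : (Nat.card C : ℝ) = (Nat.card L : ℝ) * (L.index : ℝ) := by
    exact_mod_cast (Subgroup.card_mul_index L).symm
  rw [← Nat.card_eq_fintype_card, hidx]
  field_simp

theorem exists_proj_ne_zero (hC : ∀ a b : C, a * b = b * a) [Fintype (C →* ℂˣ)] (L : Subgroup C)
    {θ : C → ℂ} (h0 : θ ≠ 0) : ∃ φ : C →* ℂˣ, proj L φ θ ≠ 0 := by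
  by_contra hall
  push Not at hall
  apply h0
  funext c
  have h := plancherel hC L θ c
  simp only [hall, Pi.zero_apply, norm_zero, ne_eq, OfNat.ofNat_ne_zero, not_false_eq_true,
    zero_pow, Finset.sum_const_zero] at h
  have hpos : 0 < (Nat.card C : ℝ) / (Nat.card L : ℝ) ^ 2 :=
    div_pos (by exact_mod_cast Nat.card_pos) (pow_pos (by exact_mod_cast Nat.card_pos) 2)
  have hsum : ∑ l : L, ‖θ (c * l)‖ ^ 2 = 0 := by
    rcases mul_eq_zero.1 h.symm with h' | h'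
    · exact absurd h' hpos.ne'
    · exact h'
  have h1 := (Finset.sum_eq_zero_iff_of_nonneg (fun l _ => by positivity)).1 hsum (1 : L)
    (Finset.mem_univ _)
  simpa using h1

theorem inner_int {θ θ' : C → ℂ} (h : θ ∈ IntFn C) (h' : θ' ∈ IntFn C) :
    ∃ n : ℤ, ∑ c, θ c * conj (θ' c) = (n : ℂ) * (Nat.card C : ℂ) := by
  unfold IntFn at h h'
  induction h using AddSubgroup.closure_induction with
  | mem x hx =>
    obtain ⟨φ, rfl⟩ := hx
    induction h' using AddSubgroup.closure_induction with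
    | mem y hy =>
      obtain ⟨φ', rfl⟩ := hy
      have h1 : ∀ c, lin φ c * conj (lin φ' c) = (((φ * φ'⁻¹) c : ℂˣ) : ℂ) := by
        intro c
        rw [conj_lin]
        simp [lin]
      simp only [h1]
      by_cases hφ : φ * φ'⁻¹ = 1
      · refine ⟨1, ?_⟩
        rw [hφ]
        simp [Nat.card_eq_fintype_card]
      · refine ⟨0, ?_⟩
        rw [bl_sum_hom _ hφ]
        simp
    | zero => exact ⟨0, by simp⟩
    | add y z _ _ hy hz =>
      obtain ⟨n, hn⟩ := hy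
      obtain ⟨m, hm⟩ := hz
      refine ⟨n + m, ?_⟩
      simp only [Pi.add_apply, map_add, mul_add, Finset.sum_add_distrib, hn, hm]
      push_cast
      ring
    | neg y _ hy =>
      obtain ⟨n, hn⟩ := hy
      refine ⟨-n, ?_⟩
      simp only [Pi.neg_apply, map_neg, mul_neg, Finset.sum_neg_distrib, hn]
      push_cast
      ring
  | zero => exact ⟨0, by simp⟩
  | add x y _ _ hx hy =>
    obtain ⟨n, hn⟩ := hx
    obtain ⟨m, hm⟩ := hy
    refine ⟨n + m, ?_⟩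
    simp only [Pi.add_apply, add_mul, Finset.sum_add_distrib, hn, hm]
    push_cast
    ring
  | neg x _ hx =>
    obtain ⟨n, hn⟩ := hx
    refine ⟨-n, ?_⟩
    simp only [Pi.neg_apply, neg_mul, Finset.sum_neg_distrib, hn]
    push_cast
    ring

theorem base_good {θ : C → ℂ} (h : θ ∈ IntFn C) (h0 : θ ≠ 0) :
    (Nat.card C : ℝ) ≤ ∑ c, ‖θ c‖ ^ 2 := by
  obtain ⟨n, hn⟩ := inner_int h h
  have hsq : ∑ c, θ c * conj (θ c) = ((∑ c, ‖θ c‖ ^ 2 : ℝ) : ℂ) := by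
    push_cast
    refine Finset.sum_congr rfl fun c _ => ?_
    rw [Complex.mul_conj']
  rw [hsq] at hn
  have hn' : (∑ c, ‖θ c‖ ^ 2 : ℝ) = (n : ℝ) * (Nat.card C : ℝ) := by
    apply Complex.ofReal_injective
    rw [hn]
    push_cast
    rfl
  have hpos : 0 < ∑ c, ‖θ c‖ ^ 2 := by
    obtain ⟨c, hc⟩ : ∃ c, θ c ≠ 0 := by
      by_contra hall
      push Not at hall
      exact h0 (funext hall)
    exact lt_of_lt_of_le (by positivity)
      (Finset.single_le_sum (f := fun c => ‖θ c‖ ^ 2) (fun i _ => by positivity)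
        (Finset.mem_univ c))
  have hCpos : (0 : ℝ) < Nat.card C := by exact_mod_cast Nat.card_pos
  rw [hn'] at hpos ⊢
  have hn0 : 0 < n := by
    by_contra hneg
    push Not at hneg
    have : (n : ℝ) ≤ 0 := by exact_mod_cast hneg
    nlinarith
  have hn1 : (1 : ℝ) ≤ n := by exact_mod_cast hn0
  nlinarith

theorem card_perp (hC : ∀ a b : C, a * b = b * a) (H : Subgroup C) :
    Nat.card ↥(perp H) = H.index := by
  let _ : CommGroup C := { ‹Group C› with mul_comm := hC }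
  have hne : (Monoid.exponent C : ℂ) ≠ 0 := by
    exact_mod_cast Monoid.exponent_ne_zero_of_finite
  have : NeZero ((Monoid.exponent C : ℕ) : ℂ) := ⟨hne⟩
  exact CommGroup.card_domRestrictHom_ker ℂ H

theorem perp_anti {H K : Subgroup C} (h : H ≤ K) : perp K ≤ perp H := by
  intro φ hφ
  rw [mem_perp] at hφ ⊢
  exact fun x hx => hφ x (h hx)

theorem perp_inf_le (hC : ∀ a b : C, a * b = b * a) (H K : Subgroup C) :
    perp (H ⊓ K) ≤ perp H ⊔ perp K := by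
  let _ : CommGroup C := { ‹Group C› with mul_comm := hC }
  have hne : (Monoid.exponent C : ℂ) ≠ 0 := by
    exact_mod_cast Monoid.exponent_ne_zero_of_finite
  have : NeZero ((Monoid.exponent C : ℕ) : ℂ) := ⟨hne⟩
  have h := (CommGroup.subgroupOrderIsoSubgroupMonoidHom C ℂ).map_inf H K
  have h' := congrArg OrderDual.ofDual h
  exact le_of_eq h'

theorem sum_perp_lin (hC : ∀ a b : C, a * b = b * a) [Fintype (C →* ℂˣ)] (K : Subgroup C)
    {c : C} (hc : c ∉ K) : ∑ ε : ↥(perp K), lin (ε : C →* ℂˣ) c = 0 := by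
  let _ : CommGroup C := { ‹Group C› with mul_comm := hC }
  have hne : (Monoid.exponent C : ℂ) ≠ 0 := by
    exact_mod_cast Monoid.exponent_ne_zero_of_finite
  have : NeZero ((Monoid.exponent C : ℕ) : ℂ) := ⟨hne⟩
  have h1 : ¬ ∀ φ : C →* ℂˣ, (∀ y ∈ K, φ y = 1) → φ c = 1 := by
    rw [CommGroup.forall_monoidHom_apply_eq_one_iff ℂ K c]
    exact hc
  push Not at h1
  obtain ⟨ε₀, hε₀, hε₀c⟩ := h1
  let e0 : ↥(perp K) := ⟨ε₀, (mem_perp K ε₀).2 hε₀⟩
  have h2 : ∑ ε : ↥(perp K), lin (ε : C →* ℂˣ) c =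
      lin ε₀ c * ∑ ε : ↥(perp K), lin (ε : C →* ℂˣ) c := by
    rw [Finset.mul_sum]
    exact (Fintype.sum_equiv (Equiv.mulLeft e0)
      (fun ε : ↥(perp K) => lin ε₀ c * lin (ε : C →* ℂˣ) c)
      (fun ε : ↥(perp K) => lin (ε : C →* ℂˣ) c) (fun ε => by simp [lin, e0])).symm
  have h3 : (1 - lin ε₀ c) * ∑ ε : ↥(perp K), lin (ε : C →* ℂˣ) c = 0 := by
    rw [sub_mul, one_mul, ← h2, sub_self]
  rcases mul_eq_zero.1 h3 with h4 | h4
  · exfalso
    apply hε₀c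
    apply Units.ext
    rw [Units.val_one]
    exact (sub_eq_zero.1 h4).symm
  · exact h4

theorem sum_perp_norm (hC : ∀ a b : C, a * b = b * a) [Fintype (C →* ℂˣ)] (K : Subgroup C)
    (c : C) :
    ∑ ε : ↥(perp K), ‖1 - lin (ε : C →* ℂˣ) c‖ ^ 2 =
      if c ∈ K then 0 else 2 * (K.index : ℝ) := by
  have hn : ∀ z : ℂ, ‖z‖ = 1 → ‖1 - z‖ ^ 2 = 2 - 2 * z.re := by
    intro z hz
    have h1 : z.re * z.re + z.im * z.im = 1 := by
      have h := Complex.sq_norm z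
      rw [hz, Complex.normSq_apply] at h
      linarith
    rw [Complex.sq_norm, Complex.normSq_apply]
    simp only [Complex.sub_re, Complex.one_re, Complex.sub_im, Complex.one_im]
    nlinarith
  split_ifs with hc
  · apply Finset.sum_eq_zero
    intro ε _
    have h1 : lin (ε : C →* ℂˣ) c = 1 := by
      rw [lin_apply, (mem_perp K _).1 ε.2 c hc, Units.val_one]
    rw [h1, sub_self, norm_zero]
    norm_num
  · simp only [hn _ (norm_lin _ c)]
    rw [Finset.sum_sub_distrib, ← Finset.mul_sum, ← Complex.re_sum, sum_perp_lin hC K hc]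
    simp only [Finset.sum_const, Finset.card_univ, nsmul_eq_mul, Complex.zero_re, mul_zero,
      sub_zero]
    rw [← Nat.card_eq_fintype_card, card_perp hC K]
    ring

theorem count_lemma [Fintype (C →* ℂˣ)] (Λ E : Subgroup (C →* ℂˣ)) (S : Set (C →* ℂˣ))
    (hS : ∀ lam ∈ Λ, ∀ φ ∈ S, lam * φ ∈ S) (φ₀ : C →* ℂˣ) (hφ₀ : φ₀ ∈ S) :
    Nat.card ↥(Λ ⊔ E) ≤ Nat.card {φ : C →* ℂˣ // φ ∈ S} +
      Nat.card {q : ↥E × (C →* ℂˣ) // q.2 ∈ S ∧ (q.1 : C →* ℂˣ)⁻¹ * q.2 ∉ S} := by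
  rw [← Nat.card_sum]
  have hdec : ∀ π : ↥(Λ ⊔ E), ∃ y ∈ Λ, ∃ z ∈ E, y * z = (π : C →* ℂˣ) :=
    fun π => Subgroup.mem_sup.1 π.2
  choose y hy z hz hyz using hdec
  have hprop : ∀ π : ↥(Λ ⊔ E), φ₀ * (π : C →* ℂˣ) ∉ S →
      (y π * φ₀) ∈ S ∧ (((⟨z π, hz π⟩ : ↥E)⁻¹ : ↥E) : C →* ℂˣ)⁻¹ * (y π * φ₀) ∉ S := by
    intro π h
    refine ⟨hS _ (hy π) _ hφ₀, ?_⟩
    intro hmem
    apply h
    have h1 : (((⟨z π, hz π⟩ : ↥E)⁻¹ : ↥E) : C →* ℂˣ)⁻¹ * (y π * φ₀) = φ₀ * (π : C →* ℂˣ) := by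
      have e1 : (((⟨z π, hz π⟩ : ↥E)⁻¹ : ↥E) : C →* ℂˣ)⁻¹ = z π := by
        rw [Subgroup.coe_inv]
        exact inv_inv (z π)
      rw [e1, ← hyz π]
      calc z π * (y π * φ₀) = (y π * φ₀) * z π := mul_comm (z π) (y π * φ₀)
        _ = y π * (φ₀ * z π) := mul_assoc (y π) φ₀ (z π)
        _ = y π * (z π * φ₀) := congrArg (fun t => y π * t) (mul_comm φ₀ (z π))
        _ = (y π * z π) * φ₀ := (mul_assoc (y π) (z π) φ₀).symm
        _ = φ₀ * (y π * z π) := mul_comm (y π * z π) φ₀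
    rwa [h1] at hmem
  let F : ↥(Λ ⊔ E) → {φ : C →* ℂˣ // φ ∈ S} ⊕
      {q : ↥E × (C →* ℂˣ) // q.2 ∈ S ∧ (q.1 : C →* ℂˣ)⁻¹ * q.2 ∉ S} :=
    fun π => if h : φ₀ * (π : C →* ℂˣ) ∈ S then Sum.inl ⟨φ₀ * π, h⟩
      else Sum.inr ⟨((⟨z π, hz π⟩ : ↥E)⁻¹, y π * φ₀), hprop π h⟩
  refine Nat.card_le_card_of_injective F ?_
  intro π π' hππ'
  simp only [F] at hππ'
  by_cases h : φ₀ * (π : C →* ℂˣ) ∈ S <;> by_cases h' : φ₀ * (π' : C →* ℂˣ) ∈ S
  · rw [dif_pos h, dif_pos h'] at hππ'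
    have h1 := congrArg Subtype.val (Sum.inl.inj hππ')
    exact Subtype.ext (mul_left_cancel h1)
  · rw [dif_pos h, dif_neg h'] at hππ'
    exact absurd hππ' (by simp)
  · rw [dif_neg h, dif_pos h'] at hππ'
    exact absurd hππ' (by simp)
  · rw [dif_neg h, dif_neg h'] at hππ'
    have h1 := congrArg Subtype.val (Sum.inr.inj hππ')
    have h2 : z π = z π' := by
      have h3 : ((⟨z π, hz π⟩ : ↥E)⁻¹ : ↥E) = (⟨z π', hz π'⟩ : ↥E)⁻¹ := congrArg Prod.fst h1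
      exact congrArg Subtype.val (inv_injective h3)
    have h3 : y π = y π' := by
      have h4 := congrArg (fun q : ↥E × (C →* ℂˣ) => q.2) h1
      exact mul_right_cancel h4
    apply Subtype.ext
    rw [← hyz π, ← hyz π', h2, h3]

/-- the step lemma -/
theorem step (hC : ∀ a b : C, a * b = b * a) (M : C → ℝ) (hM0 : ∀ c, 0 ≤ M c)
    (L K : Subgroup C) (hML : ∀ c : C, ∀ l ∈ L, M (c * l) = M c)
    (κ : ℝ) (hκ : 0 ≤ κ)
    (hgood : ∀ θ ∈ IntFn C, θ ≠ 0 → κ ≤ ∑ c, M c * ‖θ c‖ ^ 2)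
    (w : C → ℝ) (hw1 : ∀ c, 1 ≤ w c) (hw2 : ∀ c, c ∉ K → (1 : ℝ) + K.index ≤ w c)
    {θ : C → ℂ} (hθ : θ ∈ IntFn C) (h0 : θ ≠ 0) :
    κ * (Nat.card ↥(perp L ⊔ perp K) : ℝ) ≤ (L.index : ℝ) * ∑ c, w c * M c * ‖θ c‖ ^ 2 := by
  have hfin : Finite (C →* ℂˣ) :=
    Nat.finite_of_card_ne_zero (by rw [bl_card_dual hC]; exact Nat.card_pos.ne')
  have : Fintype (C →* ℂˣ) := Fintype.ofFinite _
  have hBnn : ∀ η : C → ℂ, 0 ≤ ∑ c, M c * ‖η c‖ ^ 2 :=
    fun η => Finset.sum_nonneg fun c _ => mul_nonneg (hM0 c) (by positivity)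
  -- pointwise weight bound
  have hw : ∀ c, 1 + (1 / 2 : ℝ) * ∑ ε : ↥(perp K), ‖1 - lin (ε : C →* ℂˣ) c‖ ^ 2 ≤ w c := by
    intro c
    rw [sum_perp_norm hC K c]
    split_ifs with hc
    · simpa using hw1 c
    · have h := hw2 c hc
      linarith
  have h2 : (∑ c, M c * ‖θ c‖ ^ 2) + (1 / 2 : ℝ) * ∑ ε : ↥(perp K),
      ∑ c, M c * ‖(θ - lin (ε : C →* ℂˣ) * θ) c‖ ^ 2 ≤ ∑ c, w c * M c * ‖θ c‖ ^ 2 := by
    have h2a : ∀ c, M c * ‖θ c‖ ^ 2 + (1 / 2 : ℝ) * ∑ ε : ↥(perp K),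
        M c * ‖(θ - lin (ε : C →* ℂˣ) * θ) c‖ ^ 2 ≤ w c * M c * ‖θ c‖ ^ 2 := by
      intro c
      have h3 : ∀ ε : ↥(perp K), M c * ‖(θ - lin (ε : C →* ℂˣ) * θ) c‖ ^ 2 =
          ‖1 - lin (ε : C →* ℂˣ) c‖ ^ 2 * (M c * ‖θ c‖ ^ 2) := by
        intro ε
        have h4 : (θ - lin (ε : C →* ℂˣ) * θ) c = (1 - lin (ε : C →* ℂˣ) c) * θ c := by
          simp only [Pi.sub_apply, Pi.mul_apply]
          ring
        rw [h4, norm_mul]
        ring
      simp only [h3]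
      rw [← Finset.sum_mul]
      have hnn : 0 ≤ M c * ‖θ c‖ ^ 2 := mul_nonneg (hM0 c) (by positivity)
      have h5 := mul_le_mul_of_nonneg_right (hw c) hnn
      linarith
    calc (∑ c, M c * ‖θ c‖ ^ 2) + (1 / 2 : ℝ) * ∑ ε : ↥(perp K),
          ∑ c, M c * ‖(θ - lin (ε : C →* ℂˣ) * θ) c‖ ^ 2
        = ∑ c, (M c * ‖θ c‖ ^ 2 + (1 / 2 : ℝ) * ∑ ε : ↥(perp K),
            M c * ‖(θ - lin (ε : C →* ℂˣ) * θ) c‖ ^ 2) := by
          rw [Finset.sum_add_distrib, ← Finset.mul_sum, Finset.sum_comm]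
      _ ≤ _ := Finset.sum_le_sum fun c _ => h2a c
  -- Parseval
  have hP : ∀ η : C → ℂ, ∑ φ : C →* ℂˣ, ∑ c, M c * ‖proj L φ η c‖ ^ 2 =
      (L.index : ℝ) * ∑ c, M c * ‖η c‖ ^ 2 := fun η => parseval hC L M hML η
  let S : Set (C →* ℂˣ) := {φ | proj L φ θ ≠ 0}
  have hb1 : ∀ φ : C →* ℂˣ, (if φ ∈ S then κ else 0) ≤ ∑ c, M c * ‖proj L φ θ c‖ ^ 2 := by
    intro φ
    split_ifs with h
    · exact hgood _ (proj_mem L φ hθ) h
    · exact hBnn _
  have hb2 : ∀ (ε : ↥(perp K)) (φ : C →* ℂˣ),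
      (if φ ∈ S ∧ (ε : C →* ℂˣ)⁻¹ * φ ∉ S then κ else 0) +
        (if φ ∉ S ∧ (ε : C →* ℂˣ)⁻¹ * φ ∈ S then κ else 0) ≤
          ∑ c, M c * ‖proj L φ (θ - lin (ε : C →* ℂˣ) * θ) c‖ ^ 2 := by
    intro ε φ
    have hmem : proj L φ (θ - lin (ε : C →* ℂˣ) * θ) ∈ IntFn C :=
      proj_mem L φ (sub_mem hθ (lin_mul_mem _ hθ))
    have hform : proj L φ (θ - lin (ε : C →* ℂˣ) * θ) =
        proj L φ θ - lin (ε : C →* ℂˣ) * proj L ((ε : C →* ℂˣ)⁻¹ * φ) θ := by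
      rw [proj_sub, proj_lin_mul]
    by_cases h1 : φ ∈ S
    · by_cases h2 : (ε : C →* ℂˣ)⁻¹ * φ ∈ S
      · rw [if_neg (fun h => h.2 h2), if_neg (fun h => h.1 h1), add_zero]
        exact hBnn _
      · have hne : proj L φ (θ - lin (ε : C →* ℂˣ) * θ) ≠ 0 := by
          rw [hform]
          have h2' : proj L ((ε : C →* ℂˣ)⁻¹ * φ) θ = 0 := by
            by_contra h
            exact h2 h
          rw [h2', mul_zero, sub_zero]
          exact h1
        rw [if_pos ⟨h1, h2⟩, if_neg (fun h => h.1 h1), add_zero]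
        exact hgood _ hmem hne
    · by_cases h2 : (ε : C →* ℂˣ)⁻¹ * φ ∈ S
      · have hne : proj L φ (θ - lin (ε : C →* ℂˣ) * θ) ≠ 0 := by
          rw [hform]
          have h1' : proj L φ θ = 0 := by
            by_contra h
            exact h1 h
          rw [h1', zero_sub, neg_ne_zero]
          intro h
          apply h2
          funext c
          have h3 := congrFun h c
          simp only [Pi.mul_apply, Pi.zero_apply] at h3
          exact (mul_eq_zero.1 h3).resolve_left (lin_ne_zero _ c)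
        rw [if_neg (fun h => h1 h.1), if_pos ⟨h1, h2⟩, zero_add]
        exact hgood _ hmem hne
      · rw [if_neg (fun h => h1 h.1), if_neg (fun h => h2 h.2), add_zero]
        exact hBnn _
  -- the two mixed sums agree
  have hT2 : ∑ ε : ↥(perp K), ∑ φ : C →* ℂˣ,
      (if φ ∉ S ∧ (ε : C →* ℂˣ)⁻¹ * φ ∈ S then κ else 0) =
      ∑ ε : ↥(perp K), ∑ φ : C →* ℂˣ,
        (if φ ∈ S ∧ (ε : C →* ℂˣ)⁻¹ * φ ∉ S then κ else 0) := by
    refine Fintype.sum_equiv (Equiv.inv ↥(perp K)) _ _ fun ε => ?_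
    refine Fintype.sum_equiv (Equiv.mulLeft ((ε : C →* ℂˣ)⁻¹)) _ _ fun φ => ?_
    simp only [Equiv.inv_apply, Equiv.coe_mulLeft, Subgroup.coe_inv]
    have e : ((ε : C →* ℂˣ)⁻¹)⁻¹ * ((ε : C →* ℂˣ)⁻¹ * φ) = φ :=
      inv_mul_cancel_left ((ε : C →* ℂˣ)⁻¹) φ
    rw [e]
    exact if_congr and_comm rfl rfl
  -- counting
  obtain ⟨φ₀, hφ₀⟩ := exists_proj_ne_zero hC L h0
  have hcount := count_lemma (perp L) (perp K) S (fun lam hlam φ hφ => by
    show proj L (lam * φ) θ ≠ 0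
    rw [proj_mul_of_trivial L φ lam ((mem_perp L lam).1 hlam)]
    exact hφ) φ₀ hφ₀
  have hT1 : ∑ φ : C →* ℂˣ, (if φ ∈ S then κ else 0) =
      (Nat.card {φ : C →* ℂˣ // φ ∈ S} : ℝ) * κ := by
    rw [← Finset.sum_filter, Finset.sum_const, nsmul_eq_mul, Nat.card_eq_fintype_card,
      Fintype.card_subtype]
  have hT2' : ∑ ε : ↥(perp K), ∑ φ : C →* ℂˣ,
      (if φ ∈ S ∧ (ε : C →* ℂˣ)⁻¹ * φ ∉ S then κ else 0) =
      (Nat.card {q : ↥(perp K) × (C →* ℂˣ) // q.2 ∈ S ∧ (q.1 : C →* ℂˣ)⁻¹ * q.2 ∉ S} : ℝ) * κ := by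
    rw [← Fintype.sum_prod_type' (fun (ε : ↥(perp K)) (φ : C →* ℂˣ) =>
      (if φ ∈ S ∧ (ε : C →* ℂˣ)⁻¹ * φ ∉ S then κ else 0)),
      ← Finset.sum_filter, Finset.sum_const, nsmul_eq_mul, Nat.card_eq_fintype_card,
      Fintype.card_subtype]
  have hcount' : κ * (Nat.card ↥(perp L ⊔ perp K) : ℝ) ≤
      (Nat.card {φ : C →* ℂˣ // φ ∈ S} : ℝ) * κ +
      (Nat.card {q : ↥(perp K) × (C →* ℂˣ) // q.2 ∈ S ∧ (q.1 : C →* ℂˣ)⁻¹ * q.2 ∉ S} : ℝ) * κ := by
    have h : (Nat.card ↥(perp L ⊔ perp K) : ℝ) ≤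
        (Nat.card {φ : C →* ℂˣ // φ ∈ S} : ℝ) +
        (Nat.card {q : ↥(perp K) × (C →* ℂˣ) // q.2 ∈ S ∧ (q.1 : C →* ℂˣ)⁻¹ * q.2 ∉ S} : ℝ) := by
      exact_mod_cast hcount
    nlinarith
  -- assemble
  have hidx : (0 : ℝ) ≤ L.index := Nat.cast_nonneg _
  have h6 : (L.index : ℝ) * ((∑ c, M c * ‖θ c‖ ^ 2) + (1 / 2 : ℝ) * ∑ ε : ↥(perp K),
      ∑ c, M c * ‖(θ - lin (ε : C →* ℂˣ) * θ) c‖ ^ 2) =
      (∑ φ : C →* ℂˣ, ∑ c, M c * ‖proj L φ θ c‖ ^ 2) + (1 / 2 : ℝ) * ∑ ε : ↥(perp K),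
        ∑ φ : C →* ℂˣ, ∑ c, M c * ‖proj L φ (θ - lin (ε : C →* ℂˣ) * θ) c‖ ^ 2 := by
    simp only [hP]
    rw [← Finset.mul_sum]
    ring
  have h7 : (∑ φ : C →* ℂˣ, (if φ ∈ S then κ else 0)) ≤
      ∑ φ : C →* ℂˣ, ∑ c, M c * ‖proj L φ θ c‖ ^ 2 := Finset.sum_le_sum fun φ _ => hb1 φ
  have h8 : (∑ ε : ↥(perp K), ∑ φ : C →* ℂˣ,
      (if φ ∈ S ∧ (ε : C →* ℂˣ)⁻¹ * φ ∉ S then κ else 0)) +
      (∑ ε : ↥(perp K), ∑ φ : C →* ℂˣ,
      (if φ ∉ S ∧ (ε : C →* ℂˣ)⁻¹ * φ ∈ S then κ else 0)) ≤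
      ∑ ε : ↥(perp K), ∑ φ : C →* ℂˣ,
        ∑ c, M c * ‖proj L φ (θ - lin (ε : C →* ℂˣ) * θ) c‖ ^ 2 := by
    rw [← Finset.sum_add_distrib]
    refine Finset.sum_le_sum fun ε _ => ?_
    rw [← Finset.sum_add_distrib]
    exact Finset.sum_le_sum fun φ _ => hb2 ε φ
  have h9 := mul_le_mul_of_nonneg_left h2 hidx
  rw [h6] at h9
  rw [hT2] at h8
  rw [hT1] at h7
  rw [hT2'] at h8
  linarith

end fin

end

end Cfsg.Agent.Lib.Helper82.KA
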