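import Mathlib
import Cfsg.Agent.Lib.Helper82.KALattice

/-!
The lattice estimate for a finite abelian group acting faithfully and coprimely on an
elementary abelian group, by induction along a chain of invariant subgroups.
-/

set_option autoImplicit false

namespace Cfsg.Agent.Lib.Helper82.KA

open Classical

theorem cg5 {α : Type*} [CommGroup α] (x y a b : α) :
    x * y * (a * b)⁻¹ = x * a⁻¹ * (y * b⁻¹) := by
  rw [mul_inv]
  exact mul_mul_mul_comm x y a⁻¹ b⁻¹

noncomputable section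

variable {C A : Type*} [Group C] [Group A]

/-- fixed points of an automorphism -/
def fixS (act : C →* MulAut A) (c : C) : Subgroup A where
  carrier := {a | act c a = a}
  mul_mem' := by
    intro a b ha hb
    simp only [Set.mem_setOf_eq] at ha hb ⊢
    rw [map_mul, ha, hb]
  one_mem' := map_one _
  inv_mem' := by
    intro a ha
    simp only [Set.mem_setOf_eq] at ha ⊢
    rw [map_inv, ha]

theorem mem_fixS (act : C →* MulAut A) (c : C) (a : A) : a ∈ fixS act c ↔ act c a = a := Iff.rfl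

/-- the kernel of the action on a subgroup -/
def kerOn (act : C →* MulAut A) (U : Subgroup A) : Subgroup C where
  carrier := {c | ∀ u ∈ U, act c u = u}
  mul_mem' := by
    intro c d hc hd u hu
    rw [map_mul, MulAut.mul_apply, hd u hu, hc u hu]
  one_mem' := by
    intro u _
    rw [map_one, MulAut.one_apply]
  inv_mem' := by
    intro c hc u hu
    rw [map_inv, MulAut.inv_apply]
    exact (MulEquiv.symm_apply_eq _).2 (hc u hu).symm

theorem mem_kerOn (act : C →* MulAut A) (U : Subgroup A) (c : C) :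
    c ∈ kerOn act U ↔ ∀ u ∈ U, act c u = u := Iff.rfl

/-- the inductive statement -/
def ChainP [Fintype C] (act : C →* MulAut A) (U : Subgroup A) : Prop :=
  ∀ θ ∈ IntFn C, θ ≠ 0 →
    (Nat.card C : ℝ) * (Nat.card ↥(perp (kerOn act U)) : ℝ) ≤
      ∑ c, (Nat.card U : ℝ) / (Nat.card ↥(U ⊓ fixS act c) : ℝ) * ‖θ c‖ ^ 2

theorem chain_base [Fintype C] (hC : ∀ a b : C, a * b = b * a) (act : C →* MulAut A) :
    ChainP act (⊥ : Subgroup A) := by
  intro θ hθ h0
  have h1 : kerOn act (⊥ : Subgroup A) = ⊤ := by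
    ext c
    simp only [mem_kerOn, Subgroup.mem_bot, Subgroup.mem_top, iff_true]
    intro u hu
    rw [hu, map_one]
  rw [h1, card_perp hC, Subgroup.index_top]
  have h2 : ∀ c : C, (Nat.card (⊥ : Subgroup A) : ℝ) /
      (Nat.card ↥((⊥ : Subgroup A) ⊓ fixS act c) : ℝ) * ‖θ c‖ ^ 2 = ‖θ c‖ ^ 2 := by
    intro c
    rw [bot_inf_eq, Subgroup.card_bot]
    simp
  simp only [h2]
  simpa using base_good hθ h0

theorem chain_step [Fintype C] [Finite A] (hC : ∀ a b : C, a * b = b * a)
    (hA : ∀ a b : A, a * b = b * a) (act : C →* MulAut A) (p : ℕ) (hAp : ∀ a : A, a ^ p = 1)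
    (hCp : Nat.Coprime (Nat.card C) p) (U U' : Subgroup A) (hlt : U' < U)
    (hU : ∀ c : C, ∀ u ∈ U, act c u ∈ U) (hU' : ∀ c : C, ∀ u ∈ U', act c u ∈ U')
    (hmax : ∀ W : Subgroup A, (∀ c : C, ∀ u ∈ W, act c u ∈ W) → U' ≤ W → W ≤ U →
      W = U' ∨ W = U)
    (hP : ChainP act U') : ChainP act U := by
  have hle : U' ≤ U := hlt.le
  obtain ⟨u₀, hu₀U, hu₀⟩ : ∃ u₀ ∈ U, u₀ ∉ U' := SetLike.exists_of_lt hlt
  have hcomm : ∀ (c d : C) (a : A), act c (act d a) = act d (act c a) := by
    intro c d a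
    rw [← MulAut.mul_apply, ← MulAut.mul_apply, ← map_mul, ← map_mul, hC c d]
  -- the displacement homomorphism
  let δ : C → A →* A := fun c =>
    { toFun := fun a => act c a * a⁻¹
      map_one' := by simp
      map_mul' := by
        intro a b
        letI : CommGroup A := { ‹Group A› with mul_comm := hA }
        rw [map_mul]
        exact cg5 (act c a) (act c b) a b }
  have hδ : ∀ (c : C) (a : A), δ c a = act c a * a⁻¹ := fun c a => rfl
  have hF_inv : ∀ c d : C, ∀ u ∈ U ⊓ U'.comap (δ c), act d u ∈ U ⊓ U'.comap (δ c) := by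
    intro c d u hu
    refine ⟨hU d u hu.1, ?_⟩
    show δ c (act d u) ∈ U'
    have h1 : δ c (act d u) = act d (δ c u) := by
      rw [hδ, hδ, hcomm c d u, map_mul, map_inv]
    rw [h1]
    exact hU' d _ hu.2
  have hF_ge : ∀ c : C, U' ≤ U ⊓ U'.comap (δ c) := by
    intro c u hu
    exact ⟨hle hu, U'.mul_mem (hU' c u hu) (U'.inv_mem hu)⟩
  have hF : ∀ c : C, U ⊓ U'.comap (δ c) = U' ∨ U ⊓ U'.comap (δ c) = U :=
    fun c => hmax _ (hF_inv c) (hF_ge c) inf_le_left
  let K : Subgroup C :=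
    { carrier := {c | ∀ u ∈ U, act c u * u⁻¹ ∈ U'}
      mul_mem' := by
        intro c d hc hd u hu
        have h1 : act (c * d) u * u⁻¹ = (act c (act d u) * (act d u)⁻¹) * (act d u * u⁻¹) := by
          rw [map_mul, MulAut.mul_apply]
          group
        rw [h1]
        exact U'.mul_mem (hc _ (hU d u hu)) (hd u hu)
      one_mem' := by
        intro u _
        rw [map_one, MulAut.one_apply, mul_inv_cancel]
        exact U'.one_mem
      inv_mem' := by
        intro c hc u hu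
        have h1 := hc (act c⁻¹ u) (hU c⁻¹ u hu)
        have h2 : act c (act c⁻¹ u) = u := by
          rw [← MulAut.mul_apply, ← map_mul, mul_inv_cancel, map_one, MulAut.one_apply]
        rw [h2] at h1
        have h3 := U'.inv_mem h1
        rwa [mul_inv_rev, inv_inv] at h3 }
  have hK_mem : ∀ c : C, c ∈ K ↔ ∀ u ∈ U, act c u * u⁻¹ ∈ U' := fun c => Iff.rfl
  have hK_F : ∀ c : C, c ∉ K → U ⊓ U'.comap (δ c) = U' := by
    intro c hc
    rcases hF c with h | h
    · exact h
    · exfalso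
      apply hc
      intro u hu
      have h1 : u ∈ U ⊓ U'.comap (δ c) := by
        rw [h]
        exact hu
      exact h1.2
  have hfix_eq : ∀ c : C, c ∉ K → U ⊓ fixS act c = U' ⊓ fixS act c := by
    intro c hc
    apply le_antisymm
    · intro u hu
      refine ⟨?_, hu.2⟩
      have h1 : u ∈ U ⊓ U'.comap (δ c) := by
        refine ⟨hu.1, ?_⟩
        show act c u * u⁻¹ ∈ U'
        rw [(mem_fixS act c u).1 hu.2, mul_inv_cancel]
        exact U'.one_mem
      rw [hK_F c hc] at h1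
      exact h1
    · exact inf_le_inf_right _ hle
  -- cardinalities
  have hr0 : U'.relIndex U ≠ 0 := Subgroup.index_ne_zero_of_finite
  have hcardU : Nat.card U = Nat.card U' * U'.relIndex U := by
    have h1 := Subgroup.relIndex_mul_relIndex (⊥ : Subgroup A) U' U bot_le hle
    rw [Subgroup.relIndex_bot_left, Subgroup.relIndex_bot_left] at h1
    exact h1.symm
  have hcard_fix : ∀ c : C, Nat.card ↥(U ⊓ fixS act c) * Nat.card U' ≤
      Nat.card ↥(U' ⊓ fixS act c) * Nat.card U := by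
    intro c
    have hHU : U ⊓ fixS act c ≤ U := inf_le_left
    have e1 : U' ⊓ fixS act c = (U ⊓ fixS act c) ⊓ U' := by
      rw [inf_assoc, inf_comm (fixS act c), ← inf_assoc, inf_eq_right.2 hle]
    rw [e1]
    have h1 := Subgroup.relIndex_mul_relIndex (⊥ : Subgroup A) ((U ⊓ fixS act c) ⊓ U')
      (U ⊓ fixS act c) bot_le inf_le_left
    rw [Subgroup.relIndex_bot_left, Subgroup.relIndex_bot_left, Subgroup.inf_relIndex_left] at h1
    have h2 : U'.relIndex (U ⊓ fixS act c) ≤ U'.relIndex U :=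
      Subgroup.relIndex_le_of_le_right hHU hr0
    rw [← h1, hcardU]
    calc Nat.card ↥((U ⊓ fixS act c) ⊓ U') * U'.relIndex (U ⊓ fixS act c) * Nat.card U'
        ≤ Nat.card ↥((U ⊓ fixS act c) ⊓ U') * U'.relIndex U * Nat.card U' := by gcongr
      _ = Nat.card ↥((U ⊓ fixS act c) ⊓ U') * (Nat.card U' * U'.relIndex U) := by ring
  -- the index of K
  have hKidx : K.index + 1 ≤ U'.relIndex U := by
    have hu₀c : ∀ c : C, act c u₀ ∈ U := fun c => hU c u₀ hu₀U
    let f : C ⧸ K → ↥U ⧸ U'.subgroupOf U := fun q =>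
      Quotient.liftOn' q
        (fun c => (QuotientGroup.mk ⟨act c u₀, hu₀c c⟩ : ↥U ⧸ U'.subgroupOf U)) (by
        intro c d hcd
        rw [QuotientGroup.leftRel_apply] at hcd
        apply QuotientGroup.eq.2
        rw [Subgroup.mem_subgroupOf]
        show (act c u₀)⁻¹ * act d u₀ ∈ U'
        have h1 : act (c⁻¹ * d) u₀ * u₀⁻¹ ∈ U' := hcd u₀ hu₀U
        have h2 := hU' c _ h1
        have h3 : act c (act (c⁻¹ * d) u₀ * u₀⁻¹) = (act c u₀)⁻¹ * act d u₀ := by
          rw [map_mul, map_inv, ← MulAut.mul_apply, ← map_mul, mul_inv_cancel_left, hA]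
        rwa [h3] at h2)
    have hfmk : ∀ c : C, f (QuotientGroup.mk c) =
        (QuotientGroup.mk ⟨act c u₀, hu₀c c⟩ : ↥U ⧸ U'.subgroupOf U) := fun c => rfl
    have hf1 : ∀ q : C ⧸ K, f q ≠ (QuotientGroup.mk (1 : ↥U) : ↥U ⧸ U'.subgroupOf U) := by
      intro q
      obtain ⟨c, rfl⟩ := QuotientGroup.mk_surjective q
      rw [hfmk, Ne, QuotientGroup.eq, Subgroup.mem_subgroupOf]
      intro h
      have h' : (act c u₀)⁻¹ * 1 ∈ U' := h
      rw [mul_one] at h'
      apply hu₀
      have h2 := hU' c⁻¹ _ (U'.inv_mem h')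
      rwa [inv_inv, ← MulAut.mul_apply, ← map_mul, inv_mul_cancel, map_one,
        MulAut.one_apply] at h2
    have hfinj : Function.Injective f := by
      intro q q' hqq'
      obtain ⟨c, rfl⟩ := QuotientGroup.mk_surjective q
      obtain ⟨d, rfl⟩ := QuotientGroup.mk_surjective q'
      rw [hfmk, hfmk, QuotientGroup.eq, Subgroup.mem_subgroupOf] at hqq'
      have h2 : (act c u₀)⁻¹ * act d u₀ ∈ U' := hqq'
      apply QuotientGroup.eq.2
      by_contra hnot
      have h3 := hK_F _ hnot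
      apply hu₀
      rw [← h3]
      refine ⟨hu₀U, ?_⟩
      show act (c⁻¹ * d) u₀ * u₀⁻¹ ∈ U'
      have h4 := hU' c⁻¹ _ h2
      have h5 : act c⁻¹ ((act c u₀)⁻¹ * act d u₀) = act (c⁻¹ * d) u₀ * u₀⁻¹ := by
        rw [map_mul, map_inv, ← MulAut.mul_apply, ← MulAut.mul_apply, ← map_mul, ← map_mul,
          inv_mul_cancel, map_one, MulAut.one_apply, hA]
      rwa [h5] at h4
    have hg : Function.Injective (fun o : Option (C ⧸ K) =>
        o.elim (QuotientGroup.mk (1 : ↥U) : ↥U ⧸ U'.subgroupOf U) f) := by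
      intro o o' h
      cases o with
      | none =>
        cases o' with
        | none => rfl
        | some q' => exact absurd h.symm (hf1 q')
      | some q =>
        cases o' with
        | none => exact absurd h (hf1 q)
        | some q' => exact congrArg some (hfinj h)
    have h1 := Nat.card_le_card_of_injective _ hg
    rw [Finite.card_option] at h1
    exact h1
  -- kernels
  have hker : kerOn act U' ⊓ K ≤ kerOn act U := by
    intro c hc u hu
    obtain ⟨hc1, hc2⟩ := hc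
    have hzU' : act c u * u⁻¹ ∈ U' := hc2 u hu
    have hcu : act c u = (act c u * u⁻¹) * u := by group
    have hpow : ∀ n : ℕ, act (c ^ n) u = (act c u * u⁻¹) ^ n * u := by
      intro n
      induction n with
      | zero => simp
      | succ n ih =>
        have hzn : act (c ^ n) (act c u * u⁻¹) = act c u * u⁻¹ :=
          (pow_mem hc1 n) _ hzU'
        have h1 : act (c ^ (n + 1)) u = act (c ^ n) ((act c u * u⁻¹) * u) := by
          rw [pow_succ, map_mul, MulAut.mul_apply, ← hcu]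
        rw [h1, map_mul, hzn, ih, pow_succ, ← mul_assoc, hA (act c u * u⁻¹) ((act c u * u⁻¹) ^ n)]
    have h1 := hpow (Nat.card C)
    rw [pow_card_eq_one', map_one, MulAut.one_apply] at h1
    have h2 : (act c u * u⁻¹) ^ Nat.card C = 1 :=
      mul_right_cancel (h1.symm.trans (one_mul u).symm)
    have h3 : orderOf (act c u * u⁻¹) ∣ Nat.card C := orderOf_dvd_of_pow_eq_one h2
    have h4 : orderOf (act c u * u⁻¹) ∣ p := orderOf_dvd_of_pow_eq_one (hAp _)
    have h5 : orderOf (act c u * u⁻¹) ∣ 1 := by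
      have h := Nat.dvd_gcd h3 h4
      rwa [Nat.Coprime.gcd_eq_one hCp] at h
    have h6 : act c u * u⁻¹ = 1 := orderOf_eq_one_iff.1 (Nat.dvd_one.1 h5)
    exact mul_inv_eq_one.1 h6
  have hMinv : ∀ c : C, ∀ l ∈ kerOn act U', U' ⊓ fixS act (c * l) = U' ⊓ fixS act c := by
    intro c l hl
    ext u
    simp only [Subgroup.mem_inf, mem_fixS]
    constructor
    · rintro ⟨hu, h⟩
      refine ⟨hu, ?_⟩
      rw [map_mul, MulAut.mul_apply, hl u hu] at h
      exact h
    · rintro ⟨hu, h⟩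
      refine ⟨hu, ?_⟩
      rw [map_mul, MulAut.mul_apply, hl u hu]
      exact h
  -- apply the step lemma
  intro θ hθ h0
  have hfinD : Finite (C →* ℂˣ) :=
    Nat.finite_of_card_ne_zero (by
      rw [Cfsg.Agent.Lib.Helper78.bl_card_dual hC]; exact Nat.card_pos.ne')
  have hposU' : (0 : ℝ) < Nat.card U' := by exact_mod_cast Nat.card_pos
  have hposfix : ∀ (W : Subgroup A) (c : C), (0 : ℝ) < Nat.card ↥(W ⊓ fixS act c) :=
    fun W c => by exact_mod_cast Nat.card_pos
  have hr1 : (1 : ℝ) ≤ (U'.relIndex U : ℝ) := by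
    exact_mod_cast Nat.one_le_iff_ne_zero.2 hr0
  have hstep := step hC
    (fun c => (Nat.card U' : ℝ) / (Nat.card ↥(U' ⊓ fixS act c) : ℝ))
    (fun c => div_nonneg (Nat.cast_nonneg _) (Nat.cast_nonneg _))
    (kerOn act U') K
    (fun c l hl => by
      show (Nat.card U' : ℝ) / (Nat.card ↥(U' ⊓ fixS act (c * l)) : ℝ) = _
      rw [hMinv c l hl])
    ((Nat.card C : ℝ) * (Nat.card ↥(perp (kerOn act U')) : ℝ))
    (mul_nonneg (Nat.cast_nonneg _) (Nat.cast_nonneg _))
    hP
    (fun c => if c ∈ K then 1 else (U'.relIndex U : ℝ))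
    (fun c => by
      show (1 : ℝ) ≤ if c ∈ K then 1 else (U'.relIndex U : ℝ)
      split_ifs
      · exact le_refl _
      · exact hr1)
    (fun c hc => by
      show (1 : ℝ) + K.index ≤ if c ∈ K then 1 else (U'.relIndex U : ℝ)
      rw [if_neg hc]
      have h : ((K.index + 1 : ℕ) : ℝ) ≤ (U'.relIndex U : ℝ) := by exact_mod_cast hKidx
      push_cast at h
      linarith)
    hθ h0
  rw [card_perp hC (kerOn act U')] at hstep
  have hidx : (0 : ℝ) < ((kerOn act U').index : ℝ) := by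
    exact_mod_cast Nat.pos_of_ne_zero Subgroup.index_ne_zero_of_finite
  -- compare weights
  have hterm : ∀ c : C, (if c ∈ K then 1 else (U'.relIndex U : ℝ)) *
      ((Nat.card U' : ℝ) / (Nat.card ↥(U' ⊓ fixS act c) : ℝ)) * ‖θ c‖ ^ 2 ≤
      (Nat.card U : ℝ) / (Nat.card ↥(U ⊓ fixS act c) : ℝ) * ‖θ c‖ ^ 2 := by
    intro c
    refine mul_le_mul_of_nonneg_right ?_ (by positivity)
    split_ifs with hc
    · rw [one_mul, div_le_div_iff₀ (hposfix U' c) (hposfix U c)]
      have h := hcard_fix c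
      have h' : (Nat.card ↥(U ⊓ fixS act c) : ℝ) * (Nat.card U' : ℝ) ≤
          (Nat.card ↥(U' ⊓ fixS act c) : ℝ) * (Nat.card U : ℝ) := by exact_mod_cast h
      linarith
    · rw [hfix_eq c hc, hcardU]
      push_cast
      apply le_of_eq
      ring
  have hsum : ∑ c, (if c ∈ K then 1 else (U'.relIndex U : ℝ)) *
      ((Nat.card U' : ℝ) / (Nat.card ↥(U' ⊓ fixS act c) : ℝ)) * ‖θ c‖ ^ 2 ≤
      ∑ c, (Nat.card U : ℝ) / (Nat.card ↥(U ⊓ fixS act c) : ℝ) * ‖θ c‖ ^ 2 :=
    Finset.sum_le_sum fun c _ => hterm c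
  have hperp : (Nat.card ↥(perp (kerOn act U)) : ℝ) ≤
      (Nat.card ↥(perp (kerOn act U') ⊔ perp K) : ℝ) := by
    have h1 : perp (kerOn act U) ≤ perp (kerOn act U') ⊔ perp K :=
      (perp_anti hker).trans (perp_inf_le hC _ _)
    exact_mod_cast Subgroup.card_le_of_le h1
  have hCnn : (0 : ℝ) ≤ Nat.card C := Nat.cast_nonneg _
  have h7 : (Nat.card C : ℝ) * (Nat.card ↥(perp (kerOn act U') ⊔ perp K) : ℝ) ≤
      ∑ c, (if c ∈ K then 1 else (U'.relIndex U : ℝ)) *
        ((Nat.card U' : ℝ) / (Nat.card ↥(U' ⊓ fixS act c) : ℝ)) * ‖θ c‖ ^ 2 := by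
    have h8 : ((kerOn act U').index : ℝ) * ((Nat.card C : ℝ) *
        (Nat.card ↥(perp (kerOn act U') ⊔ perp K) : ℝ)) ≤
        ((kerOn act U').index : ℝ) * ∑ c, (if c ∈ K then 1 else (U'.relIndex U : ℝ)) *
        ((Nat.card U' : ℝ) / (Nat.card ↥(U' ⊓ fixS act c) : ℝ)) * ‖θ c‖ ^ 2 := by
      calc ((kerOn act U').index : ℝ) * ((Nat.card C : ℝ) *
            (Nat.card ↥(perp (kerOn act U') ⊔ perp K) : ℝ))
          = (Nat.card C : ℝ) * ((kerOn act U').index : ℝ) *
            (Nat.card ↥(perp (kerOn act U') ⊔ perp K) : ℝ) := by ring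
        _ ≤ _ := hstep
    exact le_of_mul_le_mul_left h8 hidx
  calc (Nat.card C : ℝ) * (Nat.card ↥(perp (kerOn act U)) : ℝ)
      ≤ (Nat.card C : ℝ) * (Nat.card ↥(perp (kerOn act U') ⊔ perp K) : ℝ) :=
        mul_le_mul_of_nonneg_left hperp hCnn
    _ ≤ _ := h7
    _ ≤ _ := hsum

theorem chain_all [Fintype C] [Finite A] (hC : ∀ a b : C, a * b = b * a)
    (hA : ∀ a b : A, a * b = b * a) (act : C →* MulAut A) (p : ℕ) (hAp : ∀ a : A, a ^ p = 1)
    (hCp : Nat.Coprime (Nat.card C) p) (U : Subgroup A) :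
    (∀ c : C, ∀ u ∈ U, act c u ∈ U) → ChainP act U := by
  induction U using WellFoundedLT.induction with
  | _ U ih =>
    intro hU
    by_cases hbot : U = ⊥
    · rw [hbot]
      exact chain_base hC act
    · let 𝒮 : Set (Subgroup A) := {W | W < U ∧ ∀ c : C, ∀ u ∈ W, act c u ∈ W}
      have hne : 𝒮.Nonempty := ⟨⊥, bot_lt_iff_ne_bot.2 hbot, fun c u hu => by
        rw [Subgroup.mem_bot] at hu ⊢
        rw [hu, map_one]⟩
      obtain ⟨U', hU'mem, hU'max⟩ := wellFounded_gt.has_min 𝒮 hne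
      refine chain_step hC hA act p hAp hCp U U' hU'mem.1 hU hU'mem.2 ?_ (ih U' hU'mem.1 hU'mem.2)
      intro W hW hU'W hWU
      by_cases hWeq : W = U
      · exact Or.inr hWeq
      · left
        have hWlt : W < U := lt_of_le_of_ne hWU hWeq
        have h1 := hU'max W ⟨hWlt, hW⟩
        by_contra hne'
        exact h1 (lt_of_le_of_ne hU'W (Ne.symm hne'))

/-- the main lattice estimate -/
theorem lattice_main [Fintype C] [Finite A] (hC : ∀ a b : C, a * b = b * a)
    (hA : ∀ a b : A, a * b = b * a) (act : C →* MulAut A) (p : ℕ) (hAp : ∀ a : A, a ^ p = 1)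
    (hCp : Nat.Coprime (Nat.card C) p) (hfaith : ∀ c : C, (∀ a : A, act c a = a) → c = 1)
    {θ : C → ℂ} (hθ : θ ∈ IntFn C) (h0 : θ ≠ 0) :
    (Nat.card C : ℝ) ^ 2 ≤
      ∑ c, (Nat.card A : ℝ) / (Nat.card ↥(fixS act c) : ℝ) * ‖θ c‖ ^ 2 := by
  have h := chain_all hC hA act p hAp hCp (⊤ : Subgroup A) (fun c u _ => Subgroup.mem_top _) θ hθ h0
  have h1 : kerOn act (⊤ : Subgroup A) = ⊥ := by
    ext c
    rw [mem_kerOn, Subgroup.mem_bot]
    constructor
    · intro hc
      exact hfaith c (fun a => hc a (Subgroup.mem_top a))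
    · intro hc u _
      rw [hc, map_one, MulAut.one_apply]
  rw [h1, card_perp hC, Subgroup.index_bot] at h
  simp only [top_inf_eq, Subgroup.card_top] at h
  rw [sq]
  exact h

end

end Cfsg.Agent.Lib.Helper82.KA
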