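import Mathlib
import Cfsg.Prelude.Def_Characters
import Cfsg.Agent.Lib.Helper82.KAChain
import Cfsg.Agent.Lib.Helper82.CharCount
import Cfsg.Agent.Lib.Helper82.Ito
import Cfsg.Agent.Lib.Helper80.CharOps
import Cfsg.Agent.Lib.Helper75.CharDecomp

/-!
The abelian stabilizer criterion for the `k(GV)` problem: character theoretic part.
-/

set_option autoImplicit false

namespace Cfsg.Agent.Lib.Helper82.KA

open Cfsg.Agent.Lib.Helper78 Cfsg.Agent.Lib.Helper81
open scoped ComplexConjugate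
open Classical

theorem pow_eq_self_of_mod {X : Type*} [Group X] {x : X} {p N : ℕ} (hx : x ^ p = 1)
    (hN : N % p = 1) : x ^ N = x := by
  rw [← Nat.div_add_mod N p, pow_add, pow_mul, hx, one_pow, one_mul, hN, pow_one]

section expansion

variable {X : Type*} [Group X] [Finite X]

/-- Fourier expansion of a character on an abelian subgroup, with natural coefficients. -/
theorem abelian_expansion (B : Subgroup X) (hB : ∀ a b : ↥B, a * b = b * a)
    [Fintype (↥B →* ℂˣ)] {χ : X → ℂ} (hχ : Cfsg.IsCharacter X χ) :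
    ∃ m : (↥B →* ℂˣ) → ℕ, ∀ b : ↥B, χ b = ∑ ψ : ↥B →* ℂˣ, (m ψ : ℂ) * lin ψ b := by
  have : Fintype ↥B := Fintype.ofFinite _
  have hres : Cfsg.IsCharacter ↥B (fun b : ↥B => χ b) :=
    Cfsg.Agent.Lib.Helper80.isCharacter_restrict B hχ
  choose m hm using fun ψ : ↥B →* ℂˣ =>
    Cfsg.Agent.Lib.Helper75.classInner_char_irr_nat hres
      (Cfsg.Agent.Lib.Helper80.isIrrCharacter_of_hom ψ)
  refine ⟨m, fun b => ?_⟩
  have hBne : (Nat.card ↥B : ℂ) ≠ 0 := by exact_mod_cast Nat.card_pos.ne'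
  have hm' : ∀ ψ : ↥B →* ℂˣ, (m ψ : ℂ) =
      (Nat.card ↥B : ℂ)⁻¹ * ∑ y : ↥B, χ y * lin ψ y⁻¹ := by
    intro ψ
    rw [← hm ψ]
    unfold Cfsg.classInner
    congr 1
    refine Finset.sum_congr rfl fun y _ => ?_
    show χ y * conj (lin ψ y) = _
    rw [conj_lin]
  have h1 : ∀ ψ : ↥B →* ℂˣ, (m ψ : ℂ) * lin ψ b =
      (Nat.card ↥B : ℂ)⁻¹ * ∑ y : ↥B, χ y * lin ψ (y⁻¹ * b) := by
    intro ψ
    rw [hm' ψ, mul_assoc, Finset.sum_mul]
    congr 1
    refine Finset.sum_congr rfl fun y _ => ?_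
    simp only [lin_apply, map_mul, Units.val_mul]
    ring
  simp only [h1]
  rw [← Finset.mul_sum, Finset.sum_comm]
  have h2 : ∀ y : ↥B, ∑ ψ : ↥B →* ℂˣ, χ y * lin ψ (y⁻¹ * b) =
      χ y * (if y⁻¹ * b = 1 then (Nat.card ↥B : ℂ) else 0) := by
    intro y
    rw [← Finset.mul_sum]
    congr 1
    exact bl_sum_dual_ite hB _
  simp only [h2]
  rw [Finset.sum_eq_single b]
  · rw [if_pos (inv_mul_cancel b)]
    field_simp
  · intro y _ hne
    rw [if_neg, mul_zero]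
    intro h
    apply hne
    rw [inv_mul_eq_one] at h
    exact h
  · intro h
    exact absurd (Finset.mem_univ _) h

end expansion

section count

variable {X : Type*} [Group X] [Finite X] (p : ℕ) (V G Cs : Subgroup X) [hVn : V.Normal]

include hVn in
theorem conj_section (hp : p.Prime) (hVab : ∀ a ∈ V, ∀ b ∈ V, a * b = b * a)
    (hGV : Subgroup.IsComplement' V G) (hGp : Nat.Coprime (Nat.card G) p) (w : X) (hw : w ∈ V)
    (hwp : w ^ p = 1) (hCsG : Cs ≤ G) (hCsab : ∀ a ∈ Cs, ∀ b ∈ Cs, a * b = b * a)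
    (hCsw : ∀ g ∈ Cs, g * w = w * g) (hCsmax : ∀ g ∈ G, g * w = w * g → g ∈ Cs)
    {c c' y : X} (hc : c ∈ Cs) (hc' : c' ∈ Cs) (hy : y * (w * c') * y⁻¹ = w * c) :
    c = c' ∧ ∃ u ∈ V ⊓ Subgroup.centralizer ({c} : Set X), ∃ g ∈ Cs, y = u * g := by
  obtain ⟨t, -, ht⟩ := Nat.exists_mul_mod_eq_one_of_coprime hGp hp.one_lt
  have hpowG : ∀ g ∈ G, g ^ (Nat.card G * t) = 1 := by
    intro g hg
    have h1 : (⟨g, hg⟩ : ↥G) ^ Nat.card G = 1 := pow_card_eq_one'
    have h2 : g ^ Nat.card G = 1 := by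
      have h3 := congrArg Subtype.val h1
      rw [Subgroup.coe_pow] at h3
      exact h3
    rw [pow_mul, h2, one_pow]
  have hpw : ∀ d ∈ Cs, (w * d) ^ (Nat.card G * t) = w := by
    intro d hd
    have hcomm : Commute w d := (hCsw d hd).symm
    rw [hcomm.mul_pow, hpowG d (hCsG hd), mul_one, pow_eq_self_of_mod hwp ht]
  have h1 : y * w * y⁻¹ = w := by
    have h2 := congrArg (fun z => z ^ (Nat.card G * t)) hy
    simp only [conj_pow, hpw c hc, hpw c' hc'] at h2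
    exact h2
  have h2 : y * c' * y⁻¹ = c := by
    have h3 : y * (w * c') * y⁻¹ = (y * w * y⁻¹) * (y * c' * y⁻¹) := by group
    rw [h3, h1] at hy
    exact mul_left_cancel hy
  obtain ⟨⟨u, g⟩, hug, -⟩ := (Subgroup.isComplement'_def.1 hGV).existsUnique y
  have hu : (u : X) ∈ V := u.2
  have hg : (g : X) ∈ G := g.2
  have hy' : y = (u : X) * (g : X) := hug.symm
  have huw : (u : X) * w = w * u := hVab _ hu _ hw
  have hyw : y * w = w * y := mul_inv_eq_iff_eq_mul.1 h1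
  have hgw : (g : X) * w = w * g := by
    have h3 : (g : X) = (u : X)⁻¹ * y := by
      rw [hy']
      group
    have h4 : (u : X)⁻¹ * w = w * (u : X)⁻¹ := by
      rw [inv_mul_eq_iff_eq_mul, ← mul_assoc, huw, mul_assoc, mul_inv_cancel, mul_one]
    rw [h3, mul_assoc, hyw, ← mul_assoc, h4, mul_assoc]
  have hgCs : (g : X) ∈ Cs := hCsmax _ hg hgw
  have h3 : (u : X) * c' * (u : X)⁻¹ = c := by
    have h4 : (g : X) * c' * (g : X)⁻¹ = c' := by
      rw [hCsab _ hgCs _ hc', mul_assoc, mul_inv_cancel, mul_one]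
    have h5 : (u : X) * g * c' * ((u : X) * g)⁻¹ = u * (g * c' * (g : X)⁻¹) * (u : X)⁻¹ := by
      group
    rw [← h2, hy', h5, h4]
  have h5 : c'⁻¹ * c ∈ V ⊓ G := by
    refine ⟨?_, G.mul_mem (G.inv_mem (hCsG hc')) (hCsG hc)⟩
    rw [← h3]
    have h6 : c'⁻¹ * ((u : X) * c' * (u : X)⁻¹) = (c'⁻¹ * u * c'⁻¹⁻¹) * (u : X)⁻¹ := by group
    rw [h6]
    exact V.mul_mem (hVn.conj_mem _ hu _) (V.inv_mem hu)
  have h7 : c'⁻¹ * c = 1 := (Subgroup.mem_bot).1 (hGV.disjoint.le_bot h5)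
  have hcc : c = c' := (inv_mul_eq_one.1 h7).symm
  refine ⟨hcc, u, ⟨hu, ?_⟩, g, hgCs, hy'⟩
  show (u : X) ∈ Subgroup.centralizer ({c} : Set X)
  rw [Subgroup.mem_centralizer_iff]
  intro x hx
  rw [Set.mem_singleton_iff] at hx
  rw [hx]
  rw [← hcc] at h3
  exact (mul_inv_eq_iff_eq_mul.1 h3).symm

include hVn in
theorem conj_count (hp : p.Prime) (hVab : ∀ a ∈ V, ∀ b ∈ V, a * b = b * a)
    (hGV : Subgroup.IsComplement' V G) (hGp : Nat.Coprime (Nat.card G) p) (w : X) (hw : w ∈ V)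
    (hwp : w ^ p = 1) (hCsG : Cs ≤ G) (hCsab : ∀ a ∈ Cs, ∀ b ∈ Cs, a * b = b * a)
    (hCsw : ∀ g ∈ Cs, g * w = w * g) (hCsmax : ∀ g ∈ G, g * w = w * g → g ∈ Cs)
    {c c' : X} (hc : c ∈ Cs) (hc' : c' ∈ Cs) :
    Nat.card {y : X // y * (w * c') * y⁻¹ = w * c} =
      if c = c' then Nat.card ↥(V ⊓ Subgroup.centralizer ({c} : Set X)) * Nat.card ↥Cs
      else 0 := by
  split_ifs with hcc
  · subst hcc
    rw [← Nat.card_prod]
    symm
    have hmem : ∀ q : ↥(V ⊓ Subgroup.centralizer ({c} : Set X)) × ↥Cs,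
        ((q.1 : X) * (q.2 : X)) * (w * c) * ((q.1 : X) * (q.2 : X))⁻¹ = w * c := by
      intro q
      have hu1 : (q.1 : X) * w = w * q.1 := hVab _ q.1.2.1 _ hw
      have hu2 : c * (q.1 : X) = q.1 * c :=
        Subgroup.mem_centralizer_iff.1 q.1.2.2 c (Set.mem_singleton c)
      have hg1 : (q.2 : X) * w = w * q.2 := hCsw _ q.2.2
      have hg2 : (q.2 : X) * c = c * q.2 := hCsab _ q.2.2 _ hc
      rw [mul_inv_eq_iff_eq_mul]
      calc (q.1 : X) * (q.2 : X) * (w * c) = (q.1 : X) * ((q.2 : X) * w * c) := by group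
        _ = (q.1 : X) * (w * (c * q.2)) := by rw [hg1, mul_assoc, hg2]
        _ = ((q.1 : X) * w) * c * q.2 := by group
        _ = w * (q.1 * c) * q.2 := by rw [hu1]; group
        _ = w * (c * q.1) * q.2 := by rw [hu2]
        _ = w * c * ((q.1 : X) * (q.2 : X)) := by group
    refine Nat.card_congr (Equiv.ofBijective
      (fun q : ↥(V ⊓ Subgroup.centralizer ({c} : Set X)) × ↥Cs =>
        (⟨(q.1 : X) * (q.2 : X), hmem q⟩ : {y : X // y * (w * c) * y⁻¹ = w * c})) ⟨?_, ?_⟩)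
    · intro q q' h
      have h1 : (q.1 : X) * (q.2 : X) = (q'.1 : X) * (q'.2 : X) := congrArg Subtype.val h
      have h2 : (q'.1 : X)⁻¹ * (q.1 : X) = (q'.2 : X) * (q.2 : X)⁻¹ := by
        rw [inv_mul_eq_iff_eq_mul, ← mul_assoc, ← h1, mul_assoc, mul_inv_cancel, mul_one]
      have h3 : (q'.1 : X)⁻¹ * (q.1 : X) ∈ V ⊓ G := by
        refine ⟨V.mul_mem (V.inv_mem q'.1.2.1) q.1.2.1, ?_⟩
        rw [h2]
        exact G.mul_mem (hCsG q'.2.2) (G.inv_mem (hCsG q.2.2))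
      have h4 : (q'.1 : X)⁻¹ * (q.1 : X) = 1 := (Subgroup.mem_bot).1 (hGV.disjoint.le_bot h3)
      have h5 : (q.1 : X) = q'.1 := (inv_mul_eq_one.1 h4).symm
      have h6 : (q.2 : X) = q'.2 := by
        rw [h4] at h2
        exact (mul_inv_eq_one.1 h2.symm).symm
      exact Prod.ext (Subtype.ext h5) (Subtype.ext h6)
    · intro y
      obtain ⟨-, u, hu, g, hg, hy⟩ :=
        conj_section p V G Cs hp hVab hGV hGp w hw hwp hCsG hCsab hCsw hCsmax hc hc y.2
      exact ⟨(⟨u, hu⟩, ⟨g, hg⟩), Subtype.ext hy.symm⟩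
  · rw [Nat.card_eq_zero]
    left
    exact ⟨fun y => hcc
      (conj_section p V G Cs hp hVab hGV hGp w hw hwp hCsG hCsab hCsw hCsmax hc hc' y.2).1⟩

end count

section complex

theorem pair_identity {n : ℕ} (a : Fin n → ℂ) :
    (n : ℝ) * ∑ i, ‖a i‖ ^ 2 - ‖∑ i, a i‖ ^ 2 = (1 / 2 : ℝ) * ∑ i, ∑ i', ‖a i - a i'‖ ^ 2 := by
  apply Complex.ofReal_injective
  push_cast
  simp only [← Complex.mul_conj', map_sub, map_sum]
  have h1 : ∀ i i' : Fin n, (a i - a i') * (conj (a i) - conj (a i')) =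
      a i * conj (a i) - a i * conj (a i') - a i' * conj (a i) + a i' * conj (a i') := by
    intro i i'
    ring
  simp only [h1, Finset.sum_add_distrib, Finset.sum_sub_distrib, Finset.sum_const,
    Finset.card_univ, Fintype.card_fin, nsmul_eq_mul, ← Finset.mul_sum, ← Finset.sum_mul]
  ring

theorem root_parseval {p : ℕ} (z : Fin p → ℂ) (hz1 : ∀ i, ‖z i‖ = 1)
    (hzp : ∀ i, z i ^ p = 1) (hzinj : Function.Injective z) (a : Fin p → ℂ) :
    ∑ j ∈ Finset.range p, ‖∑ i, z i ^ j * a i‖ ^ 2 = (p : ℝ) * ∑ i, ‖a i‖ ^ 2 := by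
  apply Complex.ofReal_injective
  push_cast
  simp only [← Complex.mul_conj']
  have key : ∀ j : ℕ, (∑ i, z i ^ j * a i) * conj (∑ i, z i ^ j * a i) =
      ∑ i, ∑ i', (a i * conj (a i')) * (z i * conj (z i')) ^ j := by
    intro j
    rw [map_sum, Finset.sum_mul_sum]
    refine Finset.sum_congr rfl fun i _ => Finset.sum_congr rfl fun i' _ => ?_
    rw [map_mul, map_pow, mul_pow]
    ring
  simp only [key]
  rw [Finset.sum_comm]
  have h2 : ∀ i : Fin p, ∑ j ∈ Finset.range p, ∑ i', (a i * conj (a i')) *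
      (z i * conj (z i')) ^ j = (p : ℂ) * (a i * conj (a i)) := by
    intro i
    rw [Finset.sum_comm]
    simp only [← Finset.mul_sum]
    rw [Finset.sum_eq_single i]
    · have h3 : z i * conj (z i) = 1 := by
        rw [Complex.mul_conj', hz1 i]
        norm_num
      simp only [h3, one_pow, Finset.sum_const, Finset.card_range, nsmul_eq_mul, mul_one]
      ring
    · intro i' _ hne
      have hη : z i * conj (z i') ≠ 1 := by
        intro h
        apply hne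
        apply hzinj
        have h4 : conj (z i') = (z i')⁻¹ := (Complex.inv_eq_conj (hz1 i')).symm
        rw [h4] at h
        have h0 : z i' ≠ 0 := by
          intro h0
          have h5 := hz1 i'
          rw [h0, norm_zero] at h5
          exact zero_ne_one h5
        exact ((mul_inv_eq_one₀ h0).1 h).symm
      have hηp : (z i * conj (z i')) ^ p = 1 := by
        rw [mul_pow, ← map_pow, hzp, hzp, map_one, mul_one]
      rw [geom_sum_eq hη, hηp, sub_self, zero_div, mul_zero]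
    · intro h
      exact absurd (Finset.mem_univ _) h
  simp only [h2]
  rw [← Finset.mul_sum]

end complex

section decomp

variable {X : Type*} [Group X] [Finite X]

/-- decomposition of an irreducible character on the sections `v ^ j * c`. -/
theorem section_decomp (p : ℕ) (hp : p.Prime) (V : Subgroup X) [V.Normal]
    (hVab : ∀ a ∈ V, ∀ b ∈ V, a * b = b * a) (hidx : ¬ p ∣ V.index) (v : X) (hvp : v ^ p = 1)
    (Cs : Subgroup X) (hCsab : ∀ a ∈ Cs, ∀ b ∈ Cs, a * b = b * a)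
    (hCsv : ∀ g ∈ Cs, g * v = v * g) (ζ : ℂ) (hζ : IsPrimitiveRoot ζ p)
    {χ : X → ℂ} (hχ : Cfsg.IsIrrCharacter X χ) :
    ∃ A : Fin p → (↥Cs → ℂ), (∀ i, A i ∈ IntFn ↥Cs) ∧
      (∀ (j : ℕ) (c : ↥Cs), χ (v ^ j * (c : X)) = ∑ i : Fin p, (ζ ^ (i : ℕ)) ^ j * A i c) ∧
      ∃ i i', A i ≠ A i' := by
  haveI : NeZero p := ⟨hp.ne_zero⟩
  let k : Set X := insert v (Cs : Set X)
  have hk : ∀ x ∈ k, ∀ y ∈ k, x * y = y * x := by
    intro x hx y hy
    rcases hx with rfl | hx <;> rcases hy with rfl | hy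
    · rfl
    · exact (hCsv y hy).symm
    · exact hCsv x hx
    · exact hCsab x hx y hy
  let B : Subgroup X := Subgroup.closure k
  have hB : ∀ a b : ↥B, a * b = b * a :=
    fun a b => (Subgroup.closureCommGroupOfComm hk).mul_comm a b
  have hfinD : Finite (↥B →* ℂˣ) :=
    Nat.finite_of_card_ne_zero (by rw [bl_card_dual hB]; exact Nat.card_pos.ne')
  haveI : Fintype (↥B →* ℂˣ) := Fintype.ofFinite _
  obtain ⟨m, hm⟩ := abelian_expansion B hB
    (Cfsg.Agent.Lib.Helper80.isCharacter_of_isIrrCharacter hχ)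
  have hvB : v ∈ B := Subgroup.subset_closure (Set.mem_insert _ _)
  have hCsB : Cs ≤ B := fun c hc => Subgroup.subset_closure (Set.mem_insert_of_mem _ hc)
  let vB : ↥B := ⟨v, hvB⟩
  let ι : ↥Cs →* ↥B := Subgroup.inclusion hCsB
  have hvBp : vB ^ p = 1 := Subtype.ext hvp
  have hidxψ : ∀ ψ : ↥B →* ℂˣ, ∃ i : Fin p, ζ ^ (i : ℕ) = lin ψ vB := by
    intro ψ
    have h1 : (lin ψ vB) ^ p = 1 := by
      rw [lin_apply, ← Units.val_pow_eq_pow_val, ← map_pow, hvBp, map_one, Units.val_one]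
    obtain ⟨i, hi, hi'⟩ := hζ.eq_pow_of_pow_eq_one h1
    exact ⟨⟨i, hi⟩, hi'⟩
  choose idx hidx' using hidxψ
  let A : Fin p → (↥Cs → ℂ) := fun i =>
    ∑ ψ : ↥B →* ℂˣ, if idx ψ = i then (m ψ) • lin (ψ.comp ι) else 0
  have hAapp : ∀ (i : Fin p) (c : ↥Cs), A i c =
      ∑ ψ : ↥B →* ℂˣ, if idx ψ = i then (m ψ : ℂ) * lin (ψ.comp ι) c else 0 := by
    intro i c
    simp only [A, Finset.sum_apply]
    refine Finset.sum_congr rfl fun ψ _ => ?_
    split_ifs
    · simp [nsmul_eq_mul]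
    · rfl
  have hform : ∀ (j : ℕ) (c : ↥Cs),
      χ (v ^ j * (c : X)) = ∑ i : Fin p, (ζ ^ (i : ℕ)) ^ j * A i c := by
    intro j c
    have hb : (v ^ j * (c : X)) = ((vB ^ j * ι c : ↥B) : X) := rfl
    rw [hb, hm]
    have h1 : ∀ ψ : ↥B →* ℂˣ, (m ψ : ℂ) * lin ψ (vB ^ j * ι c) =
        (ζ ^ (idx ψ : ℕ)) ^ j * ((m ψ : ℂ) * lin (ψ.comp ι) c) := by
      intro ψ
      rw [hidx' ψ]
      simp only [lin_apply, map_mul, map_pow, Units.val_mul, Units.val_pow_eq_pow_val,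
        MonoidHom.comp_apply]
      ring
    simp only [h1]
    have h2 : ∀ i : Fin p, (ζ ^ (i : ℕ)) ^ j * A i c = ∑ ψ : ↥B →* ℂˣ,
        if idx ψ = i then (ζ ^ (idx ψ : ℕ)) ^ j * ((m ψ : ℂ) * lin (ψ.comp ι) c) else 0 := by
      intro i
      rw [hAapp, Finset.mul_sum]
      refine Finset.sum_congr rfl fun ψ _ => ?_
      split_ifs with h
      · rw [h]
      · rw [mul_zero]
    simp only [h2]
    rw [Finset.sum_comm]
    refine Finset.sum_congr rfl fun ψ _ => ?_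
    rw [Finset.sum_ite_eq]
    simp
  refine ⟨A, ?_, hform, ?_⟩
  · intro i
    refine sum_mem fun ψ _ => ?_
    split_ifs
    · exact nsmul_mem (lin_mem _) _
    · exact zero_mem _
  · by_contra hall
    push Not at hall
    let i0 : Fin p := ⟨0, hp.pos⟩
    have h1 := hform 0 1
    simp only [pow_zero, one_mul, OneMemClass.coe_one] at h1
    have h2 : ∀ i : Fin p, A i 1 = A i0 1 := fun i => by rw [hall i i0]
    simp only [h2, Finset.sum_const, Finset.card_univ, Fintype.card_fin, nsmul_eq_mul] at h1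
    have h3 : A i0 1 = ((∑ ψ : ↥B →* ℂˣ, if idx ψ = i0 then m ψ else 0 : ℕ) : ℂ) := by
      rw [hAapp]
      push_cast
      refine Finset.sum_congr rfl fun ψ _ => ?_
      split_ifs
      · simp [lin_apply]
      · rfl
    rw [h3, Cfsg.Agent.Lib.Helper80.char_one_eq_charDegree
      (Cfsg.Agent.Lib.Helper80.isCharacter_of_isIrrCharacter hχ)] at h1
    have h4 : Cfsg.charDegree χ = p * (∑ ψ : ↥B →* ℂˣ, if idx ψ = i0 then m ψ else 0) := by
      exact_mod_cast h1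
    have h5 : p ∣ Cfsg.charDegree χ := ⟨_, h4⟩
    exact hidx (h5.trans (ito_charDegree_dvd hχ V hVab))

end decomp

section main

variable {X : Type*} [Group X] [Finite X]

/-- the abelian stabilizer criterion for the `k(GV)` problem -/
theorem knorr_abelian (p : ℕ) [hpf : Fact p.Prime] (V : Subgroup X) [V.Normal]
    (hVexp : ∀ v ∈ V, v ^ p = 1) (hidx : ¬ p ∣ V.index)
    (hself : Subgroup.centralizer (V : Set X) = V) (G : Subgroup X)
    (hGV : Subgroup.IsComplement' V G) (v : X) (hv : v ∈ V)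
    (hab : ∀ a ∈ G ⊓ Subgroup.centralizer ({v} : Set X),
      ∀ b ∈ G ⊓ Subgroup.centralizer ({v} : Set X), a * b = b * a) :
    Nat.card (ConjClasses X) ≤ Nat.card V := by
  have hp := hpf.out
  haveI : Fintype X := Fintype.ofFinite X
  haveI : Finite (Cfsg.IrrCharacter X) := irr_finite X
  haveI : Fintype (Cfsg.IrrCharacter X) := Fintype.ofFinite _
  have hVab : ∀ a ∈ V, ∀ b ∈ V, a * b = b * a := by
    intro a ha b hb
    have h1 : b ∈ Subgroup.centralizer (V : Set X) := by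
      rw [hself]
      exact hb
    exact Subgroup.mem_centralizer_iff.1 h1 a ha
  have hGcard : Nat.card G = V.index := (hGV.symm.index_eq_card).symm
  have hGp : Nat.Coprime (Nat.card G) p := by
    rw [hGcard]
    exact ((Nat.Prime.coprime_iff_not_dvd hp).2 hidx).symm
  set Cs : Subgroup X := G ⊓ Subgroup.centralizer ({v} : Set X) with hCs
  haveI : Fintype ↥Cs := Fintype.ofFinite _
  have hCsG : Cs ≤ G := inf_le_left
  have hCsv : ∀ g ∈ Cs, g * v = v * g := by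
    intro g hg
    exact (Subgroup.mem_centralizer_iff.1 hg.2 v (Set.mem_singleton v)).symm
  have hvp : v ^ p = 1 := hVexp v hv
  obtain ⟨ζ, hζ⟩ : ∃ ζ : ℂ, IsPrimitiveRoot ζ p :=
    ⟨_, Complex.isPrimitiveRoot_exp p hp.ne_zero⟩
  have hz1 : ∀ i : Fin p, ‖ζ ^ (i : ℕ)‖ = 1 := by
    intro i
    rw [norm_pow, hζ.norm'_eq_one hp.ne_zero, one_pow]
  have hzp : ∀ i : Fin p, (ζ ^ (i : ℕ)) ^ p = 1 := by
    intro i
    rw [← pow_mul, mul_comm, pow_mul, hζ.pow_eq_one, one_pow]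
  have hzinj : Function.Injective (fun i : Fin p => ζ ^ (i : ℕ)) := by
    intro i i' h
    exact Fin.ext (hζ.pow_inj i.2 i'.2 h)
  -- the lattice data
  let act : ↥Cs →* MulAut ↥V := (MulAut.conjNormal (H := V)).comp Cs.subtype
  have hact : ∀ (c : ↥Cs) (a : ↥V), ((act c a : ↥V) : X) = (c : X) * a * (c : X)⁻¹ :=
    fun c a => MulAut.conjNormal_apply _ _
  have hCcomm : ∀ a b : ↥Cs, a * b = b * a := fun a b => Subtype.ext (hab a a.2 b b.2)
  have hAcomm : ∀ a b : ↥V, a * b = b * a := fun a b => Subtype.ext (hVab a a.2 b b.2)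
  have hAp : ∀ a : ↥V, a ^ p = 1 := fun a => Subtype.ext (hVexp a a.2)
  have hCp : Nat.Coprime (Nat.card ↥Cs) p :=
    Nat.Coprime.coprime_dvd_left (Subgroup.card_dvd_of_le hCsG) hGp
  have hfaith : ∀ c : ↥Cs, (∀ a : ↥V, act c a = a) → c = 1 := by
    intro c hc
    have h1 : (c : X) ∈ Subgroup.centralizer (V : Set X) := by
      rw [Subgroup.mem_centralizer_iff]
      intro a ha
      have h2 := congrArg Subtype.val (hc ⟨a, ha⟩)
      rw [hact] at h2
      exact (mul_inv_eq_iff_eq_mul.1 h2).symm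
    rw [hself] at h1
    have h3 : (c : X) ∈ V ⊓ G := ⟨h1, hCsG c.2⟩
    exact Subtype.ext ((Subgroup.mem_bot).1 (hGV.disjoint.le_bot h3))
  have hfixcard : ∀ c : ↥Cs, Nat.card ↥(fixS act c) =
      Nat.card ↥(V ⊓ Subgroup.centralizer ({(c : X)} : Set X)) := by
    intro c
    refine Nat.card_congr
      { toFun := fun a => ⟨((a : ↥V) : X), (a : ↥V).2, ?_⟩
        invFun := fun u => ⟨⟨(u : X), u.2.1⟩, ?_⟩
        left_inv := fun a => rfl
        right_inv := fun u => rfl }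
    · show ((a : ↥V) : X) ∈ Subgroup.centralizer ({(c : X)} : Set X)
      rw [Subgroup.mem_centralizer_iff]
      intro x hx
      rw [Set.mem_singleton_iff] at hx
      rw [hx]
      have h1 := congrArg Subtype.val ((mem_fixS act c a).1 a.2)
      rw [hact] at h1
      exact mul_inv_eq_iff_eq_mul.1 h1
    · rw [mem_fixS]
      apply Subtype.ext
      rw [hact]
      have h1 := Subgroup.mem_centralizer_iff.1 u.2.2 (c : X) (Set.mem_singleton _)
      show (c : X) * (u : X) * (c : X)⁻¹ = u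
      rw [h1, mul_assoc, mul_inv_cancel, mul_one]
  have hposfix : ∀ c : ↥Cs, (0 : ℝ) < Nat.card ↥(fixS act c) :=
    fun c => by exact_mod_cast Nat.card_pos
  have hCspos : (0 : ℝ) < Nat.card ↥Cs := by exact_mod_cast Nat.card_pos
  -- column orthogonality on the sections
  have hcol : ∀ j ∈ Finset.Ico 1 p, ∀ c : ↥Cs,
      ∑ χ : Cfsg.IrrCharacter X, ‖χ.1 (v ^ j * (c : X))‖ ^ 2 =
        (Nat.card ↥(fixS act c) : ℝ) * (Nat.card ↥Cs : ℝ) := by
    intro j hj c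
    rw [Finset.mem_Ico] at hj
    have hjp : Nat.Coprime j p :=
      ((Nat.Prime.coprime_iff_not_dvd hp).2 (Nat.not_dvd_of_pos_of_lt hj.1 hj.2)).symm
    obtain ⟨t, -, ht⟩ := Nat.exists_mul_mod_eq_one_of_coprime hjp hp.one_lt
    have hvj : (v ^ j) ^ t = v := by
      rw [← pow_mul]
      exact pow_eq_self_of_mod hvp ht
    have hcnt := conj_count p V G Cs hp hVab hGV hGp (v ^ j) (V.pow_mem hv j)
      (by rw [← pow_mul, mul_comm, pow_mul, hvp, one_pow])
      hCsG hab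
      (fun g hg => (Commute.pow_right (hCsv g hg) j))
      (fun g hg hgw => ⟨hg, by
        show g ∈ Subgroup.centralizer ({v} : Set X)
        rw [Subgroup.mem_centralizer_iff]
        intro x hx
        rw [Set.mem_singleton_iff] at hx
        rw [hx]
        have h1 : Commute g ((v ^ j) ^ t) := Commute.pow_right hgw t
        rw [hvj] at h1
        exact h1.eq.symm⟩)
      c.2 c.2
    rw [if_pos rfl] at hcnt
    have h1 := irr_col_orth (v ^ j * (c : X)) (v ^ j * (c : X))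
    rw [hcnt] at h1
    push_cast at h1
    apply Complex.ofReal_injective
    rw [hfixcard c]
    push_cast
    rw [← h1]
    refine Finset.sum_congr rfl fun χ _ => ?_
    rw [Complex.mul_conj']
  have hupper : ∑ χ : Cfsg.IrrCharacter X, ∑ j ∈ Finset.Ico 1 p, ∑ c : ↥Cs,
      (Nat.card ↥V : ℝ) / (Nat.card ↥(fixS act c) : ℝ) * ‖χ.1 (v ^ j * (c : X))‖ ^ 2 =
      ((p : ℝ) - 1) * ((Nat.card ↥Cs : ℝ) ^ 2 * (Nat.card ↥V : ℝ)) := by
    rw [Finset.sum_comm]
    have h1 : ∀ j ∈ Finset.Ico 1 p, ∑ χ : Cfsg.IrrCharacter X, ∑ c : ↥Cs,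
        (Nat.card ↥V : ℝ) / (Nat.card ↥(fixS act c) : ℝ) * ‖χ.1 (v ^ j * (c : X))‖ ^ 2 =
        (Nat.card ↥Cs : ℝ) ^ 2 * (Nat.card ↥V : ℝ) := by
      intro j hj
      rw [Finset.sum_comm]
      have h2 : ∀ c : ↥Cs, ∑ χ : Cfsg.IrrCharacter X,
          (Nat.card ↥V : ℝ) / (Nat.card ↥(fixS act c) : ℝ) * ‖χ.1 (v ^ j * (c : X))‖ ^ 2 =
          (Nat.card ↥V : ℝ) * (Nat.card ↥Cs : ℝ) := by
        intro c
        rw [← Finset.mul_sum, hcol j hj c]
        have h3 := (hposfix c).ne'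
        field_simp
      simp only [h2, Finset.sum_const, Finset.card_univ, nsmul_eq_mul]
      rw [← Nat.card_eq_fintype_card]
      ring
    rw [Finset.sum_congr rfl h1, Finset.sum_const, Nat.card_Ico, nsmul_eq_mul]
    have hp1 : ((p - 1 : ℕ) : ℝ) = (p : ℝ) - 1 := by
      rw [Nat.cast_sub hp.one_lt.le]
      simp
    rw [hp1]
  have hlower : ∀ χ : Cfsg.IrrCharacter X, ((p : ℝ) - 1) * (Nat.card ↥Cs : ℝ) ^ 2 ≤
      ∑ j ∈ Finset.Ico 1 p, ∑ c : ↥Cs,
        (Nat.card ↥V : ℝ) / (Nat.card ↥(fixS act c) : ℝ) * ‖χ.1 (v ^ j * (c : X))‖ ^ 2 := by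
    intro χ
    obtain ⟨A, hAint, hAform, i₀, i₁, hne⟩ :=
      section_decomp p hp V hVab hidx v hvp Cs hab hCsv ζ hζ χ.2
    have hpt : ∀ c : ↥Cs, ∑ j ∈ Finset.Ico 1 p, ‖χ.1 (v ^ j * (c : X))‖ ^ 2 =
        (1 / 2 : ℝ) * ∑ i, ∑ i', ‖A i c - A i' c‖ ^ 2 := by
      intro c
      have h1 := root_parseval (fun i : Fin p => ζ ^ (i : ℕ)) hz1 hzp hzinj (fun i => A i c)
      rw [Finset.range_eq_Ico, Finset.sum_eq_sum_Ico_succ_bot hp.pos] at h1
      simp only [pow_zero, one_mul, zero_add] at h1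
      have h2 := pair_identity (fun i => A i c)
      have h3 : ∑ j ∈ Finset.Ico 1 p, ‖χ.1 (v ^ j * (c : X))‖ ^ 2 =
          ∑ j ∈ Finset.Ico 1 p, ‖∑ i : Fin p, (ζ ^ (i : ℕ)) ^ j * A i c‖ ^ 2 :=
        Finset.sum_congr rfl fun j _ => by rw [hAform j c]
      rw [h3]
      linarith
    let b : Fin p → Fin p → ℝ := fun i i' =>
      ∑ c : ↥Cs, (Nat.card ↥V : ℝ) / (Nat.card ↥(fixS act c) : ℝ) * ‖(A i - A i') c‖ ^ 2
    have hTχ : ∑ j ∈ Finset.Ico 1 p, ∑ c : ↥Cs,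
        (Nat.card ↥V : ℝ) / (Nat.card ↥(fixS act c) : ℝ) * ‖χ.1 (v ^ j * (c : X))‖ ^ 2 =
        (1 / 2 : ℝ) * ∑ i, ∑ i', b i i' := by
      rw [Finset.sum_comm]
      simp only [← Finset.mul_sum, hpt]
      simp only [b, Pi.sub_apply, Finset.mul_sum]
      rw [Finset.sum_comm]
      refine Finset.sum_congr rfl fun i _ => ?_
      rw [Finset.sum_comm]
      refine Finset.sum_congr rfl fun i' _ => Finset.sum_congr rfl fun c _ => ?_
      ring
    have hbnn : ∀ i i', 0 ≤ b i i' := fun i i' =>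
      Finset.sum_nonneg fun c _ =>
        mul_nonneg (div_nonneg (Nat.cast_nonneg _) (Nat.cast_nonneg _)) (by positivity)
    have hbsymm : ∀ i i', b i i' = b i' i := by
      intro i i'
      refine Finset.sum_congr rfl fun c _ => ?_
      rw [Pi.sub_apply, Pi.sub_apply, norm_sub_rev]
    have hbge : ∀ i i', A i ≠ A i' → (Nat.card ↥Cs : ℝ) ^ 2 ≤ b i i' := by
      intro i i' h
      exact lattice_main hCcomm hAcomm act p hAp hCp hfaith (sub_mem (hAint i) (hAint i'))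
        (sub_ne_zero.2 h)
    have hs : ∀ i, (Nat.card ↥Cs : ℝ) ^ 2 ≤ b i i₀ + b i i₁ := by
      intro i
      by_cases h : A i = A i₀
      · have h1 : A i ≠ A i₁ := by
          rw [h]
          exact hne
        linarith [hbge i i₁ h1, hbnn i i₀]
      · linarith [hbge i i₀ h, hbnn i i₁]
    have hi01 : i₀ ≠ i₁ := fun h => hne (by rw [h])
    have hrow : ∀ i, b i i₀ + b i i₁ ≤ ∑ i', b i i' := by
      intro i
      have h1 : ∑ i' ∈ ({i₀, i₁} : Finset (Fin p)), b i i' ≤ ∑ i', b i i' :=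
        Finset.sum_le_sum_of_subset_of_nonneg (Finset.subset_univ _) (fun i' _ _ => hbnn i i')
      rwa [Finset.sum_pair hi01] at h1
    have hT : ∑ i ∈ ({i₀, i₁} : Finset (Fin p)), ∑ i', b i i' =
        ∑ i', (b i' i₀ + b i' i₁) := by
      rw [Finset.sum_pair hi01, ← Finset.sum_add_distrib]
      refine Finset.sum_congr rfl fun i' _ => ?_
      rw [hbsymm i₀ i', hbsymm i₁ i']
    have hT1 : (p : ℝ) * (Nat.card ↥Cs : ℝ) ^ 2 ≤
        ∑ i ∈ ({i₀, i₁} : Finset (Fin p)), ∑ i', b i i' := by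
      rw [hT]
      calc (p : ℝ) * (Nat.card ↥Cs : ℝ) ^ 2 = ∑ _i' : Fin p, (Nat.card ↥Cs : ℝ) ^ 2 := by
            rw [Finset.sum_const, Finset.card_univ, Fintype.card_fin, nsmul_eq_mul]
        _ ≤ _ := Finset.sum_le_sum fun i' _ => hs i'
    have hT2 : ((p : ℝ) - 2) * (Nat.card ↥Cs : ℝ) ^ 2 ≤
        ∑ i ∈ ({i₀, i₁} : Finset (Fin p))ᶜ, ∑ i', b i i' := by
      calc ((p : ℝ) - 2) * (Nat.card ↥Cs : ℝ) ^ 2 =
            ∑ _i ∈ ({i₀, i₁} : Finset (Fin p))ᶜ, (Nat.card ↥Cs : ℝ) ^ 2 := by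
            rw [Finset.sum_const, Finset.card_compl, Fintype.card_fin, Finset.card_pair hi01,
              nsmul_eq_mul, Nat.cast_sub hp.two_le]
            norm_num
        _ ≤ _ := Finset.sum_le_sum fun i _ => (hs i).trans (hrow i)
    have htotal : (2 * (p : ℝ) - 2) * (Nat.card ↥Cs : ℝ) ^ 2 ≤ ∑ i, ∑ i', b i i' := by
      rw [← Finset.sum_add_sum_compl ({i₀, i₁} : Finset (Fin p))]
      linarith
    rw [hTχ]
    linarith
  have hfinal : (Nat.card (Cfsg.IrrCharacter X) : ℝ) *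
      (((p : ℝ) - 1) * (Nat.card ↥Cs : ℝ) ^ 2) ≤
      ((p : ℝ) - 1) * ((Nat.card ↥Cs : ℝ) ^ 2 * (Nat.card ↥V : ℝ)) := by
    rw [← hupper]
    calc (Nat.card (Cfsg.IrrCharacter X) : ℝ) * (((p : ℝ) - 1) * (Nat.card ↥Cs : ℝ) ^ 2)
        = ∑ _χ : Cfsg.IrrCharacter X, ((p : ℝ) - 1) * (Nat.card ↥Cs : ℝ) ^ 2 := by
          rw [Finset.sum_const, Finset.card_univ, nsmul_eq_mul, Nat.card_eq_fintype_card]
      _ ≤ _ := Finset.sum_le_sum fun χ _ => hlower χ
  have hp1 : (0 : ℝ) < (p : ℝ) - 1 := by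
    have h : (1 : ℝ) < p := by exact_mod_cast hp.one_lt
    linarith
  have hpos : (0 : ℝ) < ((p : ℝ) - 1) * (Nat.card ↥Cs : ℝ) ^ 2 :=
    mul_pos hp1 (pow_pos hCspos 2)
  have h9 : (Nat.card (Cfsg.IrrCharacter X) : ℝ) ≤ (Nat.card ↥V : ℝ) := by
    have h10 : (Nat.card (Cfsg.IrrCharacter X) : ℝ) *
        (((p : ℝ) - 1) * (Nat.card ↥Cs : ℝ) ^ 2) ≤
        (Nat.card ↥V : ℝ) * (((p : ℝ) - 1) * (Nat.card ↥Cs : ℝ) ^ 2) := by
      calc _ ≤ _ := hfinal
        _ = _ := by ring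
    exact le_of_mul_le_mul_right h10 hpos
  rw [← Cfsg.Agent.Lib.Helper82.card_irr_eq_card_conjClasses]
  exact_mod_cast h9

end main

end Cfsg.Agent.Lib.Helper82.KA
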