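import Mathlib
import Cfsg.Prelude.Def_Characters
import Cfsg.Agent.Lib.Helper82.KAChar
import Cfsg.Agent.Lib.Helper81.CharCore
import Cfsg.Agent.Lib.Helper80.CharKer

/-!
The field generated by the values of the irreducible characters at one element `g`, computed from
the fusion of the generators of `⟨g⟩`, with elementary means only: the Fourier expansion of
characters on `⟨g⟩` and column orthogonality.
-/

set_option autoImplicit false

namespace Cfsg.Agent.Lib.Helper82.FV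

open Cfsg.Agent.Lib.Helper82.KA Cfsg.Agent.Lib.Helper78 Cfsg.Agent.Lib.Helper81
open Cfsg.Agent.Lib.Helper80
open Classical

section fields

/-- power sums `ζ^j + η^j` lie in `ℚ(ζ + η)` when `ζ η = ± 1` -/
theorem pow_add_pow_mem (ζ η : ℂ) (h : ζ * η = 1 ∨ ζ * η = -1) (j : ℕ) :
    ζ ^ j + η ^ j ∈ IntermediateField.adjoin ℚ ({ζ + η} : Set ℂ) := by
  have hmem : ζ + η ∈ IntermediateField.adjoin ℚ ({ζ + η} : Set ℂ) :=
    IntermediateField.subset_adjoin ℚ _ (Set.mem_singleton _)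
  have hp : ζ * η ∈ IntermediateField.adjoin ℚ ({ζ + η} : Set ℂ) := by
    rcases h with h | h <;> rw [h]
    · exact one_mem _
    · exact neg_mem (one_mem _)
  have key : ∀ j : ℕ, ζ ^ j + η ^ j ∈ IntermediateField.adjoin ℚ ({ζ + η} : Set ℂ) ∧
      ζ ^ (j + 1) + η ^ (j + 1) ∈ IntermediateField.adjoin ℚ ({ζ + η} : Set ℂ) := by
    intro j
    induction j with
    | zero =>
      refine ⟨?_, by simpa using hmem⟩
      have : ζ ^ 0 + η ^ 0 = 1 + 1 := by norm_num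
      rw [this]
      exact add_mem (one_mem _) (one_mem _)
    | succ j ih =>
      refine ⟨ih.2, ?_⟩
      have : ζ ^ (j + 1 + 1) + η ^ (j + 1 + 1) =
          (ζ + η) * (ζ ^ (j + 1) + η ^ (j + 1)) - (ζ * η) * (ζ ^ j + η ^ j) := by ring
      rw [this]
      exact sub_mem (mul_mem hmem ih.2) (mul_mem hp ih.1)
  exact (key j).1

theorem not_mem_adjoin_sq {k : ℕ} (hk : 2 ≤ k) {ζ : ℂ} (hζ : IsPrimitiveRoot ζ (2 ^ (k + 1))) :
    ζ ∉ IntermediateField.adjoin ℚ ({ζ ^ 2} : Set ℂ) := by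
  intro hmem
  have hpos : 0 < 2 ^ (k + 1) := by positivity
  have hpos' : 0 < 2 ^ k := by positivity
  have hζ2 : IsPrimitiveRoot (ζ ^ 2) (2 ^ k) := IsPrimitiveRoot.pow hpos hζ (pow_succ' 2 k)
  have hint1 : IsIntegral ℚ ζ := (hζ.isIntegral hpos).tower_top
  have hint2 : IsIntegral ℚ (ζ ^ 2) := (hζ2.isIntegral hpos').tower_top
  have hle : IntermediateField.adjoin ℚ ({ζ} : Set ℂ) ≤
      IntermediateField.adjoin ℚ ({ζ ^ 2} : Set ℂ) := by
    rw [IntermediateField.adjoin_le_iff]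
    intro x hx
    rw [Set.mem_singleton_iff] at hx
    rw [hx]; exact hmem
  have hfd : FiniteDimensional ℚ (IntermediateField.adjoin ℚ ({ζ ^ 2} : Set ℂ)) :=
    IntermediateField.adjoin.finiteDimensional hint2
  have h1 := IntermediateField.finrank_le_of_le_right hle
  rw [IntermediateField.adjoin.finrank hint1, IntermediateField.adjoin.finrank hint2,
    ← Polynomial.cyclotomic_eq_minpoly_rat hζ hpos,
    ← Polynomial.cyclotomic_eq_minpoly_rat hζ2 hpos',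
    Polynomial.natDegree_cyclotomic, Polynomial.natDegree_cyclotomic,
    Nat.totient_prime_pow Nat.prime_two (by omega),
    Nat.totient_prime_pow Nat.prime_two (by omega)] at h1
  have h2 : 2 ^ (k - 1) < 2 ^ k := Nat.pow_lt_pow_right (by norm_num) (by omega)
  simp only [Nat.add_sub_cancel, show 2 - 1 = 1 from rfl, mul_one] at h1
  omega

theorem add_inv_not_mem {k : ℕ} (hk : 2 ≤ k) {ζ : ℂ} (hζ : IsPrimitiveRoot ζ (2 ^ (k + 1))) :
    ζ + ζ⁻¹ ∉ IntermediateField.adjoin ℚ ({ζ ^ 2} : Set ℂ) ∧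
    ζ - ζ⁻¹ ∉ IntermediateField.adjoin ℚ ({ζ ^ 2} : Set ℂ) := by
  have hζ0 : ζ ≠ 0 := hζ.ne_zero (by positivity)
  have hsq : ζ ^ 2 ∈ IntermediateField.adjoin ℚ ({ζ ^ 2} : Set ℂ) :=
    IntermediateField.subset_adjoin ℚ _ (Set.mem_singleton _)
  have h4 : ζ ^ 4 ≠ 1 := by
    intro h
    have h5 := hζ.dvd_of_pow_eq_one 4 h
    have h8 : 2 ^ 3 ∣ 2 ^ (k + 1) := Nat.pow_dvd_pow 2 (by omega)
    have := Nat.le_of_dvd (by norm_num) (dvd_trans h8 h5)
    omega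
  constructor
  · intro hc
    apply not_mem_adjoin_sq hk hζ
    have hc0 : ζ + ζ⁻¹ ≠ 0 := by
      intro h0
      apply h4
      have h6 : ζ * (ζ + ζ⁻¹) = 0 := by rw [h0, mul_zero]
      rw [mul_add, mul_inv_cancel₀ hζ0] at h6
      have h7 : ζ ^ 2 = -1 := by linear_combination h6
      calc ζ ^ 4 = (ζ ^ 2) ^ 2 := by ring
        _ = 1 := by rw [h7]; norm_num
    have h8 : ζ = (ζ ^ 2 + 1) / (ζ + ζ⁻¹) := by
      rw [eq_div_iff hc0, mul_add, mul_inv_cancel₀ hζ0]; ring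
    have h9 : (ζ ^ 2 + 1) / (ζ + ζ⁻¹) ∈ IntermediateField.adjoin ℚ ({ζ ^ 2} : Set ℂ) :=
      div_mem (add_mem hsq (one_mem _)) hc
    rwa [← h8] at h9
  · intro hc
    apply not_mem_adjoin_sq hk hζ
    have hc0 : ζ - ζ⁻¹ ≠ 0 := by
      intro h0
      apply h4
      have h6 : ζ * (ζ - ζ⁻¹) = 0 := by rw [h0, mul_zero]
      rw [mul_sub, mul_inv_cancel₀ hζ0] at h6
      have h7 : ζ ^ 2 = 1 := by linear_combination h6
      calc ζ ^ 4 = (ζ ^ 2) ^ 2 := by ring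
        _ = 1 := by rw [h7]; norm_num
    have h8 : ζ = (ζ ^ 2 - 1) / (ζ - ζ⁻¹) := by
      rw [eq_div_iff hc0, mul_sub, mul_inv_cancel₀ hζ0]; ring
    have h9 : (ζ ^ 2 - 1) / (ζ - ζ⁻¹) ∈ IntermediateField.adjoin ℚ ({ζ ^ 2} : Set ℂ) :=
      div_mem (sub_mem hsq (one_mem _)) hc
    rwa [← h8] at h9

end fields

section chars

variable {G : Type*} [Group G] [Finite G]

theorem lin_pow {C : Type*} [Group C] (ψ : C →* ℂˣ) (c : C) (k : ℕ) :
    lin ψ (c ^ k) = lin ψ c ^ k := by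
  simp [lin_apply, map_pow]

theorem lin_mul_apply {C : Type*} [Group C] (ψ : C →* ℂˣ) (a b : C) :
    lin ψ (a * b) = lin ψ a * lin ψ b := by
  simp [lin_apply, map_mul]

theorem lin_one_apply {C : Type*} [Group C] (ψ : C →* ℂˣ) : lin ψ 1 = 1 := by
  simp [lin_apply]

theorem zpowers_sub_comm (g : G) (a b : ↥(Subgroup.zpowers g)) : a * b = b * a := by
  apply Subtype.ext
  obtain ⟨i, hi⟩ := Subgroup.mem_zpowers_iff.1 a.2
  obtain ⟨j, hj⟩ := Subgroup.mem_zpowers_iff.1 b.2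
  rw [Subgroup.coe_mul, Subgroup.coe_mul, ← hi, ← hj]
  exact zpow_mul_comm g i j

/-- expansion of an irreducible character on a cyclic subgroup -/
theorem cyc_expansion (g : G) (χ : Cfsg.IrrCharacter G)
    [Fintype (↥(Subgroup.zpowers g) →* ℂˣ)] :
    ∃ m : (↥(Subgroup.zpowers g) →* ℂˣ) → ℕ, ∀ k : ℕ,
      χ.1 (g ^ k) = ∑ ψ : ↥(Subgroup.zpowers g) →* ℂˣ,
        (m ψ : ℂ) * lin ψ ⟨g, Subgroup.mem_zpowers g⟩ ^ k := by
  obtain ⟨m, hm⟩ := abelian_expansion (Subgroup.zpowers g) (zpowers_sub_comm g)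
    (isCharacter_of_isIrrCharacter χ.2)
  refine ⟨m, fun k => ?_⟩
  have h := hm (⟨g, Subgroup.mem_zpowers g⟩ ^ k)
  rw [Subgroup.coe_pow] at h
  rw [h]
  refine Finset.sum_congr rfl fun ψ _ => ?_
  rw [lin_pow]

theorem lin_gen_pow_order (g : G) (ψ : ↥(Subgroup.zpowers g) →* ℂˣ) (M : ℕ) (hM : g ^ M = 1) :
    lin ψ ⟨g, Subgroup.mem_zpowers g⟩ ^ M = 1 := by
  rw [← lin_pow]
  have : (⟨g, Subgroup.mem_zpowers g⟩ : ↥(Subgroup.zpowers g)) ^ M = 1 := by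
    apply Subtype.ext
    rw [Subgroup.coe_pow]; exact hM
  rw [this, lin_one_apply]

/-- values at an element of order dividing `M` lie in the `M`-th cyclotomic field -/
theorem char_mem_of_pow (g : G) (M : ℕ) (hM : 0 < M) (hg : g ^ M = 1) (ξ : ℂ)
    (hξ : IsPrimitiveRoot ξ M) (χ : Cfsg.IrrCharacter G) :
    χ.1 g ∈ IntermediateField.adjoin ℚ ({ξ} : Set ℂ) := by
  have : Fintype (↥(Subgroup.zpowers g) →* ℂˣ) := Fintype.ofFinite _
  have : NeZero M := ⟨hM.ne'⟩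
  obtain ⟨m, hm⟩ := cyc_expansion g χ
  have h := hm 1
  simp only [pow_one] at h
  rw [h]
  refine sum_mem fun ψ _ => mul_mem (natCast_mem _ _) ?_
  obtain ⟨j, _, hj⟩ := hξ.eq_pow_of_pow_eq_one (lin_gen_pow_order g ψ M hg)
  rw [← hj]
  exact pow_mem (IntermediateField.subset_adjoin ℚ _ (Set.mem_singleton _)) j

/-- values at `g` when `g` is conjugate to `g * g ^ M` with `(g ^ M) ^ 2 = 1` -/
theorem char_mem_of_twist (g x : G) (M : ℕ) (hM : 0 < M) (hz2 : (g ^ M) ^ 2 = 1)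
    (hx : x * g * x⁻¹ = g * g ^ M) (ξ : ℂ) (hξ : IsPrimitiveRoot ξ M)
    (χ : Cfsg.IrrCharacter G) :
    χ.1 g ∈ IntermediateField.adjoin ℚ ({ξ} : Set ℂ) := by
  have : Fintype (↥(Subgroup.zpowers g) →* ℂˣ) := Fintype.ofFinite _
  have : NeZero M := ⟨hM.ne'⟩
  obtain ⟨m, hm⟩ := cyc_expansion g χ
  have h1 := hm 1
  simp only [pow_one] at h1
  have h2 := hm (M + 1)
  have h3 : χ.1 (g ^ (M + 1)) = χ.1 g := by
    rw [pow_succ', ← hx]
    exact irr_conj_class χ g x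
  rw [h3] at h2
  have h4 : χ.1 g = (∑ ψ : ↥(Subgroup.zpowers g) →* ℂˣ,
      (m ψ : ℂ) * (lin ψ ⟨g, Subgroup.mem_zpowers g⟩ +
        lin ψ ⟨g, Subgroup.mem_zpowers g⟩ ^ (M + 1))) / 2 := by
    rw [eq_div_iff (by norm_num : (2 : ℂ) ≠ 0)]
    simp only [mul_add, Finset.sum_add_distrib]
    rw [← h1, ← h2]; ring
  rw [h4]
  refine div_mem (sum_mem fun ψ _ => mul_mem (natCast_mem _ _) ?_) (ofNat_mem _ 2)
  obtain ⟨a, ha⟩ : ∃ a, a = lin ψ ⟨g, Subgroup.mem_zpowers g⟩ := ⟨_, rfl⟩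
  rw [← ha]
  have hr : (a ^ M) ^ 2 = 1 := by
    rw [ha, ← pow_mul]
    apply lin_gen_pow_order
    rw [pow_mul]; exact hz2
  have hr' : (a ^ M - 1) * (a ^ M + 1) = 0 := by ring_nf; ring_nf at hr; rw [hr]; ring
  rcases mul_eq_zero.1 hr' with h | h
  · have haM : a ^ M = 1 := by linear_combination h
    obtain ⟨j, _, hj⟩ := hξ.eq_pow_of_pow_eq_one haM
    rw [pow_succ, haM, one_mul, ← hj]
    exact add_mem (pow_mem (IntermediateField.subset_adjoin ℚ _ (Set.mem_singleton _)) j)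
      (pow_mem (IntermediateField.subset_adjoin ℚ _ (Set.mem_singleton _)) j)
  · have haM : a ^ M = -1 := by linear_combination h
    have : a + a ^ (M + 1) = 0 := by rw [pow_succ, haM]; ring
    rw [this]
    exact zero_mem _

/-- values at `g` lie in `ℚ(ζ + ζ^k)` when `g ^ k` is conjugate to `g` and `ζ ζ^k = ± 1` -/
theorem char_mem_adjoin (g x : G) (k : ℕ) (hx : x * g * x⁻¹ = g ^ k) (ζ : ℂ)
    (hζ : IsPrimitiveRoot ζ (orderOf g)) (hprod : ζ * ζ ^ k = 1 ∨ ζ * ζ ^ k = -1)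
    (χ : Cfsg.IrrCharacter G) :
    χ.1 g ∈ IntermediateField.adjoin ℚ ({ζ + ζ ^ k} : Set ℂ) := by
  have : Fintype (↥(Subgroup.zpowers g) →* ℂˣ) := Fintype.ofFinite _
  have : NeZero (orderOf g) := ⟨(orderOf_pos g).ne'⟩
  obtain ⟨m, hm⟩ := cyc_expansion g χ
  have h1 := hm 1
  simp only [pow_one] at h1
  have h2 := hm k
  have h3 : χ.1 (g ^ k) = χ.1 g := by
    rw [← hx]
    exact irr_conj_class χ g x
  rw [h3] at h2
  have h4 : χ.1 g = (∑ ψ : ↥(Subgroup.zpowers g) →* ℂˣ,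
      (m ψ : ℂ) * (lin ψ ⟨g, Subgroup.mem_zpowers g⟩ +
        lin ψ ⟨g, Subgroup.mem_zpowers g⟩ ^ k)) / 2 := by
    rw [eq_div_iff (by norm_num : (2 : ℂ) ≠ 0)]
    simp only [mul_add, Finset.sum_add_distrib]
    rw [← h1, ← h2]; ring
  rw [h4]
  refine div_mem (sum_mem fun ψ _ => mul_mem (natCast_mem _ _) ?_) (ofNat_mem _ 2)
  obtain ⟨j, _, hj⟩ := hζ.eq_pow_of_pow_eq_one
    (lin_gen_pow_order g ψ (orderOf g) (pow_orderOf_eq_one g))
  rw [← hj]
  have : ζ ^ j + (ζ ^ j) ^ k = ζ ^ j + (ζ ^ k) ^ j := by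
    rw [← pow_mul, ← pow_mul, mul_comm]
  rw [this]
  exact pow_add_pow_mem ζ (ζ ^ k) hprod j

/-- the sum of the values of a linear character of `⟨g⟩` over the conjugates of `g` in `⟨g⟩`
lies in the field of values of `g`, when there are exactly two such conjugates -/
theorem sum_mem_adjoin (g g' x₀ : G) (hx₀ : x₀ * g * x₀⁻¹ = g') (hne : g' ≠ g)
    (hg' : g' ∈ Subgroup.zpowers g)
    (H : ∀ x : G, x * g * x⁻¹ ∈ Subgroup.zpowers g → x * g * x⁻¹ = g ∨ x * g * x⁻¹ = g')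
    (θ : ↥(Subgroup.zpowers g) →* ℂˣ) :
    lin θ ⟨g, Subgroup.mem_zpowers g⟩ + lin θ ⟨g', hg'⟩ ∈
      IntermediateField.adjoin ℚ {z : ℂ | ∃ χ : Cfsg.IrrCharacter G, (χ : G → ℂ) g = z} := by
  have : Fintype G := Fintype.ofFinite G
  have : Finite (Cfsg.IrrCharacter G) := irr_finite G
  have : Fintype (Cfsg.IrrCharacter G) := Fintype.ofFinite _
  have : Fintype ↥(Subgroup.zpowers g) := Fintype.ofFinite _
  have : Fintype (↥(Subgroup.zpowers g) →* ℂˣ) := Fintype.ofFinite _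
  obtain ⟨F, hF⟩ : ∃ F, F = IntermediateField.adjoin ℚ
      {z : ℂ | ∃ χ : Cfsg.IrrCharacter G, (χ : G → ℂ) g = z} := ⟨_, rfl⟩
  rw [← hF]
  have hχF : ∀ χ : Cfsg.IrrCharacter G, χ.1 g ∈ F := by
    intro χ
    rw [hF]
    exact IntermediateField.subset_adjoin ℚ _ ⟨χ, rfl⟩
  choose m hm using fun χ : Cfsg.IrrCharacter G =>
    abelian_expansion (Subgroup.zpowers g) (zpowers_sub_comm g)
      (isCharacter_of_isIrrCharacter χ.2)
  obtain ⟨K, hK⟩ : ∃ K, K = Nat.card {y : G // y * g⁻¹ * y⁻¹ = g⁻¹} := ⟨_, rfl⟩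
  have hK0 : (K : ℂ) ≠ 0 := by
    have : Nonempty {y : G // y * g⁻¹ * y⁻¹ = g⁻¹} := ⟨⟨1, by simp⟩⟩
    rw [hK]
    exact_mod_cast (Nat.card_pos).ne'
  -- step (i)
  have hi : ∀ χ : Cfsg.IrrCharacter G, ∑ c : ↥(Subgroup.zpowers g), lin θ c⁻¹ * χ.1 c =
      (Nat.card ↥(Subgroup.zpowers g) : ℂ) * m χ θ := by
    intro χ
    have e1 : ∀ c : ↥(Subgroup.zpowers g), lin θ c⁻¹ * χ.1 c =
        ∑ ψ : ↥(Subgroup.zpowers g) →* ℂˣ, (m χ ψ : ℂ) * (((ψ * θ⁻¹) c : ℂˣ) : ℂ) := by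
      intro c
      rw [hm χ c, Finset.mul_sum]
      refine Finset.sum_congr rfl fun ψ _ => ?_
      simp only [lin_apply, map_inv, MonoidHom.mul_apply, MonoidHom.inv_apply, Units.val_mul]
      ring
    simp only [e1]
    rw [Finset.sum_comm]
    simp only [← Finset.mul_sum, bl_sum_hom_ite]
    rw [Finset.sum_eq_single θ]
    · rw [if_pos (mul_inv_cancel θ), Nat.card_eq_fintype_card]; ring
    · intro ψ _ hψ
      rw [if_neg, mul_zero]
      intro h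
      exact hψ (mul_inv_eq_one.1 h)
    · intro h
      exact absurd (Finset.mem_univ _) h
  -- step (ii)
  have hii : ∀ c : ↥(Subgroup.zpowers g), ∑ χ : Cfsg.IrrCharacter G, χ.1 c * χ.1 g =
      (Nat.card {y : G // y * g⁻¹ * y⁻¹ = (c : G)} : ℂ) := by
    intro c
    have h := irr_col_orth_inv (c : G) g⁻¹
    rw [inv_inv] at h
    exact h
  -- step (iii)
  have cnt0 : ∀ c : ↥(Subgroup.zpowers g), (c : G) ≠ g⁻¹ → (c : G) ≠ g'⁻¹ →
      Nat.card {y : G // y * g⁻¹ * y⁻¹ = (c : G)} = 0 := by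
    intro c h1 h2
    have : IsEmpty {y : G // y * g⁻¹ * y⁻¹ = (c : G)} := by
      refine ⟨fun ⟨y, hy⟩ => ?_⟩
      have h3 : y * g * y⁻¹ = (c : G)⁻¹ := by
        rw [← hy]; group
      have h4 : y * g * y⁻¹ ∈ Subgroup.zpowers g := by
        rw [h3]; exact inv_mem c.2
      rcases H y h4 with h5 | h5
      · apply h1
        exact inv_eq_iff_eq_inv.1 (h3.symm.trans h5)
      · apply h2
        exact inv_eq_iff_eq_inv.1 (h3.symm.trans h5)
    exact Nat.card_of_isEmpty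
  have cntg' : Nat.card {y : G // y * g⁻¹ * y⁻¹ = g'⁻¹} = K := by
    rw [hK]
    refine Nat.card_congr (Equiv.subtypeEquiv (Equiv.mulLeft x₀⁻¹) fun y => ?_)
    simp only [Equiv.coe_mulLeft]
    constructor
    · intro h
      have : x₀⁻¹ * y * g⁻¹ * (x₀⁻¹ * y)⁻¹ = x₀⁻¹ * (y * g⁻¹ * y⁻¹) * x₀ := by group
      rw [this, h, ← hx₀]; group
    · intro h
      have : y * g⁻¹ * y⁻¹ = x₀ * (x₀⁻¹ * y * g⁻¹ * (x₀⁻¹ * y)⁻¹) * x₀⁻¹ := by group
      rw [this, h, ← hx₀]; group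
  -- step (iv)
  have hS1 : ∑ c : ↥(Subgroup.zpowers g), lin θ c⁻¹ * ∑ χ : Cfsg.IrrCharacter G, χ.1 c * χ.1 g =
      ∑ χ : Cfsg.IrrCharacter G, χ.1 g * ((Nat.card ↥(Subgroup.zpowers g) : ℂ) * m χ θ) := by
    simp only [Finset.mul_sum]
    rw [Finset.sum_comm]
    refine Finset.sum_congr rfl fun χ _ => ?_
    rw [← hi χ, Finset.mul_sum]
    refine Finset.sum_congr rfl fun c _ => ?_
    ring
  have hgi : g⁻¹ ∈ Subgroup.zpowers g := inv_mem (Subgroup.mem_zpowers g)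
  have hg'i : g'⁻¹ ∈ Subgroup.zpowers g := inv_mem hg'
  have hS2 : ∑ c : ↥(Subgroup.zpowers g), lin θ c⁻¹ * ∑ χ : Cfsg.IrrCharacter G, χ.1 c * χ.1 g =
      (K : ℂ) * (lin θ ⟨g, Subgroup.mem_zpowers g⟩ + lin θ ⟨g', hg'⟩) := by
    simp only [hii]
    rw [Finset.sum_eq_add (⟨g⁻¹, hgi⟩ : ↥(Subgroup.zpowers g)) ⟨g'⁻¹, hg'i⟩]
    · have e1 : (⟨g⁻¹, hgi⟩ : ↥(Subgroup.zpowers g))⁻¹ = ⟨g, Subgroup.mem_zpowers g⟩ := by
        apply Subtype.ext; simp
      have e2 : (⟨g'⁻¹, hg'i⟩ : ↥(Subgroup.zpowers g))⁻¹ = ⟨g', hg'⟩ := by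
        apply Subtype.ext; simp
      rw [e1, e2]
      show _ * (Nat.card {y : G // y * g⁻¹ * y⁻¹ = g⁻¹} : ℂ) +
        _ * (Nat.card {y : G // y * g⁻¹ * y⁻¹ = g'⁻¹} : ℂ) = _
      rw [cntg', ← hK]; ring
    · intro h
      apply hne
      have := congrArg Subtype.val h
      simpa using this.symm
    · intro c _ hc
      rw [cnt0 c ?_ ?_]
      · simp
      · intro h; exact hc.1 (Subtype.ext h)
      · intro h; exact hc.2 (Subtype.ext h)
    · intro h; exact absurd (Finset.mem_univ _) h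
    · intro h; exact absurd (Finset.mem_univ _) h
  have hfinal : lin θ ⟨g, Subgroup.mem_zpowers g⟩ + lin θ ⟨g', hg'⟩ =
      (∑ χ : Cfsg.IrrCharacter G, χ.1 g * ((Nat.card ↥(Subgroup.zpowers g) : ℂ) * m χ θ)) / K := by
    rw [eq_div_iff hK0, ← hS1, hS2]; ring
  rw [hfinal]
  refine div_mem (sum_mem fun χ _ => mul_mem (hχF χ) (mul_mem (natCast_mem _ _) (natCast_mem _ _)))
    (natCast_mem _ _)

end chars

end Cfsg.Agent.Lib.Helper82.FV
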