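import Mathlib
import Cfsg.Agent.Lib.Helper82.TwoMaxA

/-!
Taussky's theorem in the form needed: a 2-group of order `2 ^ n ≥ 8` with commutator subgroup of
index four has a cyclic subgroup of index two, on which the outer elements act by `g ↦ g⁻¹ e`
with `e ^ 2 = 1`; conversely a 2-group with cyclic maximal subgroup whose commutator subgroup
does not have index four is abelian or modular.
-/

set_option autoImplicit false

namespace Cfsg.Agent.Lib.Helper82.TM

open Classical
open scoped commutatorElement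

universe u

theorem comm_of_sq {Q : Type*} [Group Q] (h : ∀ x : Q, x ^ 2 = 1) (a b : Q) :
    a * b = b * a := by
  have hi : ∀ x : Q, x⁻¹ = x := fun x =>
    inv_eq_of_mul_eq_one_left (by rw [← pow_two]; exact h x)
  calc a * b = (a * b)⁻¹ := (hi _).symm
    _ = b⁻¹ * a⁻¹ := mul_inv_rev a b
    _ = b * a := by rw [hi, hi]

theorem commutator_eq_bot_of_comm {Q : Type*} [Group Q] (h : ∀ a b : Q, a * b = b * a) :
    commutator Q = ⊥ := by
  rw [eq_bot_iff, commutator_def, Subgroup.commutator_le]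
  intro a _ b _
  rw [Subgroup.mem_bot, commutatorElement_def, h a b]
  group

theorem zpowers_comm {Q : Type*} [Group Q] (g : Q) :
    ∀ a ∈ Subgroup.zpowers g, ∀ b ∈ Subgroup.zpowers g, a * b = b * a := by
  intro a ha b hb
  obtain ⟨i, rfl⟩ := Subgroup.mem_zpowers_iff.1 ha
  obtain ⟨j, rfl⟩ := Subgroup.mem_zpowers_iff.1 hb
  exact zpow_mul_comm g i j

theorem index_zpowers {Q : Type*} [Group Q] [Finite Q] {n : ℕ} (hn : 1 ≤ n)
    (hcard : Nat.card Q = 2 ^ n) (g : Q) (hg : orderOf g = 2 ^ (n - 1)) :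
    (Subgroup.zpowers g).index = 2 := by
  have h := Subgroup.card_mul_index (Subgroup.zpowers g)
  rw [Nat.card_zpowers, hg, hcard] at h
  have : 2 ^ n = 2 ^ (n - 1) * 2 := by rw [← pow_succ]; congr 1; omega
  rw [this] at h
  exact Nat.eq_of_mul_eq_mul_left (by positivity) h

theorem exists_not_mem_of_index_two {Q : Type*} [Group Q] (C : Subgroup Q) (h : C.index = 2) :
    ∃ x, x ∉ C := by
  by_contra hc
  push_neg at hc
  have : C = ⊤ := by rw [Subgroup.eq_top_iff']; exact hc
  rw [this, Subgroup.index_top] at h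
  omega

theorem taussky : ∀ n : ℕ, 3 ≤ n → ∀ (Q : Type u) [Group Q] [Finite Q], Nat.card Q = 2 ^ n →
    (commutator Q).index = 4 → ∃ g : Q, orderOf g = 2 ^ (n - 1) := by
  intro n hn
  induction n, hn using Nat.le_induction with
  | base =>
    intro Q _ _ hcard hidx
    have hnc : ¬ ∀ a b : Q, a * b = b * a := by
      intro h
      rw [commutator_eq_bot_of_comm h, Subgroup.index_bot, hcard] at hidx
      norm_num at hidx
    have hex : ∃ x : Q, x ^ 2 ≠ 1 := by
      by_contra h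
      push_neg at h
      exact hnc (comm_of_sq h)
    obtain ⟨x, hx⟩ := hex
    refine ⟨x, ?_⟩
    have hd : orderOf x ∣ 2 ^ 3 := hcard ▸ orderOf_dvd_natCard x
    obtain ⟨k, hk, hk2⟩ := (Nat.dvd_prime_pow Nat.prime_two).1 hd
    interval_cases k
    · exfalso; apply hx; rw [pow_zero, orderOf_eq_one_iff] at hk2; rw [hk2, one_pow]
    · exfalso; apply hx; rw [pow_one] at hk2; rw [← hk2]; exact pow_orderOf_eq_one x
    · simpa using hk2
    · exfalso
      apply hnc
      have hc : IsCyclic Q := isCyclic_of_orderOf_eq_card x (by rw [hk2, hcard])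
      obtain ⟨g, hg⟩ := IsCyclic.exists_generator (α := Q)
      intro a b
      exact zpowers_comm g a (hg a) b (hg b)
  | succ n hn ih =>
    intro Q _ _ hcard hidx
    have hQ : IsPGroup 2 Q := IsPGroup.of_card hcard
    have hc : commutator Q ≠ ⊥ := by
      intro h
      rw [h, Subgroup.index_bot, hcard] at hidx
      have : 2 ^ 4 ≤ 2 ^ (n + 1) := Nat.pow_le_pow_right (by norm_num) (by omega)
      omega
    obtain ⟨z, hzN, hzc, hz2⟩ := exists_central_involution hQ (commutator Q) hc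
    have hzsq : z ^ 2 = 1 := by rw [← hz2]; exact pow_orderOf_eq_one z
    have hz1 : z ≠ 1 := by
      intro h; rw [h, orderOf_one] at hz2; omega
    obtain ⟨Z, hZ⟩ : ∃ Z, Z = Subgroup.zpowers z := ⟨_, rfl⟩
    have hzZ : z ∈ Z := by rw [hZ]; exact Subgroup.mem_zpowers z
    have hZc : ∀ t ∈ Z, t ∈ Subgroup.center Q := by
      intro t ht
      rw [hZ] at ht
      exact (Subgroup.zpowers_le.2 hzc) ht
    haveI hZn : Z.Normal := ⟨fun a ha g => by
      have := Subgroup.mem_center_iff.1 (hZc a ha) g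
      have e : g * a * g⁻¹ = a := by rw [this]; group
      rw [e]; exact ha⟩
    have hZcard : Nat.card Z = 2 := by rw [hZ, Nat.card_zpowers, hz2]
    have hZle : Z ≤ commutator Q := by rw [hZ]; exact Subgroup.zpowers_le.2 hzN
    have hqcard : Nat.card (Q ⧸ Z) = 2 ^ n := by
      have h := Subgroup.card_eq_card_quotient_mul_card_subgroup Z
      rw [hcard, hZcard, pow_succ] at h
      exact (Nat.eq_of_mul_eq_mul_right (by norm_num) h).symm
    have hqidx : (commutator (Q ⧸ Z)).index = 4 := by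
      have h1 : commutator (Q ⧸ Z) = (commutator Q).map (QuotientGroup.mk' Z) := by
        rw [commutator_def, commutator_def, Subgroup.map_commutator,
          Subgroup.map_top_of_surjective _ (QuotientGroup.mk'_surjective Z)]
      rw [h1, Subgroup.index_map, QuotientGroup.ker_mk', sup_eq_left.2 hZle,
        MonoidHom.range_eq_top.2 (QuotientGroup.mk'_surjective Z), Subgroup.index_top, mul_one,
        hidx]
    obtain ⟨gb, hgb⟩ := ih (Q ⧸ Z) hqcard hqidx
    obtain ⟨g, rfl⟩ := QuotientGroup.mk_surjective gb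
    have hgZ : g ^ 2 ^ (n - 1) ∈ Z := by
      rw [← QuotientGroup.eq_one_iff, QuotientGroup.mk_pow, ← hgb]
      exact pow_orderOf_eq_one _
    have hZtwo : ∀ t ∈ Z, t = 1 ∨ t = z := by
      intro t ht
      rw [hZ] at ht
      exact mem_zpowers_two hzsq ht
    rcases hZtwo _ hgZ with h1 | h1
    swap
    · refine ⟨g, ?_⟩
      have e : n + 1 - 1 = (n - 1) + 1 := by omega
      rw [e]
      refine orderOf_eq_prime_pow ?_ ?_
      · rw [h1]; exact hz1
      · rw [pow_succ, pow_mul, h1]; exact hzsq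
    exfalso
    obtain ⟨w, hw⟩ : ∃ w, w = g ^ 2 ^ (n - 2) := ⟨_, rfl⟩
    have hw2 : w ^ 2 = 1 := by
      rw [hw, ← pow_mul, ← pow_succ]
      have : n - 2 + 1 = n - 1 := by omega
      rw [this]; exact h1
    have hwZ : w ∉ Z := by
      intro h
      have h3 : ((g : Q ⧸ Z)) ^ 2 ^ (n - 2) = 1 := by
        rw [← QuotientGroup.mk_pow, ← hw]; exact (QuotientGroup.eq_one_iff _).2 h
      have hd := orderOf_dvd_of_pow_eq_one h3
      rw [hgb] at hd
      have := (Nat.pow_dvd_pow_iff_le_right (by norm_num : 1 < 2)).1 hd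
      omega
    obtain ⟨C, hC⟩ : ∃ C, C = Subgroup.comap (QuotientGroup.mk' Z)
        (Subgroup.zpowers (g : Q ⧸ Z)) := ⟨_, rfl⟩
    have hCmem : ∀ a : Q, a ∈ C ↔ (a : Q ⧸ Z) ∈ Subgroup.zpowers (g : Q ⧸ Z) := by
      intro a; rw [hC]; rfl
    have hCidx : C.index = 2 := by
      rw [hC, Subgroup.index_comap_of_surjective _ (QuotientGroup.mk'_surjective Z)]
      exact index_zpowers (by omega) hqcard _ hgb
    have hkey : ∀ a ∈ C, ∃ i : ℤ, ∃ t ∈ Z, a = g ^ i * t := by
      intro a ha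
      obtain ⟨i, hi⟩ := Subgroup.mem_zpowers_iff.1 ((hCmem a).1 ha)
      refine ⟨i, (g ^ i)⁻¹ * a, ?_, by group⟩
      rw [← QuotientGroup.mk_zpow] at hi
      exact QuotientGroup.eq.1 hi
    have hZsq : ∀ t ∈ Z, t ^ 2 = 1 := by
      intro t ht
      rcases hZtwo t ht with h | h <;> rw [h]
      · exact one_pow 2
      · exact hzsq
    have hCab : ∀ a ∈ C, ∀ b ∈ C, a * b = b * a := by
      intro a ha b hb
      obtain ⟨i, t, ht, rfl⟩ := hkey a ha
      obtain ⟨j, s, hs, rfl⟩ := hkey b hb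
      have ct := Subgroup.mem_center_iff.1 (hZc t ht)
      have cs := Subgroup.mem_center_iff.1 (hZc s hs)
      have e1 : t * g ^ j = g ^ j * t := (ct (g ^ j)).symm
      have e2 : g ^ i * s = s * g ^ i := cs (g ^ i)
      have e3 : t * s = s * t := cs t
      calc g ^ i * t * (g ^ j * s) = g ^ i * (t * g ^ j) * s := by group
        _ = g ^ i * (g ^ j * t) * s := by rw [e1]
        _ = (g ^ i * g ^ j) * (t * s) := by group
        _ = (g ^ j * g ^ i) * (s * t) := by rw [zpow_mul_comm, e3]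
        _ = g ^ j * (g ^ i * s) * t := by group
        _ = g ^ j * (s * g ^ i) * t := by rw [e2]
        _ = g ^ j * s * (g ^ i * t) := by group
    obtain ⟨x, hx⟩ := exists_not_mem_of_index_two C hCidx
    have hn' : C.Normal := Subgroup.normal_of_index_eq_two hCidx
    have hker := index_comm C hCab hn' x hCidx hx
    rw [hidx] at hker
    have hker2 : Nat.card (beta C hCab hn' x).ker = 2 := by omega
    have hzC : z ∈ C := by
      rw [hCmem]
      have : (z : Q ⧸ Z) = 1 := (QuotientGroup.eq_one_iff _).2 hzZ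
      rw [this]; exact one_mem _
    have hgC : g ∈ C := by
      rw [hCmem]; exact Subgroup.mem_zpowers _
    have hwC : w ∈ C := by
      rw [hw]; exact pow_mem hgC _
    have hzk : (⟨z, hzC⟩ : ↥C) ∈ (beta C hCab hn' x).ker := by
      rw [MonoidHom.mem_ker, beta_apply]
      have := Subgroup.mem_center_iff.1 hzc x
      show z⁻¹ * (x * z * x⁻¹) = 1
      rw [this]; group
    have hxw : x * w * x⁻¹ = w := by
      have hxg : x * g * x⁻¹ ∈ C := hn'.conj_mem g hgC x
      obtain ⟨i, t, ht, hit⟩ := hkey _ hxg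
      have ct := Subgroup.mem_center_iff.1 (hZc t ht)
      have h3 : x * w * x⁻¹ = w ^ i := by
        rw [hw, ← conj_pow, hit]
        have hcomm : Commute (g ^ i) t := ct (g ^ i)
        rw [hcomm.mul_pow]
        have ht1 : t ^ 2 ^ (n - 2) = 1 := by
          have : 2 ^ (n - 2) = 2 * 2 ^ (n - 3) := by rw [← pow_succ']; congr 1; omega
          rw [this, pow_mul, hZsq t ht, one_pow]
        rw [ht1, mul_one]
        rw [← zpow_natCast, ← zpow_mul, ← zpow_natCast, ← zpow_mul, mul_comm]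
      have hwz : w ^ i ∈ Subgroup.zpowers w := Subgroup.zpow_mem_zpowers w i
      rcases mem_zpowers_two hw2 hwz with h | h
      · exfalso
        rw [h] at h3
        have h4 : w = 1 := by
          have := congrArg (fun y => x⁻¹ * y * x) h3
          simpa [mul_assoc] using this
        exact hwZ (h4 ▸ one_mem _)
      · rw [h3, h]
    have hwk : (⟨w, hwC⟩ : ↥C) ∈ (beta C hCab hn' x).ker := by
      rw [MonoidHom.mem_ker, beta_apply]
      show w⁻¹ * (x * w * x⁻¹) = 1
      rw [hxw]; group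
    obtain ⟨y, _, hy⟩ := (Nat.card_eq_two_iff' (1 : ↥(beta C hCab hn' x).ker)).1 hker2
    have e1 := hy ⟨⟨z, hzC⟩, hzk⟩ (by
      intro h
      exact hz1 (congrArg (fun a : ↥(beta C hCab hn' x).ker => ((a : ↥C) : Q)) h))
    have e2 := hy ⟨⟨w, hwC⟩, hwk⟩ (by
      intro h
      have h4 : w = 1 := congrArg (fun a : ↥(beta C hCab hn' x).ker => ((a : ↥C) : Q)) h
      exact hwZ (h4 ▸ one_mem _))
    have h5 : w = z :=
      congrArg (fun a : ↥(beta C hCab hn' x).ker => ((a : ↥C) : Q)) (e2.trans e1.symm)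
    exact hwZ (h5 ▸ hzZ)

theorem fwd {Q : Type u} [Group Q] [Finite Q] {n : ℕ} (hn : 3 ≤ n) (hcard : Nat.card Q = 2 ^ n)
    (hidx : (commutator Q).index = 4) :
    ∃ g y e : Q, orderOf g = 2 ^ (n - 1) ∧ y ∉ Subgroup.zpowers g ∧ e ∈ Subgroup.zpowers g ∧
      e ^ 2 = 1 ∧ y * g * y⁻¹ = g⁻¹ * e := by
  obtain ⟨g, hg⟩ := taussky n hn Q hcard hidx
  obtain ⟨C, hC⟩ : ∃ C, C = Subgroup.zpowers g := ⟨_, rfl⟩
  have hCidx : C.index = 2 := by rw [hC]; exact index_zpowers (by omega) hcard g hg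
  have hCab : ∀ a ∈ C, ∀ b ∈ C, a * b = b * a := by rw [hC]; exact zpowers_comm g
  have hn' : C.Normal := Subgroup.normal_of_index_eq_two hCidx
  obtain ⟨y, hy⟩ := exists_not_mem_of_index_two C hCidx
  have hker := index_comm C hCab hn' y hCidx hy
  rw [hidx] at hker
  have hker2 : Nat.card (beta C hCab hn' y).ker = 2 := by omega
  have hgC : g ∈ C := by rw [hC]; exact Subgroup.mem_zpowers g
  have hg' : y * g * y⁻¹ ∈ C := hn'.conj_mem g hgC y
  have hyy : y * y ∈ C := by rw [Subgroup.mul_mem_iff_of_index_two hCidx]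
  have hyyg : (y * y) * g = g * (y * y) := hCab _ hyy _ hgC
  obtain ⟨e, he⟩ : ∃ e, e = g * (y * g * y⁻¹) := ⟨_, rfl⟩
  have heC : e ∈ C := by rw [he]; exact mul_mem hgC hg'
  have hye : y * e * y⁻¹ = e := by
    have h1 : y * (y * g * y⁻¹) * y⁻¹ = g := by
      calc y * (y * g * y⁻¹) * y⁻¹ = (y * y) * g * (y * y)⁻¹ := by group
        _ = g := by rw [hyyg]; group
    calc y * e * y⁻¹ = (y * g * y⁻¹) * (y * (y * g * y⁻¹) * y⁻¹) := by rw [he]; group
      _ = (y * g * y⁻¹) * g := by rw [h1]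
      _ = e := by rw [he]; exact hCab _ hg' _ hgC
  have hek : (⟨e, heC⟩ : ↥C) ∈ (beta C hCab hn' y).ker := by
    rw [MonoidHom.mem_ker, beta_apply]
    show e⁻¹ * (y * e * y⁻¹) = 1
    rw [hye]; group
  have he2 : e ^ 2 = 1 := by
    have h := pow_card_eq_one' (x := (⟨⟨e, heC⟩, hek⟩ : ↥(beta C hCab hn' y).ker))
    rw [hker2] at h
    have := congrArg (fun a : ↥(beta C hCab hn' y).ker => ((a : ↥C) : Q)) h
    simpa using this
  refine ⟨g, y, e, hg, ?_, ?_, he2, by rw [he]; group⟩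
  · rw [← hC]; exact hy
  · rw [← hC]; exact heC

theorem bwd {Q : Type u} [Group Q] [Finite Q] {n : ℕ} (hn : 3 ≤ n) (hcard : Nat.card Q = 2 ^ n)
    (hidx : (commutator Q).index ≠ 4) (g y : Q) (hg : orderOf g = 2 ^ (n - 1))
    (hy : y ∉ Subgroup.zpowers g) (hyg : y * g * y⁻¹ ≠ g) :
    y * g * y⁻¹ = g * g ^ 2 ^ (n - 2) := by
  obtain ⟨C, hC⟩ : ∃ C, C = Subgroup.zpowers g := ⟨_, rfl⟩
  have hCidx : C.index = 2 := by rw [hC]; exact index_zpowers (by omega) hcard g hg
  have hCab : ∀ a ∈ C, ∀ b ∈ C, a * b = b * a := by rw [hC]; exact zpowers_comm g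
  have hn' : C.Normal := Subgroup.normal_of_index_eq_two hCidx
  have hyC : y ∉ C := by rw [hC]; exact hy
  have hgC : g ∈ C := by rw [hC]; exact Subgroup.mem_zpowers g
  have hg' : y * g * y⁻¹ ∈ C := hn'.conj_mem g hgC y
  obtain ⟨u, hu⟩ : ∃ u, u = g⁻¹ * (y * g * y⁻¹) := ⟨_, rfl⟩
  have huC : u ∈ C := by rw [hu]; exact mul_mem (inv_mem hgC) hg'
  have hgu : y * g * y⁻¹ = g * u := by rw [hu]; group
  have hcomm : commutator Q = Subgroup.zpowers u := by
    rw [← range_beta C hCab hn' y hCidx hyC]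
    apply le_antisymm
    · rintro _ ⟨c, rfl⟩
      have hc : (c : Q) ∈ Subgroup.zpowers g := hC ▸ c.2
      obtain ⟨k, hk⟩ := Subgroup.mem_zpowers_iff.1 hc
      have h1 : c = (⟨g, hgC⟩ : ↥C) ^ k := by
        apply Subtype.ext
        rw [Subgroup.coe_zpow]; exact hk.symm
      have h2 : beta C hCab hn' y ⟨g, hgC⟩ = u := by rw [beta_apply, hu]
      rw [h1, map_zpow, h2]
      exact Subgroup.zpow_mem_zpowers u k
    · rw [Subgroup.zpowers_le]
      exact ⟨⟨g, hgC⟩, by rw [beta_apply, hu]⟩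
  have hou : orderOf u ≠ 2 ^ (n - 2) := by
    intro h
    apply hidx
    have h1 := Subgroup.card_mul_index (commutator Q)
    rw [hcomm, Nat.card_zpowers, h, hcard] at h1
    have h2 : 2 ^ n = 2 ^ (n - 2) * 4 := by
      have : n = (n - 2) + 2 := by omega
      conv_lhs => rw [this]
      rw [pow_add]; norm_num
    rw [h2] at h1
    rw [hcomm]
    exact Nat.eq_of_mul_eq_mul_left (by positivity) h1
  have hfin : IsOfFinOrder g := isOfFinOrder_of_finite g
  obtain ⟨m, hm⟩ : ∃ m : ℕ, g ^ m = u := by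
    have h1 : u ∈ Subgroup.zpowers g := hC ▸ huC
    rw [← hfin.mem_powers_iff_mem_zpowers] at h1
    exact (Submonoid.mem_powers_iff _ _).1 h1
  have hm_even : 2 ∣ m := by
    have h1 : orderOf (y * g * y⁻¹) = orderOf g := by
      have := (MulAut.conj y).orderOf_eq g
      simpa [MulAut.conj_apply] using this
    have h2 : y * g * y⁻¹ = g ^ (m + 1) := by rw [hgu, ← hm, pow_succ']
    rw [h2, orderOf_pow, hg] at h1
    have hpos : 0 < 2 ^ (n - 1) := by positivity
    have h3 : Nat.gcd (2 ^ (n - 1)) (m + 1) = 1 := by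
      rcases Nat.div_eq_self.1 h1 with h | h
      · omega
      · exact h
    by_contra hodd
    have h4 : 2 ∣ m + 1 := by omega
    have h5 : 2 ∣ 2 ^ (n - 1) := dvd_pow_self 2 (by omega)
    have := Nat.dvd_gcd h5 h4
    rw [h3] at this
    omega
  have hm4 : 4 ∣ m := by
    have h1 : orderOf u = 2 ^ (n - 1) / Nat.gcd (2 ^ (n - 1)) m := by
      rw [← hm, orderOf_pow, hg]
    have hd : Nat.gcd (2 ^ (n - 1)) m ∣ 2 ^ (n - 1) := Nat.gcd_dvd_left _ _
    obtain ⟨j, hj, hj2⟩ := (Nat.dvd_prime_pow Nat.prime_two).1 hd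
    have h5 : 2 ∣ 2 ^ (n - 1) := dvd_pow_self 2 (by omega)
    have h2g : 2 ∣ Nat.gcd (2 ^ (n - 1)) m := Nat.dvd_gcd h5 hm_even
    rcases Nat.lt_or_ge j 2 with hlt | hge
    · exfalso
      interval_cases j
      · rw [hj2] at h2g; omega
      · apply hou
        rw [h1, hj2, pow_one]
        have : n - 1 = (n - 2) + 1 := by omega
        rw [this, pow_succ]; simp
    · have h6 : (4 : ℕ) ∣ 2 ^ j := by
        have : (2 : ℕ) ^ 2 ∣ 2 ^ j := Nat.pow_dvd_pow 2 hge
        simpa using this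
      exact dvd_trans (hj2 ▸ h6) (Nat.gcd_dvd_right _ _)
  have hyyC : y * y ∈ C := by rw [Subgroup.mul_mem_iff_of_index_two hCidx]
  have hyyg : (y * y) * g = g * (y * y) := hCab _ hyyC _ hgC
  have hgucomm : Commute g u := hCab _ hgC _ huC
  have h1 : y * u * y⁻¹ = u⁻¹ := by
    have h2 : y * (y * g * y⁻¹) * y⁻¹ = g := by
      calc y * (y * g * y⁻¹) * y⁻¹ = (y * y) * g * (y * y)⁻¹ := by group
        _ = g := by rw [hyyg]; group
    calc y * u * y⁻¹ = (y * g * y⁻¹)⁻¹ * (y * (y * g * y⁻¹) * y⁻¹) := by rw [hu]; group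
      _ = (y * g * y⁻¹)⁻¹ * g := by rw [h2]
      _ = u⁻¹ := by rw [hu]; group
  have h2 : y * u * y⁻¹ = u * u ^ m := by
    calc y * u * y⁻¹ = y * g ^ m * y⁻¹ := by rw [hm]
      _ = (y * g * y⁻¹) ^ m := conj_pow.symm
      _ = (g * u) ^ m := by rw [hgu]
      _ = g ^ m * u ^ m := hgucomm.mul_pow m
      _ = u * u ^ m := by rw [hm]
  have h3 : u ^ (m + 2) = 1 := by
    have h4 : u⁻¹ = u * u ^ m := h1.symm.trans h2
    calc u ^ (m + 2) = (u * u ^ m) * u := by rw [pow_succ, pow_succ']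
      _ = u⁻¹ * u := by rw [← h4]
      _ = 1 := inv_mul_cancel u
  have hu2 : u ^ 2 = 1 := by
    have hd1 : orderOf u ∣ m + 2 := orderOf_dvd_of_pow_eq_one h3
    have hd2 : orderOf u ∣ 2 ^ (n - 1) := by
      rw [← hm, ← hg]; exact orderOf_pow_dvd m
    obtain ⟨j, hj, hj2⟩ := (Nat.dvd_prime_pow Nat.prime_two).1 hd2
    have hj1 : j ≤ 1 := by
      by_contra hj1
      push_neg at hj1
      have h6 : (4 : ℕ) ∣ 2 ^ j := by
        have : (2 : ℕ) ^ 2 ∣ 2 ^ j := Nat.pow_dvd_pow 2 hj1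
        simpa using this
      have h4 : 4 ∣ m + 2 := dvd_trans (hj2 ▸ h6) hd1
      omega
    apply orderOf_dvd_iff_pow_eq_one.1
    rw [hj2]
    have := Nat.pow_dvd_pow 2 hj1
    simpa using this
  have hu1 : u ≠ 1 := by
    intro h
    apply hyg
    rw [hgu, h, mul_one]
  have h4 : g ^ (2 * m) = 1 := by rw [mul_comm, pow_mul, hm, hu2]
  have h5 : 2 ^ (n - 1) ∣ 2 * m := by rw [← hg]; exact orderOf_dvd_of_pow_eq_one h4
  have h6 : 2 ^ (n - 2) ∣ m := by
    have : 2 ^ (n - 1) = 2 * 2 ^ (n - 2) := by rw [← pow_succ']; congr 1; omega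
    rw [this] at h5
    exact (Nat.mul_dvd_mul_iff_left (by norm_num)).1 h5
  obtain ⟨t, ht⟩ := h6
  have hz2 : (g ^ 2 ^ (n - 2)) ^ 2 = 1 := by
    rw [← pow_mul, ← pow_succ]
    have : n - 2 + 1 = n - 1 := by omega
    rw [this, ← hg]; exact pow_orderOf_eq_one g
  have hut : u = (g ^ 2 ^ (n - 2)) ^ t := by rw [← hm, ht, pow_mul]
  rcases Nat.even_or_odd t with he | ho
  · exfalso
    obtain ⟨s, hs⟩ := he
    apply hu1
    rw [hut, hs, ← two_mul, pow_mul, hz2, one_pow]
  · obtain ⟨s, hs⟩ := ho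
    rw [hgu, hut, hs, pow_succ, pow_mul, hz2, one_pow, one_mul]

theorem index_of_card_eight {Q : Type u} [Group Q] [Finite Q] (hcard : Nat.card Q = 2 ^ 3)
    (hnc : ¬ ∀ a b : Q, a * b = b * a) : (commutator Q).index = 4 := by
  have : Fact (Nat.Prime 2) := ⟨Nat.prime_two⟩
  have hQ : IsPGroup 2 Q := IsPGroup.of_card hcard
  have hnt : Nontrivial Q := by
    rw [← Finite.one_lt_card_iff_nontrivial, hcard]; norm_num
  obtain ⟨Z, hZ⟩ : ∃ Z, Z = Subgroup.center Q := ⟨_, rfl⟩
  haveI hZn : Z.Normal := by rw [hZ]; infer_instance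
  have hZd : Nat.card Z ∣ 2 ^ 3 := hcard ▸ Subgroup.card_subgroup_dvd_card Z
  obtain ⟨k, hk, hk2⟩ := (Nat.dvd_prime_pow Nat.prime_two).1 hZd
  have hk0 : k ≠ 0 := by
    intro h
    rw [h, pow_zero] at hk2
    have h1 : Nontrivial ↥(Subgroup.center Q) := hQ.center_nontrivial
    have h2 := Finite.one_lt_card_iff_nontrivial.2 h1
    rw [← hZ] at h2
    omega
  have hk3 : k ≠ 3 := by
    intro h
    apply hnc
    have h1 : Z = ⊤ := Subgroup.eq_top_of_card_eq Z (by rw [hk2, h, hcard])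
    intro a b
    have ha : b ∈ Subgroup.center Q := by rw [← hZ, h1]; trivial
    exact Subgroup.mem_center_iff.1 ha a
  have hqc := Subgroup.card_eq_card_quotient_mul_card_subgroup Z
  have hk2' : k ≠ 2 := by
    intro h
    apply hnc
    have h2 : Nat.card (Q ⧸ Z) = 2 := by
      rw [hcard, hk2, h] at hqc; omega
    have : IsCyclic (Q ⧸ Z) := isCyclic_of_prime_card h2
    intro a b
    exact commutative_of_cyclic_center_quotient (QuotientGroup.mk' Z)
      (by rw [QuotientGroup.ker_mk', hZ]) a b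
  have hk1 : k = 1 := by omega
  have h4 : Nat.card (Q ⧸ Z) = 2 ^ 2 := by
    rw [hcard, hk2, hk1] at hqc; omega
  have hqcomm := IsPGroup.commutative_of_card_eq_prime_sq h4
  have hle : commutator Q ≤ Z := by
    rw [commutator_def, Subgroup.commutator_le]
    intro a _ b _
    rw [← QuotientGroup.eq_one_iff, commutatorElement_def]
    simp only [QuotientGroup.mk_mul, QuotientGroup.mk_inv]
    rw [hqcomm (a : Q ⧸ Z) b]; group
  have hne : commutator Q ≠ ⊥ := by
    intro h
    apply hnc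
    intro a b
    have h1 : ⁅a, b⁆ ∈ commutator Q := by
      rw [commutator_def]
      exact Subgroup.commutator_mem_commutator (Subgroup.mem_top _) (Subgroup.mem_top _)
    rw [h, Subgroup.mem_bot, commutatorElement_def] at h1
    calc a * b = (a * b * a⁻¹ * b⁻¹) * (b * a) := by group
      _ = b * a := by rw [h1, one_mul]
  have hcd : Nat.card (commutator Q) ∣ 2 := by
    have := Subgroup.card_dvd_of_le hle
    rwa [hk2, hk1, pow_one] at this
  have hc1 : Nat.card (commutator Q) ≠ 1 := fun h => hne (Subgroup.card_eq_one.1 h)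
  have hc2 : Nat.card (commutator Q) = 2 := by
    rcases (Nat.dvd_prime Nat.prime_two).1 hcd with h | h
    · exact absurd h hc1
    · exact h
  have := Subgroup.card_mul_index (commutator Q)
  rw [hc2, hcard] at this
  omega

end Cfsg.Agent.Lib.Helper82.TM
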