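import Mathlib
import Cfsg.Agent.Lib.Helper82.TwoMaxB

/-!
Fusion of the generators of a cyclic subgroup of index two in a Sylow 2-subgroup: two generators
that are conjugate in the whole group are conjugate by an element of the Sylow 2-subgroup.
-/

set_option autoImplicit false

namespace Cfsg.Agent.Lib.Helper82.TM

open Classical

variable {G : Type*} [Group G] [Finite G]

/-- an element conjugating `g` into `⟨g⟩` normalizes `⟨g⟩` -/
theorem mem_normalizer_zpowers {g x : G} (hx : x * g * x⁻¹ ∈ Subgroup.zpowers g) :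
    x ∈ Subgroup.normalizer (Subgroup.zpowers g : Set G) := by
  have h1 : ∀ h ∈ Subgroup.zpowers g, x * h * x⁻¹ ∈ Subgroup.zpowers g := by
    intro h hh
    obtain ⟨i, rfl⟩ := Subgroup.mem_zpowers_iff.1 hh
    rw [← conj_zpow]
    exact Subgroup.zpow_mem _ hx i
  rw [Subgroup.mem_normalizer_iff]
  intro h
  refine ⟨h1 h, fun hh => ?_⟩
  let f : ↥(Subgroup.zpowers g) → ↥(Subgroup.zpowers g) := fun c => ⟨x * c * x⁻¹, h1 c c.2⟩
  have hf : Function.Injective f := by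
    intro a b hab
    have h2 : x * (a : G) * x⁻¹ = x * (b : G) * x⁻¹ := congrArg Subtype.val hab
    apply Subtype.ext
    simpa using h2
  obtain ⟨c, hc⟩ := (Finite.injective_iff_surjective.1 hf) ⟨x * h * x⁻¹, hh⟩
  have h2 : x * (c : G) * x⁻¹ = x * h * x⁻¹ := congrArg Subtype.val hc
  have h3 : (c : G) = h := by simpa using h2
  rw [← h3]; exact c.2

omit [Finite G] in
theorem conj_pow_iter {g x : G} {k : ℕ} (hx : x * g * x⁻¹ = g ^ k) (j : ℕ) :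
    x ^ j * g * (x ^ j)⁻¹ = g ^ (k ^ j) := by
  induction j with
  | zero => simp
  | succ j ih =>
    have h1 : x ^ (j + 1) * g * (x ^ (j + 1))⁻¹ = x * (x ^ j * g * (x ^ j)⁻¹) * x⁻¹ := by
      rw [pow_succ']; group
    rw [h1, ih, ← conj_pow, hx, ← pow_mul, pow_succ']

theorem pow_comm_of_conj {n : ℕ} (hn : 3 ≤ n) {g x : G} (hg : orderOf g = 2 ^ (n - 1))
    (hx : x * g * x⁻¹ ∈ Subgroup.zpowers g) :
    x ^ 2 ^ (n - 2) * g = g * x ^ 2 ^ (n - 2) := by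
  have hfin : IsOfFinOrder g := isOfFinOrder_of_finite g
  obtain ⟨k, hk⟩ : ∃ k : ℕ, g ^ k = x * g * x⁻¹ := by
    rw [← hfin.mem_powers_iff_mem_zpowers] at hx
    exact (Submonoid.mem_powers_iff _ _).1 hx
  have h1 : orderOf (x * g * x⁻¹) = orderOf g := by
    have := (MulAut.conj x).orderOf_eq g
    simpa [MulAut.conj_apply] using this
  rw [← hk, orderOf_pow, hg] at h1
  have hpos : 0 < 2 ^ (n - 1) := by positivity
  have hcop : Nat.Coprime k (2 ^ (n - 1)) := by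
    rcases Nat.div_eq_self.1 h1 with h | h
    · omega
    · rw [Nat.coprime_comm]; exact h
  have h2 := Nat.ModEq.pow_totient hcop
  rw [Nat.totient_prime_pow Nat.prime_two (by omega)] at h2
  have h3 : n - 1 - 1 = n - 2 := by omega
  simp only [h3, show 2 - 1 = 1 from rfl, mul_one] at h2
  have h4 := conj_pow_iter hk.symm (2 ^ (n - 2))
  have h5 : g ^ (k ^ 2 ^ (n - 2)) = g := by
    have h6 : g ^ (k ^ 2 ^ (n - 2)) = g ^ 1 := by
      rw [pow_eq_pow_iff_modEq, hg]; exact h2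
    rw [h6, pow_one]
  rw [h5] at h4
  calc x ^ 2 ^ (n - 2) * g
      = (x ^ 2 ^ (n - 2) * g * (x ^ 2 ^ (n - 2))⁻¹) * x ^ 2 ^ (n - 2) := by group
    _ = g * x ^ 2 ^ (n - 2) := by rw [h4]

theorem fusion_cyclic (P : Sylow 2 G) {n : ℕ} (hn : 3 ≤ n) (hP : Nat.card P = 2 ^ n) {g : G}
    (hgP : g ∈ (P : Subgroup G)) (hg : orderOf g = 2 ^ (n - 1)) {x : G}
    (hx : x * g * x⁻¹ ∈ Subgroup.zpowers g) :
    ∃ p ∈ (P : Subgroup G), x * g * x⁻¹ = p * g * p⁻¹ := by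
  have : Fact (Nat.Prime 2) := ⟨Nat.prime_two⟩
  have hcomm := pow_comm_of_conj hn hg hx
  obtain ⟨a, b, hb, hab⟩ := Nat.exists_eq_two_pow_mul_odd (orderOf_pos x).ne'
  have hcop : Nat.Coprime b (2 ^ (n - 2)) :=
    Nat.Coprime.pow_right _ (Nat.coprime_two_right.2 hb)
  have h1lt : 1 < 2 ^ (n - 2) := Nat.one_lt_two_pow (by omega)
  obtain ⟨j, -, hj⟩ := Nat.exists_mul_mod_eq_one_of_coprime hcop h1lt
  obtain ⟨q, hq⟩ : ∃ q, b * j = 2 ^ (n - 2) * q + 1 := ⟨b * j / 2 ^ (n - 2), by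
    have h := Nat.div_add_mod (b * j) (2 ^ (n - 2))
    rw [hj] at h; exact h.symm⟩
  obtain ⟨x', hx'⟩ : ∃ x', x' = x ^ (b * j) := ⟨_, rfl⟩
  have hx'2 : x' ^ 2 ^ a = 1 := by
    rw [hx', ← pow_mul]
    have h : b * j * 2 ^ a = orderOf x * j := by rw [hab]; ring
    rw [h, pow_mul, pow_orderOf_eq_one, one_pow]
  have hx'g : x' * g * x'⁻¹ = x * g * x⁻¹ := by
    have e : x' = x * (x ^ 2 ^ (n - 2)) ^ q := by
      rw [hx', hq, pow_succ', pow_mul]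
    have hc : (x ^ 2 ^ (n - 2)) ^ q * g = g * (x ^ 2 ^ (n - 2)) ^ q := by
      have h : Commute (x ^ 2 ^ (n - 2)) g := hcomm
      exact h.pow_left q
    rw [e]
    calc x * (x ^ 2 ^ (n - 2)) ^ q * g * (x * (x ^ 2 ^ (n - 2)) ^ q)⁻¹
        = x * ((x ^ 2 ^ (n - 2)) ^ q * g) * ((x ^ 2 ^ (n - 2)) ^ q)⁻¹ * x⁻¹ := by group
      _ = x * g * x⁻¹ := by rw [hc]; group
  obtain ⟨Nm, hNm⟩ : ∃ Nm : Subgroup G,
      Nm = Subgroup.normalizer (Subgroup.zpowers g : Set G) := ⟨_, rfl⟩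
  have hx'N : x' ∈ Nm := by
    rw [hNm]; apply mem_normalizer_zpowers; rw [hx'g]; exact hx
  have hPconj : ∀ p ∈ (P : Subgroup G), p * g * p⁻¹ ∈ Subgroup.zpowers g := by
    intro p hp
    have hgo : orderOf (⟨g, hgP⟩ : ↥P) = 2 ^ (n - 1) := by
      rw [← hg]; exact (Subgroup.orderOf_coe (⟨g, hgP⟩ : ↥(P : Subgroup G))).symm
    have hidx : (Subgroup.zpowers (⟨g, hgP⟩ : ↥P)).index = 2 :=
      index_zpowers (by omega) hP _ hgo
    have hnorm := Subgroup.normal_of_index_eq_two hidx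
    have h1 := hnorm.conj_mem _ (Subgroup.mem_zpowers (⟨g, hgP⟩ : ↥P)) ⟨p, hp⟩
    obtain ⟨i, hi⟩ := Subgroup.mem_zpowers_iff.1 h1
    have h2 := congrArg Subtype.val hi
    rw [Subgroup.mem_zpowers_iff]
    refine ⟨i, ?_⟩
    simpa using h2
  have hPle : (P : Subgroup G) ≤ Nm := by
    intro p hp
    rw [hNm]; exact mem_normalizer_zpowers (hPconj p hp)
  have hzp : IsPGroup 2 ↥(Subgroup.zpowers (⟨x', hx'N⟩ : ↥Nm)) := by
    apply IsPGroup.of_card_dvd_pow (n := a)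
    rw [Nat.card_zpowers]
    apply orderOf_dvd_of_pow_eq_one
    apply Subtype.ext
    rw [Subgroup.coe_pow]; exact hx'2
  obtain ⟨Q, hQ⟩ := hzp.exists_le_sylow
  obtain ⟨nn, hnn⟩ := MulAction.exists_smul_eq ↥Nm (P.subtype hPle) Q
  have hxQ : (⟨x', hx'N⟩ : ↥Nm) ∈ (Q : Subgroup ↥Nm) := hQ (Subgroup.mem_zpowers _)
  rw [← hnn, Sylow.coe_subgroup_smul, Subgroup.mem_pointwise_smul_iff_inv_smul_mem,
    Sylow.coe_subtype, Subgroup.mem_subgroupOf] at hxQ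
  have hp : (nn : G)⁻¹ * x' * nn ∈ (P : Subgroup G) := by
    simpa [MulAut.smul_def, MulAut.conj_inv_apply] using hxQ
  refine ⟨(nn : G)⁻¹ * x' * nn, hp, ?_⟩
  rw [← hx'g]
  have hnnN : (nn : G)⁻¹ ∈ Subgroup.normalizer (Subgroup.zpowers g : Set G) := by
    rw [← hNm]; exact inv_mem nn.2
  have h1 : (nn : G)⁻¹ * g * nn ∈ Subgroup.zpowers g := by
    have h := (Subgroup.mem_normalizer_iff.1 hnnN g).1 (Subgroup.mem_zpowers g)
    simpa using h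
  obtain ⟨i, hi⟩ := Subgroup.mem_zpowers_iff.1 h1
  obtain ⟨l, hl⟩ := Subgroup.mem_zpowers_iff.1 (hPconj _ hp)
  obtain ⟨p, hpdef⟩ : ∃ p, p = (nn : G)⁻¹ * x' * nn := ⟨_, rfl⟩
  rw [← hpdef] at hl ⊢
  have e1 : x' * g * x'⁻¹ = nn * (p * ((nn : G)⁻¹ * g * nn) * p⁻¹) * (nn : G)⁻¹ := by
    rw [hpdef]; group
  have s1 : p * g ^ i * p⁻¹ = (g ^ l) ^ i := by rw [← conj_zpow, ← hl]
  have s2 : (g ^ l) ^ i = (g ^ i) ^ l := by rw [← zpow_mul, ← zpow_mul, mul_comm]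
  have s3 : (nn : G) * (g ^ i) ^ l * (nn : G)⁻¹ = ((nn : G) * g ^ i * (nn : G)⁻¹) ^ l :=
    conj_zpow.symm
  have e2 : (nn : G) * g ^ i * (nn : G)⁻¹ = g := by rw [hi]; group
  calc x' * g * x'⁻¹ = nn * (p * ((nn : G)⁻¹ * g * nn) * p⁻¹) * (nn : G)⁻¹ := e1
    _ = nn * (p * g ^ i * p⁻¹) * (nn : G)⁻¹ := by rw [hi]
    _ = nn * (g ^ i) ^ l * (nn : G)⁻¹ := by rw [s1, s2]
    _ = ((nn : G) * g ^ i * (nn : G)⁻¹) ^ l := s3
    _ = g ^ l := by rw [e2]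
    _ = p * g * p⁻¹ := hl

end Cfsg.Agent.Lib.Helper82.TM
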