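import Mathlib
import Cfsg.Agent.Lib.Helper91.SO2Wrap
import Cfsg.Agent.Lib.Helper91.SSBrauer
import Cfsg.Agent.Lib.Helper91.SSFive2
import Cfsg.Agent.Lib.Helper91.SSSum

set_option autoImplicit false

/-!
# No non-abelian simple group has order `5376 = 2^8 * 3 * 7`

The Sylow counting (`noSimple_of_cases`) leaves one local configuration for `p = 7`:
`[N(P) : C(P)] = 3` and `|C(P)| = 28`.  The principal `7`-block then consists of the trivial
character, two non-exceptional characters with values `±1` on the `7`-singular elements, and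
two exceptional ones.  An involution of `C(P)` excludes the degrees `6` and `8`
(`involution_value`), and the degree equation has no other solution among the divisors
of `5376`.
-/

namespace Cfsg.Agent.Lib.Helper82.Ord5376

open Cfsg Cfsg.Agent.Lib.Helper17 Cfsg.Agent.Lib.Helper93.SO Cfsg.Agent.Lib.Helper91.SO2
  Cfsg.Agent.Lib.Helper91.SS

universe u

/-- candidates for the degrees of the non-exceptional characters -/
theorem arith_cands (x : ℕ) (hx : x ∣ 5376) (hx1 : x ≠ 1) :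
    (x % 7 = 1 → x ∈ [8, 64]) ∧ (x % 7 = 6 → x ∈ [6, 48, 384]) := by
  have hx' : x ∈ Nat.divisors 5376 := Nat.mem_divisors.mpr ⟨hx, by norm_num⟩
  have key : ∀ x ∈ Nat.divisors 5376, x ≠ 1 →
      (x % 7 = 1 → x ∈ [8, 64]) ∧ (x % 7 = 6 → x ∈ [6, 48, 384]) := by decide +kernel
  exact key x hx' hx1

/-- Brauer's degree equation for `p = 7`, `e = 3` among divisors of `5376` -/
theorem arith_deg (x₀ x₁ y : ℕ) (a₀ a₁ ε : ℤ) (hx₀ : x₀ ∣ 5376) (hx₁ : x₁ ∣ 5376)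
    (hy : y ∣ 5376) (h0 : x₀ ≠ 1) (h1 : x₁ ≠ 1) (ha₀ : a₀ = 1 ∨ a₀ = -1)
    (ha₁ : a₁ = 1 ∨ a₁ = -1) (hε : ε = 1 ∨ ε = -1) (hm₀ : (x₀ : ℤ) % 7 = a₀ % 7)
    (hm₁ : (x₁ : ℤ) % 7 = a₁ % 7) (hrel : ε * y + 1 + a₀ * x₀ + a₁ * x₁ = 0) :
    (a₀ = -1 ∧ x₀ = 6) ∨ (a₀ = 1 ∧ x₀ = 8) ∨ (a₁ = -1 ∧ x₁ = 6) ∨ (a₁ = 1 ∧ x₁ = 8) := by
  have hy' : y ∈ Nat.divisors 5376 := Nat.mem_divisors.mpr ⟨hy, by norm_num⟩
  have key : ∀ x₀ ∈ ([6, 8, 48, 64, 384] : List ℕ),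
      ∀ x₁ ∈ ([6, 8, 48, 64, 384] : List ℕ),
      ∀ y ∈ Nat.divisors 5376, ∀ a₀ ∈ [(1 : ℤ), -1], ∀ a₁ ∈ [(1 : ℤ), -1], ∀ ε ∈ [(1 : ℤ), -1],
      (x₀ : ℤ) % 7 = a₀ % 7 → (x₁ : ℤ) % 7 = a₁ % 7 →
        ε * (y : ℤ) + 1 + a₀ * (x₀ : ℤ) + a₁ * (x₁ : ℤ) = 0 →
        (a₀ = -1 ∧ x₀ = 6) ∨ (a₀ = 1 ∧ x₀ = 8) ∨ (a₁ = -1 ∧ x₁ = 6) ∨ (a₁ = 1 ∧ x₁ = 8) := by
    decide +kernel
  have hc0 := arith_cands x₀ hx₀ h0
  have hc1 := arith_cands x₁ hx₁ h1
  have hx₀' : x₀ ∈ [6, 8, 48, 64, 384] := by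
    rcases ha₀ with rfl | rfl
    · have h := hc0.1 (by omega)
      simp only [List.mem_cons, List.not_mem_nil, or_false] at h ⊢
      omega
    · have h := hc0.2 (by omega)
      simp only [List.mem_cons, List.not_mem_nil, or_false] at h ⊢
      omega
  have hx₁' : x₁ ∈ [6, 8, 48, 64, 384] := by
    rcases ha₁ with rfl | rfl
    · have h := hc1.1 (by omega)
      simp only [List.mem_cons, List.not_mem_nil, or_false] at h ⊢
      omega
    · have h := hc1.2 (by omega)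
      simp only [List.mem_cons, List.not_mem_nil, or_false] at h ⊢
      omega
  exact key x₀ hx₀' x₁ hx₁' y hy' a₀ (by rcases ha₀ with rfl | rfl <;> simp)
    a₁ (by rcases ha₁ with rfl | rfl <;> simp) ε (by rcases hε with rfl | rfl <;> simp)
    hm₀ hm₁ hrel

/-- The local configuration `[N(P) : C(P)] = 3`, `|C(P)| = 28` for `p = 7` is impossible. -/
theorem case_5376 {G : Type u} [Group G] [Finite G] [IsSimpleGroup G] (hG : Nat.card G = 5376)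
    (P : Sylow 7 G) (hP : Nat.card (P : Subgroup G) = 7)
    (hm : (Subgroup.centralizer ((P : Subgroup G) : Set G)).relIndex
      (Subgroup.normalizer ((P : Subgroup G) : Set G)) = 3)
    (hC : Nat.card (Subgroup.centralizer ((P : Subgroup G) : Set G)) = 28) : False := by
  have : Fact (Nat.Prime 7) := ⟨by norm_num⟩
  have hGn : ¬ (Nat.card G).Prime := by rw [hG]; norm_num
  -- an involution of `C(P)`
  obtain ⟨c', hc'⟩ := exists_prime_orderOf_dvd_card'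
    (G := Subgroup.centralizer ((P : Subgroup G) : Set G)) 2 (by rw [hC]; norm_num)
  obtain ⟨c, hcdef⟩ : ∃ c : G, c = (c' : G) := ⟨_, rfl⟩
  have hc : c ∈ Subgroup.centralizer ((P : Subgroup G) : Set G) := by rw [hcdef]; exact c'.2
  have hc2 : orderOf c = 2 := by rw [hcdef, Subgroup.orderOf_coe]; exact hc'
  obtain ⟨k, χ, a, η, d, δ, hk, hδ, hχ, hη1, hηP, hnorm, hrel, hj, hreal⟩ :=
    brauer_chars hGn 7 P hP 3 (by norm_num) hm
  have h2 : ((7 - 1) / 3 : ℕ) = 2 := by norm_num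
  rw [h2] at hnorm hrel
  push_cast at hnorm hrel
  -- the involution excludes the degrees `6` (with `a = -1`) and `8` (with `a = 1`)
  have hkill : ∀ i, (a i = -1 ∧ Cfsg.charDegree ((χ i : IrrCharacter G) : G → ℂ) = 6) ∨
      (a i = 1 ∧ Cfsg.charDegree ((χ i : IrrCharacter G) : G → ℂ) = 8) → False := by
    intro i hcase
    obtain ⟨-, hx1, hxa⟩ := hχ i
    obtain ⟨n, k', hnk, hk1, hk2, -⟩ := involution_value hGn 7 (by norm_num) (P : Subgroup G) hP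
      (χ i) hx1 (a i) hxa c hc hc2
    rcases hcase with ⟨ha, hdeg⟩ | ⟨ha, hdeg⟩
    · rw [ha, hdeg] at hnk
      rw [hdeg] at hk2
      push_cast at hnk
      omega
    · rw [ha, hdeg] at hnk
      rw [hdeg] at hk2
      push_cast at hnk
      omega
  have hd : -1 ≤ d ∧ d ≤ 1 := by
    have hSnn : 0 ≤ ∑ i, a i ^ 2 := Finset.sum_nonneg (fun i _ => sq_nonneg _)
    constructor <;> rcases hδ with rfl | rfl <;>
      nlinarith [sq_nonneg (d - 1), sq_nonneg (d + 1)]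
  have hS : ∑ i, a i ^ 2 = 2 ∧ (2 * d - δ = 1 ∨ 2 * d - δ = -1) := by
    obtain ⟨hd1, hd2⟩ := hd
    have hSnn : 0 ≤ ∑ i, a i ^ 2 := Finset.sum_nonneg (fun i _ => sq_nonneg _)
    obtain ⟨A, hA⟩ : ∃ A, A = ∑ i, a i ^ 2 := ⟨_, rfl⟩
    rw [← hA] at hnorm hSnn ⊢
    interval_cases d <;> rcases hδ with rfl | rfl <;> norm_num at hnorm ⊢ <;> omega
  obtain ⟨hS, hε⟩ := hS
  have hrel1 := hrel 1 (by rw [orderOf_one]; norm_num)
  have hirrη := η.2
  obtain ⟨hyd, hypos, hydvd⟩ := Cfsg.Agent.Lib.Helper79.irr_charDegree hirrη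
  rw [hG] at hydvd
  have hk' : k = 0 ∨ k = 1 ∨ k = 2 := by omega
  rcases hk' with rfl | rfl | rfl
  · simp at hS
  · simp only [Fin.sum_univ_succ, Fin.sum_univ_zero, add_zero] at hS
    obtain ⟨b, hb⟩ : ∃ b, b = a 0 := ⟨_, rfl⟩
    rw [← hb] at hS
    have hb1 : -1 ≤ b ∧ b ≤ 1 := by constructor <;> nlinarith
    obtain ⟨hb1, hb2⟩ := hb1
    interval_cases b <;> omega
  · simp only [Fin.sum_univ_two] at hS hrel1
    obtain ⟨ha0, hx0, hxa0⟩ := hχ 0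
    obtain ⟨ha1, hx1, hxa1⟩ := hχ 1
    have hirr0 := (χ 0).2
    have hirr1 := (χ 1).2
    obtain ⟨hxd0, hxpos0, hxdvd0⟩ := Cfsg.Agent.Lib.Helper79.irr_charDegree hirr0
    obtain ⟨hxd1, hxpos1, hxdvd1⟩ := Cfsg.Agent.Lib.Helper79.irr_charDegree hirr1
    rw [hG] at hxdvd0 hxdvd1
    have hmod0 := Cfsg.Agent.Lib.Helper90.BrauerDeg.degree_modEq hirr0 7 (P : Subgroup G) hP (a 0)
        (fun y hy hy1 => hxa0 y y (isPPart_self (by norm_num) _ hP y hy hy1) hy hy1)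
    have hmod1 := Cfsg.Agent.Lib.Helper90.BrauerDeg.degree_modEq hirr1 7 (P : Subgroup G) hP (a 1)
        (fun y hy hy1 => hxa1 y y (isPPart_self (by norm_num) _ hP y hy hy1) hy hy1)
    obtain ⟨x₀, hx₀⟩ : ∃ x₀, x₀ = Cfsg.charDegree ((χ 0 : IrrCharacter G) : G → ℂ) := ⟨_, rfl⟩
    obtain ⟨x₁, hx₁⟩ : ∃ x₁, x₁ = Cfsg.charDegree ((χ 1 : IrrCharacter G) : G → ℂ) := ⟨_, rfl⟩
    obtain ⟨y, hy⟩ : ∃ y, y = Cfsg.charDegree ((η : IrrCharacter G) : G → ℂ) := ⟨_, rfl⟩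
    rw [← hx₀] at hxd0 hxdvd0 hmod0
    rw [← hx₁] at hxd1 hxdvd1 hmod1
    rw [← hy] at hyd hydvd
    have hx₀1 : x₀ ≠ 1 := by
      intro h
      apply hx0
      rw [hxd0, h]
      norm_num
    have hx₁1 : x₁ ≠ 1 := by
      intro h
      apply hx1
      rw [hxd1, h]
      norm_num
    rw [hxd0, hxd1, hyd] at hrel1
    have hrel1' : (2 * d - δ) * (y : ℤ) + 1 + a 0 * (x₀ : ℤ) + a 1 * (x₁ : ℤ) = 0 := by
      have h : (((2 * d - δ) * (y : ℤ) + 1 + a 0 * (x₀ : ℤ) + a 1 * (x₁ : ℤ) : ℤ) : ℂ) = 0 := by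
        push_cast
        linear_combination hrel1
      exact_mod_cast h
    have hp0 : 0 < a 0 ^ 2 := by positivity
    have hp1 : 0 < a 1 ^ 2 := by positivity
    have hsq0 : a 0 ^ 2 = 1 := by omega
    have hsq1 : a 1 ^ 2 = 1 := by omega
    have hpm : ∀ b : ℤ, b ^ 2 = 1 → b = 1 ∨ b = -1 := by
      intro b hb
      have h1 : (b - 1) * (b + 1) = 0 := by nlinarith
      rcases mul_eq_zero.mp h1 with h | h
      · left; omega
      · right; omega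
    have hfin := arith_deg x₀ x₁ y (a 0) (a 1) (2 * d - δ) hxdvd0 hxdvd1 hydvd hx₀1 hx₁1
      (hpm _ hsq0) (hpm _ hsq1) hε hmod0 hmod1 hrel1'
    rcases hfin with ⟨h, h'⟩ | ⟨h, h'⟩ | ⟨h, h'⟩ | ⟨h, h'⟩
    · exact hkill 0 (Or.inl ⟨h, by rw [← hx₀, h']⟩)
    · exact hkill 0 (Or.inr ⟨h, by rw [← hx₀, h']⟩)
    · exact hkill 1 (Or.inl ⟨h, by rw [← hx₁, h']⟩)
    · exact hkill 1 (Or.inr ⟨h, by rw [← hx₁, h']⟩)

/-- No non-abelian simple group has order `5376`. -/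
theorem noSimple_5376 : NoSimple.{u} 5376 :=
  noSimple_of_cases 5376 7 2 768 (by norm_num) (by norm_num) (by norm_num) (by norm_num)
    (by norm_num) (by norm_num) (by norm_num) [(3, 28)] (by decide +kernel)
    (by
      intro rc hrc G _ _ _ hG P hP hr hC
      simp only [List.mem_singleton] at hrc
      subst hrc
      exact case_5376 hG P hP hr hC)

end Cfsg.Agent.Lib.Helper82.Ord5376
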