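import Mathlib

/-!
General tools for the "order 7920, disconnected prime graph" statement (S2490):
free actions, fixed points of `p`-groups acting by conjugation, elements of order `p * q`.
-/

set_option autoImplicit false

namespace Cfsg.Agent.Lib.Helper82.PG

open Subgroup

/-- A free action of a finite group: the set is `|group| * |orbit space|`. -/
theorem card_free {α β : Type*} [Group α] [MulAction α β] [Finite α] [Finite β]
    (h : ∀ (b : β) (a : α), a • b = b → a = 1) :
    Nat.card β = Nat.card α * Nat.card (MulAction.orbitRel.Quotient α β) := by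
  classical
  have e := MulAction.selfEquivSigmaOrbits α β
  letI : Fintype (MulAction.orbitRel.Quotient α β) := Fintype.ofFinite _
  rw [Nat.card_congr e, Nat.card_sigma]
  have key : ∀ ω : MulAction.orbitRel.Quotient α β,
      Nat.card (MulAction.orbit α (Quotient.out ω)) = Nat.card α := by
    intro ω
    have h1 := MulAction.orbitEquivQuotientStabilizer α (Quotient.out ω)
    rw [Nat.card_congr h1]
    have h2 : MulAction.stabilizer α (Quotient.out ω) = ⊥ := by
      ext a
      rw [MulAction.mem_stabilizer_iff, Subgroup.mem_bot]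
      exact ⟨h _ a, fun ha => by rw [ha, one_smul]⟩
    rw [h2]
    exact Nat.card_congr (QuotientGroup.quotientBot).toEquiv
  rw [Finset.sum_congr rfl (fun ω _ => key ω), Finset.sum_const, Finset.card_univ,
    smul_eq_mul, Nat.card_eq_fintype_card (α := MulAction.orbitRel.Quotient α β), mul_comm]

/-- A subgroup `Q` normalizing `S` and acting freely on `S \ {1}` has order dividing `|S| - 1`. -/
theorem card_dvd_sub_one {G : Type*} [Group G] [Finite G] (S Q : Subgroup G)
    (hQ : Q ≤ normalizer (S : Set G))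
    (hfree : ∀ g ∈ Q, ∀ x ∈ S, x ≠ 1 → g * x * g⁻¹ = x → g = 1) :
    Nat.card Q ∣ Nat.card S - 1 := by
  classical
  let X : Set G := (S : Set G) \ {1}
  have hmem : ∀ (q : Q) (x : X), (q : G) * x * (q : G)⁻¹ ∈ X := by
    intro q x
    refine ⟨?_, ?_⟩
    · exact (Subgroup.mem_normalizer_iff.mp (hQ q.2) x).mp x.2.1
    · intro h1
      apply x.2.2
      have : (q : G) * x * (q : G)⁻¹ = 1 := h1
      have h2 : (x : G) = (q : G)⁻¹ * ((q : G) * x * (q : G)⁻¹) * q := by group
      rw [this] at h2
      simpa using h2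
  letI : MulAction Q X :=
    { smul := fun q x => ⟨(q : G) * x * (q : G)⁻¹, hmem q x⟩
      one_smul := fun x => by
        apply Subtype.ext
        show ((1 : Q) : G) * x * ((1 : Q) : G)⁻¹ = x
        simp
      mul_smul := fun a b x => by
        apply Subtype.ext
        show ((a * b : Q) : G) * x * ((a * b : Q) : G)⁻¹ = (a : G) * ((b : G) * x * (b : G)⁻¹) * (a : G)⁻¹
        simp [mul_assoc] }
  have hX : Nat.card X = Nat.card S - 1 := by
    rw [Nat.card_coe_set_eq, Set.ncard_diff_singleton_of_mem (one_mem S),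
      ← Nat.card_coe_set_eq]
    rfl
  have hfr : ∀ (b : X) (a : Q), a • b = b → a = 1 := by
    intro b a hab
    have h1 : (a : G) * b * (a : G)⁻¹ = b := congrArg Subtype.val hab
    have := hfree a a.2 b b.2.1 (fun h => b.2.2 h) h1
    exact Subtype.ext this
  have := card_free (α := Q) (β := X) hfr
  rw [← hX, this]
  exact dvd_mul_right _ _

/-- Fixed points of a `r`-group acting by conjugation on a subgroup it normalizes. -/
theorem card_fix_modEq {G : Type*} [Group G] [Finite G] (S A : Subgroup G)
    (hA : A ≤ normalizer (S : Set G)) {r : ℕ} [Fact r.Prime] (hr : IsPGroup r A) :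
    Nat.card (S ⊓ centralizer (A : Set G) : Subgroup G) ≡ Nat.card S [MOD r] := by
  classical
  letI : MulAction A S :=
    { smul := fun a x => ⟨(a : G) * x * (a : G)⁻¹,
        (Subgroup.mem_normalizer_iff.mp (hA a.2) x).mp x.2⟩
      one_smul := fun x => by
        apply Subtype.ext
        show ((1 : A) : G) * x * ((1 : A) : G)⁻¹ = x
        simp
      mul_smul := fun a b x => by
        apply Subtype.ext
        show ((a * b : A) : G) * x * ((a * b : A) : G)⁻¹ = (a : G) * ((b : G) * x * (b : G)⁻¹) * (a : G)⁻¹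
        simp [mul_assoc] }
  have h1 := hr.card_modEq_card_fixedPoints (α := S)
  have e : MulAction.fixedPoints A S ≃ (S ⊓ centralizer (A : Set G) : Subgroup G) :=
    { toFun := fun x => ⟨(x.1 : G), Subgroup.mem_inf.mpr ⟨x.1.2, by
        rw [Subgroup.mem_centralizer_iff]
        intro a ha
        have h2 : (⟨a, ha⟩ : A) • x.1 = x.1 := x.2 ⟨a, ha⟩
        have h3 : a * (x.1 : G) * a⁻¹ = x.1 := congrArg Subtype.val h2
        calc a * (x.1 : G) = a * (x.1 : G) * a⁻¹ * a := by group
          _ = (x.1 : G) * a := by rw [h3]⟩⟩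
      invFun := fun y => ⟨⟨(y : G), (Subgroup.mem_inf.mp y.2).1⟩, by
        intro a
        apply Subtype.ext
        show (a : G) * (y : G) * (a : G)⁻¹ = y
        have := (Subgroup.mem_centralizer_iff.mp (Subgroup.mem_inf.mp y.2).2) a a.2
        rw [this]; group⟩
      left_inv := fun x => rfl
      right_inv := fun y => rfl }
  rw [← Nat.card_congr e]
  exact h1.symm

/-- Commuting nontrivial `p`- and `q`-elements give an element of order `p * q`. -/
theorem exists_orderOf_mul {G : Type*} [Group G] {p q : ℕ} (hp : p.Prime) (hq : q.Prime)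
    (hpq : p ≠ q) (x y : G) (hc : Commute x y) (hx : x ≠ 1) (hy : y ≠ 1)
    (hxp : ∃ a, x ^ p ^ a = 1) (hyq : ∃ b, y ^ q ^ b = 1) : ∃ g : G, orderOf g = p * q := by
  have aux : ∀ {r : ℕ} (hr : r.Prime) (w : G), w ≠ 1 → (∃ a, w ^ r ^ a = 1) →
      ∃ k : ℕ, orderOf (w ^ k) = r := by
    intro r hr w hw ⟨a, ha⟩
    obtain ⟨i, hi, hi2⟩ := (Nat.dvd_prime_pow hr).mp (orderOf_dvd_of_pow_eq_one ha)
    have hi0 : i ≠ 0 := by
      rintro rfl
      rw [pow_zero, orderOf_eq_one_iff] at hi2
      exact hw hi2
    refine ⟨r ^ (i - 1), ?_⟩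
    rw [orderOf_pow_of_dvd (pow_ne_zero _ hr.ne_zero) (by rw [hi2]; exact pow_dvd_pow _ (by omega)),
      hi2, Nat.pow_div (by omega) hr.pos]
    have : i - (i - 1) = 1 := by omega
    rw [this, pow_one]
  obtain ⟨k, hk⟩ := aux hp x hx hxp
  obtain ⟨l, hl⟩ := aux hq y hy hyq
  refine ⟨x ^ k * y ^ l, ?_⟩
  rw [(hc.pow_pow k l).orderOf_mul_eq_mul_orderOf_of_coprime (by
    rw [hk, hl]; exact (Nat.coprime_primes hp hq).mpr hpq), hk, hl]

end Cfsg.Agent.Lib.Helper82.PG
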