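import Cfsg.Agent.Lib.Helper82.PGa

/-!
Group-theoretic rules for the "order 7920, disconnected prime graph" statement (S2490):
fixed-point-free actions from a missing edge, Frattini-type index computations,
normal complements via Burnside's transfer theorem.
-/

set_option autoImplicit false
set_option linter.style.haveILetI false

namespace Cfsg.Agent.Lib.Helper82.PG

open Subgroup

/-- No element of order `p * q`. -/
def NoEdge (G : Type*) [Group G] (p q : ℕ) : Prop := ¬ ∃ g : G, orderOf g = p * q

theorem NoEdge.symm {G : Type*} [Group G] {p q : ℕ} (h : NoEdge G p q) : NoEdge G q p := by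
  unfold NoEdge at h ⊢
  rw [mul_comm]
  exact h

/-- An `r`-subgroup normalizing a `p`-subgroup acts freely on it when there is no `p r`-element. -/
theorem fpf_card_dvd {G : Type*} [Group G] [Finite G] {p r : ℕ} (hp : p.Prime) (hr : r.Prime)
    (hpr : p ≠ r) (hno : NoEdge G p r) (S Q : Subgroup G) (hS : IsPGroup p S) (hQ : IsPGroup r Q)
    (hQS : Q ≤ normalizer (S : Set G)) : Nat.card Q ∣ Nat.card S - 1 := by
  apply card_dvd_sub_one S Q hQS
  intro g hg x hx hx1 hgx
  by_contra hg1
  apply hno
  have hc : Commute x g := by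
    show x * g = g * x
    have : g * x * g⁻¹ * g = x * g := by rw [hgx]
    rw [← this]; group
  obtain ⟨a, ha⟩ := hS ⟨x, hx⟩
  obtain ⟨b, hb⟩ := hQ ⟨g, hg⟩
  refine exists_orderOf_mul hp hr hpr x g hc hx1 hg1 ⟨a, ?_⟩ ⟨b, ?_⟩
  · simpa using congrArg Subtype.val ha
  · simpa using congrArg Subtype.val hb

/-- Powers of `r` dividing the normalizer of a `p`-subgroup divide `|S| - 1`. -/
theorem pow_dvd_card_sub_one {G : Type*} [Group G] [Finite G] {p r : ℕ} (hp : p.Prime)
    (hr : r.Prime) (hpr : p ≠ r) (hno : NoEdge G p r) (S : Subgroup G) (hS : IsPGroup p S) {m : ℕ}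
    (hm : r ^ m ∣ Nat.card (normalizer (S : Set G))) : r ^ m ∣ Nat.card S - 1 := by
  haveI : Fact r.Prime := ⟨hr⟩
  obtain ⟨K, hK⟩ := Sylow.exists_subgroup_card_pow_prime r hm
  have hcard : Nat.card (K.map (normalizer (S : Set G)).subtype) = r ^ m := by
    rw [card_map_of_injective (subtype_injective _), hK]
  have hQ : IsPGroup r (K.map (normalizer (S : Set G)).subtype) := IsPGroup.of_card hcard
  have := fpf_card_dvd hp hr hpr hno S (K.map (normalizer (S : Set G)).subtype) hS hQ
    (map_subtype_le K)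
  rwa [hcard] at this

/-- No prime `r` divides the centralizer of a subgroup of order divisible by `p`. -/
theorem not_dvd_card_centralizer {G : Type*} [Group G] [Finite G] {p r : ℕ} (hp : p.Prime)
    (hr : r.Prime) (hpr : p ≠ r) (hno : NoEdge G p r) (S : Subgroup G) (hS : p ∣ Nat.card S) :
    ¬ r ∣ Nat.card (centralizer (S : Set G)) := by
  intro hdvd
  haveI : Fact p.Prime := ⟨hp⟩
  haveI : Fact r.Prime := ⟨hr⟩
  obtain ⟨x, hx⟩ := exists_prime_orderOf_dvd_card' p hS
  obtain ⟨y, hy⟩ := exists_prime_orderOf_dvd_card' r hdvd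
  apply hno
  refine ⟨(x : G) * (y : G), ?_⟩
  have hc : Commute (x : G) (y : G) := Subgroup.mem_centralizer_iff.mp y.2 x x.2
  rw [hc.orderOf_mul_eq_mul_orderOf_of_coprime, Subgroup.orderOf_coe, Subgroup.orderOf_coe, hx, hy]
  rw [Subgroup.orderOf_coe, Subgroup.orderOf_coe, hx, hy]
  exact (Nat.coprime_primes hp hr).mpr hpr

/-- If `H N = G` with `N` normal then `|H| = |G : N| * |N ∩ H|`. -/
theorem card_eq_index_mul_of_sup_eq_top {G : Type*} [Group G] [Finite G] (H N : Subgroup G)
    [N.Normal] (h : H ⊔ N = ⊤) :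
    Nat.card H = N.index * Nat.card (N ⊓ H : Subgroup G) := by
  have h1 : N.relIndex H = N.index := by
    rw [← relIndex_sup_right, h, relIndex_top_right]
  have h2 := relIndex_inf_mul_relIndex (⊥ : Subgroup G) N H
  rw [relIndex_bot_left, bot_inf_eq, relIndex_bot_left, h1] at h2
  rw [← h2, mul_comm]

/-- Elements of order prime to the index of a normal subgroup lie in it. -/
theorem mem_of_coprime_index {G : Type*} [Group G] (N : Subgroup G) [N.Normal] (x : G)
    (h : Nat.Coprime N.index (orderOf x)) : x ∈ N := by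
  obtain ⟨m, hm⟩ := exists_pow_eq_self_of_coprime h
  rw [← hm]
  exact N.pow_mem (pow_index_mem N x) m

/-- A normal subgroup of index prime to `p` contains every Sylow `p`-subgroup. -/
theorem sylow_le_of_not_dvd_index {G : Type*} [Group G] {p : ℕ} [Fact p.Prime] (P : Sylow p G)
    (N : Subgroup G) [N.Normal] (h : ¬ p ∣ N.index) : (P : Subgroup G) ≤ N := by
  intro x hx
  apply mem_of_coprime_index
  obtain ⟨k, hk⟩ := (IsPGroup.iff_orderOf.mp P.isPGroup') ⟨x, hx⟩
  rw [← Subgroup.orderOf_coe] at hk
  rw [show orderOf x = p ^ k from hk]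
  exact Nat.Coprime.pow_right _ (Nat.Coprime.symm ((Nat.Prime.coprime_iff_not_dvd Fact.out).mpr h))

/-- Frattini for a Sylow subgroup of `G` inside a normal subgroup. -/
theorem card_normalizer_of_le {G : Type*} [Group G] [Finite G] {p : ℕ} [Fact p.Prime]
    (P : Sylow p G) (N : Subgroup G) [N.Normal] (hPN : (P : Subgroup G) ≤ N) :
    Nat.card (normalizer ((P : Subgroup G) : Set G)) =
      N.index * Nat.card (N ⊓ normalizer ((P : Subgroup G) : Set G) : Subgroup G) :=
  card_eq_index_mul_of_sup_eq_top _ N (Sylow.normalizer_sup_eq_top' P hPN)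

/-- Rule R: Frattini plus the free action. -/
theorem ruleR {G : Type*} [Group G] [Finite G] {p q : ℕ} (hp : p.Prime) (hq : q.Prime)
    (hpq : p ≠ q) (hno : NoEdge G p q) (N : Subgroup G) [N.Normal] (hqN : ¬ q ∣ Nat.card N)
    {m : ℕ} (hm : q ^ m ∣ Nat.card G) (S : Sylow p N) : q ^ m ∣ Nat.card S - 1 := by
  haveI : Fact p.Prime := ⟨hp⟩
  have h1 := card_eq_index_mul_of_sup_eq_top _ N (Sylow.normalizer_sup_eq_top S)
  have h2 : q ^ m ∣ N.index := by
    have h3 : q ^ m ∣ Nat.card N * N.index := by rw [card_mul_index]; exact hm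
    exact Nat.Coprime.dvd_of_dvd_mul_left
      (Nat.Coprime.pow_left _ ((Nat.Prime.coprime_iff_not_dvd hq).mpr hqN)) h3
  have h4 : q ^ m ∣ Nat.card (normalizer ((map N.subtype (S : Subgroup N) : Subgroup G) : Set G)) := by
    rw [h1]; exact Dvd.dvd.mul_right h2 _
  have hS : IsPGroup p (map N.subtype (S : Subgroup N) : Subgroup G) := by
    obtain ⟨n, hn⟩ := IsPGroup.iff_card.mp S.isPGroup'
    exact IsPGroup.of_card (n := n) (by rw [card_map_of_injective (subtype_injective _), hn])
  have := pow_dvd_card_sub_one hp hq hpq hno _ hS h4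
  rwa [card_map_of_injective (subtype_injective _)] at this

/-- The order of a Sylow `p`-subgroup of a subgroup, as a gcd. -/
theorem sylow_card_eq_gcd {G : Type*} [Group G] [Finite G] {p e PPp : ℕ} (hp : p.Prime)
    (hPP : PPp = p ^ e) (hG : PPp ∣ Nat.card G) (hnd : ¬ p ∣ Nat.card G / PPp)
    (N : Subgroup G) (S : Sylow p N) : Nat.card S = Nat.gcd (Nat.card N) PPp := by
  haveI : Fact p.Prime := ⟨hp⟩
  obtain ⟨k, hk⟩ := IsPGroup.iff_card.mp S.isPGroup'
  have hidx := Sylow.not_dvd_index S
  have hmul := card_mul_index (S : Subgroup N)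
  have hsN : Nat.card S ∣ Nat.card N := card_subgroup_dvd_card _
  have hNG : Nat.card N ∣ Nat.card G := card_subgroup_dvd_card _
  have hsPP : Nat.card S ∣ PPp := by
    have h1 : Nat.card S ∣ PPp * (Nat.card G / PPp) := by
      rw [Nat.mul_div_cancel' hG]; exact hsN.trans hNG
    have hcop : Nat.Coprime (Nat.card S) (Nat.card G / PPp) := by
      rw [hk]
      exact Nat.Coprime.pow_left _ ((Nat.Prime.coprime_iff_not_dvd hp).mpr hnd)
    exact Nat.Coprime.dvd_of_dvd_mul_right hcop h1
  apply Nat.dvd_antisymm (Nat.dvd_gcd hsN hsPP)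
  have hg1 : Nat.gcd (Nat.card N) PPp ∣ p ^ e := by rw [← hPP]; exact Nat.gcd_dvd_right _ _
  obtain ⟨j, -, hj⟩ := (Nat.dvd_prime_pow hp).mp hg1
  have hg2 : Nat.gcd (Nat.card N) PPp ∣ Nat.card S * (S : Subgroup N).index := by
    rw [hmul]; exact Nat.gcd_dvd_left _ _
  have hcop : Nat.Coprime (Nat.gcd (Nat.card N) PPp) (S : Subgroup N).index := by
    rw [hj]
    exact Nat.Coprime.pow_left _ ((Nat.Prime.coprime_iff_not_dvd hp).mpr hidx)
  exact Nat.Coprime.dvd_of_dvd_mul_right hcop hg2

/-- Burnside's normal `p`-complement inside a normal subgroup, normal in the whole group. -/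
theorem exists_normal_compl {G : Type*} [Group G] [Finite G] {p : ℕ} [Fact p.Prime]
    (P : Sylow p G) (N : Subgroup G) [hN : N.Normal] (hPN : (P : Subgroup G) ≤ N)
    (h : N ⊓ normalizer ((P : Subgroup G) : Set G) ≤ centralizer ((P : Subgroup G) : Set G)) :
    ∃ K : Subgroup G, K.Normal ∧ Nat.card K * Nat.card P = Nat.card N := by
  classical
  have hp : p.Prime := Fact.out
  have hP' : normalizer (((P.subtype hPN : Sylow p N) : Subgroup N) : Set N) ≤
      centralizer (((P.subtype hPN : Sylow p N) : Subgroup N) : Set N) := by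
    intro n hn
    have hn' : (n : G) ∈ normalizer ((P : Subgroup G) : Set G) := by
      rw [Subgroup.mem_normalizer_iff] at hn ⊢
      intro x
      constructor
      · intro hx
        have h1 := (hn ⟨x, hPN hx⟩).mp (by
          rw [Sylow.coe_subtype, Subgroup.mem_subgroupOf]; exact hx)
        rw [Sylow.coe_subtype, Subgroup.mem_subgroupOf] at h1
        simpa using h1
      · intro hx
        have hxN : x ∈ N := by
          have h1 : (n : G) * x * (n : G)⁻¹ ∈ N := hPN hx
          have h2 : x = (n : G)⁻¹ * ((n : G) * x * (n : G)⁻¹) * (n : G) := by group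
          rw [h2]; exact N.mul_mem (N.mul_mem (N.inv_mem n.2) h1) n.2
        have h1 := (hn ⟨x, hxN⟩).mpr (by
          rw [Sylow.coe_subtype, Subgroup.mem_subgroupOf]; simpa using hx)
        rw [Sylow.coe_subtype, Subgroup.mem_subgroupOf] at h1
        exact h1
    have hc := h (Subgroup.mem_inf.mpr ⟨n.2, hn'⟩)
    rw [Subgroup.mem_centralizer_iff] at hc ⊢
    intro y hy
    have hy' : (y : G) ∈ (P : Subgroup G) := by
      rw [SetLike.mem_coe, Sylow.coe_subtype, Subgroup.mem_subgroupOf] at hy; exact hy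
    apply Subtype.ext
    simpa using hc y hy'
  have hcompl := MonoidHom.ker_transferSylow_isComplement' (P.subtype hPN) hP'
  have hcard := hcompl.card_mul_card
  have hindex := hcompl.index_eq_card
  have hindex2 := hcompl.symm.index_eq_card
  have hPc : Nat.card ((P.subtype hPN : Sylow p N) : Subgroup N) = Nat.card P := by
    rw [Sylow.coe_subtype]
    exact Nat.card_congr (subgroupOfEquivOfLe hPN).toEquiv
  have hnd : ¬ p ∣ Nat.card (MonoidHom.transferSylow (P.subtype hPN) hP').ker := by
    rw [← hindex]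
    exact Sylow.not_dvd_index (P.subtype hPN)
  obtain ⟨e, he⟩ := IsPGroup.iff_card.mp (P.subtype hPN).isPGroup'
  have hchar : ∀ x : N, x ∈ (MonoidHom.transferSylow (P.subtype hPN) hP').ker ↔
      Nat.Coprime p (orderOf (x : G)) := by
    intro x
    rw [Subgroup.orderOf_coe]
    constructor
    · intro hx
      rw [Nat.Prime.coprime_iff_not_dvd hp]
      intro hdvd
      apply hnd
      have h1 : orderOf (⟨x, hx⟩ : (MonoidHom.transferSylow (P.subtype hPN) hP').ker) = orderOf x :=
        Subgroup.orderOf_mk x hx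
      rw [← h1] at hdvd
      exact hdvd.trans (orderOf_dvd_natCard _)
    · intro hx
      apply mem_of_coprime_index
      rw [hindex2, he]
      exact Nat.Coprime.pow_left _ hx
  refine ⟨(MonoidHom.transferSylow (P.subtype hPN) hP').ker.map N.subtype, ⟨?_⟩, ?_⟩
  · rintro _ ⟨x, hx, rfl⟩ g
    have hgx : g * (x : G) * g⁻¹ ∈ N := hN.conj_mem _ x.2 g
    refine ⟨⟨g * x * g⁻¹, hgx⟩, ?_, rfl⟩
    rw [SetLike.mem_coe, hchar] at hx ⊢
    have h1 : orderOf (g * (x : G) * g⁻¹) = orderOf (x : G) := by
      rw [← MulAut.conj_apply]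
      exact MulEquiv.orderOf_eq _ _
    show Nat.Coprime p (orderOf (g * (x : G) * g⁻¹))
    rw [h1]
    exact hx
  · rw [card_map_of_injective (subtype_injective N), ← hPc]
    exact hcard

/-- Normal complement from `|N ∩ N_G(P)| = |P|` with `P` abelian. -/
theorem compl_of_card {G : Type*} [Group G] [Finite G] {p : ℕ} [Fact p.Prime]
    (P : Sylow p G) (N : Subgroup G) [N.Normal] (hPN : (P : Subgroup G) ≤ N)
    (hab : (P : Subgroup G) ≤ centralizer ((P : Subgroup G) : Set G))
    (hc : Nat.card (N ⊓ normalizer ((P : Subgroup G) : Set G) : Subgroup G) = Nat.card P) :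
    ∃ K : Subgroup G, K.Normal ∧ Nat.card K * Nat.card P = Nat.card N := by
  apply exists_normal_compl P N hPN
  have h1 : (P : Subgroup G) = N ⊓ normalizer ((P : Subgroup G) : Set G) :=
    eq_of_le_of_card_ge (le_inf hPN le_normalizer) (le_of_eq hc)
  rw [← h1]
  exact hab

/-- Normal complement in `G` when the centralizer of `P` is its whole normalizer. -/
theorem compl_of_centralizer {G : Type*} [Group G] [Finite G] {p : ℕ} [Fact p.Prime]
    (P : Sylow p G)
    (hc : Nat.card (centralizer ((P : Subgroup G) : Set G)) =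
      Nat.card (normalizer ((P : Subgroup G) : Set G))) :
    ∃ K : Subgroup G, K.Normal ∧ Nat.card K * Nat.card P = Nat.card G := by
  obtain ⟨K, hK, hcard⟩ := exists_normal_compl P ⊤ le_top (by
    rw [top_inf_eq]
    exact le_of_eq (eq_of_le_of_card_ge (centralizer_le_normalizer _) (le_of_eq hc.symm)).symm)
  exact ⟨K, hK, by rw [hcard, card_top]⟩

/-- A normal subgroup of order 16 is centralized by every subgroup of order 11. -/
theorem sixteen_dvd_card_centralizer {G : Type*} [Group G] [Finite G] (N : Subgroup G) [N.Normal]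
    (hN : Nat.card N = 16) (P : Subgroup G) (hP : Nat.card P = 11) :
    16 ∣ Nat.card (centralizer (P : Set G)) := by
  haveI : Fact (Nat.Prime 11) := ⟨by norm_num⟩
  have hPN : P ≤ normalizer (N : Set G) := by
    rw [normalizer_eq_top_iff.mpr inferInstance]; exact le_top
  have h1 := card_fix_modEq N P hPN (r := 11) (IsPGroup.of_card (n := 1) (by rw [hP]; norm_num))
  have h2 : Nat.card (N ⊓ centralizer (P : Set G) : Subgroup G) ∣ 16 := by
    rw [← hN]; exact card_dvd_of_le inf_le_left
  have h3 : Nat.card (N ⊓ centralizer (P : Set G) : Subgroup G) = 16 := by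
    rw [hN] at h1
    have hle := Nat.le_of_dvd (by norm_num) h2
    have hmod : Nat.card (N ⊓ centralizer (P : Set G) : Subgroup G) % 11 = 5 := h1
    generalize Nat.card (N ⊓ centralizer (P : Set G) : Subgroup G) = c at h2 hle hmod
    interval_cases c <;> omega
  have h4 : (N ⊓ centralizer (P : Set G) : Subgroup G) = N :=
    eq_of_le_of_card_ge inf_le_left (by rw [h3, hN])
  rw [← hN]
  exact card_dvd_of_le (by rw [← h4]; exact inf_le_right)

/-- `|N_G(P) : C_G(P)|` divides `p - 1` for `|P| = p`. -/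
theorem normalizer_centralizer_prime {G : Type*} [Group G] [Finite G] {p : ℕ} [Fact p.Prime]
    (P : Subgroup G) (hP : Nat.card P = p) :
    ∃ j, Nat.card (normalizer (P : Set G)) = Nat.card (centralizer (P : Set G)) * j ∧ j ∣ p - 1 := by
  haveI : IsCyclic P := isCyclic_of_prime_card hP
  refine ⟨(P.normalizerMonoidHom).ker.index, ?_, ?_⟩
  · have h1 := card_mul_index (P.normalizerMonoidHom).ker
    rw [← h1, normalizerMonoidHom_ker]
    congr 1
    exact Nat.card_congr (subgroupOfEquivOfLe (centralizer_le_normalizer (P : Set G))).toEquiv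
  · rw [index_ker]
    have h2 : Nat.card (MulAut P) = p - 1 := by
      rw [IsCyclic.card_mulAut, hP, Nat.totient_prime Fact.out]
    rw [← h2]
    exact card_subgroup_dvd_card _

end Cfsg.Agent.Lib.Helper82.PG
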