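import Cfsg.Agent.Lib.Helper82.PGb

/-!
Actions on the set of Sylow subgroups of prime order, for S2490:
Tool B (`n_p = p + 1`), Tool C (four free orbits and a group of order 8).
-/

set_option autoImplicit false
set_option linter.style.haveILetI false

namespace Cfsg.Agent.Lib.Helper82.PG

open Subgroup

/-- In `S₄`, a nontrivial permutation with a fixed point has centralizer of order `< 8`. -/
theorem perm4_centralizer : ∀ z : Equiv.Perm (Fin 4), z ≠ 1 → (∃ x, z x = x) →
    (Finset.univ.filter (fun h : Equiv.Perm (Fin 4) => h * z = z * h)).card < 8 := by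
  decide +kernel

/-- A group of order 8 acting faithfully on 4 points: nontrivial central elements have no
fixed points. -/
theorem central_no_fix {S X : Type*} [Group S] [MulAction S X] (hX : Nat.card X = 4)
    (hS : Nat.card S = 8) (hfaith : ∀ s : S, (∀ x : X, s • x = x) → s = 1) (z : S) (hz : z ≠ 1)
    (hc : ∀ s : S, s * z = z * s) (x : X) : z • x ≠ x := by
  classical
  intro hzx
  haveI : Finite X := Nat.finite_of_card_ne_zero (by rw [hX]; norm_num)
  haveI : Finite S := Nat.finite_of_card_ne_zero (by rw [hS]; norm_num)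
  letI : Fintype S := Fintype.ofFinite S
  let e : X ≃ Fin 4 := Finite.equivFinOfCardEq hX
  let ψ : S →* Equiv.Perm (Fin 4) :=
    (Equiv.permCongrHom e).toMonoidHom.comp (MulAction.toPermHom S X)
  have hψ : ∀ (s : S) (i : Fin 4), ψ s i = e (s • e.symm i) := fun s i => rfl
  have hinj : Function.Injective ψ := by
    rw [injective_iff_map_eq_one]
    intro s hs
    apply hfaith
    intro x
    have h1 : ψ s (e x) = e x := by rw [hs]; rfl
    rw [hψ, Equiv.symm_apply_apply] at h1
    exact e.injective h1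
  have h1 := perm4_centralizer (ψ z) (fun h => hz (hinj (by rw [h, map_one])))
    ⟨e x, by rw [hψ, Equiv.symm_apply_apply, hzx]⟩
  have h2 : (Finset.univ.image ψ) ⊆
      Finset.univ.filter (fun h : Equiv.Perm (Fin 4) => h * ψ z = ψ z * h) := by
    intro f hf
    obtain ⟨s, -, rfl⟩ := Finset.mem_image.mp hf
    rw [Finset.mem_filter]
    exact ⟨Finset.mem_univ _, by rw [← map_mul, ← map_mul, hc]⟩
  have h3 := Finset.card_le_card h2
  rw [Finset.card_image_of_injective _ hinj, Finset.card_univ, ← Nat.card_eq_fintype_card, hS] at h3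
  omega

theorem card_others {α : Type*} [Finite α] (a : α) :
    Nat.card {b : α // b ≠ a} + 1 = Nat.card α := by
  classical
  rw [← Finite.card_option]
  exact Nat.card_congr (Equiv.optionSubtypeNe a)

/-- A Sylow subgroup of prime order acts freely on the other Sylow subgroups. -/
theorem sylow_free {G : Type*} [Group G] [Finite G] {p : ℕ} [Fact p.Prime] (P : Sylow p G)
    (hP : Nat.card P = p) (y : G) (hy : y ∈ (P : Subgroup G)) (ω : Sylow p G) (hω : ω ≠ P)
    (h : y • ω = ω) : y = 1 := by
  by_contra hy1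
  apply hω
  have hyω : y ∈ (ω : Subgroup G) := by
    have h1 : zpowers y ≤ (ω : Subgroup G) := by
      apply (IsPGroup.sylow_mem_fixedPoints_iff (P.isPGroup'.to_le (zpowers_le.mpr hy))).mp
      rw [MulAction.mem_fixedPoints]
      intro m
      rw [Subgroup.smul_def, Sylow.smul_eq_iff_mem_normalizer]
      exact (zpowers_le.mpr (Sylow.smul_eq_iff_mem_normalizer.mp h)) m.2
    exact h1 (mem_zpowers y)
  have hdvd : Nat.card ((P : Subgroup G) ⊓ ω : Subgroup G) ∣ p := by
    have h0 := card_dvd_of_le (inf_le_left : (P : Subgroup G) ⊓ ω ≤ P)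
    rwa [hP] at h0
  rcases (Nat.dvd_prime Fact.out).mp hdvd with h1 | h1
  · have h2 := eq_bot_of_card_eq _ h1
    have hmem : y ∈ ((P : Subgroup G) ⊓ ω) := mem_inf.mpr ⟨hy, hyω⟩
    rw [h2, mem_bot] at hmem
    exact absurd hmem hy1
  · have h2 : ((P : Subgroup G) ⊓ ω) = P := eq_of_le_of_card_ge inf_le_left (by rw [h1, hP])
    have h3 : (P : Subgroup G) ≤ ω := by rw [← h2]; exact inf_le_right
    exact Sylow.ext (P.is_maximal' ω.isPGroup' h3)

theorem smul_ne_of_mem_normalizer {G : Type*} [Group G] {p : ℕ} (P : Sylow p G) (g : G)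
    (hg : g ∈ normalizer ((P : Subgroup G) : Set G)) (ω : Sylow p G) (hω : ω ≠ P) :
    g • ω ≠ P := by
  intro h
  apply hω
  have h1 : g⁻¹ • (g • ω) = g⁻¹ • P := by rw [h]
  rw [inv_smul_smul] at h1
  rw [h1, Sylow.smul_eq_iff_mem_normalizer]
  exact inv_mem hg

/-- Tool B: `n_p = p + 1`, `|P| = p` and a faithful action force `|C_G(P)| ≤ p`. -/
theorem toolB {G : Type*} [Group G] [Finite G] {p : ℕ} [Fact p.Prime] (P : Sylow p G)
    (hP : Nat.card P = p) (hn : Nat.card (Sylow p G) = p + 1)
    (hfaith : ∀ g : G, (∀ ω : Sylow p G, g • ω = ω) → g = 1) :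
    Nat.card (centralizer ((P : Subgroup G) : Set G)) ≤ p := by
  classical
  have hcardΩ' : Nat.card {ω : Sylow p G // ω ≠ P} = p := by
    have := card_others P
    omega
  obtain ⟨ω0, hω0⟩ : ∃ ω0 : Sylow p G, ω0 ≠ P := by
    by_contra hcon
    push Not at hcon
    have h1 : Nat.card (Sylow p G) = 1 :=
      Nat.card_eq_one_iff_unique.mpr ⟨⟨fun a b => (hcon a).trans (hcon b).symm⟩, ⟨P⟩⟩
    have hp := (Fact.out : p.Prime).pos
    omega
  let f : ↥(P : Subgroup G) → {ω : Sylow p G // ω ≠ P} := fun y =>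
    ⟨(y : G) • ω0, smul_ne_of_mem_normalizer P _ (le_normalizer y.2) ω0 hω0⟩
  have hfinj : Function.Injective f := by
    intro y y' hyy
    have h1 : (y : G) • ω0 = (y' : G) • ω0 := congrArg Subtype.val hyy
    have h2 : ((y' : G)⁻¹ * (y : G)) • ω0 = ω0 := by rw [mul_smul, h1, inv_smul_smul]
    have h3 := sylow_free P hP _ (mul_mem (inv_mem y'.2) y.2) ω0 hω0 h2
    rw [inv_mul_eq_one] at h3
    exact Subtype.ext h3.symm
  have hfsurj : Function.Surjective f :=
    (hfinj.bijective_of_nat_card_le (by rw [hcardΩ', hP])).2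
  have hCfix : ∀ c ∈ centralizer ((P : Subgroup G) : Set G), c • ω0 = ω0 → c = 1 := by
    intro c hc h0
    apply hfaith
    intro ω
    by_cases hω : ω = P
    · rw [hω, Sylow.smul_eq_iff_mem_normalizer]; exact centralizer_le_normalizer _ hc
    · obtain ⟨y, hy⟩ := hfsurj ⟨ω, hω⟩
      have hy' : (y : G) • ω0 = ω := congrArg Subtype.val hy
      have hcomm : (y : G) * c = c * (y : G) := mem_centralizer_iff.mp hc y y.2
      rw [← hy', ← mul_smul, ← hcomm, mul_smul, h0]
  let g : centralizer ((P : Subgroup G) : Set G) → {ω : Sylow p G // ω ≠ P} := fun c =>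
    ⟨(c : G) • ω0, smul_ne_of_mem_normalizer P _ (centralizer_le_normalizer _ c.2) ω0 hω0⟩
  have hginj : Function.Injective g := by
    intro c c' hcc
    have h1 : (c : G) • ω0 = (c' : G) • ω0 := congrArg Subtype.val hcc
    have h2 : ((c' : G)⁻¹ * (c : G)) • ω0 = ω0 := by rw [mul_smul, h1, inv_smul_smul]
    have h3 := hCfix _ (mul_mem (inv_mem c'.2) c.2) h2
    rw [inv_mul_eq_one] at h3
    exact Subtype.ext h3.symm
  have := Nat.card_le_card_of_injective g hginj
  rwa [hcardΩ'] at this

/-- Tool C: `n_11 = 45`, a faithful action and a subgroup `S` of order 8 centralizing `P`: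
a nontrivial element of `S` commuting with `S` normalizes no other Sylow 11-subgroup. -/
theorem toolC {G : Type*} [Group G] [Finite G] (P : Sylow 11 G) (hP : Nat.card P = 11)
    (hn : Nat.card (Sylow 11 G) = 45)
    (hfaith : ∀ g : G, (∀ ω : Sylow 11 G, g • ω = ω) → g = 1)
    (S : Subgroup G) (hS : Nat.card S = 8) (hSC : S ≤ centralizer ((P : Subgroup G) : Set G))
    (z : G) (hzS : z ∈ S) (hz1 : z ≠ 1) (hzc : ∀ s ∈ S, s * z = z * s) :
    ∀ ω : Sylow 11 G, ω ≠ P → z • ω ≠ ω := by
  classical
  haveI : Fact (Nat.Prime 11) := ⟨by norm_num⟩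
  letI actP : MulAction (P : Subgroup G) {ω : Sylow 11 G // ω ≠ P} :=
    { smul := fun y ω => ⟨(y : G) • ω.1, smul_ne_of_mem_normalizer P _ (le_normalizer y.2) ω.1 ω.2⟩
      one_smul := fun ω => by
        apply Subtype.ext
        show ((1 : (P : Subgroup G)) : G) • ω.1 = ω.1
        rw [Subgroup.coe_one, one_smul]
      mul_smul := fun a b ω => by
        apply Subtype.ext
        show ((a * b : (P : Subgroup G)) : G) • ω.1 = (a : G) • ((b : G) • ω.1)
        rw [Subgroup.coe_mul, mul_smul] }
  have hfreeP : ∀ (b : {ω : Sylow 11 G // ω ≠ P}) (a : (P : Subgroup G)), a • b = b → a = 1 := by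
    intro b a hab
    have h1 : (a : G) • b.1 = b.1 := congrArg Subtype.val hab
    exact Subtype.ext (sylow_free P hP _ a.2 b.1 b.2 h1)
  have hcardΩ' : Nat.card {ω : Sylow 11 G // ω ≠ P} = 44 := by
    have := card_others P
    omega
  have hX : Nat.card (MulAction.orbitRel.Quotient (P : Subgroup G) {ω : Sylow 11 G // ω ≠ P}) = 4 := by
    have := card_free hfreeP
    rw [hcardΩ', hP] at this
    omega
  have hSn : ∀ s : S, (s : G) ∈ normalizer ((P : Subgroup G) : Set G) :=
    fun s => centralizer_le_normalizer _ (hSC s.2)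
  have hcompat : ∀ (s : S) (a b : {ω : Sylow 11 G // ω ≠ P}),
      MulAction.orbitRel (P : Subgroup G) {ω : Sylow 11 G // ω ≠ P} a b →
      MulAction.orbitRel (P : Subgroup G) {ω : Sylow 11 G // ω ≠ P}
        (⟨(s : G) • a.1, smul_ne_of_mem_normalizer P _ (hSn s) a.1 a.2⟩ : {ω : Sylow 11 G // ω ≠ P})
        ⟨(s : G) • b.1, smul_ne_of_mem_normalizer P _ (hSn s) b.1 b.2⟩ := by
    intro s a b hab
    rw [MulAction.orbitRel_apply, MulAction.mem_orbit_iff] at hab ⊢
    obtain ⟨y, hy⟩ := hab
    refine ⟨y, ?_⟩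
    apply Subtype.ext
    show (y : G) • ((s : G) • b.1) = (s : G) • a.1
    have h1 : (y : G) • b.1 = a.1 := congrArg Subtype.val hy
    rw [← h1, ← mul_smul, ← mul_smul, mem_centralizer_iff.mp (hSC s.2) y y.2]
  letI actS : MulAction S (MulAction.orbitRel.Quotient (P : Subgroup G) {ω : Sylow 11 G // ω ≠ P}) :=
    { smul := fun s => Quotient.map'
        (fun ω => ⟨(s : G) • ω.1, smul_ne_of_mem_normalizer P _ (hSn s) ω.1 ω.2⟩) (hcompat s)
      one_smul := fun x => by
        induction x using Quotient.inductionOn' with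
        | h ω =>
          show Quotient.map' _ _ (Quotient.mk'' ω) = Quotient.mk'' ω
          rw [Quotient.map'_mk'']
          congr 1
          apply Subtype.ext
          show ((1 : S) : G) • ω.1 = ω.1
          rw [Subgroup.coe_one, one_smul]
      mul_smul := fun a b x => by
        induction x using Quotient.inductionOn' with
        | h ω =>
          show Quotient.map' _ _ (Quotient.mk'' ω) =
            Quotient.map' _ _ (Quotient.map' _ _ (Quotient.mk'' ω))
          rw [Quotient.map'_mk'', Quotient.map'_mk'', Quotient.map'_mk'']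
          congr 1
          apply Subtype.ext
          show ((a * b : S) : G) • ω.1 = (a : G) • ((b : G) • ω.1)
          rw [Subgroup.coe_mul, mul_smul] }
  have hsmul : ∀ (s : S) (ω : {ω : Sylow 11 G // ω ≠ P}),
      s • (Quotient.mk'' ω : MulAction.orbitRel.Quotient (P : Subgroup G) {ω : Sylow 11 G // ω ≠ P}) =
        Quotient.mk'' ⟨(s : G) • ω.1, smul_ne_of_mem_normalizer P _ (hSn s) ω.1 ω.2⟩ :=
    fun s ω => rfl
  have hSP : ∀ (s : S) (ω : {ω : Sylow 11 G // ω ≠ P}),
      s • (Quotient.mk'' ω : MulAction.orbitRel.Quotient (P : Subgroup G) {ω : Sylow 11 G // ω ≠ P}) =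
        Quotient.mk'' ω → (s : G) • ω.1 = ω.1 := by
    intro s ω h
    rw [hsmul] at h
    have h1 : MulAction.orbitRel (P : Subgroup G) {ω : Sylow 11 G // ω ≠ P} _ _ := Quotient.exact' h
    rw [MulAction.orbitRel_apply, MulAction.mem_orbit_iff] at h1
    obtain ⟨y, hy⟩ := h1
    have hy' : (y : G) • ω.1 = (s : G) • ω.1 := congrArg Subtype.val hy
    have hpow : ∀ k : ℕ, ((y : G) ^ k) • ω.1 = ((s : G) ^ k) • ω.1 := by
      intro k
      induction k with
      | zero => simp
      | succ k ih =>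
        have hcomm : (y : G) ^ k * (s : G) = (s : G) * (y : G) ^ k :=
          mem_centralizer_iff.mp (hSC s.2) _ (pow_mem y.2 k)
        calc ((y : G) ^ (k + 1)) • ω.1 = ((y : G) ^ k) • ((y : G) • ω.1) := by
              rw [pow_succ, mul_smul]
          _ = ((y : G) ^ k) • ((s : G) • ω.1) := by rw [hy']
          _ = (s : G) • (((y : G) ^ k) • ω.1) := by rw [← mul_smul, ← mul_smul, hcomm]
          _ = (s : G) • (((s : G) ^ k) • ω.1) := by rw [ih]
          _ = ((s : G) ^ (k + 1)) • ω.1 := by rw [pow_succ', mul_smul]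
    have hs8 : (s : G) ^ 8 = 1 := by
      have h2 : s ^ Nat.card S = 1 := pow_card_eq_one'
      rw [hS] at h2
      have := congrArg Subtype.val h2
      simpa using this
    have hy8 : (y : G) ^ 8 = 1 := by
      have h2 := hpow 8
      rw [hs8, one_smul] at h2
      exact sylow_free P hP _ (pow_mem y.2 8) ω.1 ω.2 h2
    have hy11 : (y : G) ^ 11 = 1 := by
      have h2 : y ^ Nat.card (P : Subgroup G) = 1 := pow_card_eq_one'
      rw [hP] at h2
      have := congrArg Subtype.val h2
      simpa using this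
    have hy1 : (y : G) = 1 := by
      have h3 : orderOf (y : G) ∣ Nat.gcd 8 11 :=
        Nat.dvd_gcd (orderOf_dvd_of_pow_eq_one hy8) (orderOf_dvd_of_pow_eq_one hy11)
      have h4 : Nat.gcd 8 11 = 1 := by norm_num
      rw [h4, Nat.dvd_one, orderOf_eq_one_iff] at h3
      exact h3
    rw [← hy', hy1, one_smul]
  have hfaithS : ∀ s : S,
      (∀ x : MulAction.orbitRel.Quotient (P : Subgroup G) {ω : Sylow 11 G // ω ≠ P}, s • x = x) → s = 1 := by
    intro s hs
    apply Subtype.ext
    apply hfaith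
    intro ω
    by_cases hω : ω = P
    · rw [hω, Sylow.smul_eq_iff_mem_normalizer]; exact hSn s
    · exact hSP s ⟨ω, hω⟩ (hs _)
  intro ω hω hzω
  have hmain := central_no_fix hX hS hfaithS ⟨z, hzS⟩ (fun h => hz1 (congrArg Subtype.val h))
    (fun s => Subtype.ext (hzc s s.2)) (Quotient.mk'' ⟨ω, hω⟩)
  apply hmain
  rw [hsmul]
  congr 1
  exact Subtype.ext hzω

end Cfsg.Agent.Lib.Helper82.PG
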