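import Cfsg.Agent.Lib.Helper82.PGc
import Cfsg.Agent.Lib.Helper82.PGd

/-!
Soundness of the arithmetic certificate for S2490: the actual Sylow data of a group of
order 7920 with a disconnected prime graph satisfies all the constraints.
-/

set_option autoImplicit false
set_option linter.style.haveILetI false

namespace Cfsg.Agent.Lib.Helper82.PG

open Subgroup

theorem dvd16_cases : ∀ d ≤ 16, 16 % d = 0 → d = 1 ∨ d = 2 ∨ d = 4 ∨ d = 8 ∨ d = 16 := by
  decide

theorem dvd495_cases : ∀ d ≤ 495, 495 % d = 0 →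
    d ∈ [1, 3, 5, 9, 11, 15, 33, 45, 55, 99, 165, 495] := by
  decide +kernel

theorem mem_divs {d : ℕ} (h : d ∣ 7920) : d ∈ divs := by
  have h0 : (7920 : ℕ) = 16 * 495 := by norm_num
  rw [h0, Nat.dvd_mul] at h
  obtain ⟨a, b, ha, hb, rfl⟩ := h
  have ha' := dvd16_cases a (Nat.le_of_dvd (by norm_num) ha) (Nat.mod_eq_zero_of_dvd ha)
  have hb' := dvd495_cases b (Nat.le_of_dvd (by norm_num) hb) (Nat.mod_eq_zero_of_dvd hb)
  simp only [List.mem_cons, List.mem_nil_iff, or_false] at hb'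
  rcases ha' with rfl | rfl | rfl | rfl | rfl <;>
    rcases hb' with rfl | rfl | rfl | rfl | rfl | rfl | rfl | rfl | rfl | rfl | rfl | rfl <;>
      decide

theorem mem_cand11 : ∀ a ∈ divs, ∀ k ∈ divs, a % k = 0 → k % 11 = 0 → (7920 / a) % 11 = 1 →
    10 % (a / k) = 0 → (a, k) ∈ cand11 := by
  decide +kernel

theorem mem_cand5 : ∀ a ∈ divs, ∀ k ∈ divs, a % k = 0 → k % 5 = 0 → (7920 / a) % 5 = 1 →
    4 % (a / k) = 0 → (a, k) ∈ cand5 := by
  decide +kernel

theorem mem_cand3 : ∀ a ∈ divs, ∀ k ∈ divs, a % k = 0 → k % 9 = 0 → (7920 / a) % 3 = 1 →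
    (a, k) ∈ cand3 := by
  decide +kernel

theorem cand11_660 : ∀ x ∈ cand11, x.1 = 660 → 11 < x.2 := by decide

theorem odd3_sub : ∀ p ∈ odd3, p ∈ primes4 := by decide

theorem prime_dvd_7920 {p : ℕ} (hp : p.Prime) (h : p ∣ 7920) : p ∈ primes4 := by
  have h0 : (7920 : ℕ) = 2 ^ 4 * 3 ^ 2 * 5 * 11 := by norm_num
  rw [h0] at h
  simp only [primes4, List.mem_cons, List.mem_nil_iff, or_false]
  rcases (Nat.Prime.dvd_mul hp).mp h with h | h
  · rcases (Nat.Prime.dvd_mul hp).mp h with h | h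
    · rcases (Nat.Prime.dvd_mul hp).mp h with h | h
      · left; exact (Nat.prime_dvd_prime_iff_eq hp Nat.prime_two).mp (hp.dvd_of_dvd_pow h)
      · right; left
        exact (Nat.prime_dvd_prime_iff_eq hp Nat.prime_three).mp (hp.dvd_of_dvd_pow h)
    · right; right; left; exact (Nat.prime_dvd_prime_iff_eq hp Nat.prime_five).mp h
  · right; right; right; exact (Nat.prime_dvd_prime_iff_eq hp (by norm_num)).mp h

theorem primes4_spec : ∀ p ∈ primes4,
    p.Prime ∧ (∃ e, PPf p = p ^ e) ∧ PPf p ∣ 7920 ∧ ¬ p ∣ 7920 / PPf p ∧ p ∣ PPf p := by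
  intro p hp
  simp only [primes4, List.mem_cons, List.mem_nil_iff, or_false] at hp
  rcases hp with rfl | rfl | rfl | rfl
  · exact ⟨by norm_num, ⟨4, by decide⟩, by decide, by decide, by decide⟩
  · exact ⟨by norm_num, ⟨2, by decide⟩, by decide, by decide, by decide⟩
  · exact ⟨by norm_num, ⟨1, by decide⟩, by decide, by decide, by decide⟩
  · exact ⟨by norm_num, ⟨1, by decide⟩, by decide, by decide, by decide⟩

/-- The order of a Sylow subgroup. -/
theorem sylow_card_eq {G : Type*} [Group G] [Finite G] {p e PPp : ℕ} (hp : p.Prime)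
    (hPP : PPp = p ^ e) (hG : PPp ∣ Nat.card G) (hnd : ¬ p ∣ Nat.card G / PPp) (P : Sylow p G) :
    Nat.card (P : Subgroup G) = PPp := by
  haveI : Fact p.Prime := ⟨hp⟩
  obtain ⟨k, hk⟩ := IsPGroup.iff_card.mp P.isPGroup'
  have hidx := Sylow.not_dvd_index P
  have hmul := card_mul_index (P : Subgroup G)
  apply Nat.dvd_antisymm
  · have h1 : Nat.card (P : Subgroup G) ∣ PPp * (Nat.card G / PPp) := by
      rw [Nat.mul_div_cancel' hG]; exact card_subgroup_dvd_card _
    have hcop : Nat.Coprime (Nat.card (P : Subgroup G)) (Nat.card G / PPp) := by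
      rw [hk]; exact Nat.Coprime.pow_left _ ((Nat.Prime.coprime_iff_not_dvd hp).mpr hnd)
    exact Nat.Coprime.dvd_of_dvd_mul_right hcop h1
  · have h2 : PPp ∣ Nat.card (P : Subgroup G) * (P : Subgroup G).index := by
      rw [hmul]; exact hG
    have hcop : Nat.Coprime PPp (P : Subgroup G).index := by
      rw [hPP]; exact Nat.Coprime.pow_left _ ((Nat.Prime.coprime_iff_not_dvd hp).mpr hidx)
    exact Nat.Coprime.dvd_of_dvd_mul_right hcop h2

theorem card_mul_relIndex_of_le {G : Type*} [Group G] {H L : Subgroup G} (h : H ≤ L) :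
    Nat.card H * H.relIndex L = Nat.card L := by
  have h1 := relIndex_inf_mul_relIndex (⊥ : Subgroup G) H L
  rw [relIndex_bot_left, bot_inf_eq, relIndex_bot_left, inf_of_le_left h] at h1
  exact h1

theorem conj_mem_centralizer {G : Type*} [Group G] (H : Subgroup G) {t c : G}
    (ht : t ∈ normalizer (H : Set G)) (hc : c ∈ centralizer (H : Set G)) :
    t * c * t⁻¹ ∈ centralizer (H : Set G) := by
  rw [mem_centralizer_iff] at hc ⊢
  intro x hx
  have hx' : t⁻¹ * x * t ∈ H := by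
    have h1 := (mem_normalizer_iff.mp (inv_mem ht) x).mp hx
    simpa using h1
  have h1 := hc _ hx'
  calc x * (t * c * t⁻¹) = t * (t⁻¹ * x * t * c) * t⁻¹ := by group
    _ = t * (c * (t⁻¹ * x * t)) * t⁻¹ := by rw [h1]
    _ = t * c * t⁻¹ * x := by group

/-- Orders of normal subgroups. -/
def Dset (G : Type*) [Group G] (d : ℕ) : Prop := ∃ N : Subgroup G, N.Normal ∧ Nat.card N = d

/-- A chosen Sylow `p`-subgroup. -/
noncomputable def Pf (G : Type*) [Group G] (p : ℕ) : Sylow p G := Classical.choice Sylow.nonempty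

/-- Orders of the normalizer and the centralizer of the chosen Sylow `p`-subgroup. -/
noncomputable def par (G : Type*) [Group G] (p : ℕ) : ℕ × ℕ :=
  (Nat.card (normalizer ((Pf G p : Subgroup G) : Set G)),
    Nat.card (centralizer ((Pf G p : Subgroup G) : Set G)))

theorem par_fst (G : Type*) [Group G] (p : ℕ) :
    (par G p).1 = Nat.card (normalizer ((Pf G p : Subgroup G) : Set G)) := rfl

theorem par_snd (G : Type*) [Group G] (p : ℕ) :
    (par G p).2 = Nat.card (centralizer ((Pf G p : Subgroup G) : Set G)) := rfl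

section

variable {G : Type*} [Group G] [Finite G]

theorem card_Pf (hord : Nat.card G = 7920) {p : ℕ} (hp : p ∈ primes4) :
    Nat.card (Pf G p : Subgroup G) = PPf p := by
  obtain ⟨hpp, ⟨e, he⟩, hdvd, hnd, -⟩ := primes4_spec p hp
  exact sylow_card_eq hpp he (by rw [hord]; exact hdvd) (by rw [hord]; exact hnd) (Pf G p)

theorem Pf_le_centralizer (hord : Nat.card G = 7920) {p : ℕ} (hp : p ∈ odd3) :
    (Pf G p : Subgroup G) ≤ centralizer ((Pf G p : Subgroup G) : Set G) := by
  have hcard := card_Pf hord (odd3_sub p hp)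
  have hcomm : ∀ a b : (Pf G p : Subgroup G), a * b = b * a := by
    simp only [odd3, List.mem_cons, List.mem_nil_iff, or_false] at hp
    rcases hp with rfl | rfl | rfl
    · haveI : Fact (Nat.Prime 11) := ⟨by norm_num⟩
      haveI : IsCyclic (Pf G 11 : Subgroup G) :=
        isCyclic_of_prime_card (p := 11) (hcard.trans (by decide))
      exact fun a b => mul_comm' a b
    · haveI : Fact (Nat.Prime 5) := ⟨by norm_num⟩
      haveI : IsCyclic (Pf G 5 : Subgroup G) :=
        isCyclic_of_prime_card (p := 5) (hcard.trans (by decide))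
      exact fun a b => mul_comm' a b
    · haveI : Fact (Nat.Prime 3) := ⟨by norm_num⟩
      haveI : IsMulCommutative (Pf G 3 : Subgroup G) :=
        IsPGroup.isMulCommutative_of_card_eq_prime_sq (p := 3) (hcard.trans (by decide))
      exact fun a b => mul_comm' a b
  intro x hx
  rw [mem_centralizer_iff]
  intro y hy
  exact congrArg Subtype.val (hcomm ⟨y, hy⟩ ⟨x, hx⟩)

theorem par_facts (hord : Nat.card G = 7920) {p : ℕ} (hp : p ∈ odd3) :
    (par G p).1 ∈ divs ∧ (par G p).2 ∈ divs ∧ (par G p).1 % (par G p).2 = 0 ∧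
      (par G p).2 % PPf p = 0 ∧ (7920 / (par G p).1) % p = 1 := by
  have hp4 := odd3_sub p hp
  obtain ⟨hpp, -, -, -, -⟩ := primes4_spec p hp4
  haveI : Fact p.Prime := ⟨hpp⟩
  have ha : (par G p).1 ∣ 7920 := by rw [← hord]; exact card_subgroup_dvd_card _
  have hka : (par G p).2 ∣ (par G p).1 := card_dvd_of_le (centralizer_le_normalizer _)
  have hPk : PPf p ∣ (par G p).2 := by
    rw [← card_Pf hord hp4]; exact card_dvd_of_le (Pf_le_centralizer hord hp)
  refine ⟨mem_divs ha, mem_divs (hka.trans ha), Nat.mod_eq_zero_of_dvd hka,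
    Nat.mod_eq_zero_of_dvd hPk, ?_⟩
  have h1 := card_sylow_modEq_one p G
  rw [Sylow.card_eq_index_normalizer (Pf G p)] at h1
  have h2 := card_mul_index (normalizer ((Pf G p : Subgroup G) : Set G))
  rw [hord] at h2
  have h3 : (normalizer ((Pf G p : Subgroup G) : Set G)).index = 7920 / (par G p).1 := by
    symm
    exact Nat.div_eq_of_eq_mul_right (Nat.pos_of_dvd_of_pos ha (by norm_num)) h2.symm
  have h4 : 7920 / (par G p).1 % p = 1 % p := by
    rw [← h3]
    exact h1
  rw [h4]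
  exact Nat.mod_eq_of_lt hpp.one_lt

theorem par_div (hord : Nat.card G = 7920) {p : ℕ} [Fact p.Prime] (hp4 : p ∈ primes4)
    (hPP : PPf p = p) : (p - 1) % ((par G p).1 / (par G p).2) = 0 := by
  obtain ⟨j, hj, hjd⟩ := normalizer_centralizer_prime (Pf G p : Subgroup G)
    (by rw [card_Pf hord hp4, hPP])
  have hk : 0 < (par G p).2 := Nat.card_pos
  have h1 : (par G p).1 / (par G p).2 = j := by
    rw [par_fst, par_snd, hj]
    exact Nat.mul_div_cancel_left j hk
  rw [h1]
  exact Nat.mod_eq_zero_of_dvd hjd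

theorem normal_data (hord : Nat.card G = 7920) (N : Subgroup G) [N.Normal] {p : ℕ}
    (hp : p ∈ primes4) (hd : PPf p ∣ Nat.card N) :
    (Pf G p : Subgroup G) ≤ N ∧ 0 < 7920 / Nat.card N ∧
      (par G p).1 = 7920 / Nat.card N *
        Nat.card (N ⊓ normalizer ((Pf G p : Subgroup G) : Set G) : Subgroup G) := by
  obtain ⟨hpp, ⟨e, he⟩, hdvd, hnd, -⟩ := primes4_spec p hp
  haveI : Fact p.Prime := ⟨hpp⟩
  have hmul := card_mul_index N
  rw [hord] at hmul
  have hNpos : 0 < Nat.card N := Nat.card_pos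
  have hNdvd : Nat.card N ∣ 7920 := by rw [← hord]; exact card_subgroup_dvd_card N
  have hidx : N.index = 7920 / Nat.card N := by
    symm
    exact Nat.div_eq_of_eq_mul_right hNpos hmul.symm
  have hnp : ¬ p ∣ N.index := by
    intro hpi
    apply hnd
    obtain ⟨t, ht⟩ := hd
    have h1 : 7920 / PPf p = t * N.index := by
      apply Nat.div_eq_of_eq_mul_right (Nat.pos_of_dvd_of_pos hdvd (by norm_num))
      rw [← hmul, ht, mul_assoc]
    rw [h1]
    exact Dvd.dvd.mul_left hpi t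
  have hPN := sylow_le_of_not_dvd_index (Pf G p) N hnp
  refine ⟨hPN, Nat.div_pos (Nat.le_of_dvd (by norm_num) hNdvd) hNpos, ?_⟩
  rw [par_fst, card_normalizer_of_le (Pf G p) N hPN, hidx]

variable (hord : Nat.card G = 7920) (col : ℕ → Bool)
  (hsep : ∀ p ∈ primes4, ∀ q ∈ primes4, p ≠ q → col p ≠ col q → NoEdge G p q)
  (pr : ℕ → ℕ × ℕ) (hpr : ∀ p ∈ odd3, pr p = par G p)

include hord hsep hpr in
theorem base_sound (N : Subgroup G) [N.Normal] : Base col pr (Nat.card N) := by
  unfold Base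
  refine ⟨?_, ?_, ?_⟩
  · intro p hp q hq hpq hqd hcol
    obtain ⟨hpp, ⟨e, he⟩, hdvd, hnd, -⟩ := primes4_spec p hp
    obtain ⟨hqp, ⟨f, hf⟩, hqdvd, -, -⟩ := primes4_spec q hq
    haveI : Fact p.Prime := ⟨hpp⟩
    obtain ⟨S⟩ : Nonempty (Sylow p N) := Sylow.nonempty
    have h1 := ruleR hpp hqp hpq (hsep p hp q hq hpq hcol) N
      (fun h => hqd (Nat.mod_eq_zero_of_dvd h)) (m := f) (by rw [hord, ← hf]; exact hqdvd) S
    rw [sylow_card_eq_gcd hpp he (by rw [hord]; exact hdvd) (by rw [hord]; exact hnd) N S,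
      ← hf] at h1
    exact Nat.mod_eq_zero_of_dvd h1
  · intro p hp hd
    obtain ⟨hPN, hpos, hcard⟩ := normal_data hord N (odd3_sub p hp) (Nat.dvd_of_mod_eq_zero hd)
    rw [hpr p hp, hcard]
    refine ⟨Nat.mul_mod_right _ _, ?_⟩
    rw [Nat.mul_div_cancel_left _ hpos]
    exact Nat.mod_eq_zero_of_dvd (card_dvd_of_le inf_le_left)
  · intro h16
    rw [hpr 11 (by decide)]
    exact Nat.mod_eq_zero_of_dvd (sixteen_dvd_card_centralizer N h16 (Pf G 11)
      ((card_Pf hord (by decide)).trans (by decide)))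

include hord hpr in
theorem step_sound (N : Subgroup G) [N.Normal] {p : ℕ} (hp : p ∈ odd3)
    (hd : Nat.card N % PPf p = 0) (ha : (pr p).1 = 7920 / Nat.card N * PPf p) :
    Dset G (Nat.card N / PPf p) := by
  have hp4 := odd3_sub p hp
  obtain ⟨hpp, ⟨e, he⟩, hdvd, hnd, -⟩ := primes4_spec p hp4
  haveI : Fact p.Prime := ⟨hpp⟩
  obtain ⟨hPN, hpos, hcard⟩ := normal_data hord N hp4 (Nat.dvd_of_mod_eq_zero hd)
  rw [hpr p hp, hcard] at ha
  have hc : Nat.card (N ⊓ normalizer ((Pf G p : Subgroup G) : Set G) : Subgroup G) =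
      Nat.card (Pf G p : Subgroup G) := by
    rw [card_Pf hord hp4]
    exact Nat.eq_of_mul_eq_mul_left hpos ha
  obtain ⟨K, hK, hKc⟩ := compl_of_card (Pf G p) N hPN (Pf_le_centralizer hord hp) hc
  refine ⟨K, hK, ?_⟩
  rw [card_Pf hord hp4] at hKc
  rw [← hKc]
  exact (Nat.mul_div_cancel _ (Nat.pos_of_dvd_of_pos hdvd (by norm_num))).symm

include hord hsep hpr in
theorem good2_sound {d : ℕ} (hd : Dset G d) : Good2 col pr d := by
  have hb : ∀ d, Dset G d → Base col pr d := by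
    rintro d ⟨N, hN, rfl⟩
    exact base_sound hord col hsep pr hpr N
  have hs : ∀ d, Dset G d → ∀ p ∈ odd3, d % PPf p = 0 → (pr p).1 = 7920 / d * PPf p →
      Dset G (d / PPf p) := by
    rintro d ⟨N, hN, rfl⟩ p hp h1 h2
    exact step_sound hord pr hpr N hp h1 h2
  unfold Good2 Good1
  exact ⟨hb d hd, fun p hp h1 h2 => ⟨hb _ (hs d hd p hp h1 h2), fun p' hp' h1' h2' =>
    hb _ (hs _ (hs d hd p hp h1 h2) p' hp' h1' h2')⟩⟩

include hord hsep hpr in
theorem glob_sound : Glob col pr := by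
  have hgood : ∀ d, Dset G d → Good2 col pr d :=
    fun d hd => good2_sound hord col hsep pr hpr hd
  have hF4 : ∀ p ∈ odd3, F4 col p (pr p).2 := by
    intro p hp r hr hrp hcol hmod
    have hp4 := odd3_sub p hp
    obtain ⟨hpp, -, -, -, hpPP⟩ := primes4_spec p hp4
    obtain ⟨hrr, -, -, -, -⟩ := primes4_spec r hr
    rw [hpr p hp] at hmod
    refine not_dvd_card_centralizer hpp hrr (Ne.symm hrp)
      (hsep p hp4 r hr (Ne.symm hrp) hcol) (Pf G p : Subgroup G) ?_ (Nat.dvd_of_mod_eq_zero hmod)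
    rw [card_Pf hord hp4]
    exact hpPP
  unfold Glob
  refine ⟨hF4 11 (by decide), hF4 5 (by decide), hF4 3 (by decide), ?_, ?_, ?_, ?_, ?_⟩
  · intro p hp r hr hrp hcol
    have hp4 := odd3_sub p hp
    obtain ⟨hpp, -, -, -, -⟩ := primes4_spec p hp4
    obtain ⟨hrr, ⟨f, hf⟩, -, -, -⟩ := primes4_spec r hr
    rw [hpr p hp]
    have hg : Nat.gcd (par G p).1 (PPf r) ∣ r ^ f := by rw [← hf]; exact Nat.gcd_dvd_right _ _
    obtain ⟨m, -, hm⟩ := (Nat.dvd_prime_pow hrr).mp hg
    have h1 : r ^ m ∣ Nat.card (normalizer ((Pf G p : Subgroup G) : Set G)) := by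
      rw [← hm]; exact Nat.gcd_dvd_left _ _
    have h2 := pow_dvd_card_sub_one hpp hrr (Ne.symm hrp) (hsep p hp4 r hr (Ne.symm hrp) hcol)
      (Pf G p : Subgroup G) (Pf G p).isPGroup' h1
    rw [card_Pf hord hp4, ← hm] at h2
    exact Nat.mod_eq_zero_of_dvd h2
  · intro p hp hka
    have hp4 := odd3_sub p hp
    obtain ⟨hpp, -, hdvd, -, -⟩ := primes4_spec p hp4
    haveI : Fact p.Prime := ⟨hpp⟩
    rw [hpr p hp] at hka
    obtain ⟨K, hK, hKc⟩ := compl_of_centralizer (Pf G p) hka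
    apply hgood
    refine ⟨K, hK, ?_⟩
    rw [card_Pf hord hp4, hord] at hKc
    exact (Nat.div_eq_of_eq_mul_left (Nat.pos_of_dvd_of_pos hdvd (by norm_num)) hKc.symm).symm
  · intro p hp ha
    have hp4 := odd3_sub p hp
    rw [hpr p hp] at ha ⊢
    have htop : normalizer ((Pf G p : Subgroup G) : Set G) = ⊤ := by
      apply (card_eq_iff_eq_top _).mp
      rw [hord]
      exact ha
    haveI hnorm : (Pf G p : Subgroup G).Normal := normalizer_eq_top_iff.mp htop
    exact ⟨hgood _ ⟨(Pf G p : Subgroup G), hnorm, card_Pf hord hp4⟩,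
      hgood _ ⟨centralizer ((Pf G p : Subgroup G) : Set G), normal_centralizer, rfl⟩⟩
  · exact hgood _ ⟨⊤, inferInstance, by rw [card_top, hord]⟩
  · exact hgood _ ⟨⊥, inferInstance, card_bot⟩

end

end Cfsg.Agent.Lib.Helper82.PG
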