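import Cfsg.Agent.Lib.Helper82.PGe
import Cfsg.Agent.S0215

/-!
A group of order 7920 whose prime graph is disconnected is simple (S2490): assembly.
-/

set_option autoImplicit false
set_option linter.style.haveILetI false

namespace Cfsg.Agent.Lib.Helper82.PG

open Subgroup

section

variable {G : Type*} [Group G] [Finite G]

/-- Orders of normal subgroups, and the Sylow 11-data when there is one of index 2. -/
theorem normal_orders (hord : Nat.card G = 7920) (c2 c3 c5 c11 : Bool)
    (hcol : ¬ (c2 = c3 ∧ c3 = c5 ∧ c5 = c11))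
    (hsep : ∀ p ∈ primes4, ∀ q ∈ primes4, p ≠ q →
      colf c2 c3 c5 c11 p ≠ colf c2 c3 c5 c11 q → NoEdge G p q) :
    (∀ N : Subgroup G, N.Normal → Nat.card N = 1 ∨ Nat.card N = 3960 ∨ Nat.card N = 7920) ∧
    (Dset G 3960 → ((par G 11).1 = 176 ∧ (par G 11).2 = 88) ∨
      ((par G 11).1 = 660 ∧ 11 < (par G 11).2)) := by
  have hpr : ∀ p ∈ odd3, parf (par G 11) (par G 5) (par G 3) p = par G p := by
    intro p hp
    simp only [odd3, List.mem_cons, List.mem_nil_iff, or_false] at hp
    rcases hp with rfl | rfl | rfl <;> rfl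
  have hx : par G 11 ∈ cand11 := by
    haveI : Fact (Nat.Prime 11) := ⟨by norm_num⟩
    obtain ⟨h1, h2, h3, h4, h5⟩ := par_facts hord (p := 11) (by decide)
    exact mem_cand11 _ h1 _ h2 h3 h4 h5 (par_div hord (p := 11) (by decide) (by decide))
  have hy : par G 5 ∈ cand5 := by
    haveI : Fact (Nat.Prime 5) := ⟨by norm_num⟩
    obtain ⟨h1, h2, h3, h4, h5⟩ := par_facts hord (p := 5) (by decide)
    exact mem_cand5 _ h1 _ h2 h3 h4 h5 (par_div hord (p := 5) (by decide) (by decide))
  have hw : par G 3 ∈ cand3 := by
    obtain ⟨h1, h2, h3, h4, h5⟩ := par_facts hord (p := 3) (by decide)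
    exact mem_cand3 _ h1 _ h2 h3 h4 h5
  have hglob := glob_sound hord (colf c2 c3 c5 c11) hsep _ hpr
  have hgood : ∀ d, Dset G d →
      Good2 (colf c2 c3 c5 c11) (parf (par G 11) (par G 5) (par G 3)) d :=
    fun d hd => good2_sound hord (colf c2 c3 c5 c11) hsep _ hpr hd
  have hF4a : F4 (colf c2 c3 c5 c11) 11 (par G 11).2 := by
    have h := hglob
    unfold Glob at h
    have h1 := h.1
    rwa [hpr 11 (by decide)] at h1
  have hF4b : F4 (colf c2 c3 c5 c11) 5 (par G 5).2 := by
    have h := hglob
    unfold Glob at h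
    have h1 := h.2.1
    rwa [hpr 5 (by decide)] at h1
  obtain ⟨h1, h2⟩ := cert c2 c3 c5 c11 hcol (par G 11) hx hF4a (par G 5) hy hF4b (par G 3) hw hglob
  refine ⟨?_, ?_⟩
  · intro N hN
    exact h1 _ (mem_divs (by rw [← hord]; exact card_subgroup_dvd_card N)) (hgood _ ⟨N, hN, rfl⟩)
  · intro h3960
    rcases h2 (hgood _ h3960) with h | h
    · left; exact h
    · right; exact ⟨h, cand11_660 _ hx h⟩

set_option maxHeartbeats 800000 in
/-- The two surviving configurations for the Sylow 11-normalizer are impossible. -/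
theorem step2 (hord : Nat.card G = 7920)
    (hD : ∀ N : Subgroup G, N.Normal → Nat.card N = 1 ∨ Nat.card N = 3960 ∨ Nat.card N = 7920)
    (P : Sylow 11 G)
    (h : (Nat.card (normalizer ((P : Subgroup G) : Set G)) = 176 ∧
        Nat.card (centralizer ((P : Subgroup G) : Set G)) = 88) ∨
      (Nat.card (normalizer ((P : Subgroup G) : Set G)) = 660 ∧
        11 < Nat.card (centralizer ((P : Subgroup G) : Set G)))) :
    False := by
  classical
  haveI : Fact (Nat.Prime 11) := ⟨by norm_num⟩
  haveI : Fact (Nat.Prime 2) := ⟨Nat.prime_two⟩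
  have hP : Nat.card (P : Subgroup G) = 11 :=
    sylow_card_eq (p := 11) (e := 1) (by norm_num) (by norm_num) (by rw [hord]; norm_num)
      (by rw [hord]; norm_num) P
  have hnidx : Nat.card (Sylow 11 G) * Nat.card (normalizer ((P : Subgroup G) : Set G)) = 7920 := by
    rw [Sylow.card_eq_index_normalizer P, ← hord, mul_comm]
    exact card_mul_index (normalizer ((P : Subgroup G) : Set G))
  have hfaith : ∀ g : G, (∀ ω : Sylow 11 G, g • ω = ω) → g = 1 := by
    intro g hg
    have hK : (MulAction.toPermHom G (Sylow 11 G)).ker.Normal := MonoidHom.normal_ker _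
    have hKle : (MulAction.toPermHom G (Sylow 11 G)).ker ≤
        normalizer ((P : Subgroup G) : Set G) := by
      intro x hx
      rw [MonoidHom.mem_ker] at hx
      have h1 : x • P = P := by
        have h2 := congrArg (fun f : Equiv.Perm (Sylow 11 G) => f P) hx
        simpa using h2
      exact Sylow.smul_eq_iff_mem_normalizer.mp h1
    have hdvd := card_dvd_of_le hKle
    have hle : Nat.card (MulAction.toPermHom G (Sylow 11 G)).ker ≤ 660 := by
      have h2 := Nat.le_of_dvd Nat.card_pos hdvd
      rcases h with ⟨h3, -⟩ | ⟨h3, -⟩ <;> omega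
    have hK1 : Nat.card (MulAction.toPermHom G (Sylow 11 G)).ker = 1 := by
      rcases hD _ hK with h1 | h1 | h1 <;> omega
    have hmem : g ∈ (MulAction.toPermHom G (Sylow 11 G)).ker := by
      rw [MonoidHom.mem_ker]
      refine Equiv.ext (fun ω => ?_)
      rw [MulAction.toPermHom_apply, MulAction.toPerm_apply, Equiv.Perm.coe_one, id]
      exact hg ω
    rw [eq_bot_of_card_eq _ hK1, mem_bot] at hmem
    exact hmem
  rcases h with ⟨h176, h88⟩ | ⟨h660, hlt⟩
  · have hn : Nat.card (Sylow 11 G) = 45 := by rw [h176] at hnidx; omega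
    have hcardN : Nat.card (normalizer ((P : Subgroup G) : Set G)) = 176 := h176
    have hcardC : Nat.card (centralizer ((P : Subgroup G) : Set G)) = 88 := h88
    obtain ⟨T0, hT0⟩ := Sylow.exists_subgroup_card_pow_prime 2
      (G := normalizer ((P : Subgroup G) : Set G)) (n := 4) (by rw [hcardN]; norm_num)
    have hcardT : Nat.card (T0.map (normalizer ((P : Subgroup G) : Set G)).subtype) = 16 := by
      rw [card_map_of_injective (subtype_injective _), hT0]; norm_num
    have hTN : T0.map (normalizer ((P : Subgroup G) : Set G)).subtype ≤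
        normalizer ((P : Subgroup G) : Set G) := map_subtype_le T0
    generalize T0.map (normalizer ((P : Subgroup G) : Set G)).subtype = T at hcardT hTN
    have hT2 : IsPGroup 2 T := IsPGroup.of_card (n := 4) (by rw [hcardT]; norm_num)
    have hcardS : Nat.card (T ⊓ centralizer ((P : Subgroup G) : Set G) : Subgroup G) = 8 := by
      have h1 : Nat.card (T ⊓ centralizer ((P : Subgroup G) : Set G) : Subgroup G) ∣ 16 := by
        have h0 := card_dvd_of_le
          (inf_le_left : T ⊓ centralizer ((P : Subgroup G) : Set G) ≤ T)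
        rwa [hcardT] at h0
      have h2 : Nat.card (T ⊓ centralizer ((P : Subgroup G) : Set G) : Subgroup G) ∣ 88 := by
        have h0 := card_dvd_of_le
          (inf_le_right : T ⊓ centralizer ((P : Subgroup G) : Set G) ≤
            centralizer ((P : Subgroup G) : Set G))
        rwa [hcardC] at h0
      have h3 := card_mul_relIndex_of_le
        ((inf_le_left : T ⊓ centralizer ((P : Subgroup G) : Set G) ≤ T).trans hTN)
      have h4 := card_mul_relIndex_of_le hTN
      have h5 := card_mul_relIndex_of_le
        (centralizer_le_normalizer ((P : Subgroup G) : Set G))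
      have h6 : (T ⊓ centralizer ((P : Subgroup G) : Set G)).relIndex
          (normalizer ((P : Subgroup G) : Set G)) ≤
          T.relIndex (normalizer ((P : Subgroup G) : Set G)) *
          (centralizer ((P : Subgroup G) : Set G)).relIndex
            (normalizer ((P : Subgroup G) : Set G)) := relIndex_inf_le
      rw [hcardN] at h3 h4 h5
      rw [hcardT] at h4
      rw [hcardC] at h5
      have h7 : T.relIndex (normalizer ((P : Subgroup G) : Set G)) = 11 := by omega
      have h8 : (centralizer ((P : Subgroup G) : Set G)).relIndex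
          (normalizer ((P : Subgroup G) : Set G)) = 2 := by omega
      rw [h7, h8] at h6
      have h9 : Nat.card (T ⊓ centralizer ((P : Subgroup G) : Set G) : Subgroup G) ∣ 8 := by
        have := Nat.dvd_gcd h1 h2
        have hg : Nat.gcd 16 88 = 8 := by norm_num
        rwa [hg] at this
      have h10 := Nat.le_of_dvd (by norm_num) h9
      have h11 : 176 ≤
          Nat.card (T ⊓ centralizer ((P : Subgroup G) : Set G) : Subgroup G) * 22 := by
        rw [← h3]; exact Nat.mul_le_mul_left _ h6
      omega
    generalize hSdef : T ⊓ centralizer ((P : Subgroup G) : Set G) = S at hcardS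
    have hST : S ≤ T := by rw [← hSdef]; exact inf_le_left
    have hSC : S ≤ centralizer ((P : Subgroup G) : Set G) := by
      rw [← hSdef]; exact inf_le_right
    have hTS : T ≤ normalizer (S : Set G) := by
      have key : ∀ t ∈ T, ∀ x ∈ S, t * x * t⁻¹ ∈ S := by
        intro t ht x hx
        rw [← hSdef]
        exact mem_inf.mpr ⟨T.mul_mem (T.mul_mem ht (hST hx)) (T.inv_mem ht),
          conj_mem_centralizer _ (hTN ht) (hSC hx)⟩
      intro t ht
      rw [mem_normalizer_iff]
      intro x
      constructor
      · exact key t ht x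
      · intro hx
        have h1 := key t⁻¹ (T.inv_mem ht) _ hx
        have h2 : t⁻¹ * (t * x * t⁻¹) * t⁻¹⁻¹ = x := by group
        rwa [h2] at h1
    have hmod := card_fix_modEq S T hTS (r := 2) hT2
    rw [hcardS] at hmod
    have h2dvd : 2 ∣ Nat.card (S ⊓ centralizer (T : Set G) : Subgroup G) := by
      have h1 : Nat.card (S ⊓ centralizer (T : Set G) : Subgroup G) % 2 = 0 := hmod
      exact Nat.dvd_of_mod_eq_zero h1
    obtain ⟨z', hz'⟩ := exists_prime_orderOf_dvd_card' 2 h2dvd
    have hz2 : orderOf (z' : G) = 2 := by rw [orderOf_coe]; exact hz'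
    have hzS : (z' : G) ∈ S := (mem_inf.mp z'.2).1
    have hzT : (z' : G) ∈ centralizer (T : Set G) := (mem_inf.mp z'.2).2
    generalize (z' : G) = z at hz2 hzS hzT
    have hz1 : z ≠ 1 := by
      intro h1
      rw [h1, orderOf_one] at hz2
      omega
    have hzc : ∀ s ∈ S, s * z = z * s := fun s hs => mem_centralizer_iff.mp hzT s (hST hs)
    have hfix := toolC (P) hP hn hfaith S hcardS hSC z hzS hz1 hzc
    have hzN : ∀ g ∈ normalizer ((P : Subgroup G) : Set G), g * z = z * g := by
      have h1 : (P : Subgroup G) ⊔ T ≤ centralizer ({z} : Set G) := by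
        apply sup_le
        · intro x hx
          rw [mem_centralizer_iff]
          intro y hy
          rw [Set.mem_singleton_iff] at hy
          rw [hy]
          exact (mem_centralizer_iff.mp (hSC hzS) x hx).symm
        · intro x hx
          rw [mem_centralizer_iff]
          intro y hy
          rw [Set.mem_singleton_iff] at hy
          rw [hy]
          exact (mem_centralizer_iff.mp hzT x hx).symm
      have h2 : (P : Subgroup G) ⊔ T = normalizer ((P : Subgroup G) : Set G) := by
        apply eq_of_le_of_card_ge (sup_le le_normalizer hTN)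
        have d1 : 11 ∣ Nat.card ((P : Subgroup G) ⊔ T : Subgroup G) := by
          have h0 := card_dvd_of_le (le_sup_left : (P : Subgroup G) ≤ (P : Subgroup G) ⊔ T)
          rwa [hP] at h0
        have d2 : 16 ∣ Nat.card ((P : Subgroup G) ⊔ T : Subgroup G) := by
          have h0 := card_dvd_of_le (le_sup_right : T ≤ (P : Subgroup G) ⊔ T)
          rwa [hcardT] at h0
        have d3 : 11 * 16 ∣ Nat.card ((P : Subgroup G) ⊔ T : Subgroup G) :=
          Nat.Coprime.mul_dvd_of_dvd_of_dvd (by norm_num) d1 d2
        rw [hcardN]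
        exact Nat.le_of_dvd Nat.card_pos d3
      intro g hg
      rw [← h2] at hg
      exact (mem_centralizer_iff.mp (h1 hg) z rfl).symm
    obtain ⟨Q, hQ⟩ := hT2.exists_le_sylow
    have hQcard : Nat.card (Q : Subgroup G) = 16 :=
      sylow_card_eq Nat.prime_two (e := 4) (by norm_num) (by rw [hord]; norm_num)
        (by rw [hord]; norm_num) Q
    have hTQ : T = (Q : Subgroup G) := eq_of_le_of_card_ge hQ (by rw [hQcard, hcardT])
    obtain ⟨M, hM, hMo, hMc⟩ := Cfsg.Agent.S0215.result Q z hz2 (hQ (hST hzS)) (by
      intro g hg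
      have hgT : g * z * g⁻¹ ∈ T := by rw [hTQ]; exact hg
      have hgN : g * z * g⁻¹ ∈ normalizer ((P : Subgroup G) : Set G) := hTN hgT
      have h1 : (g * z * g⁻¹) • P = P := Sylow.smul_eq_iff_mem_normalizer.mpr hgN
      have h2 : z • (g⁻¹ • P) = g⁻¹ • P := by
        have h3 := congrArg (fun ω => g⁻¹ • ω) h1
        simp only [mul_smul, inv_smul_smul] at h3
        exact h3
      have h3 : g⁻¹ • P = P := by
        by_contra hne
        exact hfix _ hne h2
      have h4 : g ∈ normalizer ((P : Subgroup G) : Set G) := by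
        have h5 := Sylow.smul_eq_iff_mem_normalizer.mp h3
        have h6 := inv_mem h5
        rwa [inv_inv] at h6
      rw [hzN g h4, mul_inv_cancel_right])
    have hM1 : Nat.card M = 1 := by
      rcases hD M hM with h1 | h1 | h1
      · exact h1
      · rw [h1, Nat.odd_iff] at hMo; omega
      · rw [h1, Nat.odd_iff] at hMo; omega
    have hMbot := eq_bot_of_card_eq M hM1
    have hzcent : ∀ g : G, g * z = z * g := by
      intro g
      have h1 := hMc g
      rw [hMbot, mem_bot] at h1
      have h2 : z * g * z⁻¹ * g⁻¹ * (g * z) = g * z := by rw [h1, one_mul]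
      rw [← h2]; group
    have hZn : (zpowers z).Normal := by
      refine ⟨fun n hn g => ?_⟩
      obtain ⟨k, rfl⟩ := mem_zpowers_iff.mp hn
      have hc : Commute g z := hzcent g
      have h1 : g * z ^ k * g⁻¹ = z ^ k := by
        rw [(hc.zpow_right k).eq, mul_inv_cancel_right]
      rw [h1]; exact hn
    have hZc : Nat.card (zpowers z) = 2 := by rw [Nat.card_zpowers, hz2]
    rcases hD _ hZn with h1 | h1 | h1 <;> omega
  · have hn : Nat.card (Sylow 11 G) = 11 + 1 := by rw [h660] at hnidx; omega
    have h1 := toolB P hP hn hfaith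
    omega

/-- Order 7920 and a two-coloured prime graph without edges across the colours: simple. -/
theorem simple_7920 (hord : Nat.card G = 7920) (c2 c3 c5 c11 : Bool)
    (hcol : ¬ (c2 = c3 ∧ c3 = c5 ∧ c5 = c11))
    (hsep : ∀ p ∈ primes4, ∀ q ∈ primes4, p ≠ q →
      colf c2 c3 c5 c11 p ≠ colf c2 c3 c5 c11 q → NoEdge G p q) : IsSimpleGroup G := by
  obtain ⟨hD, h3960⟩ := normal_orders hord c2 c3 c5 c11 hcol hsep
  haveI : Nontrivial G := by
    rw [← Finite.one_lt_card_iff_nontrivial, hord]; norm_num
  refine ⟨fun H hH => ?_⟩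
  rcases hD H hH with h | h | h
  · left; exact eq_bot_of_card_eq H h
  · exfalso; exact step2 hord hD (Pf G 11) (h3960 ⟨H, hH, h⟩)
  · right; exact (card_eq_iff_eq_top H).mp (by rw [h, hord])

end

end Cfsg.Agent.Lib.Helper82.PG
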