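import Mathlib
import Cfsg.Prelude.Def_Characters
import Cfsg.Agent.Lib.Helper3.CharValues

/-!
# TI Sylow subgroups and characters of small degree

If `P` is a Sylow `p`-subgroup of the finite group `G` meeting each of its other conjugates
trivially, and `ρ` is a complex representation of `G` of degree `d` with `d ^ 2 ≤ |P|`, then
every endomorphism commuting with the normalizer of `P` commutes with `G`.
-/

set_option autoImplicit false

namespace Cfsg.Agent.Lib.Helper82.TISylow

open scoped BigOperators Pointwise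

/-- Sum over an invariant finite set on which a finite group acts freely: choose orbit
representatives. -/
theorem sum_free_orbits {A β M : Type*} [Group A] [Fintype A] [MulAction A β] [DecidableEq β]
    [AddCommMonoid M] (s : Finset β) (hs : ∀ a : A, ∀ b ∈ s, a • b ∈ s)
    (hfree : ∀ b ∈ s, ∀ a : A, a • b = b → a = 1) :
    ∃ Y : Finset β, Y ⊆ s ∧ ∀ f : β → M, ∑ b ∈ s, f b = ∑ y ∈ Y, ∑ a : A, f (a • y) := by
  classical
  let rep : β → β := fun b => Quotient.out (Quotient.mk (MulAction.orbitRel A β) b)
  have hrep : ∀ b, ∃ a : A, a • b = rep b := by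
    intro b
    have h : (MulAction.orbitRel A β).r (rep b) b := Quotient.mk_out (s := MulAction.orbitRel A β) b
    rw [MulAction.orbitRel_apply] at h
    obtain ⟨a, ha⟩ := h
    exact ⟨a, ha⟩
  have hrep2 : ∀ (a : A) (b : β), rep (a • b) = rep b := by
    intro a b
    have : Quotient.mk (MulAction.orbitRel A β) (a • b) = Quotient.mk (MulAction.orbitRel A β) b := by
      apply Quotient.sound
      show (MulAction.orbitRel A β).r (a • b) b
      rw [MulAction.orbitRel_apply]
      exact ⟨a, rfl⟩
    show Quotient.out (Quotient.mk (MulAction.orbitRel A β) (a • b)) = _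
    rw [this]
  refine ⟨s.filter (fun b => rep b = b), Finset.filter_subset _ _, fun f => ?_⟩
  rw [← Finset.sum_product']
  symm
  refine Finset.sum_bij (fun (ya : β × A) _ => ya.2 • ya.1) ?_ ?_ ?_ ?_
  · rintro ⟨y, a⟩ h
    simp only [Finset.mem_product, Finset.mem_filter, Finset.mem_univ, and_true] at h
    exact hs a y h.1
  · rintro ⟨y, a⟩ h ⟨y', a'⟩ h' heq
    simp only [Finset.mem_product, Finset.mem_filter, Finset.mem_univ, and_true] at h h'
    simp only at heq
    have hy : y = y' := by
      calc y = rep y := h.2.symm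
        _ = rep (a • y) := (hrep2 a y).symm
        _ = rep (a' • y') := by rw [heq]
        _ = rep y' := hrep2 a' y'
        _ = y' := h'.2
    subst hy
    have : (a'⁻¹ * a) • y = y := by
      rw [mul_smul, heq, inv_smul_smul]
    have h1 := hfree y h.1 _ this
    have : a = a' := by
      have := congrArg (fun t => a' * t) h1
      simpa using this
    rw [this]
  · intro b hb
    obtain ⟨a, ha⟩ := hrep b
    refine ⟨(rep b, a⁻¹), ?_, ?_⟩
    · simp only [Finset.mem_product, Finset.mem_filter, Finset.mem_univ, and_true]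
      refine ⟨?_, ?_⟩
      · rw [← ha]; exact hs a b hb
      · rw [← ha, hrep2, ha]
    · simp only
      rw [← ha, inv_smul_smul]
  · rintro ⟨y, a⟩ _
    rfl

section conv

variable {k : Type*} [Field k] (p : ℕ) [Fact p.Prime] [CharP k p]
variable {P : Type*} [Group P] [Fintype P]

/-- The additive map `n ↦ ∑ v, n v * (translate of a by v)`. -/
noncomputable def convHom (a : P → k) : (P → ZMod p) →+ (P → k) where
  toFun n := fun w => ∑ v : P, (ZMod.castHom (dvd_refl p) k (n v)) * a (v⁻¹ * w)
  map_zero' := by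
    funext w
    simp
  map_add' n m := by
    funext w
    simp only [Pi.add_apply, map_add, add_mul, Finset.sum_add_distrib]

theorem convHom_apply (a : P → k) (n : P → ZMod p) (w : P) :
    convHom p a n w = ∑ v : P, (ZMod.castHom (dvd_refl p) k (n v)) * a (v⁻¹ * w) := rfl

/-- In the group algebra of a finite `p`-group over a field of characteristic `p`, every
nonzero element has a left multiple equal to the sum of all group elements. -/
theorem exists_conv_eq_one (hP : IsPGroup p P) (a : P → k) (ha : a ≠ 0) :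
    ∃ b : P → k, ∀ w : P, ∑ v : P, b v * a (v⁻¹ * w) = 1 := by
  classical
  let Φ := convHom p a
  let U : AddSubgroup (P → k) := Φ.range
  -- translation action on U
  have htrans : ∀ (x : P) (f : P → k), f ∈ U → (fun w => f (x⁻¹ * w)) ∈ U := by
    rintro x f ⟨n, rfl⟩
    refine ⟨fun v => n (x⁻¹ * v), ?_⟩
    funext w
    show convHom p a (fun v => n (x⁻¹ * v)) w = convHom p a n (x⁻¹ * w)
    rw [convHom_apply, convHom_apply]
    refine Fintype.sum_equiv (Equiv.mulLeft x⁻¹) _ _ (fun v => ?_)
    simp [mul_assoc]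
  letI : MulAction P U :=
    { smul := fun x f => ⟨fun w => f.1 (x⁻¹ * w), htrans x f.1 f.2⟩
      one_smul := by
        rintro ⟨f, hf⟩
        apply Subtype.ext
        funext w
        show f (1⁻¹ * w) = f w
        simp
      mul_smul := by
        rintro x y ⟨f, hf⟩
        apply Subtype.ext
        funext w
        show f ((x * y)⁻¹ * w) = f (y⁻¹ * (x⁻¹ * w))
        simp [mul_assoc] }
  have hsmul : ∀ (x : P) (f : U) (w : P), (x • f).1 w = f.1 (x⁻¹ * w) := fun _ _ _ => rfl
  haveI : Finite U := by
    have : Finite (Set.range Φ) := Set.finite_range Φ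
    exact this
  -- cardinality
  have hcard : p ∣ Nat.card U := by
    have h1 : Nat.card U ∣ Nat.card (P → ZMod p) := AddSubgroup.card_range_dvd Φ
    have h2 : Nat.card (P → ZMod p) = p ^ Fintype.card P := by
      rw [Nat.card_eq_fintype_card, Fintype.card_fun, ZMod.card]
    rw [h2] at h1
    obtain ⟨j, -, hj⟩ := (Nat.dvd_prime_pow (Fact.out : p.Prime)).1 h1
    rcases Nat.eq_zero_or_pos j with h0 | hpos
    · exfalso
      rw [h0, pow_zero] at hj
      have hsub : Subsingleton U := (Nat.card_eq_one_iff_unique.1 hj).1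
      have ha' : a ∈ U := by
        refine ⟨Pi.single 1 1, ?_⟩
        funext w
        show convHom p a (Pi.single 1 1) w = a w
        rw [convHom_apply, Finset.sum_eq_single 1]
        · simp
        · intro v _ hv
          simp [Pi.single_eq_of_ne hv]
        · simp
      have : (⟨a, ha'⟩ : U) = 0 := Subsingleton.elim _ _
      exact ha (congrArg Subtype.val this)
    · rw [hj]
      exact dvd_pow_self p hpos.ne'
  have h0fix : (0 : U) ∈ MulAction.fixedPoints P U := by
    intro x
    apply Subtype.ext
    funext w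
    rfl
  obtain ⟨f, hf, hf0⟩ := hP.exists_fixed_point_of_prime_dvd_card_of_fixed_point U hcard h0fix
  obtain ⟨n, hn⟩ := f.2
  have hconst : ∀ w : P, f.1 w = f.1 1 := by
    intro w
    have := congrArg (fun g : U => g.1 1) (hf w⁻¹)
    simp only [hsmul, inv_inv, mul_one] at this
    exact this
  have hc : f.1 1 ≠ 0 := by
    intro h
    apply hf0
    apply Subtype.ext
    funext w
    rw [hconst w, h]
    rfl
  refine ⟨fun v => (f.1 1)⁻¹ * ZMod.castHom (dvd_refl p) k (n v), fun w => ?_⟩
  have h1 : ∑ v : P, (ZMod.castHom (dvd_refl p) k (n v)) * a (v⁻¹ * w) = f.1 w := by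
    rw [← hn]; rfl
  calc ∑ v : P, (f.1 1)⁻¹ * ZMod.castHom (dvd_refl p) k (n v) * a (v⁻¹ * w)
      = (f.1 1)⁻¹ * ∑ v : P, (ZMod.castHom (dvd_refl p) k (n v)) * a (v⁻¹ * w) := by
        rw [Finset.mul_sum]; refine Finset.sum_congr rfl (fun v _ => by ring)
    _ = (f.1 1)⁻¹ * f.1 1 := by rw [h1, hconst w]
    _ = 1 := inv_mul_cancel₀ hc

end conv

/-- There is a valuation subring of `ℂ` in which the prime `p` is not a unit. -/
theorem exists_valuationSubring_nonunit (p : ℕ) [Fact p.Prime] :
    ∃ B : ValuationSubring ℂ, (p : ℂ) ∈ B.nonunits := by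
  let A : Subring ℂ := (Int.castRingHom ℂ).range
  have hpA : (p : ℂ) ∈ A := ⟨(p : ℤ), by simp⟩
  let I : Ideal A := Ideal.span {⟨(p : ℂ), hpA⟩}
  have hI : I ≠ ⊤ := by
    intro h
    rw [Ideal.eq_top_iff_one, Ideal.mem_span_singleton'] at h
    obtain ⟨⟨a, m, rfl⟩, ha⟩ := h
    have h1 : ((m : ℂ)) * (p : ℂ) = 1 := by
      have := congrArg Subtype.val ha
      simpa using this
    have h2 : (m * (p : ℤ) : ℤ) = 1 := by
      have : ((m * (p : ℤ) : ℤ) : ℂ) = ((1 : ℤ) : ℂ) := by push_cast; exact h1
      exact_mod_cast this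
    have hp : 1 < p := (Fact.out : p.Prime).one_lt
    have h3 : (p : ℤ) ∣ 1 := Dvd.intro_left m h2
    have h4 : p ∣ 1 := by exact_mod_cast h3
    have := Nat.le_of_dvd one_pos h4
    omega
  obtain ⟨B, -, hB⟩ := Ideal.image_subset_nonunits_valuationSubring I hI
  refine ⟨B, hB ⟨⟨(p : ℂ), hpA⟩, Ideal.subset_span rfl, rfl⟩⟩

section lemmaA

variable {G : Type*} [Group G] [Finite G] (p : ℕ) [Fact p.Prime] (P : Sylow p G)
variable {E : Type*} [AddCommGroup E] [Module ℂ E] [FiniteDimensional ℂ E]

/-- A `p`-element of the normalizer of a Sylow `p`-subgroup lies in it. -/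
theorem mem_sylow_of_mem_normalizer {y : G} (hy : y ∈ Subgroup.normalizer ((P : Subgroup G) : Set G))
    (hp : IsPGroup p (Subgroup.zpowers y)) : y ∈ (P : Subgroup G) := by
  have h1 : Subgroup.zpowers y ≤ Subgroup.normalizer ((P : Subgroup G) : Set G) :=
    (Subgroup.zpowers_le).2 hy
  have h2 := (Subgroup.sylow_mem_fixedPoints_iff (Subgroup.zpowers y) (P := P)).2 h1
  have h3 := (hp.sylow_mem_fixedPoints_iff (Q := P)).1 h2
  exact h3 (Subgroup.mem_zpowers y)

/-- The action of a TI Sylow subgroup on the cosets of its normalizer is free away from the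
trivial coset. -/
theorem free_on_cosets (N : Subgroup G) (hN : N = Subgroup.normalizer ((P : Subgroup G) : Set G))
    (hTI : ∀ g : G, g ∉ N → (P : Subgroup G) ⊓ (MulAut.conj g • (P : Subgroup G)) = ⊥)
    (q : G ⧸ N) (hq : q ≠ ((1 : G) : G ⧸ N))
    (a : (P : Subgroup G)) (ha : a • q = q) : a = 1 := by
  induction q using QuotientGroup.induction_on with
  | H g =>
    have hg : g ∉ N := by
      intro hg
      apply hq
      rw [QuotientGroup.eq]
      simpa using inv_mem hg
    have h1 : ((a : G) * g : G ⧸ N) = (g : G ⧸ N) := ha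
    rw [QuotientGroup.eq] at h1
    have hy : g⁻¹ * (a : G)⁻¹ * g ∈ Subgroup.normalizer ((P : Subgroup G) : Set G) := by
      rw [← hN]
      simpa [mul_assoc] using h1
    have hp : IsPGroup p (Subgroup.zpowers (g⁻¹ * (a : G)⁻¹ * g)) := by
      have hQ : IsPGroup p ((P : Subgroup G).map (MulAut.conj g⁻¹).toMonoidHom) :=
        P.isPGroup'.map _
      refine hQ.to_le ?_
      rw [Subgroup.zpowers_le]
      refine ⟨(a : G)⁻¹, inv_mem a.2, ?_⟩
      simp
    have hyP := mem_sylow_of_mem_normalizer p P hy hp
    have h2 : (a : G)⁻¹ ∈ MulAut.conj g • (P : Subgroup G) := by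
      rw [Subgroup.mem_pointwise_smul_iff_inv_smul_mem]
      simpa [MulAut.smul_def, MulAut.conj_inv_apply, mul_assoc] using hyP
    have h3 : (a : G)⁻¹ ∈ (P : Subgroup G) ⊓ (MulAut.conj g • (P : Subgroup G)) :=
      Subgroup.mem_inf.2 ⟨(P : Subgroup G).inv_mem a.2, h2⟩
    rw [hTI g hg, Subgroup.mem_bot, inv_eq_one] at h3
    exact Subtype.ext h3

/-- The lattice argument. -/
theorem lemmaA (N : Subgroup G) (hN : N = Subgroup.normalizer ((P : Subgroup G) : Set G))
    (hTI : ∀ g : G, g ∉ N → (P : Subgroup G) ⊓ (MulAut.conj g • (P : Subgroup G)) = ⊥)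
    (c : Representation ℂ G E) (hdim : Module.finrank ℂ E ≤ Nat.card P)
    (F : G ⧸ N → E) (hF : ∀ (g : G) (q : G ⧸ N), F (g • q) = c g (F q))
    (hsum : ∑ᶠ q, F q = 0) :
    F ((1 : G) : G ⧸ N) = 0 ∨
      ∀ e : E, (∀ u ∈ (P : Subgroup G), c u e = e) →
        ∃ t : ℂ, e = t • F ((1 : G) : G ⧸ N) := by
  classical
  letI : Fintype G := Fintype.ofFinite G
  letI : Fintype (G ⧸ N) := Fintype.ofFinite _
  letI : Fintype (P : Subgroup G) := Fintype.ofFinite _
  rw [finsum_eq_sum_of_fintype] at hsum
  by_cases hx0 : F ((1 : G) : G ⧸ N) = 0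
  · exact Or.inl hx0
  right
  set x := F ((1 : G) : G ⧸ N) with hx
  have hPN : (P : Subgroup G) ≤ N := hN ▸ Subgroup.le_normalizer
  -- Step A
  let s : Finset (G ⧸ N) := Finset.univ.erase ((1 : G) : G ⧸ N)
  have hs_inv : ∀ a : (P : Subgroup G), ∀ q ∈ s, a • q ∈ s := by
    intro a q hq
    rw [Finset.mem_erase] at hq ⊢
    refine ⟨fun h => hq.1 ?_, Finset.mem_univ _⟩
    have h1 : q = (a⁻¹ : (P : Subgroup G)) • ((1 : G) : G ⧸ N) := by
      rw [← h, inv_smul_smul]
    rw [h1]
    show (((((a⁻¹ : (P : Subgroup G)) : G) * (1 : G) : G)) : G ⧸ N) = ((1 : G) : G ⧸ N)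
    rw [QuotientGroup.eq]
    simpa using hPN a.2
  have hs_free : ∀ q ∈ s, ∀ a : (P : Subgroup G), a • q = q → a = 1 := by
    intro q hq a ha
    exact free_on_cosets p P N hN hTI q (Finset.ne_of_mem_erase hq) a ha
  obtain ⟨Y, -, hY⟩ := sum_free_orbits (A := (P : Subgroup G)) (M := E) s hs_inv hs_free
  let W : E := ∑ y ∈ Y, F y
  have hxW : x = - ∑ u : (P : Subgroup G), c (u : G) W := by
    have h1 : x + ∑ q ∈ s, F q = 0 := by
      rw [← hsum]
      exact Finset.add_sum_erase Finset.univ F (Finset.mem_univ _)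
    have h2 : ∑ q ∈ s, F q = ∑ u : (P : Subgroup G), c (u : G) W := by
      rw [hY F, Finset.sum_comm]
      refine Finset.sum_congr rfl (fun u _ => ?_)
      rw [map_sum]
      refine Finset.sum_congr rfl (fun y _ => ?_)
      exact hF (u : G) y
    rw [h2] at h1
    exact eq_neg_of_add_eq_zero_left h1
  -- Step B : the lattice
  obtain ⟨B, hpB⟩ := exists_valuationSubring_nonunit p
  let 𝔪 : Ideal B := IsLocalRing.maximalIdeal B
  let L : Submodule B E := Submodule.span B (Set.range F)
  have hcL : ∀ (g : G) (z : E), z ∈ L → c g z ∈ L := by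
    intro g z hz
    have hmap : L.map ((c g).restrictScalars B) ≤ L := by
      rw [Submodule.map_span_le]
      rintro _ ⟨q, rfl⟩
      show c g (F q) ∈ L
      rw [← hF g q]
      exact Submodule.subset_span ⟨_, rfl⟩
    exact hmap ⟨z, hz, rfl⟩
  have hcmL : ∀ (g : G) (z : E), z ∈ 𝔪 • L → c g z ∈ 𝔪 • L := by
    intro g z hz
    have hmap : (𝔪 • L).map ((c g).restrictScalars B) ≤ 𝔪 • L := by
      rw [Submodule.map_smul'']
      refine Submodule.smul_mono le_rfl ?_
      rintro _ ⟨z', hz', rfl⟩
      exact hcL g z' hz'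
    exact hmap ⟨z, hz, rfl⟩
  have hFq : ∀ q : G ⧸ N, F q = c (Quotient.out q) x := by
    intro q
    rw [hx, ← hF]
    congr 1
    conv_lhs => rw [← QuotientGroup.out_eq' q]
    show ((Quotient.out q : G) : G ⧸ N) = (((Quotient.out q : G) * (1 : G) : G) : G ⧸ N)
    rw [mul_one]
  have hxL : x ∉ 𝔪 • L := by
    intro hmem
    have hle : L ≤ 𝔪 • L := by
      rw [Submodule.span_le]
      rintro _ ⟨q, rfl⟩
      rw [hFq q]
      exact hcmL _ _ hmem
    have hbot : L = ⊥ := Submodule.eq_bot_of_le_smul_of_le_jacobson_bot 𝔪 L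
      (Submodule.fg_span (Set.finite_range F)) hle (IsLocalRing.maximalIdeal_le_jacobson ⊥)
    have : x ∈ L := Submodule.subset_span ⟨_, rfl⟩
    rw [hbot, Submodule.mem_bot] at this
    exact hx0 this
  have hWL : W ∈ L := Submodule.sum_mem _ (fun y _ => Submodule.subset_span ⟨y, rfl⟩)
  -- Step C : linear independence of the `P`-translates of `W`
  have hli : LinearIndependent ℂ (fun u : (P : Subgroup G) => c (u : G) W) := by
    by_contra hnot
    rw [Fintype.not_linearIndependent_iff] at hnot
    obtain ⟨a, ha, i, hai⟩ := hnot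
    obtain ⟨u0, -, hu0⟩ := Finset.exists_max_image Finset.univ
      (fun u : (P : Subgroup G) => B.valuation (a u)) ⟨i, Finset.mem_univ _⟩
    have hau0 : a u0 ≠ 0 := by
      intro h
      have h1 := hu0 i (Finset.mem_univ _)
      rw [h, map_zero] at h1
      exact hai ((B.valuation).zero_iff.1 (le_antisymm h1 zero_le))
    have hmem : ∀ u, a u / a u0 ∈ B := by
      intro u
      rw [← B.valuation_le_one_iff, map_div₀]
      exact div_le_one_of_le₀ (hu0 u (Finset.mem_univ _)) zero_le
    let a' : ↥(P : Subgroup G) → ↥B := fun u => ⟨a u / a u0, hmem u⟩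
    have ha'0 : a' u0 = 1 := Subtype.ext (div_self hau0)
    have hrel : ∑ u : (P : Subgroup G), ((a' u : B) : ℂ) • c (u : G) W = 0 := by
      have h1 : ∑ u : (P : Subgroup G), ((a' u : B) : ℂ) • c (u : G) W
          = (a u0)⁻¹ • ∑ u : (P : Subgroup G), a u • c (u : G) W := by
        rw [Finset.smul_sum]
        refine Finset.sum_congr rfl (fun u _ => ?_)
        rw [smul_smul]
        congr 1
        show a u / a u0 = _
        rw [div_eq_mul_inv, mul_comm]
      rw [h1, ha, smul_zero]
    let res := IsLocalRing.residue B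
    have hpmem : (p : ℂ) ∈ B := ValuationSubring.nonunits_subset hpB
    have hres_p : res (p : B) = 0 := by
      rw [IsLocalRing.residue_eq_zero_iff]
      have h1 : ((⟨(p : ℂ), hpmem⟩ : B) : ℂ) ∈ B.nonunits := hpB
      have h2 := (ValuationSubring.coe_mem_nonunits_iff).1 h1
      have h3 : (⟨(p : ℂ), hpmem⟩ : B) = (p : B) := Subtype.ext (by simp)
      rwa [h3] at h2
    haveI : CharP (IsLocalRing.ResidueField B) p :=
      (CharP.charP_iff_prime_eq_zero (Fact.out : p.Prime)).2 (by
        have := hres_p
        rwa [map_natCast] at this)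
    have hne : (fun u : (P : Subgroup G) => res (a' u)) ≠ 0 := by
      intro h
      have h1 := congrFun h u0
      simp only [ha'0, map_one, Pi.zero_apply] at h1
      exact one_ne_zero h1
    obtain ⟨bb, hbb⟩ := exists_conv_eq_one p P.isPGroup' (fun u : (P : Subgroup G) => res (a' u)) hne
    choose b hb using fun v : (P : Subgroup G) => IsLocalRing.residue_surjective (bb v)
    have hm : ∀ w : (P : Subgroup G),
        (∑ v : (P : Subgroup G), b v * a' (v⁻¹ * w)) - 1 ∈ 𝔪 := by
      intro w
      rw [← IsLocalRing.residue_eq_zero_iff]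
      rw [map_sub, map_sum, map_one]
      have : ∑ v : (P : Subgroup G), (IsLocalRing.residue B) (b v * a' (v⁻¹ * w)) = 1 := by
        rw [← hbb w]
        refine Finset.sum_congr rfl (fun v _ => ?_)
        rw [map_mul, hb v]
      rw [this, sub_self]
    have h2 : ∑ w : (P : Subgroup G),
        (((∑ v : (P : Subgroup G), b v * a' (v⁻¹ * w) : B)) : ℂ) • c (w : G) W = 0 := by
      have h3 : ∀ v : (P : Subgroup G),
          ∑ w : (P : Subgroup G), (((b v * a' (v⁻¹ * w) : B)) : ℂ) • c (w : G) W = 0 := by
        intro v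
        have h4 : ∑ w : (P : Subgroup G), (((b v * a' (v⁻¹ * w) : B)) : ℂ) • c (w : G) W
            = ((b v : B) : ℂ) • c (v : G) (∑ u : (P : Subgroup G), ((a' u : B) : ℂ) • c (u : G) W) := by
          rw [map_sum, Finset.smul_sum]
          refine Fintype.sum_equiv (Equiv.mulLeft v⁻¹) _ _ (fun w => ?_)
          simp only [Equiv.coe_mulLeft]
          rw [map_smul, smul_smul]
          have h5 : c ((v : (P : Subgroup G)) : G) (c (((v⁻¹ * w : (P : Subgroup G))) : G) W)
              = c (w : G) W := by
            rw [← Module.End.mul_apply, ← map_mul]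
            congr 2
            simp
          rw [h5]
          congr 1
        rw [h4, hrel, map_zero, smul_zero]
      have h6 : ∑ w : (P : Subgroup G),
          (((∑ v : (P : Subgroup G), b v * a' (v⁻¹ * w) : B)) : ℂ) • c (w : G) W
          = ∑ v : (P : Subgroup G), ∑ w : (P : Subgroup G),
              (((b v * a' (v⁻¹ * w) : B)) : ℂ) • c (w : G) W := by
        rw [Finset.sum_comm]
        refine Finset.sum_congr rfl (fun w _ => ?_)
        rw [← Finset.sum_smul]
        congr 1
        push_cast
        rfl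
      rw [h6]
      exact Finset.sum_eq_zero (fun v _ => h3 v)
    have h7 : ∑ w : (P : Subgroup G), c (w : G) W ∈ 𝔪 • L := by
      have h8 : ∑ w : (P : Subgroup G), c (w : G) W
          = - ∑ w : (P : Subgroup G),
              ((∑ v : (P : Subgroup G), b v * a' (v⁻¹ * w)) - 1 : B) • c (w : G) W := by
        rw [eq_neg_iff_add_eq_zero, ← Finset.sum_add_distrib, ← h2]
        refine Finset.sum_congr rfl (fun w _ => ?_)
        show c (w : G) W + ((((∑ v : (P : Subgroup G), b v * a' (v⁻¹ * w)) - 1 : B) : B) : ℂ) • c (w : G) W = _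
        push_cast
        rw [sub_smul, one_smul]
        abel
      rw [h8]
      refine neg_mem (Submodule.sum_mem _ (fun w _ => ?_))
      exact Submodule.smul_mem_smul (hm w) (hcL _ _ hWL)
    apply hxL
    rw [hxW]
    exact neg_mem h7
  -- Step D
  have hcard : Fintype.card (P : Subgroup G) = Module.finrank ℂ E := by
    have h1 := hli.fintype_card_le_finrank
    have h2 : Nat.card P = Fintype.card (P : Subgroup G) := Nat.card_eq_fintype_card
    omega
  let bas := basisOfLinearIndependentOfCardEqFinrank hli hcard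
  have hbas : ∀ u : (P : Subgroup G), bas u = c (u : G) W := by
    intro u
    simp [bas, coe_basisOfLinearIndependentOfCardEqFinrank]
  intro e he
  have hrepr : e = ∑ u : (P : Subgroup G), (bas.repr e u) • c (u : G) W := by
    conv_lhs => rw [← bas.sum_repr e]
    refine Finset.sum_congr rfl (fun u _ => ?_)
    rw [hbas]
  have hconst : ∀ x0 u : (P : Subgroup G), bas.repr e (x0⁻¹ * u) = bas.repr e u := by
    intro x0 u
    have h1 : c (x0 : G) e = ∑ u : (P : Subgroup G), (bas.repr e (x0⁻¹ * u)) • c (u : G) W := by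
      conv_lhs => rw [hrepr]
      rw [map_sum]
      refine Fintype.sum_equiv (Equiv.mulLeft x0) _ _ (fun u => ?_)
      simp only [Equiv.coe_mulLeft, inv_mul_cancel_left]
      rw [map_smul, ← Module.End.mul_apply, ← map_mul]
      rfl
    have h2 := he (x0 : G) x0.2
    rw [h1] at h2
    have h3 : ∑ u : (P : Subgroup G), (bas.repr e (x0⁻¹ * u) - bas.repr e u) • c (u : G) W = 0 := by
      simp only [sub_smul, Finset.sum_sub_distrib]
      rw [h2, ← hrepr, sub_self]
    have h4 := (Fintype.linearIndependent_iff.1 hli) _ h3 u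
    exact sub_eq_zero.1 h4
  refine ⟨- bas.repr e 1, ?_⟩
  have h5 : ∀ u : (P : Subgroup G), bas.repr e u = bas.repr e 1 := by
    intro u
    have := hconst u u
    rw [inv_mul_cancel] at this
    exact this.symm
  rw [hxW, smul_neg, neg_smul, neg_neg, Finset.smul_sum]
  conv_lhs => rw [hrepr]
  refine Finset.sum_congr rfl (fun u _ => ?_)
  rw [h5 u]

end lemmaA

section core

variable {G : Type*} [Group G] [Finite G] (p : ℕ) [Fact p.Prime] (P : Sylow p G)
variable {V : Type*} [AddCommGroup V] [Module ℂ V] [FiniteDimensional ℂ V]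

/-- Core lemma: for a TI Sylow `p`-subgroup `P` and a representation of degree `d` with
`d ^ 2 ≤ |P|`, every endomorphism fixed (under conjugation) by the normalizer of `P` is fixed
by the whole group. -/
theorem linHom_fixed_of_fixed_normalizer
    (hTI : ∀ g : G, g ∉ Subgroup.normalizer ((P : Subgroup G) : Set G) →
      (P : Subgroup G) ⊓ (MulAut.conj g • (P : Subgroup G)) = ⊥)
    (ρ : Representation ℂ G V) (hdim : Module.finrank ℂ V ^ 2 ≤ Nat.card P)
    (T : V →ₗ[ℂ] V)
    (hT : ∀ n ∈ Subgroup.normalizer ((P : Subgroup G) : Set G),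
      Representation.linHom ρ ρ n T = T) :
    ∀ g : G, Representation.linHom ρ ρ g T = T := by
  classical
  set N : Subgroup G := Subgroup.normalizer ((P : Subgroup G) : Set G) with hN
  set c : Representation ℂ G (V →ₗ[ℂ] V) := Representation.linHom ρ ρ with hc
  letI : Fintype (G ⧸ N) := Fintype.ofFinite _
  -- the function on cosets
  let FT : G ⧸ N → (V →ₗ[ℂ] V) := fun q => Quotient.liftOn' q (fun g => c g T) (by
    intro a b hab
    rw [QuotientGroup.leftRel_apply] at hab
    have h1 : b = a * (a⁻¹ * b) := by group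
    show c a T = c b T
    rw [h1, map_mul, Module.End.mul_apply, hT _ hab])
  have hFT : ∀ g : G, FT (g : G ⧸ N) = c g T := fun g => rfl
  have hFTsmul : ∀ (g : G) (q : G ⧸ N), FT (g • q) = c g (FT q) := by
    intro g q
    induction q using QuotientGroup.induction_on with
    | H h =>
      show FT ((g * h : G) : G ⧸ N) = c g (FT (h : G ⧸ N))
      rw [hFT, hFT, map_mul, Module.End.mul_apply]
  let S : V →ₗ[ℂ] V := ∑ q : G ⧸ N, FT q
  have hS : ∀ g : G, c g S = S := by
    intro g
    show c g (∑ q : G ⧸ N, FT q) = ∑ q : G ⧸ N, FT q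
    rw [map_sum]
    refine Fintype.sum_equiv (MulAction.toPerm g) _ _ (fun q => ?_)
    rw [← hFTsmul]
    rfl
  have hcard : (Fintype.card (G ⧸ N) : ℂ) ≠ 0 := by
    have : Fintype.card (G ⧸ N) ≠ 0 := Fintype.card_ne_zero
    exact_mod_cast this
  let Tbar : V →ₗ[ℂ] V := (Fintype.card (G ⧸ N) : ℂ)⁻¹ • S
  have hTbar : ∀ g : G, c g Tbar = Tbar := by
    intro g
    show c g ((Fintype.card (G ⧸ N) : ℂ)⁻¹ • S) = (Fintype.card (G ⧸ N) : ℂ)⁻¹ • S
    rw [map_smul, hS]
  let F : G ⧸ N → (V →ₗ[ℂ] V) := fun q => FT q - Tbar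
  have hF : ∀ (g : G) (q : G ⧸ N), F (g • q) = c g (F q) := by
    intro g q
    show FT (g • q) - Tbar = c g (FT q - Tbar)
    rw [map_sub, hTbar, hFTsmul]
  have hsum : ∑ᶠ q, F q = 0 := by
    rw [finsum_eq_sum_of_fintype]
    show ∑ q : G ⧸ N, (FT q - Tbar) = 0
    rw [Finset.sum_sub_distrib, Finset.sum_const, Finset.card_univ]
    show S - Fintype.card (G ⧸ N) • ((Fintype.card (G ⧸ N) : ℂ)⁻¹ • S) = 0
    rw [← Nat.cast_smul_eq_nsmul ℂ, smul_smul, mul_inv_cancel₀ hcard, one_smul, sub_self]
  have hF1 : F ((1 : G) : G ⧸ N) = T - Tbar := by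
    show FT ((1 : G) : G ⧸ N) - Tbar = T - Tbar
    rw [hFT, map_one, Module.End.one_apply]
  have hdim' : Module.finrank ℂ (V →ₗ[ℂ] V) ≤ Nat.card P := by
    rw [Module.finrank_linearMap, ← sq]
    exact hdim
  intro g
  rcases lemmaA p P N hN hTI c hdim' F hF hsum with h0 | h1
  · rw [hF1, sub_eq_zero] at h0
    rw [h0]
    exact hTbar g
  · obtain ⟨t, ht⟩ := h1 LinearMap.id (by
      intro u _
      show Representation.linHom ρ ρ u LinearMap.id = LinearMap.id
      rw [Representation.linHom_apply, LinearMap.id_comp, ← Module.End.mul_eq_comp, ← map_mul,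
        mul_inv_cancel, map_one]
      rfl)
    rw [hF1] at ht
    by_cases ht0 : t = 0
    · rw [ht0, zero_smul] at ht
      have hsub : ∀ A : V →ₗ[ℂ] V, A = 0 := by
        intro A
        have : A = A ∘ₗ LinearMap.id := (LinearMap.comp_id A).symm
        rw [this, ht, LinearMap.comp_zero]
      rw [hsub (c g T), hsub T]
    · have hT' : T = Tbar + t⁻¹ • LinearMap.id := by
        rw [ht, smul_smul, inv_mul_cancel₀ ht0, one_smul]
        abel
      have hid : c g LinearMap.id = LinearMap.id := by
        show Representation.linHom ρ ρ g LinearMap.id = LinearMap.id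
        rw [Representation.linHom_apply, LinearMap.id_comp, ← Module.End.mul_eq_comp, ← map_mul,
          mul_inv_cancel, map_one]
        rfl
      calc c g T = c g (Tbar + t⁻¹ • LinearMap.id) := by rw [← hT']
        _ = Tbar + t⁻¹ • LinearMap.id := by rw [map_add, hTbar, map_smul, hid]
        _ = T := hT'.symm

end core

section inner

variable {G : Type*} [Group G]
variable {V : Type*} [AddCommGroup V] [Module ℂ V] [FiniteDimensional ℂ V]

/-- The norm of a character is the dimension of the commutant. -/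
theorem classInner_character_self [Fintype G] (ρ : Representation ℂ G V) :
    Cfsg.classInner ρ.character ρ.character
      = (Module.finrank ℂ (Representation.invariants (Representation.linHom ρ ρ)) : ℂ) := by
  haveI : Invertible (Nat.card G : ℂ) := invertibleOfNonzero (by
    have : Nat.card G ≠ 0 := Nat.card_pos.ne'
    exact_mod_cast this)
  rw [← Representation.card_inv_mul_sum_char_eq_finrank]
  unfold Cfsg.classInner
  congr 1
  refine Finset.sum_congr rfl (fun g _ => ?_)
  rw [Representation.char_linHom, Cfsg.Agent.Lib.Helper3.character_inv, mul_comm]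

/-- For a TI Sylow `p`-subgroup `P` and a representation of degree `d` with `d ^ 2 ≤ |P|`, the
norm of the character is the same on `G` and on any subgroup containing the normalizer of
`P`. -/
theorem classInner_restrict_eq [Fintype G] (p : ℕ) [Fact p.Prime] (P : Sylow p G)
    (hTI : ∀ g : G, g ∉ Subgroup.normalizer ((P : Subgroup G) : Set G) →
      (P : Subgroup G) ⊓ (MulAut.conj g • (P : Subgroup G)) = ⊥)
    (ρ : Representation ℂ G V) (hdim : Module.finrank ℂ V ^ 2 ≤ Nat.card P)
    (H : Subgroup G) [Fintype ↥H]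
    (hH : Subgroup.normalizer ((P : Subgroup G) : Set G) ≤ H) :
    Cfsg.classInner ρ.character ρ.character
      = Cfsg.classInner (fun h : ↥H => ρ.character h) (fun h : ↥H => ρ.character h) := by
  let ρH : Representation ℂ ↥H V := ρ.comp H.subtype
  have h1 : (fun h : ↥H => ρ.character h) = ρH.character := rfl
  rw [h1, classInner_character_self, classInner_character_self]
  have h2 : Representation.invariants (Representation.linHom ρ ρ)
      = Representation.invariants (Representation.linHom ρH ρH) := by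
    ext T
    rw [Representation.mem_invariants, Representation.mem_invariants]
    constructor
    · intro hT h
      exact hT (h : G)
    · intro hT
      refine linHom_fixed_of_fixed_normalizer p P hTI ρ hdim T (fun n hn => ?_)
      exact hT ⟨n, hH hn⟩
  rw [h2]

end inner

end Cfsg.Agent.Lib.Helper82.TISylow
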