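import Mathlib
import Cfsg.Prelude.Def_Characters
import Cfsg.Prelude.Def_Local
import Cfsg.Agent.Lib.Helper82.TISylow

/-!
# A `p`-solvable group with a TI Sylow `p`-subgroup and a faithful representation of small degree

If `G` is `p`-solvable, its Sylow `p`-subgroup `P` meets its other conjugates trivially and `G`
has a faithful complex representation of degree `d` with `d ^ 2 ≤ |P|`, then `P` is normal.
-/

set_option autoImplicit false

namespace Cfsg.Agent.Lib.Helper82.TISylow

open scoped BigOperators Pointwise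

section relative

variable {G : Type*} [Group G] [Finite G] (p : ℕ) [Fact p.Prime] (P : Sylow p G)
variable {V : Type*} [AddCommGroup V] [Module ℂ V] [FiniteDimensional ℂ V]

omit [Finite G] [Fact p.Prime] [FiniteDimensional ℂ V] in
theorem linHom_apply_self (ρ : Representation ℂ G V) (x z : G) :
    Representation.linHom ρ ρ x (ρ z) = ρ (x * z * x⁻¹) := by
  rw [Representation.linHom_apply, ← Module.End.mul_eq_comp, ← Module.End.mul_eq_comp,
    ← map_mul, ← map_mul, mul_assoc]

/-- The core lemma relative to a subgroup `X` containing `P`. -/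
theorem linHom_fixed_of_fixed_normalizer_of_le
    (hTI : ∀ g : G, g ∉ Subgroup.normalizer ((P : Subgroup G) : Set G) →
      (P : Subgroup G) ⊓ (MulAut.conj g • (P : Subgroup G)) = ⊥)
    (ρ : Representation ℂ G V) (hdim : Module.finrank ℂ V ^ 2 ≤ Nat.card P)
    (X : Subgroup G) (hPX : (P : Subgroup G) ≤ X) (T : V →ₗ[ℂ] V)
    (hT : ∀ n ∈ X, n ∈ Subgroup.normalizer ((P : Subgroup G) : Set G) →
      Representation.linHom ρ ρ n T = T) :
    ∀ x ∈ X, Representation.linHom ρ ρ x T = T := by
  let P' : Sylow p ↥X := P.subtype hPX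
  have hP' : ∀ y : ↥X, y ∈ (P' : Subgroup ↥X) ↔ (y : G) ∈ (P : Subgroup G) := by
    intro y
    show y ∈ ((P.subtype hPX : Sylow p ↥X) : Subgroup ↥X) ↔ _
    rw [Sylow.coe_subtype, Subgroup.mem_subgroupOf]
  let ρX : Representation ℂ ↥X V := ρ.comp X.subtype
  have hnorm1 : ∀ x : ↥X, (x : G) ∈ Subgroup.normalizer ((P : Subgroup G) : Set G) →
      x ∈ Subgroup.normalizer ((P' : Subgroup ↥X) : Set ↥X) := by
    intro x hx
    rw [Subgroup.mem_normalizer_iff]
    intro h
    rw [hP', hP']
    exact (Subgroup.mem_normalizer_iff.1 hx) (h : G)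
  have hnorm2 : ∀ x : ↥X, x ∈ Subgroup.normalizer ((P' : Subgroup ↥X) : Set ↥X) →
      (x : G) ∈ Subgroup.normalizer ((P : Subgroup G) : Set G) := by
    intro x hx
    rw [Subgroup.mem_normalizer_iff]
    intro h
    constructor
    · intro hh
      have h1 := (Subgroup.mem_normalizer_iff.1 hx ⟨h, hPX hh⟩).1 ((hP' _).2 hh)
      exact (hP' _).1 h1
    · intro hh
      have hX : h ∈ X := by
        have h2 : (x : G)⁻¹ * ((x : G) * h * (x : G)⁻¹) * (x : G) ∈ X :=
          X.mul_mem (X.mul_mem (X.inv_mem x.2) (hPX hh)) x.2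
        have h3 : (x : G)⁻¹ * ((x : G) * h * (x : G)⁻¹) * (x : G) = h := by group
        rwa [h3] at h2
      have h1 := (Subgroup.mem_normalizer_iff.1 hx ⟨h, hX⟩).2 ((hP' _).2 hh)
      exact (hP' _).1 h1
  have hTI' : ∀ x : ↥X, x ∉ Subgroup.normalizer ((P' : Subgroup ↥X) : Set ↥X) →
      (P' : Subgroup ↥X) ⊓ (MulAut.conj x • (P' : Subgroup ↥X)) = ⊥ := by
    intro x hx
    have h1 := hTI (x : G) (fun h => hx (hnorm1 x h))
    rw [eq_bot_iff]
    intro y hy
    rw [Subgroup.mem_inf] at hy
    have h2 : (y : G) ∈ (P : Subgroup G) ⊓ (MulAut.conj (x : G) • (P : Subgroup G)) := by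
      refine Subgroup.mem_inf.2 ⟨(hP' y).1 hy.1, ?_⟩
      have h3 := hy.2
      rw [Subgroup.mem_pointwise_smul_iff_inv_smul_mem, hP'] at h3
      rw [Subgroup.mem_pointwise_smul_iff_inv_smul_mem]
      simpa [MulAut.smul_def, MulAut.conj_inv_apply] using h3
    rw [h1, Subgroup.mem_bot] at h2
    rw [Subgroup.mem_bot]
    exact Subtype.ext h2
  have hdim' : Module.finrank ℂ V ^ 2 ≤ Nat.card P' := by
    have h1 : Nat.card P' = Nat.card P := by
      show Nat.card ↥((P.subtype hPX : Sylow p ↥X) : Subgroup ↥X) = _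
      rw [Sylow.coe_subtype]
      exact Nat.card_congr (Subgroup.subgroupOfEquivOfLe hPX).toEquiv
    rw [h1]
    exact hdim
  have key := linHom_fixed_of_fixed_normalizer p P' hTI' ρX hdim' T (fun n hn =>
    hT (n : G) n.2 (hnorm2 n hn))
  intro x hx
  exact key ⟨x, hx⟩

/-- Key lemma: a normal `p'`-subgroup centralizes a TI Sylow `p`-subgroup, in the presence of a
faithful representation of small degree. -/
theorem commute_of_normal_coprime
    (hTI : ∀ g : G, g ∉ Subgroup.normalizer ((P : Subgroup G) : Set G) →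
      (P : Subgroup G) ⊓ (MulAut.conj g • (P : Subgroup G)) = ⊥)
    (ρ : Representation ℂ G V) (hfaith : ∀ g : G, ρ g = 1 → g = 1)
    (hdim : Module.finrank ℂ V ^ 2 ≤ Nat.card P)
    (K : Subgroup G) [K.Normal] (hK : (Nat.card K).Coprime p) :
    ∀ k ∈ K, ∀ u ∈ (P : Subgroup G), k * u = u * k := by
  have hinj : ∀ a b : G, ρ a = ρ b → a = b := by
    intro a b hab
    have h1 : ρ (a⁻¹ * b) = 1 := by
      rw [map_mul, ← hab, ← map_mul, inv_mul_cancel, map_one]
    have h2 := hfaith _ h1
    exact (inv_mul_eq_one.1 h2)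
  have hKP : K ⊓ (P : Subgroup G) = ⊥ := by
    refine (Subgroup.disjoint_of_coprime_natCard ?_).eq_bot
    obtain ⟨s, hs⟩ := (IsPGroup.iff_card).1 P.isPGroup'
    rw [hs]
    exact Nat.Coprime.pow_right s hK
  have claimA : ∀ k ∈ K, k ∈ Subgroup.normalizer ((P : Subgroup G) : Set G) →
      ∀ w ∈ (P : Subgroup G), k * w = w * k := by
    intro k hk hkN w hw
    have h1 : k * w * k⁻¹ * w⁻¹ ∈ K ⊓ (P : Subgroup G) := by
      refine Subgroup.mem_inf.2 ⟨?_, ?_⟩
      · have h2 : k * w * k⁻¹ * w⁻¹ = k * (w * k⁻¹ * w⁻¹) := by group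
        rw [h2]
        exact K.mul_mem hk (Subgroup.Normal.conj_mem inferInstance _ (K.inv_mem hk) w)
      · exact (P : Subgroup G).mul_mem ((Subgroup.mem_normalizer_iff.1 hkN w).1 hw)
          ((P : Subgroup G).inv_mem hw)
    rw [hKP, Subgroup.mem_bot] at h1
    have h3 : k * w * k⁻¹ = w := mul_inv_eq_one.1 h1
    exact mul_inv_eq_iff_eq_mul.1 h3
  by_cases hbot : (P : Subgroup G) = ⊥
  · intro k _ u hu
    rw [hbot, Subgroup.mem_bot] at hu
    rw [hu, mul_one, one_mul]
  -- a nontrivial central element of `P`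
  haveI : Nontrivial ↥(P : Subgroup G) := (Subgroup.nontrivial_iff_ne_bot _).2 hbot
  haveI := P.isPGroup'.center_nontrivial
  obtain ⟨z', hz'⟩ := exists_ne (1 : Subgroup.center ↥(P : Subgroup G))
  have hzP : ((z' : ↥(P : Subgroup G)) : G) ∈ (P : Subgroup G) := (z' : ↥(P : Subgroup G)).2
  have hz1 : ((z' : ↥(P : Subgroup G)) : G) ≠ 1 := by
    intro h
    apply hz'
    apply Subtype.ext
    apply Subtype.ext
    exact h
  have hzc : ∀ u ∈ (P : Subgroup G), u * ((z' : ↥(P : Subgroup G)) : G)
      = ((z' : ↥(P : Subgroup G)) : G) * u := by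
    intro u hu
    have h1 := (Subgroup.mem_center_iff.1 z'.2) ⟨u, hu⟩
    exact congrArg Subtype.val h1
  set z : G := ((z' : ↥(P : Subgroup G)) : G) with hz
  have hPX : (P : Subgroup G) ≤ K ⊔ (P : Subgroup G) := le_sup_right
  have hfix : ∀ x ∈ K ⊔ (P : Subgroup G), Representation.linHom ρ ρ x (ρ z) = ρ z := by
    refine linHom_fixed_of_fixed_normalizer_of_le p P hTI ρ hdim _ hPX (ρ z) ?_
    intro x hx hxN
    have hx' : x ∈ ((K ⊔ (P : Subgroup G) : Subgroup G) : Set G) := hx
    rw [Subgroup.normal_mul, Set.mem_mul] at hx'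
    obtain ⟨k, hk, u, hu, rfl⟩ := hx'
    have hkN : k ∈ Subgroup.normalizer ((P : Subgroup G) : Set G) := by
      have h1 : k = k * u * u⁻¹ := by group
      rw [h1]
      exact Subgroup.mul_mem _ hxN (Subgroup.inv_mem _ (Subgroup.le_normalizer hu))
    have h2 := claimA k hk hkN z hzP
    have h3 := hzc u hu
    rw [linHom_apply_self]
    congr 1
    calc k * u * z * (k * u)⁻¹ = k * (u * z) * u⁻¹ * k⁻¹ := by group
      _ = k * (z * u) * u⁻¹ * k⁻¹ := by rw [h3]
      _ = (k * z) * k⁻¹ := by group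
      _ = (z * k) * k⁻¹ := by rw [h2]
      _ = z := by group
  have hkz : ∀ k ∈ K, k * z * k⁻¹ = z := by
    intro k hk
    have h1 := hfix k (Subgroup.mem_sup_left hk)
    rw [linHom_apply_self] at h1
    exact hinj _ _ h1
  intro k hk
  refine claimA k hk ?_
  by_contra hkN
  have h1 := hTI k hkN
  have h2 : z ∈ (P : Subgroup G) ⊓ (MulAut.conj k • (P : Subgroup G)) := by
    refine Subgroup.mem_inf.2 ⟨hzP, ?_⟩
    rw [Subgroup.mem_pointwise_smul_iff_inv_smul_mem]
    have h3 : (MulAut.conj k)⁻¹ • z = z := by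
      have h4 := hkz k hk
      simp only [MulAut.smul_def, MulAut.conj_inv_apply]
      calc k⁻¹ * z * k = k⁻¹ * (k * z * k⁻¹) * k := by rw [h4]
        _ = z := by group
    rw [h3]
    exact hzP
  rw [h1, Subgroup.mem_bot] at h2
  exact hz1 h2

/-- One step of the `p`-series: if `K ≤ B` are normal, `|K|` is prime to `p` and `|B : K|` is a
nontrivial power of `p`, then the TI Sylow subgroup `P` is normal. -/
theorem normal_of_step
    (hTI : ∀ g : G, g ∉ Subgroup.normalizer ((P : Subgroup G) : Set G) →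
      (P : Subgroup G) ⊓ (MulAut.conj g • (P : Subgroup G)) = ⊥)
    (ρ : Representation ℂ G V) (hfaith : ∀ g : G, ρ g = 1 → g = 1)
    (hdim : Module.finrank ℂ V ^ 2 ≤ Nat.card P)
    (K B : Subgroup G) [K.Normal] [B.Normal] (hKB : K ≤ B) (hK : (Nat.card K).Coprime p)
    (m : ℕ) (hm : m ≠ 0) (hrel : K.relIndex B = p ^ m) : (P : Subgroup G).Normal := by
  have hcent := commute_of_normal_coprime p P hTI ρ hfaith hdim K hK
  have hKN : K ≤ Subgroup.normalizer ((P : Subgroup G) : Set G) := by
    intro k hk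
    rw [Subgroup.mem_normalizer_iff]
    intro h
    constructor
    · intro hh
      have h1 := hcent k hk h hh
      rw [h1, mul_inv_cancel_right]
      exact hh
    · intro hh
      have h1 := hcent k hk _ hh
      have h2 : k * h * k⁻¹ = h := by
        calc k * h * k⁻¹ = k⁻¹ * (k * (k * h * k⁻¹)) := by group
          _ = k⁻¹ * ((k * h * k⁻¹) * k) := by rw [h1]
          _ = h := by group
      rw [h2] at hh
      exact hh
  have hdecomp : ∀ b ∈ B, ∃ u ∈ (P : Subgroup G), u⁻¹ * b ∈ K := by
    intro b hb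
    have hf : Function.Surjective (QuotientGroup.mk' K) := QuotientGroup.mk'_surjective K
    haveI : (B.map (QuotientGroup.mk' K)).Normal := Subgroup.Normal.map inferInstance _ hf
    have hpg : IsPGroup p (B.map (QuotientGroup.mk' K)) := by
      rintro ⟨y, hy⟩
      obtain ⟨b', hb', rfl⟩ := hy
      refine ⟨m, ?_⟩
      apply Subtype.ext
      show (QuotientGroup.mk' K b') ^ p ^ m = 1
      rw [← map_pow, ← hrel]
      exact (QuotientGroup.eq_one_iff _).2 (Subgroup.pow_relIndex_mem K hb')
    have hle := hpg.le_sylow_of_normal (P.mapSurjective hf)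
    have h1 : QuotientGroup.mk' K b ∈ (P : Subgroup G).map (QuotientGroup.mk' K) :=
      hle ⟨b, hb, rfl⟩
    obtain ⟨u, hu, hub⟩ := h1
    exact ⟨u, hu, QuotientGroup.eq.1 hub⟩
  have hBN : B ≤ Subgroup.normalizer ((P : Subgroup G) : Set G) := by
    intro b hb
    obtain ⟨u, hu, hk⟩ := hdecomp b hb
    have h1 : b = u * (u⁻¹ * b) := by group
    rw [h1]
    exact Subgroup.mul_mem _ (Subgroup.le_normalizer hu) (hKN hk)
  have hex : ∃ x ∈ (P : Subgroup G), x ∈ B ∧ x ≠ 1 := by
    have h1 : ¬ B ≤ K := by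
      intro h
      have h2 := Subgroup.relIndex_eq_one.2 h
      rw [hrel] at h2
      have hp : 1 < p := (Fact.out : p.Prime).one_lt
      have h3 := Nat.one_lt_pow hm hp
      omega
    obtain ⟨b, hb, hbK⟩ := SetLike.not_le_iff_exists.1 h1
    obtain ⟨u, hu, hk⟩ := hdecomp b hb
    refine ⟨u, hu, ?_, ?_⟩
    · have h2 : u = b * (u⁻¹ * b)⁻¹ := by group
      rw [h2]
      exact B.mul_mem hb (B.inv_mem (hKB hk))
    · rintro rfl
      apply hbK
      simpa using hk
  obtain ⟨x, hxP, hxB, hx1⟩ := hex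
  rw [← Subgroup.normalizer_eq_top_iff, eq_top_iff]
  intro g _
  by_contra hg
  have h1 := hTI g hg
  have hy : g * x * g⁻¹ ∈ (P : Subgroup G) ⊓ (MulAut.conj g • (P : Subgroup G)) := by
    have hconj : g * x * g⁻¹ ∈ MulAut.conj g • (P : Subgroup G) := by
      rw [Subgroup.mem_pointwise_smul_iff_inv_smul_mem]
      simpa [MulAut.smul_def, MulAut.conj_inv_apply, mul_assoc] using hxP
    refine Subgroup.mem_inf.2 ⟨?_, hconj⟩
    refine mem_sylow_of_mem_normalizer p P
      (hBN (Subgroup.Normal.conj_mem inferInstance x hxB g)) ?_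
    have hQ : IsPGroup p ((P : Subgroup G).map (MulAut.conj g).toMonoidHom) :=
      P.isPGroup'.map _
    refine hQ.to_le ?_
    rw [Subgroup.zpowers_le]
    exact ⟨x, hxP, by simp [MulAut.conj_apply]⟩
  rw [h1, Subgroup.mem_bot] at hy
  apply hx1
  have h2 : x = g⁻¹ * (g * x * g⁻¹) * g := by group
  rw [h2, hy]
  group

/-- A `p`-solvable group with a TI Sylow `p`-subgroup `P` and a faithful representation of degree
`d` with `d ^ 2 ≤ |P|` has `P` normal. -/
theorem normal_of_isPSolvable (hsolv : Cfsg.IsPSolvable p G)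
    (hTI : ∀ g : G, g ∉ Subgroup.normalizer ((P : Subgroup G) : Set G) →
      (P : Subgroup G) ⊓ (MulAut.conj g • (P : Subgroup G)) = ⊥)
    (ρ : Representation ℂ G V) (hfaith : ∀ g : G, ρ g = 1 → g = 1)
    (hdim : Module.finrank ℂ V ^ 2 ≤ Nat.card P) : (P : Subgroup G).Normal := by
  obtain ⟨n, H, h0, hlast, hmono, hnorm, hstep⟩ := hsolv
  have key : ∀ j : ℕ, ∀ hj : j < n + 1,
      (Nat.card (H ⟨j, hj⟩)).Coprime p ∨ (P : Subgroup G).Normal := by
    intro j
    induction j with
    | zero =>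
      intro hj
      left
      have h1 : H ⟨0, hj⟩ = ⊥ := h0
      rw [h1, Subgroup.card_bot]
      exact Nat.coprime_one_left p
    | succ j ih =>
      intro hj
      have hj' : j < n := by omega
      rcases ih (by omega) with hc | hP
      · let i : Fin n := ⟨j, hj'⟩
        have hi1 : H i.castSucc = H ⟨j, by omega⟩ := rfl
        have hi2 : H i.succ = H ⟨j + 1, hj⟩ := rfl
        haveI := hnorm i.castSucc
        haveI := hnorm i.succ
        have hle : H i.castSucc ≤ H i.succ := hmono (Fin.castSucc_lt_succ).le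
        have hcard : Nat.card (H i.succ)
            = (H i.castSucc).relIndex (H i.succ) * Nat.card (H i.castSucc) := by
          have h1 := Subgroup.card_mul_index ((H i.castSucc).subgroupOf (H i.succ))
          have h2 : Nat.card ((H i.castSucc).subgroupOf (H i.succ)) = Nat.card (H i.castSucc) :=
            Nat.card_congr (Subgroup.subgroupOfEquivOfLe hle).toEquiv
          rw [h2] at h1
          rw [← h1, mul_comm]
          rfl
        rw [← hi1] at hc
        rcases hstep i with ⟨m, hm⟩ | hcop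
        · by_cases hm0 : m = 0
          · left
            rw [← hi2, hcard, hm, hm0, pow_zero, one_mul]
            exact hc
          · right
            exact normal_of_step p P hTI ρ hfaith hdim (H i.castSucc) (H i.succ) hle hc m hm0 hm
        · left
          rw [← hi2, hcard]
          exact Nat.Coprime.mul_left hcop hc
      · exact Or.inr hP
  rcases key n (by omega) with hc | hP
  · have h1 : H ⟨n, by omega⟩ = ⊤ := hlast
    rw [h1, Subgroup.card_top] at hc
    have h2 : (P : Subgroup G) = ⊥ := by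
      have h3 : (P : Subgroup G) ⊓ ⊤ = ⊥ := by
        refine (Subgroup.disjoint_of_coprime_natCard ?_).eq_bot
        obtain ⟨s, hs⟩ := (IsPGroup.iff_card).1 P.isPGroup'
        rw [hs, Subgroup.card_top]
        exact Nat.Coprime.pow_left s hc.symm
      rwa [inf_top_eq] at h3
    rw [h2]
    infer_instance
  · exact hP

end relative

end Cfsg.Agent.Lib.Helper82.TISylow
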